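import Mathlib
import Cfsg.Agent.Linear.Transvection
import Cfsg.Agent.Forms.QuadBasic

/-! # Steinberg's two generators of the special linear group -/

set_option autoImplicit false

namespace Cfsg.Agent.KnownA.SteinbergPair

open Matrix
open scoped commutatorElement

variable {K : Type*} [Field K] {n : ℕ}

/-- The signs of the signed cyclic permutation. -/
def sgn (n : ℕ) (i : Fin (n + 1)) : K := if i.val = n then (-1) ^ n else 1

theorem sgn_mul_self (i : Fin (n + 1)) : sgn (K := K) n i * sgn n i = 1 := by
  rw [sgn]; split_ifs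
  · rw [← pow_add, ← two_mul, pow_mul, neg_one_sq, one_pow]
  · exact one_mul 1

theorem w_apply {w : Matrix (Fin (n + 1)) (Fin (n + 1)) K}
    (hw : w = Matrix.of (fun i j => if j.val = i.val + 1 then 1 else
      if i.val = n ∧ j.val = 0 then (-1) ^ n else 0)) (i j : Fin (n + 1)) :
    w i j = if j = i + 1 then sgn n i else 0 := by
  have key : ∀ j : Fin (n + 1), j = i + 1 ↔
      (if i.val = n then j.val = 0 else j.val = i.val + 1) := by
    intro j
    rw [Fin.ext_iff, Fin.val_add_one]
    by_cases h : i.val = n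
    · rw [if_pos (Fin.ext (by simpa using h)), if_pos h]
    · rw [if_neg (fun e => h (by simpa using congrArg Fin.val e)), if_neg h]
  rw [hw, Matrix.of_apply, sgn]
  simp only [key]
  have := i.isLt
  have := j.isLt
  split_ifs <;> first | rfl | (exfalso; omega)

theorem conj_transvection (hn : 1 ≤ n) {w : SpecialLinearGroup (Fin (n + 1)) K}
    (hw : (w : Matrix (Fin (n + 1)) (Fin (n + 1)) K) = Matrix.of (fun i j =>
      if j.val = i.val + 1 then 1 else if i.val = n ∧ j.val = 0 then (-1) ^ n else 0))
    {a b : Fin (n + 1)} (hab : a + 1 ≠ b + 1) (t : K) :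
    w * SpecialLinearGroup.transvection hab t * w⁻¹ =
      SpecialLinearGroup.transvection (fun e : a = b => hab (by rw [e]))
        (sgn n a * sgn n b * t) := by
  rw [mul_inv_eq_iff_eq_mul]
  refine Subtype.ext ?_
  change (w : Matrix (Fin (n + 1)) (Fin (n + 1)) K) * (1 + Matrix.single (a + 1) (b + 1) t) =
    (1 + Matrix.single a b (sgn n a * sgn n b * t)) * (w : Matrix (Fin (n + 1)) (Fin (n + 1)) K)
  rw [mul_add, add_mul, mul_one, one_mul]
  congr 1
  ext i j
  simp only [Matrix.mul_apply, Matrix.single_apply, w_apply hw]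
  rw [Finset.sum_eq_single (a + 1) (fun x _ hx => by simp [Ne.symm hx]) (by simp),
    Finset.sum_eq_single b (fun x _ hx => by simp [Ne.symm hx]) (by simp)]
  simp only [true_and, and_true]
  by_cases hi : a = i
  · subst hi
    by_cases hj : b + 1 = j
    · subst hj
      simp only [if_true]
      linear_combination (-(sgn n a * t)) * sgn_mul_self (K := K) (n := n) b
    · simp [hj, Ne.symm hj]
  · simp [hi, Ne.symm hi]

theorem eq_top (hn : 1 ≤ n) {w : SpecialLinearGroup (Fin (n + 1)) K}
    (hw : (w : Matrix (Fin (n + 1)) (Fin (n + 1)) K) = Matrix.of (fun i j =>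
      if j.val = i.val + 1 then 1 else if i.val = n ∧ j.val = 0 then (-1) ^ n else 0))
    (H : Subgroup (SpecialLinearGroup (Fin (n + 1)) K)) (hwH : w ∈ H)
    (h01 : ∀ (t : K) (h : (0 : Fin (n + 1)) ≠ 1), SpecialLinearGroup.transvection h t ∈ H) :
    H = ⊤ := by
  have : Nontrivial (Fin (n + 1)) := Fin.nontrivial_iff_two_le.2 (by omega)
  let Q : Fin (n + 1) → Prop := fun a =>
    ∀ (t : K) (h : a ≠ a + 1), SpecialLinearGroup.transvection h t ∈ H
  have step : ∀ a : Fin (n + 1), Q (a + 1) → Q a := by
    intro a ha t h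
    have hab : a + 1 ≠ a + 1 + 1 := fun e => h (add_right_cancel e)
    have hc := conj_transvection hn hw hab (sgn n a * sgn n (a + 1) * t)
    have hmem := H.mul_mem (H.mul_mem hwH (ha (sgn n a * sgn n (a + 1) * t) hab)) (H.inv_mem hwH)
    rw [hc] at hmem
    convert hmem using 2
    linear_combination
      (-(sgn n a * sgn n a) * t) * sgn_mul_self (K := K) (n := n) (a + 1)
        + (-t) * sgn_mul_self (K := K) (n := n) a
  open Fin.NatCast in
  have hQ : ∀ (d : ℕ), Q (-(d : Fin (n + 1))) := by
    intro d
    induction d with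
    | zero =>
      intro t h
      simp only [Nat.cast_zero, neg_zero, zero_add] at h ⊢
      exact h01 t h
    | succ d ih =>
      refine step _ ?_
      convert ih using 1
      push_cast
      abel
  have hall : ∀ a : Fin (n + 1), Q a := by
    intro a
    open Fin.NatCast in
    have := hQ (-a).val
    open Fin.NatCast in
    rwa [Fin.cast_val_eq_self, neg_neg] at this
  have hchain : ∀ (d : ℕ) (i j : Fin (n + 1)) (h : i ≠ j) (t : K), (j - i).val = d →
      SpecialLinearGroup.transvection h t ∈ H := by
    intro d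
    induction d with
    | zero =>
      intro i j h t hd
      exact absurd (sub_eq_zero.1 (Fin.ext (by simpa using hd) : j - i = 0)).symm h
    | succ d ih =>
      intro i j h t hd
      rcases Nat.eq_zero_or_pos d with rfl | hd0
      · have : j = i + 1 := by
          rw [← sub_eq_iff_eq_add']
          exact Fin.ext (by rw [hd, Fin.val_one', Nat.mod_eq_of_lt (by omega)])
        subst this
        exact hall i t h
      · have hval : (j - (i + 1)).val = d := by
          rw [show j - (i + 1) = (j - i) - 1 by abel, Fin.coe_sub_one, if_neg]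
          · omega
          · intro e; rw [e, Fin.val_zero] at hd; omega
        have hk1 : i ≠ i + 1 := by
          intro e
          have := congrArg (fun x => x - i) e
          simp only [sub_self, add_sub_cancel_left] at this
          have := congrArg Fin.val this
          rw [Fin.val_zero, Fin.val_one', Nat.mod_eq_of_lt (by omega)] at this
          omega
        have hk2 : i + 1 ≠ j := by
          intro e; rw [e, sub_self, Fin.val_zero] at hval; omega
        rw [← one_mul t, ← Linear.commutator_transvection h hk1 hk2 1 t, commutatorElement_def]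
        exact H.mul_mem (H.mul_mem (H.mul_mem (hall i 1 hk1) (ih _ _ hk2 t hval))
          (H.inv_mem (hall i 1 hk1))) (H.inv_mem (ih _ _ hk2 t hval))
  exact Linear.eq_top_of_transvection_mem fun i j h t => hchain _ i j h t rfl

variable [Fintype K]

/-- Over the field with two or three elements. -/
theorem closure_small (hK : Fintype.card K ≤ 3) (hn : 1 ≤ n)
    (x w : SpecialLinearGroup (Fin (n + 1)) K)
    (hx : (x : Matrix (Fin (n + 1)) (Fin (n + 1)) K) = Matrix.transvection 0 1 1)
    (hw : (w : Matrix (Fin (n + 1)) (Fin (n + 1)) K) = Matrix.of (fun i j =>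
      if j.val = i.val + 1 then 1 else if i.val = n ∧ j.val = 0 then (-1) ^ n else 0)) :
    Subgroup.closure ({x, w} : Set (SpecialLinearGroup (Fin (n + 1)) K)) = ⊤ := by
  classical
  refine eq_top hn hw _ (Subgroup.subset_closure (by simp)) fun t h => ?_
  have hxe : x = SpecialLinearGroup.transvection h 1 := Subtype.ext hx
  have hmem : SpecialLinearGroup.transvection h (1 : K) ∈ Subgroup.closure {x, w} :=
    hxe ▸ Subgroup.subset_closure (by simp)
  have ht : t = 0 ∨ t = 1 ∨ t = -1 := by
    by_contra! hc
    obtain ⟨h1, h2, h3⟩ := hc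
    rcases eq_or_ne (-1 : K) 1 with h4 | h4
    · -- characteristic two with a third element
      have h5 : 1 + t ∉ ({0, 1, t} : Finset K) := by
        simp only [Finset.mem_insert, Finset.mem_singleton, not_or]
        refine ⟨fun e => h3 ?_, fun e => h1 (by linear_combination e), fun e => ?_⟩
        · linear_combination e
        · exact one_ne_zero (by linear_combination e : (1 : K) = 0)
      have h6 := Finset.card_le_univ (insert (1 + t) ({0, 1, t} : Finset K))
      rw [Finset.card_insert_of_notMem h5,
        Finset.card_insert_of_notMem (by simp [h1.symm]),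
        Finset.card_insert_of_notMem (by simp [h2.symm]), Finset.card_singleton] at h6
      omega
    · have h6 := Finset.card_le_univ ({0, 1, -1, t} : Finset K)
      rw [Finset.card_insert_of_notMem (by simp [h1.symm]),
        Finset.card_insert_of_notMem (by simp [h2.symm, h4.symm]),
        Finset.card_insert_of_notMem (by simp [h3.symm]), Finset.card_singleton] at h6
      omega
  rcases ht with rfl | rfl | rfl
  · rw [show SpecialLinearGroup.transvection h (0 : K) = 1 from
      Subtype.ext (by simp [SpecialLinearGroup.transvection_coe])]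
    exact one_mem _
  · exact hmem
  · rw [← SpecialLinearGroup.transvection_inv]
    exact inv_mem hmem

/-- Over a field with more than three elements. -/
theorem closure_large (hK : 3 < Fintype.card K) (hn : 1 ≤ n) (k : Kˣ)
    (hk : ∀ u : Kˣ, u ∈ Subgroup.zpowers k)
    (h x w : SpecialLinearGroup (Fin (n + 1)) K)
    (hh : (h : Matrix (Fin (n + 1)) (Fin (n + 1)) K) = Matrix.diagonal (fun i =>
      if i.val = 0 then (k : K) else if i.val = 1 then ((k⁻¹ : Kˣ) : K) else 1))
    (hx : (x : Matrix (Fin (n + 1)) (Fin (n + 1)) K) = Matrix.transvection 0 1 1)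
    (hw : (w : Matrix (Fin (n + 1)) (Fin (n + 1)) K) = Matrix.of (fun i j =>
      if j.val = i.val + 1 then 1 else if i.val = n ∧ j.val = 0 then (-1) ^ n else 0)) :
    Subgroup.closure ({h, x * w} : Set (SpecialLinearGroup (Fin (n + 1)) K)) = ⊤ := by
  classical
  set H := Subgroup.closure ({h, x * w} : Set (SpecialLinearGroup (Fin (n + 1)) K))
  have hhH : h ∈ H := Subgroup.subset_closure (by simp)
  have hxwH : x * w ∈ H := Subgroup.subset_closure (by simp)
  have h01 : (0 : Fin (n + 1)) ≠ 1 := by
    intro e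
    have := congrArg Fin.val e
    rw [Fin.val_zero, Fin.val_one', Nat.mod_eq_of_lt (by omega)] at this
    omega
  let T : K → SpecialLinearGroup (Fin (n + 1)) K := fun t => SpecialLinearGroup.transvection h01 t
  have hxT : x = T 1 := Subtype.ext hx
  let d : Fin (n + 1) → K := fun i =>
    if i.val = 0 then (k : K) else if i.val = 1 then ((k⁻¹ : Kˣ) : K) else 1
  have hd0 : d 0 = k := by simp [d]
  have hd1 : d 1 = ((k⁻¹ : Kˣ) : K) := by
    have : ((1 : Fin (n + 1)) : ℕ) = 1 := by rw [Fin.val_one', Nat.mod_eq_of_lt (by omega)]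
    simp only [d, this, one_ne_zero, if_false, if_true]
  have hdne : ∀ i, d i ≠ 0 := fun i => by simp only [d]; split_ifs <;> simp
  -- conjugating the root group by a diagonal element
  have hdiag : ∀ (g : SpecialLinearGroup (Fin (n + 1)) K) (e : Fin (n + 1) → K),
      (g : Matrix (Fin (n + 1)) (Fin (n + 1)) K) = Matrix.diagonal e → e 1 ≠ 0 → ∀ t : K,
      g * T t * g⁻¹ = T (e 0 / e 1 * t) := by
    intro g e hg he t
    rw [mul_inv_eq_iff_eq_mul]
    refine Subtype.ext ?_
    change (g : Matrix (Fin (n + 1)) (Fin (n + 1)) K) * (1 + Matrix.single 0 1 t) =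
      (1 + Matrix.single 0 1 (e 0 / e 1 * t)) * (g : Matrix (Fin (n + 1)) (Fin (n + 1)) K)
    rw [hg, mul_add, add_mul, mul_one, one_mul]
    congr 1
    ext i j
    simp only [Matrix.diagonal_mul, Matrix.mul_diagonal, Matrix.single_apply]
    split_ifs with hij
    · obtain ⟨rfl, rfl⟩ := hij
      field_simp
    · simp
  have hconjh : ∀ t : K, h * T t * h⁻¹ = T ((k : K) ^ 2 * t) := fun t => by
    rw [hdiag h d hh (hdne 1) t, hd0, hd1]
    congr 1
    simp [sq]
  -- the conjugate of `h` by `w`
  have hw' : ∀ i j, (w * h) i j = ((Matrix.diagonal (fun i => d (i + 1)) :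
      Matrix (Fin (n + 1)) (Fin (n + 1)) K) * (w : Matrix (Fin (n + 1)) (Fin (n + 1)) K)) i j := by
    intro i j
    show ((w : Matrix (Fin (n + 1)) (Fin (n + 1)) K) *
      (h : Matrix (Fin (n + 1)) (Fin (n + 1)) K)) i j = _
    rw [hh, Matrix.mul_diagonal, Matrix.diagonal_mul, w_apply hw]
    by_cases e : j = i + 1
    · subst e
      rw [if_pos rfl]
      exact mul_comm (sgn (K := K) n i) (d (i + 1))
    · rw [if_neg e, zero_mul, mul_zero]
  set h' := w * h * w⁻¹ with hh'
  have hh'd : (h' : Matrix (Fin (n + 1)) (Fin (n + 1)) K) =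
      Matrix.diagonal (fun i => d (i + 1)) := by
    have hwu : IsUnit (w : Matrix (Fin (n + 1)) (Fin (n + 1)) K) := by
      rw [Matrix.isUnit_iff_isUnit_det, w.2]; exact isUnit_one
    apply hwu.mul_right_cancel
    have e1 : h' * w = w * h := by rw [hh', inv_mul_cancel_right]
    have e2 := congrArg (fun g : SpecialLinearGroup (Fin (n + 1)) K =>
      (g : Matrix (Fin (n + 1)) (Fin (n + 1)) K)) e1
    exact e2.trans (Matrix.ext hw')
  have hcomm : h * h' = h' * h := by
    refine Subtype.ext ?_
    change (h : Matrix (Fin (n + 1)) (Fin (n + 1)) K) * (h' : Matrix (Fin (n + 1)) (Fin (n + 1)) K) =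
      (h' : Matrix (Fin (n + 1)) (Fin (n + 1)) K) * (h : Matrix (Fin (n + 1)) (Fin (n + 1)) K)
    rw [hh, hh'd, Matrix.diagonal_mul_diagonal, Matrix.diagonal_mul_diagonal]
    congr 1; ext i; exact mul_comm _ _
  set r : K := d (0 + 1) / d (1 + 1) with hr
  have hconjh' : ∀ t : K, h' * T t * h'⁻¹ = T (r * t) := fun t =>
    hdiag h' _ hh'd (hdne _) t
  have hTm : ∀ a b : K, T a * T b = T (a + b) := fun a b => by
    refine Subtype.ext ?_
    change (1 + Matrix.single 0 1 a) * (1 + Matrix.single 0 1 b) =
      1 + Matrix.single (0 : Fin (n + 1)) 1 (a + b)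
    rw [add_mul, one_mul, mul_add, mul_one,
      Matrix.single_mul_single_of_ne _ _ _ _ h01.symm, add_zero, Matrix.single_add]
    abel
  have hTi : ∀ a : K, (T a)⁻¹ = T (-a) := fun a => SpecialLinearGroup.transvection_inv h01 a
  set c : K := ((k : K) ^ 2 - 1) * (1 - r)
  have hcH : T c ∈ H := by
    have hu : x * h' * x⁻¹ ∈ H := by
      have := H.mul_mem (H.mul_mem hxwH hhH) (H.inv_mem hxwH)
      rwa [hh', show x * (w * h * w⁻¹) * x⁻¹ = x * w * h * (x * w)⁻¹ by group]
    have hu2 := H.mul_mem (H.mul_mem (H.mul_mem hhH hu) (H.inv_mem hhH)) (H.inv_mem hu)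
    have e : h * (x * h' * x⁻¹) * h⁻¹ * (x * h' * x⁻¹)⁻¹ = T c := by
      have e1 : h * (x * h' * x⁻¹) * h⁻¹ * (x * h' * x⁻¹)⁻¹ =
          (h * x * h⁻¹) * ((h * h') * h⁻¹ * h'⁻¹) *
            (h' * ((h * x * h⁻¹)⁻¹ * x) * h'⁻¹) * x⁻¹ := by
        rw [show h * (x * h' * x⁻¹) * h⁻¹ * (x * h' * x⁻¹)⁻¹ =
          (h * x * h⁻¹) * (h * h' * h⁻¹) * ((h * x * h⁻¹)⁻¹ * x) * h'⁻¹ * x⁻¹ by group]
        group
      rw [e1, hcomm, mul_inv_cancel_right, mul_inv_cancel, mul_one, hxT, hconjh, hTi, hTm,
        hconjh', hTm, hTi, hTm]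
      congr 1
      simp only [c]
      ring
    rwa [e] at hu2
  have hk2 : (k : K) ^ 2 ≠ 1 := by
    intro e
    have hk' : k ^ 2 = 1 := Units.ext (by simpa using e)
    have h1 : Nat.card Kˣ ∣ 2 := by
      rw [← orderOf_eq_card_of_forall_mem_zpowers hk]
      exact orderOf_dvd_of_pow_eq_one hk'
    rw [Nat.card_units, Nat.card_eq_fintype_card] at h1
    have := Nat.le_of_dvd two_pos h1
    omega
  have hrne : r ≠ 1 := by
    have h2 : d (0 + 1) ≠ d (1 + 1) := by
      rw [zero_add, hd1]
      rcases Nat.eq_or_lt_of_le hn with hn1 | hn1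
      · have : ((1 : Fin (n + 1)) + 1) = 0 := by
          apply Fin.ext
          rw [Fin.val_add, Fin.val_one', Fin.val_zero]
          simp [← hn1]
        rw [this, hd0]
        intro e
        exact hk2 (by rw [sq]; nth_rewrite 1 [← e]; simp)
      · have : ((1 + 1 : Fin (n + 1)) : ℕ) = 2 := by
          rw [Fin.val_add, Fin.val_one', Nat.mod_eq_of_lt (show 1 < n + 1 by omega),
            Nat.mod_eq_of_lt (show 1 + 1 < n + 1 by omega)]
        intro e
        simp only [d, this, OfNat.ofNat_ne_zero, if_false, show (2 : ℕ) ≠ 1 by omega] at e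
        exact hk2 (by
          have : (k : K) = 1 := by simpa using e
          simp [this])
    intro e
    rw [hr, div_eq_one_iff_eq (hdne _)] at e
    exact h2 e
  have hc0 : c ≠ 0 := mul_ne_zero (sub_ne_zero.2 hk2) (sub_ne_zero.2 hrne.symm)
  have hsq : ∀ j : ℕ, T (((k : K) ^ j) ^ 2 * c) ∈ H := by
    intro j
    induction j with
    | zero => simpa using hcH
    | succ j ih =>
      have := H.mul_mem (H.mul_mem hhH ih) (H.inv_mem hhH)
      rw [hconjh] at this
      convert this using 2
      ring
  have hsq' : ∀ s : K, T (s ^ 2 * c) ∈ H := by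
    intro s
    rcases eq_or_ne s 0 with rfl | hs
    · rw [show T (0 ^ 2 * c) = 1 from Subtype.ext (by simp [T, SpecialLinearGroup.transvection_coe])]
      exact one_mem _
    · obtain ⟨j, hj⟩ := (mem_zpowers_iff_mem_range_orderOf.1 (hk (Units.mk0 s hs))) |> Finset.mem_image.1
      rw [← show ((k ^ j : Kˣ) : K) = s from congrArg Units.val hj.2, Units.val_pow_eq_pow_val]
      exact hsq j
  have hTall : ∀ t : K, T t ∈ H := by
    intro t
    obtain ⟨a, b, hab⟩ := Forms.exists_sq_add_sq_eq (F := K) one_ne_zero one_ne_zero (t / c)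
    have : t = a ^ 2 * c + b ^ 2 * c := by
      field_simp at hab
      linear_combination -hab
    rw [this, ← hTm]
    exact mul_mem (hsq' a) (hsq' b)
  refine eq_top hn hw H ?_ fun t h' => hTall t
  rw [show w = x⁻¹ * (x * w) by group]
  exact mul_mem (inv_mem (hxT ▸ hTall 1)) hxwH

end Cfsg.Agent.KnownA.SteinbergPair
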