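import Cfsg.Prelude.Def_SteinbergCover
import Cfsg.Prelude.Def_ChevB2
import Cfsg.Prelude.Def_ChevG2
import Cfsg.Prelude.Def_ChevD4
import Cfsg.Prelude.Def_ChevF4
import Cfsg.Prelude.Def_ChevE6
import Cfsg.Prelude.Def_ChevE7
import Cfsg.Prelude.Def_ChevE8

/-!
Perfectness of the groups presented by the relators (R1) and (R2).
-/

set_option autoImplicit false

namespace Cfsg.Agent.KnownA.CoverPerfect

open Cfsg.Lie

/-- `r` is a sum of two roots with commutator coefficient `± 1` and no further term. -/
def oneTerm (D : ChevalleyDatum) (r : ℕ) : Bool :=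
  (List.range D.rank).any fun i =>
    let a := D.reflectRoot i r
    [D.simple i, D.neg (D.simple i)].any fun b =>
      decide (a < D.nroots) && decide (b < D.nroots) && b != a && b != D.neg a &&
        (D.commTerms a b == [(r, 1, 1, 1)] || D.commTerms a b == [(r, -1, 1, 1)])

/-- As `oneTerm`, with any two roots. -/
def oneTermAny (D : ChevalleyDatum) (r : ℕ) : Bool :=
  (List.range D.nroots).any fun a => (List.range D.nroots).any fun b =>
    b != a && b != D.neg a && (D.commTerms a b == [(r, 1, 1, 1)] || D.commTerms a b == [(r, -1, 1, 1)])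

/-- `r` is one of the first two roots of a commutator formula whose further terms are sums of two roots. -/
def twoTerm (D : ChevalleyDatum) (r : ℕ) : Bool :=
  (List.range D.nroots).any fun a => (List.range D.nroots).any fun b =>
    b != a && b != D.neg a &&
      match D.commTerms a b with
      | (x, c, 1, 1) :: (y, d, i, j) :: rest =>
        (c == 1 || c == -1) && (d == 1 || d == -1) && (i == 1 && j == 2 || i == 2 && j == 1) &&
          (r == x || r == y) && rest.all fun e => oneTermAny D e.1
      | _ => false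

variable {D : ChevalleyDatum} {K : Type*} [Field K]

/-- The image of a generator in the largest abelian quotient. -/
noncomputable def ab (D : ChevalleyDatum) (K : Type*) [Field K] (r : ℕ) (t : K) :
    Abelianization (D.SteinbergCover K) := Abelianization.of (D.scGen K r t)

theorem ab_add {r : ℕ} (hr : r < D.nroots) (t u : K) : ab D K r (t + u) = ab D K r t * ab D K r u := by
  have h := PresentedGroup.one_of_mem (rels := D.steinbergRelsAB K) (Or.inl ⟨r, t, u, hr, rfl⟩)
  simp only [map_mul, map_inv, mul_inv_eq_one] at h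
  rw [ab, ab, ab, ← map_mul]
  exact congrArg _ h.symm

theorem prod_terms {a b : ℕ} (ha : a < D.nroots) (hb : b < D.nroots) (h1 : b ≠ a) (h2 : b ≠ D.neg a)
    (t u : K) : ((D.commWord K a b t u).map fun p => ab D K p.1 p.2).prod = 1 := by
  have h := PresentedGroup.one_of_mem (rels := D.steinbergRelsAB K)
    (Or.inr ⟨a, b, t, u, ha, hb, h1, h2, rfl⟩)
  simp only [map_mul, map_inv, mul_inv_eq_one, ChevalleyDatum.stWord, map_list_prod, List.map_map] at h
  have h' := congrArg Abelianization.of h
  simp only [map_mul, map_inv, map_list_prod, List.map_map] at h'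
  rw [mul_comm (Abelianization.of _)⁻¹ (Abelianization.of _)⁻¹] at h'
  rw [mul_assoc (_⁻¹ * _⁻¹), ← mul_inv_rev, inv_mul_cancel] at h'
  exact h'.symm

theorem ab_one_of_oneTerm {r : ℕ} (h : oneTerm D r = true) (v : K) : ab D K r v = 1 := by
  simp only [oneTerm, List.any_eq_true, List.mem_range, Bool.and_eq_true, Bool.or_eq_true, bne_iff_ne,
    ne_eq, beq_iff_eq, decide_eq_true_eq] at h
  obtain ⟨i, -, b, -, ⟨⟨⟨ha, hb⟩, h1⟩, h2⟩, h | h⟩ := h
  · have e := prod_terms ha hb h1 h2 (-1) v
    simpa [ChevalleyDatum.commWord, h] using e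
  · have e := prod_terms ha hb h1 h2 1 v
    simpa [ChevalleyDatum.commWord, h] using e

theorem ab_one_of_oneTermAny {r : ℕ} (h : oneTermAny D r = true) (v : K) : ab D K r v = 1 := by
  simp only [oneTermAny, List.any_eq_true, List.mem_range, Bool.and_eq_true, Bool.or_eq_true, bne_iff_ne,
    ne_eq, beq_iff_eq] at h
  obtain ⟨a, ha, b, hb, ⟨h1, h2⟩, h | h⟩ := h
  · have e := prod_terms ha hb h1 h2 (-1) v
    simpa [ChevalleyDatum.commWord, h] using e
  · have e := prod_terms ha hb h1 h2 1 v
    simpa [ChevalleyDatum.commWord, h] using e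

theorem ab_two {x y : ℕ} (hy : y < D.nroots) {c d : K} (hd : d ≠ 0) {i j : ℕ}
    (hij : i = 1 ∧ j = 2 ∨ i = 2 ∧ j = 1) (hK : ∃ m : K, m ≠ 0 ∧ m ≠ 1)
    (h : ∀ t u : K, ab D K x (c * (t * u)) * ab D K y (d * (t ^ i * u ^ j)) = 1) :
    (∀ v, ab D K y v = 1) ∧ ∀ w, ab D K x (c * w) = 1 := by
  obtain ⟨m, hm0, hm1⟩ := hK
  have hy1 : ∀ v, ab D K y v = 1 := by
    intro v
    set w := v / (m - 1) / d with hw
    have key : ab D K y (d * (m * w)) = ab D K y (d * w) := by
      rcases hij with ⟨rfl, rfl⟩ | ⟨rfl, rfl⟩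
      · have e1 := h w 1
        have e2 := h (w / m) m
        rw [mul_one, one_pow, mul_one, pow_one] at e1
        rw [div_mul_cancel₀ _ hm0, pow_one, show w / m * m ^ 2 = m * w by field_simp] at e2
        exact mul_left_cancel (e2.trans e1.symm)
      · have e1 := h 1 w
        have e2 := h m (w / m)
        rw [one_mul, one_pow, one_mul, pow_one] at e1
        rw [mul_div_cancel₀ _ hm0, pow_one, show m ^ 2 * (w / m) = m * w by field_simp] at e2
        exact mul_left_cancel (e2.trans e1.symm)
    have hne : m - 1 ≠ 0 := sub_ne_zero.mpr hm1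
    have e : d * (m * w) = v + d * w := by
      rw [hw]; field_simp; ring
    rw [e, ab_add hy] at key
    simpa using key
  exact ⟨hy1, fun w => by simpa [hy1] using h w 1⟩

theorem ab_one_of_twoTerm (hK : ∃ m : K, m ≠ 0 ∧ m ≠ 1)
    (hlt : ∀ a < D.nroots, ∀ b < D.nroots, ∀ e ∈ D.commTerms a b, e.1 < D.nroots)
    {r : ℕ} (h : twoTerm D r = true) (v : K) : ab D K r v = 1 := by
  simp only [twoTerm, List.any_eq_true, List.mem_range, Bool.and_eq_true, bne_iff_ne, ne_eq] at h
  obtain ⟨a, ha, b, hb, ⟨h1, h2⟩, hm⟩ := h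
  split at hm
  · rename_i x c y d i j rest hterm
    simp only [Bool.and_eq_true, Bool.or_eq_true, beq_iff_eq, List.all_eq_true] at hm
    obtain ⟨⟨⟨⟨hc, hd⟩, hij⟩, hr⟩, hrest⟩ := hm
    have hc' : (c : K) ≠ 0 := by rcases hc with rfl | rfl <;> simp
    have hd' : (d : K) ≠ 0 := by rcases hd with rfl | rfl <;> simp
    have key : ∀ t u : K, ab D K x ((c : K) * (t * u)) * ab D K y ((d : K) * (t ^ i * u ^ j)) = 1 := by
      intro t u
      have e := prod_terms ha hb h1 h2 (-t) u
      simp only [ChevalleyDatum.commWord, hterm, List.map_cons, List.map_map, List.prod_cons,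
        neg_neg, pow_one] at e
      rw [List.prod_eq_one (l := rest.map _) (fun z hz => by
        obtain ⟨q, hq, rfl⟩ := List.mem_map.mp hz
        exact ab_one_of_oneTermAny (hrest q hq) _), mul_one] at e
      simpa [mul_assoc] using e
    have hy : y < D.nroots := hlt a ha b hb (y, d, i, j) (by rw [hterm]; simp)
    obtain ⟨k1, k2⟩ := ab_two hy hd' hij hK key
    rcases hr with rfl | rfl
    · simpa [mul_div_cancel₀ _ hc'] using k2 (v / (c : K))
    · exact k1 v
  · simp at hm

theorem commutator_eq_top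
    (h : ∀ r < D.nroots, ∀ t : K, ab D K r t = 1) : commutator (D.SteinbergCover K) = ⊤ := by
  rw [eq_top_iff, ← PresentedGroup.closure_range_of (D.steinbergRelsAB K), Subgroup.closure_le]
  rintro g ⟨⟨⟨r, hr⟩, t⟩, rfl⟩
  have e := h r hr t
  rw [ab, ← MonoidHom.mem_ker, Abelianization.ker_of] at e
  simpa [ChevalleyDatum.scGen, ChevalleyDatum.stX, hr, PresentedGroup.of] using e

theorem oneTerm_all {D : ChevalleyDatum} (hD : D ∈ [chevD4, chevF4, chevE6, chevE7, chevE8]) :
    ∀ r < D.nroots, oneTerm D r = true := by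
  simp only [List.mem_cons, List.not_mem_nil, or_false] at hD
  rcases hD with rfl | rfl | rfl | rfl | rfl <;> decide +kernel

theorem twoTerm_all {D : ChevalleyDatum} (hD : D ∈ [chevB2, chevG2]) :
    (∀ r < D.nroots, oneTermAny D r = true ∨ twoTerm D r = true) ∧
      ∀ a < D.nroots, ∀ b < D.nroots, ∀ e ∈ D.commTerms a b, e.1 < D.nroots := by
  simp only [List.mem_cons, List.not_mem_nil, or_false] at hD
  rcases hD with rfl | rfl <;> constructor <;> decide +kernel

theorem cover_perfect {D : ChevalleyDatum} (hD : D ∈ [chevG2, chevB2, chevD4, chevF4, chevE6, chevE7, chevE8])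
    (hK : D ∈ [chevB2, chevG2] → ∃ x : K, x ≠ 0 ∧ x ≠ 1) : commutator (D.SteinbergCover K) = ⊤ := by
  refine commutator_eq_top fun r hr t => ?_
  by_cases hs : D ∈ [chevB2, chevG2]
  · rcases (twoTerm_all hs).1 r hr with h | h
    · exact ab_one_of_oneTermAny h t
    · exact ab_one_of_twoTerm (hK hs) (twoTerm_all hs).2 h t
  · refine ab_one_of_oneTerm (oneTerm_all ?_ r hr) t
    simp only [List.mem_cons, List.not_mem_nil, or_false] at hD hs ⊢
    tauto

end Cfsg.Agent.KnownA.CoverPerfect
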