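import Mathlib
import Cfsg.Agent.KnownA.OccursChar

set_option autoImplicit false

/-!
# Coefficients for representations in cross characteristic
-/

namespace Cfsg.Agent.KnownA

theorem card_ne_zero_of_ringChar_ne {F K : Type*} [Field F] [Fintype F] [Field K]
    (hK : ringChar K ≠ ringChar F) : (Fintype.card F : K) ≠ 0 := by
  intro h
  obtain ⟨n, hp, hq⟩ := FiniteField.card F (ringChar F)
  rw [hq, Nat.cast_pow] at h
  have h0 : ((ringChar F : ℕ) : K) = 0 := eq_zero_of_pow_eq_zero h
  rcases (Nat.dvd_prime hp).mp ((ringChar.spec K _).mp h0) with h1 | h1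
  · exact CharP.char_ne_one K (ringChar K) h1
  · exact hK h1

/-- A field extension of `K` with a primitive additive character of `F`, together with the extension of a
representation. -/
theorem exists_ext_rep {F K G : Type*} [Field F] [Fintype F] [Field K] [Group G]
    (hK : ringChar K ≠ ringChar F) {d : ℕ} (ρ : G →* GL (Fin d) K) {N : ℕ}
    (key : ∀ (n : ℕ+) (θ : AddChar F (CyclotomicField n K)), θ.IsPrimitive →
      (Fintype.card F : CyclotomicField n K) ≠ 0 →
      ∀ σ : G →* Module.End (CyclotomicField n K) (Fin d → CyclotomicField n K),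
        (∀ g, σ g = 1 ↔ ρ g = 1) → N ≤ Module.finrank (CyclotomicField n K) (Fin d → CyclotomicField n K)) :
    N ≤ d := by
  let pc := AddChar.FiniteField.primitiveChar F K hK
  have hK' : ringChar (CyclotomicField pc.n K) ≠ ringChar F := by
    rw [Algebra.ringChar_eq K (CyclotomicField pc.n K)] at hK
    exact hK
  let σ : G →* Module.End (CyclotomicField pc.n K) (Fin d → CyclotomicField pc.n K) :=
    (Matrix.toLinAlgEquiv' : Matrix (Fin d) (Fin d) (CyclotomicField pc.n K) ≃ₐ[CyclotomicField pc.n K] _).toMulEquiv.toMonoidHom.comp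
      ((Units.coeHom _).comp
        ((Matrix.GeneralLinearGroup.map (algebraMap K (CyclotomicField pc.n K))).comp ρ))
  have := key pc.n pc.char pc.prim (card_ne_zero_of_ringChar_ne hK') σ (fun g => ?_)
  · rwa [Module.finrank_fin_fun] at this
  · have hinj : Function.Injective fun x : GL (Fin d) K =>
        (Matrix.GeneralLinearGroup.map (algebraMap K (CyclotomicField pc.n K)) x).val := by
      intro x y hxy
      apply Matrix.GeneralLinearGroup.ext
      intro i j
      exact (algebraMap K (CyclotomicField pc.n K)).injective (congrFun (congrFun hxy i) j)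
    refine ⟨fun h => hinj ?_, fun h => ?_⟩
    · apply (Matrix.toLinAlgEquiv' : Matrix (Fin d) (Fin d) (CyclotomicField pc.n K) ≃ₐ[CyclotomicField pc.n K] _).injective
      simp only [map_one, Units.val_one]
      exact h
    · simp [σ, h]

end Cfsg.Agent.KnownA
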