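import Mathlib

set_option autoImplicit false

/-!
# A nontrivial word is not a law in large alternating groups
-/

namespace Cfsg.Agent.KnownA

open Equiv

/-- `w` is a law in `G`. -/
def IsLaw {α : Type*} (w : FreeGroup α) (G : Type*) [Group G] : Prop :=
  ∀ f : α → G, FreeGroup.lift f w = 1

theorem map_lift {α G H : Type*} [Group G] [Group H] (φ : G →* H) (f : α → G) (w : FreeGroup α) :
    φ (FreeGroup.lift f w) = FreeGroup.lift (fun a => φ (f a)) w := by
  have h : φ.comp (FreeGroup.lift f) = FreeGroup.lift (fun a => φ (f a)) := by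
    ext a; simp
  exact DFunLike.congr_fun h w

theorem IsLaw.of_injective {α G H : Type*} [Group G] [Group H] {w : FreeGroup α} (φ : H →* G)
    (hφ : Function.Injective φ) (h : IsLaw w G) : IsLaw w H := fun f => by
  apply hφ
  rw [map_lift, map_one]
  exact h _

/-- Edge `x ↦ y` demanded of the generator `a` by the word `L` on the path `L.length, …, 0`. -/
def PathEdge {α : Type*} (L : List (α × Bool)) (a : α) (x y : ℕ) : Prop :=
  ∃ i : ℕ, (L[i]? = some (a, true) ∧ x = i + 1 ∧ y = i) ∨
    (L[i]? = some (a, false) ∧ x = i ∧ y = i + 1)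

theorem no_turn {α : Type*} {L : List (α × Bool)} (hL : FreeGroup.IsReduced L) {a : α}
    {i : ℕ} {b : Bool} (h₁ : L[i]? = some (a, b)) (h₂ : L[i + 1]? = some (a, !b)) : False := by
  obtain ⟨hi, h₁⟩ := List.getElem?_eq_some_iff.mp h₁
  obtain ⟨hi', h₂⟩ := List.getElem?_eq_some_iff.mp h₂
  have := List.isChain_iff_getElem.mp hL i hi'
  simp [h₁, h₂] at this

theorem PathEdge.unique {α : Type*} {L : List (α × Bool)} (hL : FreeGroup.IsReduced L) {a : α}
    {x x' y y' : ℕ} (h : PathEdge L a x y) (h' : PathEdge L a x' y') : x = x' ↔ y = y' := by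
  obtain ⟨i, ⟨h, rfl, rfl⟩ | ⟨h, rfl, rfl⟩⟩ := h <;>
    obtain ⟨j, ⟨h', rfl, rfl⟩ | ⟨h', rfl, rfl⟩⟩ := h'
  · omega
  · constructor
    · rintro rfl; exact (no_turn hL h h').elim
    · rintro rfl; exact (no_turn hL h' h).elim
  · constructor
    · rintro rfl; exact (no_turn hL h' h).elim
    · rintro rfl; exact (no_turn hL h h').elim
  · omega

theorem PathEdge.le {α : Type*} {L : List (α × Bool)} {a : α} {x y : ℕ} (h : PathEdge L a x y) :
    x ≤ L.length ∧ y ≤ L.length := by
  obtain ⟨i, ⟨h, rfl, rfl⟩ | ⟨h, rfl, rfl⟩⟩ := h <;>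
    obtain ⟨hi, -⟩ := List.getElem?_eq_some_iff.mp h <;> omega

theorem exists_even_perm_extends {n k : ℕ} (hn : k + 3 ≤ n) (E : ℕ → ℕ → Prop)
    (hE : ∀ x y, E x y → x ≤ k ∧ y ≤ k)
    (hu : ∀ x x' y y', E x y → E x' y' → (x = x' ↔ y = y')) :
    ∃ σ : Perm (Fin n), σ ∈ alternatingGroup (Fin n) ∧
      ∀ x y : Fin n, E x y → σ x = y := by
  classical
  let p : Fin n → Prop := fun x => ∃ y : Fin n, E x y
  let q : Fin n → Prop := fun y => ∃ x : Fin n, E x y
  let F : {x // p x} → {y // q y} := fun x => ⟨x.2.choose, x.1, x.2.choose_spec⟩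
  have hF : Function.Bijective F := by
    constructor
    · intro x x' h
      have h1 : ((x.2.choose : Fin n) : ℕ) = (x'.2.choose : ℕ) :=
        congrArg (fun z : {y // q y} => (z.1 : ℕ)) h
      exact Subtype.ext (Fin.ext ((hu _ _ _ _ x.2.choose_spec x'.2.choose_spec).mpr h1))
    · rintro ⟨y, x, hx⟩
      refine ⟨⟨x, y, hx⟩, Subtype.ext (Fin.ext ?_)⟩
      exact ((hu _ _ _ _ (⟨y, hx⟩ : p x).choose_spec hx).mp rfl)
  let e := Equiv.ofBijective F hF
  let σ := e.extendSubtype
  have hσ : ∀ x y : Fin n, E x y → σ x = y := by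
    intro x y h
    have hx : p x := ⟨y, h⟩
    rw [show σ x = _ from e.extendSubtype_apply_of_mem x hx]
    exact Fin.ext ((hu _ _ _ _ hx.choose_spec h).mp rfl)
  rcases Int.units_eq_one_or (Perm.sign σ) with hs | hs
  · exact ⟨σ, hs, hσ⟩
  let u : Fin n := ⟨k + 1, by omega⟩
  let v : Fin n := ⟨k + 2, by omega⟩
  have huv : u ≠ v := by simp [u, v, Fin.ext_iff]
  refine ⟨σ * Equiv.swap u v, ?_, ?_⟩
  · rw [Perm.mem_alternatingGroup, map_mul, hs, Perm.sign_swap huv]; rfl
  · intro x y h
    have := (hE _ _ h).1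
    rw [Perm.mul_apply, Equiv.swap_apply_of_ne_of_ne, hσ x y h]
    · simp only [u, ne_eq, Fin.ext_iff]; omega
    · simp only [v, ne_eq, Fin.ext_iff]; omega

/-- A nontrivial word can be made nontrivial in every large enough alternating group. -/
theorem exists_alt_lift_ne_one {α : Type*} (w : FreeGroup α) (hw : w ≠ 1) :
    ∃ N : ℕ, ∀ n : ℕ, N ≤ n → ∃ f : α → alternatingGroup (Fin n), FreeGroup.lift f w ≠ 1 := by
  classical
  set L := w.toWord with hLdef
  have hred : FreeGroup.IsReduced L := FreeGroup.isReduced_toWord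
  have hpos : 0 < L.length := by
    have : L ≠ [] := fun h => hw (FreeGroup.toWord_eq_nil_iff.mp h)
    exact List.length_pos_of_ne_nil this
  refine ⟨L.length + 3, fun n hn => ?_⟩
  have hex : ∀ a : α, ∃ σ : alternatingGroup (Fin n),
      ∀ x y : Fin n, PathEdge L a x y → (σ : Perm (Fin n)) x = y := by
    intro a
    obtain ⟨σ, h1, h2⟩ := exists_even_perm_extends hn (PathEdge L a)
      (fun x y h => h.le) (fun x x' y y' h h' => h.unique hred h')
    exact ⟨⟨σ, h1⟩, h2⟩
  choose f hf using hex
  refine ⟨f, fun heq => ?_⟩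
  let g : α → Perm (Fin n) := fun a => f a
  have heq' : FreeGroup.lift g w = 1 := by
    have := map_lift (alternatingGroup (Fin n)).subtype f w
    simp only [heq, map_one, Subgroup.subtype_apply] at this
    exact this.symm
  have key : ∀ (suf pre : List (α × Bool)), pre ++ suf = L →
      ∀ (x y : Fin n), (x : ℕ) = L.length → (y : ℕ) = pre.length →
      (suf.map fun z => cond z.2 (g z.1) (g z.1)⁻¹).prod x = y := by
    intro suf
    induction suf with
    | nil =>
      intro pre h x y hx hy
      simp only [List.append_nil] at h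
      simp only [List.map_nil, List.prod_nil, Perm.one_apply]
      exact Fin.ext (by rw [hx, hy, h])
    | cons z suf ih =>
      intro pre h x y hx hy
      have hlen : pre.length < L.length := by rw [← h]; simp
      have := ih (pre ++ [z]) (by simpa using h) x ⟨pre.length + 1, by omega⟩ hx (by simp)
      simp only [List.map_cons, List.prod_cons, Perm.mul_apply, this]
      have hz : L[pre.length]? = some z := by
        rw [← h]; simp
      obtain ⟨a, b⟩ := z
      cases b
      · simp only [cond_false, Perm.inv_eq_iff_eq]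
        exact (hf a y _ ⟨pre.length, Or.inr ⟨hz, hy, rfl⟩⟩).symm
      · simp only [cond_true]
        exact hf a _ y ⟨pre.length, Or.inl ⟨hz, rfl, hy⟩⟩
  have := key L [] rfl ⟨L.length, by omega⟩ ⟨0, by omega⟩ rfl rfl
  rw [← FreeGroup.lift_mk (f := g), FreeGroup.mk_toWord, heq'] at this
  simp only [Perm.one_apply, Fin.ext_iff] at this
  omega

/-- The word `[w', x₀]`, `w'` being `w` with shifted variables. -/
def commWord (w : FreeGroup ℕ) : FreeGroup ℕ :=
  FreeGroup.map (· + 1) w * FreeGroup.of 0 * (FreeGroup.map (· + 1) w)⁻¹ * (FreeGroup.of 0)⁻¹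

theorem lift_commWord {G : Type*} [Group G] (w : FreeGroup ℕ) (f : ℕ → G) :
    FreeGroup.lift f (commWord w) =
      FreeGroup.lift (fun i => f (i + 1)) w * f 0 * (FreeGroup.lift (fun i => f (i + 1)) w)⁻¹ *
        (f 0)⁻¹ := by
  have h : (FreeGroup.lift f).comp (FreeGroup.map (· + 1)) = FreeGroup.lift (fun i => f (i + 1)) := by
    ext a; simp
  have h' := DFunLike.congr_fun h w
  simp only [MonoidHom.comp_apply] at h'
  simp [commWord, h']

theorem commWord_ne_one (w : FreeGroup ℕ) (hw : w ≠ 1) : commWord w ≠ 1 := by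
  intro h
  obtain ⟨N, hN⟩ := exists_alt_lift_ne_one w hw
  obtain ⟨f, hf⟩ := hN (N + 4) (by omega)
  obtain ⟨τ, hτ⟩ : ∃ τ, τ * FreeGroup.lift f w ≠ FreeGroup.lift f w * τ := by
    by_contra hc
    push Not at hc
    have hmem : FreeGroup.lift f w ∈ Subgroup.center (alternatingGroup (Fin (N + 4))) :=
      Subgroup.mem_center_iff.mpr hc
    rw [alternatingGroup.center_eq_bot (by simp)] at hmem
    exact hf (Subgroup.mem_bot.mp hmem)
  have h1 := lift_commWord w (fun i => match i with | 0 => τ | j + 1 => f j)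
  rw [h, map_one] at h1
  simp only at h1
  have h2 : FreeGroup.lift f w * τ = τ * FreeGroup.lift f w := by
    have := congrArg (fun z => z * τ * FreeGroup.lift f w) h1.symm
    simpa [mul_assoc] using this
  exact hτ h2.symm

/-- A law in a central quotient gives a law upstairs. -/
theorem IsLaw.commWord {w : FreeGroup ℕ} {G H : Type*} [Group G] [Group H] (φ : H →* G)
    (hφ : φ.ker ≤ Subgroup.center H) (h : IsLaw w G) : IsLaw (commWord w) H := by
  intro f
  have hc : FreeGroup.lift (fun i => f (i + 1)) w ∈ Subgroup.center H := by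
    apply hφ
    rw [MonoidHom.mem_ker, map_lift]
    exact h _
  rw [lift_commWord, ← (Subgroup.mem_center_iff.mp hc (f 0))]
  group

theorem IsLaw.commWord_quotient {w : FreeGroup ℕ} {H : Type*} [Group H]
    (h : IsLaw w (H ⧸ Subgroup.center H)) : IsLaw (KnownA.commWord w) H :=
  h.commWord (QuotientGroup.mk' _) (by rw [QuotientGroup.ker_mk'])

end Cfsg.Agent.KnownA
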