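import Cfsg.Agent.KnownA.LawClassical

set_option autoImplicit false

/-!
# Laws in unitary groups bound the degree and the field
-/

namespace Cfsg.Agent.KnownA

open Matrix

theorem prime_pow_of_sq {F : Type*} [Field F] [Fintype F] {q : ℕ} (hF : Fintype.card F = q ^ 2) :
    ∃ p k : ℕ, p.Prime ∧ CharP F p ∧ q = p ^ k := by
  obtain ⟨p, hp⟩ := CharP.exists F
  obtain ⟨n, hpp, hn⟩ := FiniteField.card F p
  have hdvd : q ∣ p ^ (n : ℕ) := ⟨q, by rw [← hn, hF, pow_two]⟩
  obtain ⟨k, -, hk⟩ := (Nat.dvd_prime_pow hpp).mp hdvd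
  exact ⟨p, k, hpp, hp, hk⟩

/-- In a field with `q²` elements: two roots of `c^(q+1) = -1`, a nonzero element of trace `0`, and
`q - 1` elements fixed by `x ↦ x^q`. -/
theorem exists_su_params {F : Type*} [Field F] [Fintype F] [DecidableEq F] {q : ℕ}
    (hF : Fintype.card F = q ^ 2) (hq : 2 ≤ q) :
    ∃ (c c' τ : F) (S : Finset F), c ≠ c' ∧ c ^ (q + 1) = -1 ∧ c' ^ (q + 1) = -1 ∧ τ ≠ 0 ∧
      τ ^ q = -τ ∧ (∀ r ∈ S, r ^ q = r) ∧ q - 1 ≤ S.card := by
  obtain ⟨g, hg⟩ := IsCyclic.exists_generator (α := Fˣ)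
  have hord : orderOf g = q ^ 2 - 1 := by
    rw [orderOf_eq_card_of_forall_mem_zpowers hg, Nat.card_eq_fintype_card, Fintype.card_units, hF]
  obtain ⟨e, rfl⟩ : ∃ e, q = e + 2 := ⟨q - 2, by omega⟩
  have hN : (e + 2) ^ 2 - 1 = (e + 1) * (e + 3) := by
    rw [show (e + 2) ^ 2 = (e + 1) * (e + 3) + 1 by ring, Nat.add_sub_cancel]
  rw [hN] at hord
  have hroot : ((g : F) ^ (e + 1)) ^ (e + 3) = 1 := by
    rw [← pow_mul, ← hord, ← Units.val_pow_eq_pow_val, pow_orderOf_eq_one, Units.val_one]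
  have hgne : (g : F) ^ (e + 1) ≠ 1 := by
    intro h
    have h' : g ^ (e + 1) = 1 := Units.ext (by simpa using h)
    have := orderOf_dvd_of_pow_eq_one h'
    rw [hord] at this
    have h3 := Nat.le_of_dvd (by omega) this
    nlinarith
  obtain ⟨c, τ, hc, hτ, hτq⟩ : ∃ c τ : F, c ^ (e + 3) = -1 ∧ τ ≠ 0 ∧ τ ^ (e + 2) = -τ := by
    rcases Nat.even_or_odd e with he | he
    · have h2 : ringChar F = 2 := by
        obtain ⟨p, k, hp, hchar, hk⟩ := prime_pow_of_sq hF
        rw [ringChar.eq F p]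
        have : 2 ∣ p ^ k := by rw [← hk]; obtain ⟨a, rfl⟩ := he; omega
        exact ((Nat.prime_dvd_prime_iff_eq Nat.prime_two hp).mp (Nat.prime_two.dvd_of_dvd_pow this)).symm
      haveI : CharP F 2 := by rw [← h2]; exact ringChar.charP F
      exact ⟨1, 1, by simp [CharTwo.neg_eq], one_ne_zero, by simp [CharTwo.neg_eq]⟩
    · obtain ⟨j, rfl⟩ := he
      have hneg : (g : F) ^ ((j + 1) * (2 * j + 1 + 3)) = -1 := by
        have hsq : ((g : F) ^ ((j + 1) * (2 * j + 1 + 3))) ^ 2 = 1 := by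
          rw [← pow_mul, show (j + 1) * (2 * j + 1 + 3) * 2 = (2 * j + 1 + 1) * (2 * j + 1 + 3) by ring,
            ← hord, ← Units.val_pow_eq_pow_val, pow_orderOf_eq_one, Units.val_one]
        rcases sq_eq_one_iff.mp hsq with h | h
        · have h' : g ^ ((j + 1) * (2 * j + 1 + 3)) = 1 := Units.ext (by simpa using h)
          have := orderOf_dvd_of_pow_eq_one h'
          rw [hord] at this
          have h3 := Nat.le_of_dvd (by positivity) this
          nlinarith
        · exact h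
      refine ⟨(g : F) ^ (j + 1), (g : F) ^ (j + 2), by rw [← pow_mul, hneg],
        pow_ne_zero _ g.ne_zero, ?_⟩
      rw [← pow_mul, show (j + 2) * (2 * j + 1 + 2) = (j + 1) * (2 * j + 1 + 3) + (j + 2) by ring,
        pow_add, hneg]
      ring
  refine ⟨c, c * (g : F) ^ (e + 1), τ,
    (Finset.range (e + 1)).image (fun i => ((g : F) ^ (e + 3)) ^ i), ?_, hc,
    by rw [mul_pow, hc, hroot, mul_one], hτ, hτq, ?_, ?_⟩
  · intro h
    have hc0 : c ≠ 0 := fun h0 => by simp [h0] at hc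
    exact hgne (mul_left_cancel₀ hc0 (by rw [← h, mul_one]))
  · intro r hr
    obtain ⟨i, -, rfl⟩ := Finset.mem_image.mp hr
    rw [← pow_mul, ← pow_mul,
      show (e + 3) * (i * (e + 2)) = (e + 1) * (e + 3) * i + (e + 3) * i by ring, pow_add, pow_mul,
      ← hord, ← Units.val_pow_eq_pow_val, pow_orderOf_eq_one, Units.val_one, one_pow, one_mul, ← pow_mul]
  · rw [Finset.card_image_of_injOn, Finset.card_range]
    · omega
    · intro a ha b hb hab
      simp only [Finset.coe_range, Set.mem_Iio] at ha hb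
      have h' : g ^ ((e + 3) * a) = g ^ ((e + 3) * b) := Units.ext (by simpa [pow_mul] using hab)
      have ha' : (e + 3) * a < orderOf g := by rw [hord]; nlinarith
      have hb' : (e + 3) * b < orderOf g := by rw [hord]; nlinarith
      have := pow_injOn_Iio_orderOf (x := g) ha' hb' h'
      exact Nat.eq_of_mul_eq_mul_left (by omega) this

/-- Even permutations give elements of `SU_n`. -/
theorem altToSL_mem_SU {n : ℕ} {F : Type*} [Field F] (q : ℕ) (σ : alternatingGroup (Fin n)) :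
    altToSL n F σ ∈ Cfsg.SU n F q := by
  intro u v
  show Cfsg.hermForm n F q (((σ : Equiv.Perm (Fin n))⁻¹).permMatrix F *ᵥ u)
    (((σ : Equiv.Perm (Fin n))⁻¹).permMatrix F *ᵥ v) = _
  simp only [Matrix.permMatrix_mulVec, Cfsg.hermForm, Function.comp_apply]
  exact Equiv.sum_comp ((σ : Equiv.Perm (Fin n))⁻¹) (fun i => u i * v i ^ q)

theorem hermForm_add (a b : ℕ) {F : Type*} [Field F] (q : ℕ) (u v : Fin (a + b) → F) :
    Cfsg.hermForm (a + b) F q u v = Cfsg.hermForm a F q (u ∘ Fin.castAdd b) (v ∘ Fin.castAdd b) +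
      Cfsg.hermForm b F q (u ∘ Fin.natAdd a) (v ∘ Fin.natAdd a) := by
  simp [Cfsg.hermForm, Fin.sum_univ_add]

/-- The block embedding respects unitary groups. -/
theorem sl2Block_mem_SU {k : ℕ} {F : Type*} [Field F] (q : ℕ) (M : Matrix.SpecialLinearGroup (Fin 2) F)
    (hM : ∀ u v, Cfsg.hermForm 2 F q ((M : Matrix (Fin 2) (Fin 2) F) *ᵥ u)
      ((M : Matrix (Fin 2) (Fin 2) F) *ᵥ v) = Cfsg.hermForm 2 F q u v) :
    sl2Block k F M ∈ Cfsg.SU (2 + k) F q := by
  intro u v
  show Cfsg.hermForm (2 + k) F q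
    (Matrix.reindex finSumFinEquiv finSumFinEquiv (Matrix.fromBlocks (M : Matrix (Fin 2) (Fin 2) F) 0 0 1) *ᵥ u)
    (Matrix.reindex finSumFinEquiv finSumFinEquiv (Matrix.fromBlocks (M : Matrix (Fin 2) (Fin 2) F) 0 0 1) *ᵥ v) = _
  have hc : ∀ u : Fin (2 + k) → F,
      (Matrix.reindex finSumFinEquiv finSumFinEquiv (Matrix.fromBlocks (M : Matrix (Fin 2) (Fin 2) F) 0 0 1) *ᵥ u) ∘
        Fin.castAdd k = (M : Matrix (Fin 2) (Fin 2) F) *ᵥ (u ∘ Fin.castAdd k) := by
    intro u; funext i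
    simp only [Function.comp_apply, Matrix.mulVec, dotProduct, Fin.sum_univ_add]
    simp
  have hn : ∀ u : Fin (2 + k) → F,
      (Matrix.reindex finSumFinEquiv finSumFinEquiv (Matrix.fromBlocks (M : Matrix (Fin 2) (Fin 2) F) 0 0 1) *ᵥ u) ∘
        Fin.natAdd 2 = u ∘ Fin.natAdd 2 := by
    intro u; funext i
    simp only [Function.comp_apply, Matrix.mulVec, dotProduct, Fin.sum_univ_add]
    simp [Matrix.one_apply]
  rw [hermForm_add, hermForm_add 2 k q u v, hc, hc, hn, hn, hM]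

/-- A law in `SU_n(q)` bounds `n` and `q`. -/
theorem exists_bound_su (w : FreeGroup ℕ) (hw : w ≠ 1) :
    ∃ N : ℕ, ∀ (F : Type) [Field F] [Fintype F] (n q : ℕ), Fintype.card F = q ^ 2 → 2 ≤ n →
      IsLaw w (Cfsg.SU n F q) → n < N ∧ q < N := by
  obtain ⟨N₁, hN₁⟩ := exists_alt_lift_ne_one w hw
  obtain ⟨D, hD⟩ := exists_sl2_lift_ne_one w hw
  refine ⟨max N₁ (D + 4), fun F _ _ n q hF hn hlaw => ⟨?_, ?_⟩⟩
  · by_contra hc
    push Not at hc
    obtain ⟨f, hf⟩ := hN₁ n (by omega)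
    apply hf
    apply altToSL_injective n F
    rw [map_one, map_lift]
    have := map_lift (Cfsg.SU n F q).subtype (fun a => (⟨_, altToSL_mem_SU q (f a)⟩ : Cfsg.SU n F q)) w
    rw [hlaw, map_one] at this
    exact this.symm
  · by_contra hc
    push Not at hc
    classical
    obtain ⟨c, c', τ, S, hne, hc1, hc2, hτ0, hτ, hS, hcard⟩ := exists_su_params hF (by omega)
    obtain ⟨k, rfl⟩ : ∃ k, n = 2 + k := ⟨n - 2, by omega⟩
    obtain ⟨p, l, hp, hchar, hql⟩ := prime_pow_of_sq hF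
    haveI : ExpChar F p := ExpChar.prime hp
    have hadd : ∀ x y : F, (x + y) ^ q = x ^ q + y ^ q := fun x y => by rw [hql]; exact add_pow_expChar_pow _ _ _ _
    have hqq : ∀ x : F, (x ^ q) ^ q = x := fun x => by
      rw [← pow_mul, ← pow_two, ← hF, FiniteField.pow_card]
    have hcc : c * c ^ q = -1 := by rw [← hc1, pow_succ, mul_comm]
    have hcc' : c' * c' ^ q = -1 := by rw [← hc2, pow_succ, mul_comm]
    have hc0 : c ≠ 0 := fun h => by simp [h] at hcc
    set η := 1 + c * c' ^ q with hη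
    have hη' : η ^ q = 1 + c' * c ^ q := by rw [hη, hadd, one_pow, mul_pow, hqq]; ring
    have hη0 : η ≠ 0 := by
      intro h
      apply hne
      have h1 : c * c' ^ q = c * c ^ q := by rw [hcc]; linear_combination h
      have h2 := congrArg (· ^ q) (mul_left_cancel₀ hc0 h1)
      simpa [hqq] using h2.symm
    have hd : c' - c ≠ 0 := sub_ne_zero.mpr (Ne.symm hne)
    let P : Matrix (Fin 2) (Fin 2) F := !![1, 1; c, c']
    let Pi : Matrix (Fin 2) (Fin 2) F := (c' - c)⁻¹ • !![c', -1; -c, 1]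
    have hP : P * Pi = 1 := by
      ext i j; fin_cases i <;> fin_cases j <;> simp [P, Pi, Matrix.mul_apply] <;> field_simp <;> ring
    have hP' : Pi * P = 1 := mul_eq_one_comm.mp hP
    have hdet : P.det * Pi.det = 1 := by rw [← Matrix.det_mul, hP, Matrix.det_one]
    let conjP : Matrix.SpecialLinearGroup (Fin 2) F →* Matrix.SpecialLinearGroup (Fin 2) F :=
      { toFun := fun A => ⟨P * (A : Matrix (Fin 2) (Fin 2) F) * Pi, by
          rw [Matrix.det_mul, Matrix.det_mul, A.2, mul_one, hdet]⟩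
        map_one' := Subtype.ext (by simp [hP])
        map_mul' := fun A B => Subtype.ext (by
          show P * ((A * B : Matrix.SpecialLinearGroup (Fin 2) F) : Matrix (Fin 2) (Fin 2) F) * Pi =
            (P * (A : Matrix (Fin 2) (Fin 2) F) * Pi) * (P * (B : Matrix (Fin 2) (Fin 2) F) * Pi)
          rw [Matrix.SpecialLinearGroup.coe_mul]
          simp only [Matrix.mul_assoc]
          rw [← Matrix.mul_assoc Pi P, hP', Matrix.one_mul]) }
    have hinj : Function.Injective conjP := by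
      intro A B h
      refine Subtype.ext ?_
      have h' : P * (A : Matrix (Fin 2) (Fin 2) F) * Pi = P * (B : Matrix (Fin 2) (Fin 2) F) * Pi :=
        congrArg Subtype.val h
      have := congrArg (fun M => Pi * M * P) h'
      simpa [Matrix.mul_assoc, hP', ← Matrix.mul_assoc Pi P] using this
    -- the form in the new basis
    have hform : ∀ x y : Fin 2 → F, Cfsg.hermForm 2 F q (P *ᵥ x) (P *ᵥ y) =
        η * x 0 * y 1 ^ q + η ^ q * x 1 * y 0 ^ q := by
      intro x y
      rw [hη']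
      simp [Cfsg.hermForm, Fin.sum_univ_two, P, Matrix.mulVec, dotProduct, hadd, mul_pow, hη]
      linear_combination x 0 * y 0 ^ q * hcc + x 1 * y 1 ^ q * hcc'
    have key : ∀ A : Matrix.SpecialLinearGroup (Fin 2) F,
        (∀ x y : Fin 2 → F,
          η * ((A : Matrix (Fin 2) (Fin 2) F) *ᵥ x) 0 * ((A : Matrix (Fin 2) (Fin 2) F) *ᵥ y) 1 ^ q +
            η ^ q * ((A : Matrix (Fin 2) (Fin 2) F) *ᵥ x) 1 * ((A : Matrix (Fin 2) (Fin 2) F) *ᵥ y) 0 ^ q =
          η * x 0 * y 1 ^ q + η ^ q * x 1 * y 0 ^ q) →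
        sl2Block k F (conjP A) ∈ Cfsg.SU (2 + k) F q := by
      intro A hA
      apply sl2Block_mem_SU
      intro u v
      show Cfsg.hermForm 2 F q ((P * (A : Matrix (Fin 2) (Fin 2) F) * Pi) *ᵥ u)
        ((P * (A : Matrix (Fin 2) (Fin 2) F) * Pi) *ᵥ v) = _
      conv_rhs => rw [← Matrix.one_mulVec u, ← Matrix.one_mulVec v, ← hP]
      simp only [← Matrix.mulVec_mulVec]
      rw [hform, hform, hA]
    have hα : τ / η ≠ 0 := div_ne_zero hτ0 hη0
    have hβ : τ / η ^ q ≠ 0 := div_ne_zero hτ0 (pow_ne_zero _ hη0)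
    obtain ⟨t, htS, ht⟩ := hD F S (τ / η) (τ / η ^ q) hα hβ (by omega)
    have hfix : ∀ j : ℕ, (t ^ j) ^ q = t ^ j := fun j => by rw [← pow_mul, mul_comm, pow_mul, hS t htS]
    have hx : ∀ s : F, s ^ q = s → sl2Block k F (conjP (slX (τ / η * s))) ∈ Cfsg.SU (2 + k) F q := by
      intro s hs
      apply key
      intro x y
      simp [slX, Matrix.mulVec, dotProduct, hadd, mul_pow, div_pow, hτ, hs]
      field_simp
      ring
    have hy : ∀ s : F, s ^ q = s → sl2Block k F (conjP (slY (τ / η ^ q * s))) ∈ Cfsg.SU (2 + k) F q := by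
      intro s hs
      apply key
      intro x y
      simp [slY, Matrix.mulVec, dotProduct, hadd, mul_pow, div_pow, hqq, hτ, hs]
      field_simp
      ring
    apply ht
    apply hinj
    apply sl2Block_injective k F
    rw [map_one, map_one, map_lift, map_lift]
    have hmem : ∀ a : ℕ, sl2Block k F (conjP (slX (τ / η * t ^ (a + 1)) * slY (τ / η ^ q * t ^ (a + 1)))) ∈
        Cfsg.SU (2 + k) F q := fun a => by
      rw [map_mul, map_mul]; exact mul_mem (hx _ (hfix _)) (hy _ (hfix _))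
    have := map_lift (Cfsg.SU (2 + k) F q).subtype (fun a => (⟨_, hmem a⟩ : Cfsg.SU (2 + k) F q)) w
    rw [hlaw, map_one] at this
    exact this.symm

end Cfsg.Agent.KnownA
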