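import Cfsg.Agent.KnownA.LawForms
import Cfsg.Agent.KnownA.LawUnitary

set_option autoImplicit false

/-!
# A nontrivial word is a law in boundedly many alternating and classical simple groups
-/

namespace Cfsg.Agent.KnownA

open Matrix

theorem card_matrix_group_le {H ι : Type} {F : Type} [Fintype F] [Fintype ι] (M d : ℕ)
    (i : H → Matrix ι ι F) (hi : Function.Injective i) (hF : Fintype.card F ≤ M)
    (hd : Fintype.card ι ≤ d) (hM : 1 ≤ M) : Nat.card H ≤ M ^ (d * d) := by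
  classical
  refine (Nat.card_le_card_of_injective i hi).trans ?_
  rw [show Nat.card (Matrix ι ι F) = Nat.card (ι → ι → F) from rfl, Nat.card_fun, Nat.card_fun,
    Nat.card_eq_fintype_card, Nat.card_eq_fintype_card, ← pow_mul]
  exact (Nat.pow_le_pow_left hF _).trans (Nat.pow_le_pow_right hM (Nat.mul_le_mul hd hd))

theorem isLaw_commWord_of_iso {w : FreeGroup ℕ} {G : Type*} [Group G] {H : Type} [Group H]
    (e : G ≃* H ⧸ Subgroup.center H) (h : IsLaw w G) : IsLaw (commWord w) H :=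
  (h.of_injective e.symm.toMonoidHom e.symm.injective).commWord_quotient

theorem card_le_of_iso {G : Type*} [Group G] {H : Type} [Group H] [Finite H]
    (e : G ≃* H ⧸ Subgroup.center H) : Nat.card G ≤ Nat.card H := by
  rw [Nat.card_congr e.toEquiv]
  exact Nat.card_le_card_of_surjective _ (QuotientGroup.mk'_surjective _)

theorem exists_bound_law (w : FreeGroup ℕ) (hw : w ≠ 1) :
    ∃ N : ℕ, ∀ (G : Type*) [Group G] [Finite G],
      (Cfsg.IsAlternating G ∨ Cfsg.IsPSL G ∨ Cfsg.IsPSp G ∨ Cfsg.IsPSU G ∨ Cfsg.IsPOmegaOdd G ∨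
          Cfsg.IsPOmegaPlus G ∨ Cfsg.IsPOmegaMinus G) →
      (∀ f : ℕ → G, FreeGroup.lift f w = 1) → Nat.card G ≤ N := by
  obtain ⟨A, hA⟩ := exists_alt_lift_ne_one w hw
  obtain ⟨S, hS⟩ := exists_bound_sl (commWord w) (commWord_ne_one w hw)
  obtain ⟨U, hU⟩ := exists_bound_su (commWord w) (commWord_ne_one w hw)
  set d := max (2 * S + 4) (U + 1)
  set M := max (S + 1) (U ^ 2 + 1)
  have hM : 1 ≤ M := le_trans (by omega : 1 ≤ S + 1) (le_max_left _ _)
  refine ⟨max A.factorial (M ^ (d * d)), fun G _ _ hG hlaw => ?_⟩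
  have big : ∀ {H : Type} [Group H] [Finite H] (e : G ≃* H ⧸ Subgroup.center H) {ι F : Type}
      [Fintype F] [Fintype ι] (i : H → Matrix ι ι F), Function.Injective i → Fintype.card F ≤ M →
      Fintype.card ι ≤ d → Nat.card G ≤ max A.factorial (M ^ (d * d)) := by
    intro H _ _ e ι F _ _ i hi hF hd
    exact ((card_le_of_iso e).trans (card_matrix_group_le M d i hi hF hd hM)).trans (le_max_right _ _)
  have hdS : 2 * S + 4 ≤ d := le_max_left _ _
  have hdU : U + 1 ≤ d := le_max_right _ _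
  have hMS : S + 1 ≤ M := le_max_left _ _
  have hMU : U ^ 2 + 1 ≤ M := le_max_right _ _
  rcases hG with ⟨n, -, ⟨e⟩⟩ | ⟨F, _, _, n, hn, -, ⟨e⟩⟩ | ⟨F, _, _, m, hm, -, ⟨e⟩⟩ |
    ⟨F, _, _, n, q, hF, hn, -, ⟨e⟩⟩ | ⟨F, _, _, m, hm, -, ⟨e⟩⟩ | ⟨F, _, _, m, hm, ⟨e⟩⟩ |
    ⟨F, _, _, m, a, b, hm, -, ⟨e⟩⟩
  · refine le_trans ?_ (le_max_left _ _)
    have hn : n ≤ A := by
      by_contra hc
      push Not at hc
      obtain ⟨f, hf⟩ := hA n hc.le
      exact hf ((IsLaw.of_injective e.symm.toMonoidHom e.symm.injective hlaw) f)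
    rw [Nat.card_congr e.toEquiv]
    refine le_trans (Subgroup.card_le_card_group _) ?_
    rw [Nat.card_perm, Nat.card_fin]
    exact Nat.factorial_le hn
  · obtain ⟨h1, h2⟩ := hS F n hn _ (MonoidHom.id _) Function.injective_id
      ((isLaw_commWord_of_iso e hlaw).of_injective (commutator _).subtype Subtype.val_injective)
    exact big (H := Matrix.SpecialLinearGroup (Fin n) F) e
      (fun g => (g : Matrix (Fin n) (Fin n) F)) Subtype.val_injective (by omega) (by simp; omega)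
  · obtain ⟨h1, h2⟩ := hS F m hm _ (slToSp m F) (slToSp_injective m F)
      ((isLaw_commWord_of_iso e hlaw).of_injective (commutator _).subtype Subtype.val_injective)
    exact big (H := Matrix.symplecticGroup (Fin m) F) e
      (fun g => (g : Matrix (Fin m ⊕ Fin m) (Fin m ⊕ Fin m) F)) Subtype.val_injective (by omega)
      (by simp; omega)
  · obtain ⟨h1, h2⟩ := hU F n q hF (by omega) (isLaw_commWord_of_iso e hlaw)
    refine big (H := Cfsg.SU n F q) e
      (fun g => ((g : Matrix.SpecialLinearGroup (Fin n) F) : Matrix (Fin n) (Fin n) F)) ?_ ?_ (by simp; omega)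
    · exact fun g h hgh => Subtype.ext (Subtype.ext hgh)
    · rw [hF]; exact le_trans (Nat.pow_le_pow_left h2.le 2) (by omega)
  · obtain ⟨φ, hφ⟩ := exists_slToOrthOdd m F
    obtain ⟨h1, h2⟩ := hS F m (by omega) _ φ hφ (isLaw_commWord_of_iso e hlaw)
    refine big (H := Cfsg.Omega F (Cfsg.quadFormOdd m F)) e
      (fun g => (((g : Cfsg.isometryGroup F (Cfsg.quadFormOdd m F)) : GL (Unit ⊕ (Fin m ⊕ Fin m)) F) :
        Matrix (Unit ⊕ (Fin m ⊕ Fin m)) (Unit ⊕ (Fin m ⊕ Fin m)) F)) ?_ (by omega) (by simp; omega)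
    exact fun g h hgh => Subtype.ext (Subtype.ext (Units.ext hgh))
  · obtain ⟨φ, hφ⟩ := exists_slToOrthPlus m F
    obtain ⟨h1, h2⟩ := hS F m (by omega) _ φ hφ (isLaw_commWord_of_iso e hlaw)
    refine big (H := Cfsg.Omega F (Cfsg.quadFormPlus m F)) e
      (fun g => (((g : Cfsg.isometryGroup F (Cfsg.quadFormPlus m F)) : GL (Fin m ⊕ Fin m) F) :
        Matrix (Fin m ⊕ Fin m) (Fin m ⊕ Fin m) F)) ?_ (by omega) (by simp; omega)
    exact fun g h hgh => Subtype.ext (Subtype.ext (Units.ext hgh))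
  · obtain ⟨φ, hφ⟩ := exists_slToOrthMinus (m - 1) F a b
    obtain ⟨h1, h2⟩ := hS F (m - 1) (by omega) _ φ hφ (isLaw_commWord_of_iso e hlaw)
    refine big (H := Cfsg.Omega F (Cfsg.quadFormMinus (m - 1) F a b)) e
      (fun g => (((g : Cfsg.isometryGroup F (Cfsg.quadFormMinus (m - 1) F a b)) :
          GL ((Fin (m - 1) ⊕ Fin (m - 1)) ⊕ Fin 2) F) :
        Matrix ((Fin (m - 1) ⊕ Fin (m - 1)) ⊕ Fin 2) ((Fin (m - 1) ⊕ Fin (m - 1)) ⊕ Fin 2) F))
      ?_ (by omega) (by simp; omega)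
    exact fun g h hgh => Subtype.ext (Subtype.ext (Units.ext hgh))

end Cfsg.Agent.KnownA
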