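import Cfsg.Agent.KnownA.LawSL2
import Cfsg.Prelude.Def_Classical

set_option autoImplicit false

/-!
# A nontrivial word is a law in boundedly many alternating or classical simple groups
-/

namespace Cfsg.Agent.KnownA

open Matrix

/-- Permutation matrices of even permutations, as a map into the special linear group. -/
noncomputable def altToSL (n : ℕ) (F : Type*) [Field F] :
    alternatingGroup (Fin n) →* Matrix.SpecialLinearGroup (Fin n) F where
  toFun σ := ⟨((σ : Equiv.Perm (Fin n))⁻¹).permMatrix F, by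
    rw [Matrix.det_permutation, Equiv.Perm.sign_inv, Equiv.Perm.mem_alternatingGroup.mp σ.2]
    simp⟩
  map_one' := by refine Subtype.ext ?_; simp
  map_mul' σ τ := by
    refine Subtype.ext ?_
    show ((σ * τ : alternatingGroup (Fin n)) : Equiv.Perm (Fin n))⁻¹.permMatrix F =
      ((σ : Equiv.Perm (Fin n))⁻¹).permMatrix F * ((τ : Equiv.Perm (Fin n))⁻¹).permMatrix F
    simp [Matrix.permMatrix_mul]

theorem altToSL_injective (n : ℕ) (F : Type*) [Field F] : Function.Injective (altToSL n F) := by
  intro σ τ h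
  have h' : ((σ : Equiv.Perm (Fin n))⁻¹).permMatrix F = ((τ : Equiv.Perm (Fin n))⁻¹).permMatrix F :=
    congrArg Subtype.val h
  have : ((σ : Equiv.Perm (Fin n))⁻¹) = ((τ : Equiv.Perm (Fin n))⁻¹) := by
    ext i
    have := congrFun (congrFun h' i) (((σ : Equiv.Perm (Fin n))⁻¹) i)
    by_contra hne
    simp [Equiv.Perm.permMatrix, PEquiv.toMatrix_apply] at this
    exact hne (congrArg Fin.val this.symm)
  exact Subtype.ext (inv_injective this)

/-- `SL₂` in the first two coordinates of `SL_(2+k)`. -/
def sl2Block (k : ℕ) (F : Type*) [Field F] :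
    Matrix.SpecialLinearGroup (Fin 2) F →* Matrix.SpecialLinearGroup (Fin (2 + k)) F where
  toFun A := ⟨Matrix.reindex finSumFinEquiv finSumFinEquiv
      (Matrix.fromBlocks (A : Matrix (Fin 2) (Fin 2) F) 0 0 1), by simp [A.2]⟩
  map_one' := by refine Subtype.ext ?_; simp [Matrix.submatrix_one_equiv]
  map_mul' A B := by
    refine Subtype.ext ?_
    show Matrix.reindex finSumFinEquiv finSumFinEquiv (Matrix.fromBlocks
        ((A * B : Matrix.SpecialLinearGroup (Fin 2) F) : Matrix (Fin 2) (Fin 2) F) 0 0 1) =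
      Matrix.reindex finSumFinEquiv finSumFinEquiv
          (Matrix.fromBlocks (A : Matrix (Fin 2) (Fin 2) F) 0 0 (1 : Matrix (Fin k) (Fin k) F)) *
        Matrix.reindex finSumFinEquiv finSumFinEquiv
          (Matrix.fromBlocks (B : Matrix (Fin 2) (Fin 2) F) 0 0 (1 : Matrix (Fin k) (Fin k) F))
    simp [Matrix.submatrix_mul_equiv, Matrix.fromBlocks_multiply]

theorem sl2Block_injective (k : ℕ) (F : Type*) [Field F] : Function.Injective (sl2Block k F) := by
  intro A B h
  have h1 : Matrix.reindex finSumFinEquiv finSumFinEquiv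
      (Matrix.fromBlocks (A : Matrix (Fin 2) (Fin 2) F) (0 : Matrix (Fin 2) (Fin k) F) 0 1) =
      Matrix.reindex finSumFinEquiv finSumFinEquiv
      (Matrix.fromBlocks (B : Matrix (Fin 2) (Fin 2) F) 0 0 1) := congrArg Subtype.val h
  exact Subtype.ext (Matrix.fromBlocks_inj.mp ((Matrix.reindex _ _).injective h1)).1

/-- Transvections of `SL₂` are commutators. -/
theorem slX_slY_mem_commutator {F : Type*} [Field F] [Fintype F] (hF : 4 ≤ Fintype.card F) (a b : F) :
    slX a * slY b ∈ commutator (Matrix.SpecialLinearGroup (Fin 2) F) := by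
  classical
  obtain ⟨l, hl0, hl1, hl2⟩ : ∃ l : F, l ≠ 0 ∧ l ≠ 1 ∧ l ≠ -1 := by
    have : ((({0, 1, -1} : Finset F))).card < (Finset.univ : Finset F).card :=
      lt_of_le_of_lt Finset.card_le_three (by rw [Finset.card_univ]; omega)
    obtain ⟨l, -, hl⟩ := Finset.exists_mem_notMem_of_card_lt_card this
    simp at hl; exact ⟨l, hl.1, hl.2.1, hl.2.2⟩
  have hsq : l ^ 2 - 1 ≠ 0 := by
    rw [show l ^ 2 - 1 = (l - 1) * (l + 1) by ring]
    exact mul_ne_zero (sub_ne_zero.mpr hl1) (fun h => hl2 (eq_neg_of_add_eq_zero_left h))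
  let d : Matrix.SpecialLinearGroup (Fin 2) F := ⟨!![l, 0; 0, l⁻¹], by simp [det_fin_two, hl0]⟩
  have hd : ((d⁻¹ : Matrix.SpecialLinearGroup (Fin 2) F) : Matrix (Fin 2) (Fin 2) F) = !![l⁻¹, 0; 0, l] := by
    rw [Matrix.SpecialLinearGroup.coe_inv, adjugate_fin_two]
    ext i j; fin_cases i <;> fin_cases j <;> simp [d]
  have hx : ∀ c : F, d * slX c * d⁻¹ * (slX c)⁻¹ = slX ((l ^ 2 - 1) * c) := by
    intro c
    rw [mul_inv_eq_iff_eq_mul]
    refine Subtype.ext ?_
    simp only [Matrix.SpecialLinearGroup.coe_mul, hd]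
    ext i j; fin_cases i <;> fin_cases j <;> simp [d, slX, Matrix.mul_apply] <;> field_simp <;> ring
  have hy : ∀ c : F, d⁻¹ * slY c * d * (slY c)⁻¹ = slY ((l ^ 2 - 1) * c) := by
    intro c
    rw [mul_inv_eq_iff_eq_mul]
    refine Subtype.ext ?_
    simp only [Matrix.SpecialLinearGroup.coe_mul, hd]
    ext i j; fin_cases i <;> fin_cases j <;> simp [d, slY, Matrix.mul_apply] <;> field_simp <;> ring
  refine mul_mem ?_ ?_
  · rw [show a = (l ^ 2 - 1) * (a / (l ^ 2 - 1)) by field_simp, ← hx]
    exact Subgroup.commutator_mem_commutator (Subgroup.mem_top _) (Subgroup.mem_top _)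
  · rw [show b = (l ^ 2 - 1) * (b / (l ^ 2 - 1)) by field_simp, ← hy]
    have := Subgroup.commutator_mem_commutator (Subgroup.mem_top d⁻¹) (Subgroup.mem_top (slY (b / (l ^ 2 - 1))))
    simpa [commutatorElement_def, commutator_def] using this

/-- If a word is a law in the commutator subgroup of a group containing `SL_m(F)`, then `m` and `|F|`
are bounded. -/
theorem exists_bound_sl (w : FreeGroup ℕ) (hw : w ≠ 1) :
    ∃ N : ℕ, ∀ (F : Type) [Field F] [Fintype F] (m : ℕ), 2 ≤ m →
      ∀ (K : Type) [Group K] (φ : Matrix.SpecialLinearGroup (Fin m) F →* K), Function.Injective φ →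
        IsLaw w (commutator K) → m < N ∧ Fintype.card F < N := by
  obtain ⟨N₁, hN₁⟩ := exists_alt_lift_ne_one w hw
  obtain ⟨D, hD⟩ := exists_sl2_lift_ne_one w hw
  refine ⟨max (max N₁ 5) (D + 4), fun F _ _ m hm K _ φ hφ hlaw => ⟨?_, ?_⟩⟩
  · by_contra hc
    push Not at hc
    have h5 : 5 ≤ Nat.card (Fin m) := by simp; omega
    obtain ⟨f, hf⟩ := hN₁ m (by omega)
    have hmem : ∀ a, φ (altToSL m F (f a)) ∈ commutator K := by
      intro a
      have hf1 : f a ∈ commutator (alternatingGroup (Fin m)) := by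
        rw [commutator_alternatingGroup_eq_top h5]; exact Subgroup.mem_top _
      have := Subgroup.mem_map_of_mem (φ.comp (altToSL m F)) hf1
      rw [commutator_def, Subgroup.map_commutator] at this
      rw [commutator_def]
      exact Subgroup.commutator_mono le_top le_top this
    apply hf
    have h1 : FreeGroup.lift (fun a => φ (altToSL m F (f a))) w = 1 := by
      have := map_lift (commutator K).subtype (fun a => (⟨_, hmem a⟩ : commutator K)) w
      rw [hlaw, map_one] at this
      exact this.symm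
    apply altToSL_injective m F
    apply hφ
    rw [map_lift, map_lift, h1, map_one, map_one]
  · by_contra hc
    push Not at hc
    obtain ⟨k, rfl⟩ : ∃ k, m = 2 + k := ⟨m - 2, by omega⟩
    obtain ⟨t, -, ht⟩ := hD F Finset.univ 1 1 one_ne_zero one_ne_zero (by rw [Finset.card_univ]; omega)
    set f := fun a : ℕ => slX (1 * t ^ (a + 1)) * slY (1 * t ^ (a + 1))
    have hmem : ∀ a, φ (sl2Block k F (f a)) ∈ commutator K := by
      intro a
      have := Subgroup.mem_map_of_mem (φ.comp (sl2Block k F))
        (slX_slY_mem_commutator (F := F) (by omega) (1 * t ^ (a + 1)) (1 * t ^ (a + 1)))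
      rw [commutator_def, Subgroup.map_commutator] at this
      rw [commutator_def]
      exact Subgroup.commutator_mono le_top le_top this
    apply ht
    have h1 : FreeGroup.lift (fun a => φ (sl2Block k F (f a))) w = 1 := by
      have := map_lift (commutator K).subtype (fun a => (⟨_, hmem a⟩ : commutator K)) w
      rw [hlaw, map_one] at this
      exact this.symm
    apply sl2Block_injective k F
    apply hφ
    rw [map_lift, map_lift, h1, map_one, map_one]

end Cfsg.Agent.KnownA
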