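import Cfsg.Agent.KnownA.LawClassical

set_option autoImplicit false

/-!
# `SL_m` inside the symplectic and orthogonal groups, and laws in unitary groups
-/

namespace Cfsg.Agent.KnownA

open Matrix

/-- `A ↦ diag(A, A⁻ᵀ)`. -/
noncomputable def hypBlock (m : ℕ) (F : Type*) [Field F] :
    Matrix.SpecialLinearGroup (Fin m) F →* Matrix (Fin m ⊕ Fin m) (Fin m ⊕ Fin m) F where
  toFun A := Matrix.fromBlocks (A : Matrix (Fin m) (Fin m) F) 0 0
    ((A⁻¹ : Matrix.SpecialLinearGroup (Fin m) F) : Matrix (Fin m) (Fin m) F)ᵀ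
  map_one' := by simp
  map_mul' A B := by
    simp [Matrix.fromBlocks_multiply, Matrix.SpecialLinearGroup.coe_mul, Matrix.transpose_mul]

theorem hypBlock_injective (m : ℕ) (F : Type*) [Field F] : Function.Injective (hypBlock m F) := by
  intro A B h
  exact Subtype.ext (Matrix.fromBlocks_inj.mp h).1

theorem coe_inv_mul (m : ℕ) {F : Type*} [Field F] (A : Matrix.SpecialLinearGroup (Fin m) F) :
    ((A⁻¹ : Matrix.SpecialLinearGroup (Fin m) F) : Matrix (Fin m) (Fin m) F) *
      (A : Matrix (Fin m) (Fin m) F) = 1 := by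
  rw [← Matrix.SpecialLinearGroup.coe_mul, inv_mul_cancel, Matrix.SpecialLinearGroup.coe_one]

theorem coe_mul_inv (m : ℕ) {F : Type*} [Field F] (A : Matrix.SpecialLinearGroup (Fin m) F) :
    (A : Matrix (Fin m) (Fin m) F) *
      ((A⁻¹ : Matrix.SpecialLinearGroup (Fin m) F) : Matrix (Fin m) (Fin m) F) = 1 := by
  rw [← Matrix.SpecialLinearGroup.coe_mul, mul_inv_cancel, Matrix.SpecialLinearGroup.coe_one]

/-- `SL_m → Sp_{2m}`. -/
noncomputable def slToSp (m : ℕ) (F : Type*) [Field F] :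
    Matrix.SpecialLinearGroup (Fin m) F →* Matrix.symplecticGroup (Fin m) F :=
  (hypBlock m F).codRestrict (Matrix.symplecticGroup (Fin m) F) (fun A => by
    have h1 := coe_inv_mul m A
    have h2 := coe_mul_inv m A
    rw [SymplecticGroup.mem_iff]
    simp only [hypBlock, MonoidHom.coe_mk, OneHom.coe_mk, Matrix.J, Matrix.fromBlocks_transpose,
      Matrix.fromBlocks_multiply, Matrix.transpose_transpose]
    simp [h2, ← Matrix.transpose_mul, -Matrix.SpecialLinearGroup.coe_inv])

theorem slToSp_injective (m : ℕ) (F : Type*) [Field F] : Function.Injective (slToSp m F) :=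
  fun _ _ h => hypBlock_injective m F (congrArg Subtype.val h)

theorem hyp_sum {m : ℕ} {F : Type*} [Field F] (A : Matrix.SpecialLinearGroup (Fin m) F)
    (x y : Fin m → F) :
    ∑ i, ((A : Matrix (Fin m) (Fin m) F) *ᵥ x) i *
      (((A⁻¹ : Matrix.SpecialLinearGroup (Fin m) F) : Matrix (Fin m) (Fin m) F)ᵀ *ᵥ y) i =
      ∑ i, x i * y i := by
  show dotProduct _ _ = dotProduct _ _
  rw [Matrix.dotProduct_mulVec, Matrix.vecMul_transpose, Matrix.mulVec_mulVec, coe_inv_mul,
    Matrix.one_mulVec]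

theorem hypBlock_mulVec {m : ℕ} {F : Type*} [Field F] (A : Matrix.SpecialLinearGroup (Fin m) F)
    (v : Fin m ⊕ Fin m → F) :
    hypBlock m F A *ᵥ v = Sum.elim ((A : Matrix (Fin m) (Fin m) F) *ᵥ (v ∘ Sum.inl))
      (((A⁻¹ : Matrix.SpecialLinearGroup (Fin m) F) : Matrix (Fin m) (Fin m) F)ᵀ *ᵥ (v ∘ Sum.inr)) := by
  simp [hypBlock, Matrix.fromBlocks_mulVec]

/-- An injective hom `SL_m → GL` whose image preserves `Q`. -/
theorem exists_slToIsometry {ι : Type} [Fintype ι] [DecidableEq ι] {m : ℕ} {F : Type*} [Field F]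
    (Q : (ι → F) → F) (ψ : Matrix.SpecialLinearGroup (Fin m) F →* Matrix ι ι F)
    (hinj : Function.Injective ψ) (hQ : ∀ A v, Q (ψ A *ᵥ v) = Q v) :
    ∃ φ : Matrix.SpecialLinearGroup (Fin m) F →* Cfsg.isometryGroup F Q, Function.Injective φ := by
  refine ⟨(MonoidHom.toHomUnits ψ).codRestrict (Cfsg.isometryGroup F Q) (fun A u _ => hQ A u), ?_⟩
  intro A B h
  exact hinj (congrArg (fun z : Cfsg.isometryGroup F Q => ((z : GL ι F) : Matrix ι ι F)) h)

theorem exists_slToOrthPlus (m : ℕ) (F : Type*) [Field F] :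
    ∃ φ : Matrix.SpecialLinearGroup (Fin m) F →* Cfsg.isometryGroup F (Cfsg.quadFormPlus m F),
      Function.Injective φ := by
  refine exists_slToIsometry _ (hypBlock m F) (hypBlock_injective m F) fun A v => ?_
  simp only [Cfsg.quadFormPlus, hypBlock_mulVec, Sum.elim_inl, Sum.elim_inr]
  exact hyp_sum A _ _

theorem exists_slToOrthOdd (m : ℕ) (F : Type*) [Field F] :
    ∃ φ : Matrix.SpecialLinearGroup (Fin m) F →* Cfsg.isometryGroup F (Cfsg.quadFormOdd m F),
      Function.Injective φ := by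
  let ψ : Matrix.SpecialLinearGroup (Fin m) F →* Matrix (Unit ⊕ (Fin m ⊕ Fin m)) (Unit ⊕ (Fin m ⊕ Fin m)) F :=
    { toFun := fun A => Matrix.fromBlocks 1 0 0 (hypBlock m F A)
      map_one' := by simp
      map_mul' := fun A B => by simp [Matrix.fromBlocks_multiply] }
  refine exists_slToIsometry _ ψ (fun A B h => hypBlock_injective m F (Matrix.fromBlocks_inj.mp h).2.2.2)
    fun A v => ?_
  simp only [ψ, MonoidHom.coe_mk, OneHom.coe_mk, Cfsg.quadFormOdd, Matrix.fromBlocks_mulVec,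
    hypBlock_mulVec, Sum.elim_inl, Sum.elim_inr, Matrix.one_mulVec, Matrix.zero_mulVec, add_zero,
    zero_add, Function.comp_apply]
  congr 1
  exact hyp_sum A _ _

theorem exists_slToOrthMinus (m : ℕ) (F : Type*) [Field F] (a b : F) :
    ∃ φ : Matrix.SpecialLinearGroup (Fin m) F →* Cfsg.isometryGroup F (Cfsg.quadFormMinus m F a b),
      Function.Injective φ := by
  let ψ : Matrix.SpecialLinearGroup (Fin m) F →* Matrix ((Fin m ⊕ Fin m) ⊕ Fin 2) ((Fin m ⊕ Fin m) ⊕ Fin 2) F :=
    { toFun := fun A => Matrix.fromBlocks (hypBlock m F A) 0 0 1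
      map_one' := by simp
      map_mul' := fun A B => by simp [Matrix.fromBlocks_multiply] }
  refine exists_slToIsometry _ ψ (fun A B h => hypBlock_injective m F (Matrix.fromBlocks_inj.mp h).1)
    fun A v => ?_
  simp only [ψ, MonoidHom.coe_mk, OneHom.coe_mk, Cfsg.quadFormMinus, Matrix.fromBlocks_mulVec,
    hypBlock_mulVec, Sum.elim_inl, Sum.elim_inr, Matrix.one_mulVec, Matrix.zero_mulVec, add_zero,
    zero_add, Function.comp_apply]
  congr 1
  exact hyp_sum A _ _

end Cfsg.Agent.KnownA
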