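import Cfsg.Agent.KnownA.LawAlt

set_option autoImplicit false

/-!
# Ping-pong by degrees in matrix groups over a polynomial ring

`U` and `L` are two additive one-parameter families of matrices over `K[X]`, with corner entries
`(i, j)` and `(j, i)` that dominate all the other entries.  Then the elements `U(X^(a+1)) * L(X^(a+1))`
generate a free group, and a word stays nontrivial after evaluating at all but boundedly many points.
-/

namespace Cfsg.Agent.KnownA

open Polynomial Matrix

variable {K : Type*} [Field K] {ι : Type*} [Fintype ι] [DecidableEq ι]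

/-- The `(i, j)` entry dominates all other entries. -/
def Dominant (M : Matrix ι ι K[X]) (i j : ι) : Prop :=
  1 ≤ (M i j).degree ∧ ∀ a b, (a, b) ≠ (i, j) → (M a b).degree < (M i j).degree

/-- The coordinate `i` dominates all other coordinates. -/
def Peak (v : ι → K[X]) (i : ι) : Prop :=
  0 ≤ (v i).degree ∧ ∀ a, a ≠ i → (v a).degree < (v i).degree

theorem Dominant.step {M : Matrix ι ι K[X]} {i j : ι} {v : ι → K[X]} (hM : Dominant M i j)
    (hv : Peak v j) : Peak (M *ᵥ v) i ∧ 1 ≤ ((M *ᵥ v) i).degree := by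
  classical
  have hlt : ∀ a b, (a, b) ≠ (i, j) → (M a b * v b).degree < (M i j * v j).degree := by
    intro a b hab
    rw [degree_mul, degree_mul]
    have hMne : M i j ≠ 0 := fun h => by simpa [h] using hM.1
    have hvne : v j ≠ 0 := fun h => by simpa [h] using hv.1
    by_cases hb : b = j
    · subst hb
      have := hM.2 a b hab
      rw [degree_eq_natDegree hvne, degree_eq_natDegree hMne] at *
      by_cases h0 : M a b = 0
      · rw [h0]; simp [← Nat.cast_add]
      rw [degree_eq_natDegree h0] at *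
      norm_cast at this ⊢
      omega
    · have h1 := hM.2 a b hab
      have h2 := hv.2 b hb
      rw [degree_eq_natDegree hvne, degree_eq_natDegree hMne] at *
      by_cases h0 : M a b = 0
      · rw [h0]; simp [← Nat.cast_add]
      by_cases h0' : v b = 0
      · rw [h0']; simp [← Nat.cast_add]
      rw [degree_eq_natDegree h0] at *
      rw [degree_eq_natDegree h0'] at *
      norm_cast at h1 h2 ⊢
      omega
  have hmain : (M i j * v j).degree ≠ ⊥ := by
    rw [Ne, degree_eq_bot]
    exact mul_ne_zero (fun h => by simpa [h] using hM.1) (fun h => by simpa [h] using hv.1)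
  have hpos : 1 ≤ (M i j * v j).degree := by
    rw [degree_mul]
    exact le_add_of_le_of_nonneg hM.1 hv.1
  have hsum : ((M *ᵥ v) i).degree = (M i j * v j).degree := by
    simp only [mulVec, dotProduct]
    rw [← Finset.add_sum_erase _ _ (Finset.mem_univ j)]
    apply degree_add_eq_left_of_degree_lt
    refine (degree_sum_le _ _).trans_lt ?_
    rw [Finset.sup_lt_iff (bot_lt_iff_ne_bot.mpr hmain)]
    intro b hb
    exact hlt i b (by simp [(Finset.mem_erase.mp hb).1])
  refine ⟨⟨?_, fun a ha => ?_⟩, by rw [hsum]; exact hpos⟩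
  · rw [hsum]; exact le_trans zero_le_one hpos
  · rw [hsum]
    simp only [mulVec, dotProduct]
    refine (degree_sum_le _ _).trans_lt ?_
    rw [Finset.sup_lt_iff (bot_lt_iff_ne_bot.mpr hmain)]
    intro b _
    exact hlt a b (by simp [ha])

/-- Data for ping-pong. -/
structure PingPong (K : Type*) [Field K] (ι : Type*) [Fintype ι] [DecidableEq ι] where
  U : K[X] → Matrix ι ι K[X]
  L : K[X] → Matrix ι ι K[X]
  top : ι
  bot : ι
  C : ℕ
  U_add : ∀ f g, U (f + g) = U f * U g
  L_add : ∀ f g, L (f + g) = L f * L g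
  U_zero : U 0 = 1
  L_zero : L 0 = 1
  U_dom : ∀ f, 1 ≤ f.degree → Dominant (U f) top bot
  L_dom : ∀ f, 1 ≤ f.degree → Dominant (L f) bot top
  U_deg : ∀ f a b, (U f a b).natDegree ≤ C * f.natDegree
  L_deg : ∀ f a b, (L f a b).natDegree ≤ C * f.natDegree

namespace PingPong

variable (P : PingPong K ι)

noncomputable def uUnit (f : K[X]) : (Matrix ι ι K[X])ˣ where
  val := P.U f
  inv := P.U (-f)
  val_inv := by rw [← P.U_add, add_neg_cancel, P.U_zero]
  inv_val := by rw [← P.U_add, neg_add_cancel, P.U_zero]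

noncomputable def lUnit (f : K[X]) : (Matrix ι ι K[X])ˣ where
  val := P.L f
  inv := P.L (-f)
  val_inv := by rw [← P.L_add, add_neg_cancel, P.L_zero]
  inv_val := by rw [← P.L_add, neg_add_cancel, P.L_zero]

/-- The free generators. -/
noncomputable def gen (a : ℕ) : (Matrix ι ι K[X])ˣ := P.uUnit (X ^ (a + 1)) * P.lUnit (X ^ (a + 1))

/-- A letter as a matrix. -/
noncomputable def letter (z : ℕ × Bool) : Matrix ι ι K[X] :=
  cond z.2 (P.U (X ^ (z.1 + 1)) * P.L (X ^ (z.1 + 1))) (P.L (-X ^ (z.1 + 1)) * P.U (-X ^ (z.1 + 1)))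

theorem coe_cond (z : ℕ × Bool) :
    ((cond z.2 (P.gen z.1) (P.gen z.1)⁻¹ : (Matrix ι ι K[X])ˣ) : Matrix ι ι K[X]) = P.letter z := by
  obtain ⟨a, b⟩ := z
  cases b <;> simp [gen, letter, uUnit, lUnit, Units.inv_mk]

theorem deg_one_le (a : ℕ) : 1 ≤ ((X : K[X]) ^ (a + 1)).degree := by
  rw [degree_X_pow]; exact_mod_cast Nat.le_add_left 1 a

theorem deg_one_le_neg (a : ℕ) : 1 ≤ (-(X : K[X]) ^ (a + 1)).degree := by
  rw [degree_neg]; exact deg_one_le a

theorem deg_one_le_sub {a b : ℕ} (h : a ≠ b) :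
    1 ≤ ((X : K[X]) ^ (a + 1) + -X ^ (b + 1)).degree := by
  rcases Nat.lt_or_gt_of_ne h with h | h
  · rw [degree_add_eq_right_of_degree_lt (by simp only [degree_neg, degree_X_pow]; norm_cast; omega)]
    exact deg_one_le_neg b
  · rw [degree_add_eq_left_of_degree_lt (by simp only [degree_neg, degree_X_pow]; norm_cast; omega)]
    exact deg_one_le a

theorem exists_peak : ∀ (W : List (ℕ × Bool)) (a : ℕ) (b : Bool),
    FreeGroup.IsReduced ((a, b) :: W) →
    ∃ (j : ι) (u : ι → K[X]), Peak u (cond b P.bot P.top) ∧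
      ((((a, b) :: W).map P.letter).prod *ᵥ Pi.single j 1) =
        (cond b (P.U (X ^ (a + 1))) (P.L (-X ^ (a + 1)))) *ᵥ u := by
  intro W
  induction W with
  | nil =>
    intro a b _
    have hp : ∀ i : ι, Peak (Pi.single i (1 : K[X])) i := fun i =>
      ⟨by simp, fun c hc => by simp [hc]⟩
    cases b
    · refine ⟨P.bot, P.U (-X ^ (a + 1)) *ᵥ Pi.single P.bot 1,
        ((P.U_dom _ (deg_one_le_neg a)).step (hp _)).1, ?_⟩
      simp only [List.map_cons, List.map_nil, List.prod_cons, List.prod_nil, mul_one, letter,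
        cond_true, cond_false, Matrix.mulVec_mulVec]
    · refine ⟨P.top, P.L (X ^ (a + 1)) *ᵥ Pi.single P.top 1,
        ((P.L_dom _ (deg_one_le a)).step (hp _)).1, ?_⟩
      simp only [List.map_cons, List.map_nil, List.prod_cons, List.prod_nil, mul_one, letter,
        cond_true, cond_false, Matrix.mulVec_mulVec]
  | cons z W ih =>
    intro a b h
    obtain ⟨a', b'⟩ := z
    rw [FreeGroup.isReduced_cons_cons] at h
    obtain ⟨j, u, hu, he⟩ := ih a' b' h.2
    have hrec : ((((a, b) :: (a', b') :: W).map P.letter).prod *ᵥ Pi.single j 1) =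
        P.letter (a, b) *ᵥ ((((a', b') :: W).map P.letter).prod *ᵥ Pi.single j 1) := by
      rw [Matrix.mulVec_mulVec]; rfl
    cases b <;> cases b'
    · -- L(-f) U(-f) L(-g) u
      have hu' := ((P.L_dom _ (deg_one_le_neg a')).step hu).1
      refine ⟨j, P.U (-X ^ (a + 1)) *ᵥ (P.L (-X ^ (a' + 1)) *ᵥ u),
        ((P.U_dom _ (deg_one_le_neg a)).step hu').1, ?_⟩
      rw [hrec, he]
      simp [letter, Matrix.mulVec_mulVec, Matrix.mul_assoc]
    · have hne : a' ≠ a := fun e => by simpa using h.1 e.symm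
      refine ⟨j, P.U (X ^ (a' + 1) + -X ^ (a + 1)) *ᵥ u,
        ((P.U_dom _ (deg_one_le_sub hne)).step hu).1, ?_⟩
      rw [hrec, he, add_comm (X ^ (a' + 1) : K[X]) (-X ^ (a + 1)), P.U_add]
      simp [letter, Matrix.mulVec_mulVec, Matrix.mul_assoc]
    · have hne : a ≠ a' := fun e => by simpa using h.1 e
      refine ⟨j, P.L (X ^ (a + 1) + -X ^ (a' + 1)) *ᵥ u,
        ((P.L_dom _ (deg_one_le_sub hne)).step hu).1, ?_⟩
      rw [hrec, he, P.L_add]
      simp [letter, Matrix.mulVec_mulVec, Matrix.mul_assoc]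
    · have hu' := ((P.U_dom _ (deg_one_le a')).step hu).1
      refine ⟨j, P.L (X ^ (a + 1)) *ᵥ (P.U (X ^ (a' + 1)) *ᵥ u),
        ((P.L_dom _ (deg_one_le a)).step hu').1, ?_⟩
      rw [hrec, he]
      simp [letter, Matrix.mulVec_mulVec, Matrix.mul_assoc]

omit [Fintype ι] [DecidableEq ι] in
theorem natDegree_mul_le {M N : Matrix ι ι K[X]} [Fintype ι] {m n : ℕ} (hM : ∀ a b, (M a b).natDegree ≤ m)
    (hN : ∀ a b, (N a b).natDegree ≤ n) (a b : ι) : ((M * N) a b).natDegree ≤ m + n := by
  rw [Matrix.mul_apply]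
  exact natDegree_sum_le_of_forall_le _ _ fun c _ =>
    Polynomial.natDegree_mul_le.trans (Nat.add_le_add (hM a c) (hN c b))

/-- Bound for the degree of the word `W`. -/
def wordBound (W : List (ℕ × Bool)) : ℕ := (W.map fun z => 2 * (z.1 + 1)).sum

theorem natDegree_prod_le : ∀ (W : List (ℕ × Bool)) (a b : ι),
    ((W.map P.letter).prod a b).natDegree ≤ P.C * wordBound W := by
  intro W
  induction W with
  | nil =>
    intro a b
    simp only [List.map_nil, List.prod_nil, Matrix.one_apply]
    split <;> simp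
  | cons z W ih =>
    intro a b
    have hb : wordBound (z :: W) = 2 * (z.1 + 1) + wordBound W := by simp [wordBound]
    rw [hb, Nat.mul_add, List.map_cons, List.prod_cons]
    refine natDegree_mul_le (m := P.C * (2 * (z.1 + 1))) ?_ ih a b
    intro c d
    have hsplit : P.C * (2 * (z.1 + 1)) = P.C * (z.1 + 1) + P.C * (z.1 + 1) := by ring
    rw [hsplit]
    obtain ⟨a', b'⟩ := z
    cases b' <;> simp only [letter, cond_true, cond_false] <;> refine natDegree_mul_le ?_ ?_ c d <;>
      intro e g
    · simpa using P.L_deg (-X ^ (a' + 1)) e g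
    · simpa using P.U_deg (-X ^ (a' + 1)) e g
    · simpa using P.U_deg (X ^ (a' + 1)) e g
    · simpa using P.L_deg (X ^ (a' + 1)) e g

theorem coe_lift (w : FreeGroup ℕ) :
    ((FreeGroup.lift P.gen w : (Matrix ι ι K[X])ˣ) : Matrix ι ι K[X]) = (w.toWord.map P.letter).prod := by
  conv_lhs => rw [← FreeGroup.mk_toWord (x := w), FreeGroup.lift_mk]
  rw [← Units.coeHom_apply, map_list_prod, List.map_map]
  congr 1
  exact List.map_congr_left fun z _ => P.coe_cond z

/-- Evaluation of the generators at `t`. -/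
noncomputable def evalGen (t : K) (a : ℕ) : (Matrix ι ι K)ˣ :=
  Units.map ((evalRingHom t).mapMatrix : Matrix ι ι K[X] →+* Matrix ι ι K).toMonoidHom (P.gen a)

theorem coe_evalGen (t : K) (a : ℕ) : ((P.evalGen t a : (Matrix ι ι K)ˣ) : Matrix ι ι K) =
    (P.U (X ^ (a + 1))).map (eval t) * (P.L (X ^ (a + 1))).map (eval t) := by
  have h : ∀ M : Matrix ι ι K[X], M.map (eval t) = (evalRingHom t).mapMatrix M := fun M => rfl
  rw [h, h, ← map_mul]
  rfl

theorem exists_eval_ne_one (w : FreeGroup ℕ) (hw : w ≠ 1) (S : Finset K)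
    (hS : P.C * wordBound w.toWord < S.card) :
    ∃ t ∈ S, FreeGroup.lift (P.evalGen t) w ≠ 1 := by
  classical
  have hne : w.toWord ≠ [] := fun h => hw (FreeGroup.toWord_eq_nil_iff.mp h)
  obtain ⟨⟨a, b⟩, W, hW⟩ := List.exists_cons_of_ne_nil hne
  obtain ⟨j, u, hu, he⟩ := P.exists_peak W a b (hW ▸ FreeGroup.isReduced_toWord)
  have hdom : Dominant (cond b (P.U (X ^ (a + 1))) (P.L (-X ^ (a + 1)))) (cond b P.top P.bot)
      (cond b P.bot P.top) := by
    cases b
    · exact P.L_dom _ (deg_one_le_neg a)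
    · exact P.U_dom _ (deg_one_le a)
  have hpk := (hdom.step hu).2
  rw [← he, ← hW, Matrix.mulVec_single_one, Matrix.col_apply] at hpk
  set i := cond b P.top P.bot
  set q : K[X] := (w.toWord.map P.letter).prod i j - (1 : Matrix ι ι K[X]) i j with hq
  have h01 : (((1 : Matrix ι ι K[X]) i j)).degree < ((w.toWord.map P.letter).prod i j).degree := by
    refine lt_of_le_of_lt ?_ (lt_of_lt_of_le (by decide : (0 : WithBot ℕ) < 1) hpk)
    rw [Matrix.one_apply]; split <;> simp
  have hqd : q.degree = ((w.toWord.map P.letter).prod i j).degree := by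
    rw [hq]; exact degree_sub_eq_left_of_degree_lt h01
  have hq0 : q ≠ 0 := fun h => by
    rw [h, degree_zero] at hqd
    rw [← hqd] at hpk
    simp at hpk
  have hqn : q.natDegree ≤ P.C * wordBound w.toWord := by
    rw [natDegree_eq_of_degree_eq hqd]
    exact P.natDegree_prod_le _ i j
  have : ∃ t ∈ S, ¬ q.IsRoot t := by
    by_contra hc
    push Not at hc
    have hsub : S ⊆ q.roots.toFinset := fun t ht => by
      rw [Multiset.mem_toFinset, mem_roots hq0]; exact hc t ht
    have := (Finset.card_le_card hsub).trans q.roots.toFinset_card_le |>.trans q.card_roots'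
    omega
  obtain ⟨t, ht, hroot⟩ := this
  refine ⟨t, ht, fun h1 => hroot ?_⟩
  let φ := ((evalRingHom t).mapMatrix : Matrix ι ι K[X] →+* Matrix ι ι K)
  have h2 : FreeGroup.lift (P.evalGen t) w = Units.map φ.toMonoidHom (FreeGroup.lift P.gen w) :=
    (map_lift (Units.map φ.toMonoidHom) P.gen w).symm
  rw [h2] at h1
  have h3 : φ (w.toWord.map P.letter).prod = 1 := by
    rw [← P.coe_lift]
    exact congrArg Units.val h1
  have h4 := congrFun (congrFun h3 i) j
  have h4' : eval t ((w.toWord.map P.letter).prod i j) = (1 : Matrix ι ι K) i j := h4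
  rw [IsRoot, hq, eval_sub, h4', Matrix.one_apply, Matrix.one_apply]
  split <;> simp

end PingPong

end Cfsg.Agent.KnownA
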