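import Cfsg.Agent.KnownA.LawPingPong

set_option autoImplicit false

/-!
# A nontrivial word is not a law in `SL₂` over a large set of parameters
-/

namespace Cfsg.Agent.KnownA

open Polynomial Matrix

variable (K : Type*) [Field K]

/-- Upper and lower unipotent matrices scaled by nonzero constants. -/
noncomputable def slPingPong (α β : K) (hα : α ≠ 0) (hβ : β ≠ 0) : PingPong K (Fin 2) where
  U f := !![1, C α * f; 0, 1]
  L f := !![1, 0; C β * f, 1]
  top := 0
  bot := 1
  C := 1
  U_add f g := by
    ext i j; fin_cases i <;> fin_cases j <;> simp [Matrix.mul_apply, mul_add, add_comm]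
  L_add f g := by
    ext i j; fin_cases i <;> fin_cases j <;> simp [Matrix.mul_apply, mul_add, add_comm]
  U_zero := by simp [Matrix.one_fin_two]
  L_zero := by simp [Matrix.one_fin_two]
  U_dom f hf := by
    have h0 : (0 : WithBot ℕ) < f.degree := lt_of_lt_of_le (by decide) hf
    refine ⟨by simpa [degree_C hα] using hf, fun a b hab => ?_⟩
    fin_cases a <;> fin_cases b <;> simp [degree_C hα] at hab ⊢ <;>
      first | exact h0 | exact lt_of_le_of_lt bot_le h0
  L_dom f hf := by
    have h0 : (0 : WithBot ℕ) < f.degree := lt_of_lt_of_le (by decide) hf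
    refine ⟨by simpa [degree_C hβ] using hf, fun a b hab => ?_⟩
    fin_cases a <;> fin_cases b <;> simp [degree_C hβ] at hab ⊢ <;>
      first | exact h0 | exact lt_of_le_of_lt bot_le h0
  U_deg f a b := by
    fin_cases a <;> fin_cases b <;> simp [natDegree_C_mul hα]
  L_deg f a b := by
    fin_cases a <;> fin_cases b <;> simp [natDegree_C_mul hβ]

variable {K}

/-- The upper unipotent element of `SL₂`. -/
def slX (a : K) : Matrix.SpecialLinearGroup (Fin 2) K := ⟨!![1, a; 0, 1], by simp [det_fin_two]⟩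

/-- The lower unipotent element of `SL₂`. -/
def slY (a : K) : Matrix.SpecialLinearGroup (Fin 2) K := ⟨!![1, 0; a, 1], by simp [det_fin_two]⟩

/-- For a nontrivial word there is a bound `D` such that any more than `D` parameters `r` contain one
for which the generators `x(α r^k) y(β r^k)` violate the word. -/
theorem exists_sl2_lift_ne_one (w : FreeGroup ℕ) (hw : w ≠ 1) :
    ∃ D : ℕ, ∀ (K : Type*) [Field K] (S : Finset K) (α β : K), α ≠ 0 → β ≠ 0 → D < S.card →
      ∃ t ∈ S, FreeGroup.lift (fun a => slX (α * t ^ (a + 1)) * slY (β * t ^ (a + 1))) w ≠ 1 := by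
  refine ⟨PingPong.wordBound w.toWord, fun K _ S α β hα hβ hS => ?_⟩
  obtain ⟨t, ht, hne⟩ := (slPingPong K α β hα hβ).exists_eval_ne_one w hw S
    (by simpa [slPingPong] using hS)
  refine ⟨t, ht, fun h => hne ?_⟩
  let toU : Matrix.SpecialLinearGroup (Fin 2) K →* (Matrix (Fin 2) (Fin 2) K)ˣ :=
    Matrix.SpecialLinearGroup.toGL
  have hgen : (slPingPong K α β hα hβ).evalGen t =
      fun a => toU (slX (α * t ^ (a + 1)) * slY (β * t ^ (a + 1))) := by
    funext a
    refine Units.ext ?_
    rw [PingPong.coe_evalGen]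
    show _ = ((slX (α * t ^ (a + 1)) * slY (β * t ^ (a + 1)) :
      Matrix.SpecialLinearGroup (Fin 2) K) : Matrix (Fin 2) (Fin 2) K)
    rw [Matrix.SpecialLinearGroup.coe_mul]
    congr 1
    · ext i j; fin_cases i <;> fin_cases j <;> simp [slPingPong, slX]
    · ext i j; fin_cases i <;> fin_cases j <;> simp [slPingPong, slY]
  rw [hgen, ← map_lift toU, h, map_one]

/-- A law in `PSL₂` over a finite field bounds the field. -/
theorem exists_bound_law_psl2 (w : FreeGroup ℕ) (hw : w ≠ 1) :
    ∃ N : ℕ, ∀ (F : Type*) [Field F] [Fintype F], N ≤ Fintype.card F →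
      ∃ f : ℕ → Matrix.ProjectiveSpecialLinearGroup (Fin 2) F, FreeGroup.lift f w ≠ 1 := by
  obtain ⟨D, hD⟩ := exists_sl2_lift_ne_one (commWord w) (commWord_ne_one w hw)
  refine ⟨D + 1, fun F _ _ hF => ?_⟩
  by_contra hc
  push Not at hc
  have hlaw : IsLaw (commWord w) (Matrix.SpecialLinearGroup (Fin 2) F) :=
    IsLaw.commWord_quotient hc
  obtain ⟨t, -, ht⟩ := hD F Finset.univ 1 1 one_ne_zero one_ne_zero (by rw [Finset.card_univ]; omega)
  exact ht (hlaw _)

end Cfsg.Agent.KnownA
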