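import Cfsg.Agent.KnownA.LawPingPong
import Cfsg.Prelude.Def_Sz

set_option autoImplicit false

/-!
# A nontrivial word is not a law in large Suzuki groups
-/

namespace Cfsg.Agent.KnownA

open Polynomial Matrix

/-- Central root element of the lower unitriangular Sylow 2-subgroup. -/
def szLow {R : Type*} [CommRing R] (θ : ℕ) (b : R) : Matrix (Fin 4) (Fin 4) R :=
  !![1, 0, 0, 0; 0, 1, 0, 0; b, 0, 1, 0; b ^ θ, b, 0, 1]

/-- Central root element of the upper unitriangular Sylow 2-subgroup. -/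
def szUp {R : Type*} [CommRing R] (θ : ℕ) (b : R) : Matrix (Fin 4) (Fin 4) R :=
  !![1, 0, b, b ^ θ; 0, 1, 0, b; 0, 0, 1, 0; 0, 0, 0, 1]

theorem szLow_add {R : Type*} [CommRing R] [CharP R 2] (k : ℕ) (b c : R) :
    szLow (2 ^ k) (b + c) = szLow (2 ^ k) b * szLow (2 ^ k) c := by
  haveI : ExpChar R 2 := ExpChar.prime Nat.prime_two
  ext i j; fin_cases i <;> fin_cases j <;>
    simp [szLow, Matrix.mul_apply, Fin.sum_univ_four, add_pow_expChar_pow, add_comm]

theorem szUp_add {R : Type*} [CommRing R] [CharP R 2] (k : ℕ) (b c : R) :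
    szUp (2 ^ k) (b + c) = szUp (2 ^ k) b * szUp (2 ^ k) c := by
  haveI : ExpChar R 2 := ExpChar.prime Nat.prime_two
  ext i j; fin_cases i <;> fin_cases j <;>
    simp [szUp, Matrix.mul_apply, Fin.sum_univ_four, add_pow_expChar_pow, add_comm]

variable (K : Type*) [Field K] [CharP K 2]

/-- Ping-pong data for `θ = 2 ^ k`, `k ≥ 1`. -/
noncomputable def szPingPong (k : ℕ) (hk : 1 ≤ k) : PingPong K (Fin 4) where
  U := szUp (2 ^ k)
  L := szLow (2 ^ k)
  top := 0
  bot := 3
  C := 2 ^ k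
  U_add := szUp_add k
  L_add := szLow_add k
  U_zero := by
    ext i j; fin_cases i <;> fin_cases j <;> simp [szUp]
  L_zero := by
    ext i j; fin_cases i <;> fin_cases j <;> simp [szLow]
  U_dom f hf := by
    have hf0 : f ≠ 0 := fun h => by simp [h] at hf
    have h2 : 2 ≤ 2 ^ k := by
      calc 2 = 2 ^ 1 := rfl
        _ ≤ 2 ^ k := Nat.pow_le_pow_right (by omega) hk
    have hn : 1 ≤ f.natDegree := by
      rw [degree_eq_natDegree hf0] at hf; exact_mod_cast hf
    have h1 : (1 : WithBot ℕ) ≤ (f ^ (2 ^ k)).degree := by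
      rw [degree_eq_natDegree (pow_ne_zero _ hf0), natDegree_pow]
      exact_mod_cast Nat.one_le_iff_ne_zero.mpr (Nat.mul_ne_zero (by omega) (by omega))
    have hlt : f.degree < (f ^ (2 ^ k)).degree := by
      rw [degree_eq_natDegree hf0, degree_eq_natDegree (pow_ne_zero _ hf0), natDegree_pow]
      norm_cast; nlinarith
    refine ⟨by simpa [szUp, -Polynomial.degree_pow] using h1, fun a b hab => ?_⟩
    have h0 : (0 : WithBot ℕ) < (f ^ (2 ^ k)).degree := lt_of_lt_of_le (by decide) h1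
    fin_cases a <;> fin_cases b <;> simp [szUp, -Polynomial.degree_pow] at hab ⊢ <;>
      first
      | exact hlt | exact h0 | exact lt_of_le_of_lt bot_le h0 
  L_dom f hf := by
    have hf0 : f ≠ 0 := fun h => by simp [h] at hf
    have h2 : 2 ≤ 2 ^ k := by
      calc 2 = 2 ^ 1 := rfl
        _ ≤ 2 ^ k := Nat.pow_le_pow_right (by omega) hk
    have hn : 1 ≤ f.natDegree := by
      rw [degree_eq_natDegree hf0] at hf; exact_mod_cast hf
    have h1 : (1 : WithBot ℕ) ≤ (f ^ (2 ^ k)).degree := by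
      rw [degree_eq_natDegree (pow_ne_zero _ hf0), natDegree_pow]
      exact_mod_cast Nat.one_le_iff_ne_zero.mpr (Nat.mul_ne_zero (by omega) (by omega))
    have hlt : f.degree < (f ^ (2 ^ k)).degree := by
      rw [degree_eq_natDegree hf0, degree_eq_natDegree (pow_ne_zero _ hf0), natDegree_pow]
      norm_cast; nlinarith
    refine ⟨by simpa [szLow, -Polynomial.degree_pow] using h1, fun a b hab => ?_⟩
    have h0 : (0 : WithBot ℕ) < (f ^ (2 ^ k)).degree := lt_of_lt_of_le (by decide) h1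
    fin_cases a <;> fin_cases b <;> simp [szLow, -Polynomial.degree_pow] at hab ⊢ <;>
      first
      | exact hlt | exact h0 | exact lt_of_le_of_lt bot_le h0 
  U_deg f a b := by
    have h : f.natDegree ≤ 2 ^ k * f.natDegree := Nat.le_mul_of_pos_left _ (by positivity)
    fin_cases a <;> fin_cases b <;> simp [szUp, natDegree_pow, h]
  L_deg f a b := by
    have h : f.natDegree ≤ 2 ^ k * f.natDegree := Nat.le_mul_of_pos_left _ (by positivity)
    fin_cases a <;> fin_cases b <;> simp [szLow, natDegree_pow, h]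

/-- The root elements lie in the Suzuki group. -/
theorem sz_root_mem {F : Type*} [Field F] [Fintype F] [CharP F 2] (m : ℕ)
    (hF : Fintype.card F = 2 ^ (2 * m + 1)) (b : F) (g : GL (Fin 4) F)
    (hg : (g : Matrix (Fin 4) (Fin 4) F) = szLow (2 ^ (m + 1)) b ∨
      (g : Matrix (Fin 4) (Fin 4) F) = szUp (2 ^ (m + 1)) b) :
    g ∈ Cfsg.Lie.Sz F (2 ^ (m + 1)) := by
  have hq : (b ^ 2 ^ (m + 1)) ^ 2 ^ (m + 1) = b * b := by
    rw [← pow_mul, ← pow_add, show (m + 1) + (m + 1) = (2 * m + 1) + 1 by omega, pow_succ, pow_mul,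
      ← hF, FiniteField.pow_card, pow_two]
  have h0 : (0 : F) ^ 2 ^ (m + 1) = 0 := zero_pow (by positivity)
  have h2 : ∀ x : F, x + x = 0 := CharTwo.add_self_eq_zero
  have hn : ∀ x : F, -x = x := CharTwo.neg_eq
  apply Subgroup.subset_closure
  refine ⟨fun u v => ?_, ?_⟩
  · simp only [Units.coeHom_apply]
    rcases hg with hg | hg <;> rw [hg]
    · simp [szLow, Cfsg.Lie.altForm4, dotProduct, Matrix.mulVec, Fin.sum_univ_four]
      linear_combination (norm := ring_nf)
        (b * u 0 * v 1 + b * u 1 * v 0 + b ^ 2 ^ (m + 1) * u 0 * v 0) * h2 1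
    · simp [szUp, Cfsg.Lie.altForm4, dotProduct, Matrix.mulVec, Fin.sum_univ_four]
      linear_combination (norm := ring_nf)
        (b * u 2 * v 3 + b * u 3 * v 2 + b ^ 2 ^ (m + 1) * u 3 * v 3) * h2 1
  · rcases hg with hg | hg <;> rw [hg] <;> ext i j <;> fin_cases i <;> fin_cases j <;>
      simp [szLow, szUp, Cfsg.Lie.star4, Cfsg.Lie.pairOf, hq, h0, hn, pow_two] <;> ring_nf

/-- A law in `Sz(2^(2m+1))` bounds `m`. -/
theorem exists_bound_law_sz (w : FreeGroup ℕ) (hw : w ≠ 1) :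
    ∃ N : ℕ, ∀ (F : Type*) [Field F] [Fintype F] (m : ℕ), 1 ≤ m → N ≤ m →
      Fintype.card F = 2 ^ (2 * m + 1) →
      ∃ f : ℕ → ↥(Cfsg.Lie.Sz F (2 ^ (m + 1))), FreeGroup.lift f w ≠ 1 := by
  refine ⟨PingPong.wordBound w.toWord + 1, fun F _ _ m hm hN hF => ?_⟩
  haveI : CharP F 2 := by
    haveI := Fact.mk Nat.prime_two
    exact charP_of_card_eq_prime_pow hF
  set B := PingPong.wordBound w.toWord
  have hlt : 2 ^ (m + 1) * B < Fintype.card F := by
    rw [hF]
    calc 2 ^ (m + 1) * B < 2 ^ (m + 1) * 2 ^ m :=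
          Nat.mul_lt_mul_of_pos_left (lt_trans (Nat.lt_two_pow_self) (Nat.pow_lt_pow_right (by omega) (by omega))) (by positivity)
      _ = 2 ^ (2 * m + 1) := by rw [← pow_add]; congr 1; omega
  obtain ⟨t, -, ht⟩ := (szPingPong F (m + 1) (by omega)).exists_eval_ne_one w hw Finset.univ
    (by simpa [szPingPong, Finset.card_univ] using hlt)
  let mkU : (M : F → Matrix (Fin 4) (Fin 4) F) → (∀ x y, M (x + y) = M x * M y) → M 0 = 1 → F →
      GL (Fin 4) F := fun M hadd h0 x =>
    ⟨M x, M (-x), by rw [← hadd, add_neg_cancel, h0], by rw [← hadd, neg_add_cancel, h0]⟩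
  have hu0 : szUp (2 ^ (m + 1)) (0 : F) = 1 := by
    ext i j; fin_cases i <;> fin_cases j <;> simp [szUp]
  have hl0 : szLow (2 ^ (m + 1)) (0 : F) = 1 := by
    ext i j; fin_cases i <;> fin_cases j <;> simp [szLow]
  let u := mkU _ (szUp_add (R := F) (m + 1)) hu0
  let l := mkU _ (szLow_add (R := F) (m + 1)) hl0
  let c : ℕ → Cfsg.Lie.Sz F (2 ^ (m + 1)) := fun a =>
    ⟨u (t ^ (a + 1)) * l (t ^ (a + 1)), mul_mem
      (sz_root_mem m hF (t ^ (a + 1)) _ (Or.inr rfl)) (sz_root_mem m hF (t ^ (a + 1)) _ (Or.inl rfl))⟩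
  refine ⟨c, fun h => ht ?_⟩
  have hgen : (szPingPong F (m + 1) (by omega)).evalGen t =
      fun a => (Cfsg.Lie.Sz F (2 ^ (m + 1))).subtype (c a) := by
    funext a
    refine Units.ext ?_
    rw [PingPong.coe_evalGen]
    show _ = szUp (2 ^ (m + 1)) (t ^ (a + 1)) * szLow (2 ^ (m + 1)) (t ^ (a + 1))
    congr 1
    · ext i j; fin_cases i <;> fin_cases j <;> simp [szPingPong, szUp]
    · ext i j; fin_cases i <;> fin_cases j <;> simp [szPingPong, szLow]
  rw [hgen, ← map_lift (Cfsg.Lie.Sz F (2 ^ (m + 1))).subtype, h, map_one]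

end Cfsg.Agent.KnownA
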