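import Mathlib

/-! # Arithmetic of the two-part of a factorial, for bounds on nilpotent permutation groups -/

set_option autoImplicit false

namespace Cfsg.Agent.KnownA.NilpotentPerm

/-- The exponent of two in `n!`. -/
def v (n : ℕ) : ℕ := padicValNat 2 n.factorial

/-- The two-part of `n!`. -/
def T (n : ℕ) : ℕ := 2 ^ v n

/-- Twice the ratio bound for nilpotent groups of degree `n`. -/
def u (n : ℕ) : ℕ := if n % 4 = 3 then 3 else 2

/-- `128` times the ratio bound for nilpotent groups of even permutations of degree `n`. -/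
def w (n : ℕ) : ℕ :=
  if n = 0 ∨ n = 1 then 128 else if n = 3 then 192 else if n = 5 then 80 else if n = 6 then 72
  else if n = 9 then 81 else if n % 4 = 3 then 96 else 64

/-- Guaranteed carries when adding residues modulo four. -/
def e (i j : ℕ) : ℕ :=
  if (i = 1 ∧ j = 3) ∨ (i = 3 ∧ j = 1) ∨ (i = 3 ∧ j = 3) then 2
  else if (i = 1 ∧ j = 1) ∨ (2 ≤ i ∧ 2 ≤ j) then 1 else 0

theorem v_zero : v 0 = 0 := by simp [v]

theorem v_two_mul (m : ℕ) : v (2 * m) = v m + m := padicValNat_factorial_mul m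

theorem v_two_mul_add_one (m : ℕ) : v (2 * m + 1) = v m + m := by
  rw [← v_two_mul, v, v, padicValNat_factorial_mul_add m (by norm_num)]

theorem v_le_of_le {a b : ℕ} (h : a ≤ b) : v a ≤ v b := by
  obtain ⟨c, hc⟩ := Nat.factorial_dvd_factorial h
  have hc0 : c ≠ 0 := fun h0 => b.factorial_ne_zero (by rw [hc, h0, mul_zero])
  rw [v, v, hc, padicValNat.mul a.factorial_ne_zero hc0]
  exact Nat.le_add_right _ _

theorem v_add (a b : ℕ) : v a + v b ≤ v (a + b) := by
  obtain ⟨c, hc⟩ := Nat.factorial_mul_factorial_dvd_factorial_add a b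
  have hc0 : c ≠ 0 := fun h0 => (a + b).factorial_ne_zero (by rw [hc, h0, mul_zero])
  rw [v, v, v, hc, padicValNat.mul (mul_ne_zero a.factorial_ne_zero b.factorial_ne_zero) hc0,
    padicValNat.mul a.factorial_ne_zero b.factorial_ne_zero]
  exact Nat.le_add_right _ _

theorem v_vals : v 1 = 0 ∧ v 2 = 1 ∧ v 3 = 1 ∧ v 4 = 3 ∧ v 5 = 3 ∧ v 6 = 4 ∧ v 7 = 4 ∧ v 8 = 7 ∧
    v 9 = 7 ∧ v 10 = 8 ∧ v 11 = 8 ∧ v 13 = 10 ∧ v 17 = 15 ∧ v 19 = 16 ∧ v 21 = 18 ∧ v 23 = 19 := by
  have h1 : v 1 = 0 := by simpa [v_zero] using v_two_mul_add_one 0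
  have h2 := v_two_mul 1
  have h3 := v_two_mul_add_one 1
  have h4 := v_two_mul 2
  have h5 := v_two_mul_add_one 2
  have h6 := v_two_mul 3
  have h7 := v_two_mul_add_one 3
  have h8 := v_two_mul 4
  have h9 := v_two_mul_add_one 4
  have h10 := v_two_mul 5
  have h11 := v_two_mul_add_one 5
  have h13 := v_two_mul_add_one 6
  have h17 := v_two_mul_add_one 8
  have h19 := v_two_mul_add_one 9
  have h21 := v_two_mul_add_one 10
  have h23 := v_two_mul_add_one 11
  simp only [Nat.reduceMul, Nat.reduceAdd] at *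
  omega

theorem v_odd_odd {a b : ℕ} (ha : a % 2 = 1) (hb : b % 2 = 1) : v a + v b + 1 ≤ v (a + b) := by
  obtain ⟨x, rfl⟩ : ∃ x, a = 2 * x + 1 := ⟨a / 2, by omega⟩
  obtain ⟨y, rfl⟩ : ∃ y, b = 2 * y + 1 := ⟨b / 2, by omega⟩
  rw [show 2 * x + 1 + (2 * y + 1) = 2 * (x + y + 1) by ring, v_two_mul, v_two_mul_add_one,
    v_two_mul_add_one]
  have := v_add x y
  have := v_le_of_le (show x + y ≤ x + y + 1 by omega)
  omega

theorem v_add_carry (a b : ℕ) : v a + v b + e (a % 4) (b % 4) ≤ v (a + b) := by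
  obtain ⟨x, i, hi, rfl⟩ : ∃ x i, i < 2 ∧ a = 2 * x + i :=
    ⟨a / 2, a % 2, Nat.mod_lt _ two_pos, by omega⟩
  obtain ⟨y, j, hj, rfl⟩ : ∃ y j, j < 2 ∧ b = 2 * y + j :=
    ⟨b / 2, b % 2, Nat.mod_lt _ two_pos, by omega⟩
  have base := v_add x y
  have up := v_le_of_le (show x + y ≤ x + y + 1 by omega)
  have upy := v_le_of_le (show y ≤ y + 1 by omega)
  have upx := v_le_of_le (show x ≤ x + 1 by omega)
  interval_cases i <;> interval_cases j
  · rw [add_zero, add_zero, ← mul_add, v_two_mul, v_two_mul, v_two_mul, e]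
    split_ifs with h1 h2
    · omega
    · have := v_odd_odd (a := x) (b := y) (by omega) (by omega); omega
    · omega
  · rw [add_zero, show 2 * x + (2 * y + 1) = 2 * (x + y) + 1 by ring, v_two_mul, v_two_mul_add_one,
      v_two_mul_add_one, e]
    split_ifs with h1 h2
    · omega
    · have := v_odd_odd (a := x) (b := y) (by omega) (by omega); omega
    · omega
  · rw [add_zero, show 2 * x + 1 + 2 * y = 2 * (x + y) + 1 by ring, v_two_mul_add_one, v_two_mul,
      v_two_mul_add_one, e]
    split_ifs with h1 h2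
    · omega
    · have := v_odd_odd (a := x) (b := y) (by omega) (by omega); omega
    · omega
  · rw [show 2 * x + 1 + (2 * y + 1) = 2 * (x + y + 1) by ring, v_two_mul_add_one, v_two_mul,
      v_two_mul_add_one, e]
    split_ifs with h1 h2
    · rcases Nat.mod_two_eq_zero_or_one x with hx | hx
      · have := v_odd_odd (a := x + 1) (b := y) (by omega) (by omega)
        rw [show x + 1 + y = x + y + 1 by ring] at this; omega
      · rcases Nat.mod_two_eq_zero_or_one y with hy | hy
        · have := v_odd_odd (a := x) (b := y + 1) hx (by omega)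
          rw [← add_assoc] at this; omega
        · have := v_odd_odd hx hy; omega
    · omega
    · omega

attribute [local irreducible] v

theorem T_pos (n : ℕ) : 0 < T n := Nat.two_pow_pos _

theorem T_le_of_le {a b : ℕ} (h : a ≤ b) : T a ≤ T b :=
  Nat.pow_le_pow_right two_pos (v_le_of_le h)

theorem T_mul_le (a b : ℕ) : 2 ^ e (a % 4) (b % 4) * (T a * T b) ≤ T (a + b) := by
  simp only [T, ← pow_add]
  exact Nat.pow_le_pow_right two_pos (by have := v_add_carry a b; omega)

theorem u_table : ∀ i < 4, ∀ j < 4, u i * u j ≤ 2 * u ((i + j) % 4) * 2 ^ e i j := by decide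

theorem u_combine (a b : ℕ) : u a * u b * (T a * T b) ≤ 2 * u (a + b) * T (a + b) := by
  have h := u_table (a % 4) (Nat.mod_lt _ (by norm_num)) (b % 4) (Nat.mod_lt _ (by norm_num))
  have hu : ∀ k, u (k % 4) = u k := fun k => by simp [u, Nat.mod_mod]
  rw [hu, hu, ← Nat.add_mod, hu] at h
  calc u a * u b * (T a * T b) ≤ 2 * u (a + b) * 2 ^ e (a % 4) (b % 4) * (T a * T b) :=
        Nat.mul_le_mul_right _ h
    _ ≤ 2 * u (a + b) * T (a + b) := by
        rw [mul_assoc]; exact Nat.mul_le_mul_left _ (T_mul_le a b)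

theorem w_table : ∀ i < 16, ∀ j < 16, i ≠ 0 → j ≠ 0 →
    w i * w j ≤ 128 * w (i + j) * 2 ^ e (i % 4) (j % 4) := by decide

theorem w_of_le {k : ℕ} (h : 12 ≤ k) : w k = if k % 4 = 3 then 96 else 64 := by
  rw [w, if_neg (by omega), if_neg (by omega), if_neg (by omega), if_neg (by omega),
    if_neg (by omega)]

theorem w_combine {a b : ℕ} (ha : a ≠ 0) (hb : b ≠ 0) :
    w a * w b * (T a * T b) ≤ 128 * w (a + b) * T (a + b) := by
  let r : ℕ → ℕ := fun k => if k < 12 then k else k % 4 + 12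
  have hr : ∀ k, r k < 16 ∧ r k % 4 = k % 4 ∧ (k ≠ 0 → r k ≠ 0) ∧ w (r k) = w k := by
    intro k
    simp only [r]
    split_ifs with h
    · exact ⟨by omega, rfl, id, rfl⟩
    · refine ⟨by omega, by omega, by omega, ?_⟩
      rw [w_of_le (by omega), w_of_le (by omega), show (k % 4 + 12) % 4 = k % 4 by omega]
  obtain ⟨a1, a2, a3, a4⟩ := hr a
  obtain ⟨b1, b2, b3, b4⟩ := hr b
  have hab : w (r a + r b) = w (a + b) := by
    by_cases h : a < 12 ∧ b < 12
    · simp only [r, if_pos h.1, if_pos h.2]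
    · have h1 : 12 ≤ r a + r b := by simp only [r]; split_ifs <;> omega
      rw [w_of_le h1, w_of_le (by omega),
        show (r a + r b) % 4 = (a + b) % 4 by rw [Nat.add_mod, a2, b2, ← Nat.add_mod]]
  have h := w_table _ a1 _ b1 (a3 ha) (b3 hb)
  rw [a2, b2, a4, b4, hab] at h
  calc w a * w b * (T a * T b) ≤ 128 * w (a + b) * 2 ^ e (a % 4) (b % 4) * (T a * T b) :=
        Nat.mul_le_mul_right _ h
    _ ≤ 128 * w (a + b) * T (a + b) := by
        rw [mul_assoc]; exact Nat.mul_le_mul_left _ (T_mul_le a b)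

theorem u_le_w (n : ℕ) : 32 * u n ≤ w n := by
  simp only [u, w]
  split_ifs <;> omega

theorem le_w (n : ℕ) : 64 ≤ w n := by
  simp only [w]; split_ifs <;> omega

theorem two_le_u (n : ℕ) : 2 ≤ u n := by
  simp only [u]; split_ifs <;> omega

theorem u_le_three (n : ℕ) : u n ≤ 3 := by
  simp only [u]; split_ifs <;> omega

/-- The bound for a product of coprime degrees. -/
theorem prod_bound {a r N : ℕ} (ha : 2 ≤ a) (hr : 2 ≤ r) (hcop : a.Coprime r)
    (h : 4 * N ≤ u a * u r * (T a * T r)) :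
    2 * N ≤ u (a * r) * T (a * r) ∧ 128 * N ≤ w (a * r) * T (a * r) := by
  obtain ⟨-, t2, t3, -, t5, t6, -, -, -, t10, -⟩ := v_vals
  have hu := two_le_u (a * r)
  have hw := le_w (a * r)
  have h2u : 2 * T (a * r) ≤ u (a * r) * T (a * r) := Nat.mul_le_mul_right _ hu
  have h64 : 64 * T (a * r) ≤ w (a * r) * T (a * r) := Nat.mul_le_mul_right _ hw
  rcases Nat.lt_or_ge (a * r) (a + r + 4) with hs | hs
  · obtain ⟨a', rfl⟩ : ∃ a', a = a' + 2 := ⟨a - 2, by omega⟩
    obtain ⟨r', rfl⟩ : ∃ r', r = r' + 2 := ⟨r - 2, by omega⟩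
    have hb : (a' + 1) * (r' + 1) ≤ 4 := by nlinarith
    have ha' : a' ≤ 3 := by nlinarith
    have hr' : r' ≤ 3 := by nlinarith
    interval_cases a' <;> interval_cases r' <;>
      first
        | omega
        | (exfalso; revert hcop; decide)
        | (simp only [T, u, w, t2, t3, t5, t6, t10, Nat.reduceMul, Nat.reduceAdd, Nat.reduceMod,
            Nat.reducePow, Nat.reduceEqDiff, Nat.reduceLT, if_true, if_false, or_self] at h ⊢
           omega)
  · have h1 : 4 * N ≤ 6 * T (a + r) := by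
      refine h.trans ((u_combine a r).trans ?_)
      have := Nat.mul_le_mul_right (T (a + r)) (u_le_three (a + r))
      rw [mul_assoc]; omega
    have h8 : 8 * T (a + r) ≤ T (a * r) := by
      obtain ⟨-, -, -, t4, -⟩ := v_vals
      calc 8 * T (a + r) = 2 ^ (v (a + r) + 3) := by rw [T, pow_add]; ring
        _ ≤ 2 ^ v (a + r + 4) := Nat.pow_le_pow_right two_pos (by
            have := v_add (a + r) 4; omega)
        _ ≤ T (a * r) := T_le_of_le hs
    omega

theorem three_pow_le : ∀ k : ℕ, 8 ≤ k → 128 * 3 ^ k ≤ w (2 * k + 1) * T (2 * k + 1)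
  | k, hk => by
    induction k using Nat.strong_induction_on with
    | _ k ih =>
      obtain ⟨-, -, -, -, -, -, -, t8, -, -, -, -, t17, t19, t21, t23⟩ := v_vals
      rcases Nat.lt_or_ge k 12 with h12 | h12
      · interval_cases k <;> simp only [T, w, t17, t19, t21, t23, Nat.reduceMul, Nat.reduceAdd] <;> norm_num
      · obtain ⟨m, rfl⟩ : ∃ m, k = m + 4 := ⟨k - 4, by omega⟩
        have h := ih m (by omega) (by omega)
        have hw : w (2 * (m + 4) + 1) = w (2 * m + 1) := by
          rw [w_of_le (by omega), w_of_le (by omega),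
            show (2 * (m + 4) + 1) % 4 = (2 * m + 1) % 4 by omega]
        have hT : 128 * T (2 * m + 1) ≤ T (2 * (m + 4) + 1) := by
          calc 128 * T (2 * m + 1) = 2 ^ (v (2 * m + 1) + 7) := by rw [T, pow_add]; ring
            _ ≤ _ := Nat.pow_le_pow_right two_pos (by
                have := v_add (2 * m + 1) 8
                rw [show 2 * m + 1 + 8 = 2 * (m + 4) + 1 by ring] at this; omega)
        rw [hw, pow_add]
        calc 128 * (3 ^ m * 3 ^ 4) = 81 * (128 * 3 ^ m) := by ring
          _ ≤ 128 * (w (2 * m + 1) * T (2 * m + 1)) := Nat.mul_le_mul (by norm_num) h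
          _ = w (2 * m + 1) * (128 * T (2 * m + 1)) := by ring
          _ ≤ _ := Nat.mul_le_mul_left _ hT

/-- The bound for `p`-groups of odd prime-power degree. -/
theorem odd_prime_power_bound {p j n c N : ℕ} (hp : p.Prime) (hp2 : p ≠ 2) (hj : j ≠ 0)
    (hn : n = p ^ j) (hc : N ≤ p ^ c) (hv : (p - 1) * c ≤ n - 1) :
    2 * N ≤ u n * T n ∧ 128 * N ≤ w n * T n := by
  have hp3 : 3 ≤ p := by have := hp.two_le; omega
  have hnp : p ≤ n := hn ▸ Nat.le_self_pow hj p
  have hodd : n % 2 = 1 := by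
    rw [hn, ← Nat.odd_iff]; exact (hp.odd_of_ne_two hp2).pow
  suffices h : 128 * N ≤ w n * T n by
    refine ⟨?_, h⟩
    have h1 : w n ≤ 64 * u n := by
      simp only [u, w]; split_ifs <;> omega
    have := h.trans (Nat.mul_le_mul_right (T n) h1)
    rw [mul_assoc] at this
    omega
  rcases Nat.lt_or_ge n 17 with h17 | h17
  · obtain ⟨t1, t2, t3, t4, t5, t6, t7, t8, t9, t10, t11, t13, -⟩ := v_vals
    have hn15 : n ≠ 15 := by
      intro h
      rw [h] at hn
      have h3 : 3 ∣ p ^ j := hn ▸ by norm_num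
      have h5 : 5 ∣ p ^ j := hn ▸ by norm_num
      have e3 := (Nat.prime_dvd_prime_iff_eq Nat.prime_three hp).1 (Nat.prime_three.dvd_of_dvd_pow h3)
      have e5 := (Nat.prime_dvd_prime_iff_eq Nat.prime_five hp).1 (Nat.prime_five.dvd_of_dvd_pow h5)
      omega
    rcases eq_or_ne n 9 with h9 | h9
    · have hp' : p = 3 := by
        rw [h9] at hn
        have h3 : 3 ∣ p ^ j := hn ▸ by norm_num
        exact ((Nat.prime_dvd_prime_iff_eq Nat.prime_three hp).1
          (Nat.prime_three.dvd_of_dvd_pow h3)).symm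
      subst hp'
      have hc4 : c ≤ 4 := by omega
      have : N ≤ 81 := hc.trans (Nat.pow_le_pow_right (by norm_num) hc4)
      simp only [h9, T, w, t9]; norm_num; omega
    · have hpn : p = n := by
        rcases Nat.lt_or_ge j 2 with hj2 | hj2
        · rw [hn, show j = 1 by omega, pow_one]
        · exfalso
          have h2 : p ^ 2 ≤ n := hn ▸ Nat.pow_le_pow_right hp.pos hj2
          have hp4 : p ≤ 4 := by nlinarith
          have hp4' : p ≠ 4 := fun h => by rw [h] at hp; norm_num at hp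
          have hpe : p = 3 := by omega
          subst hpe
          rcases Nat.lt_or_ge j 3 with hj3 | hj3
          · exact h9 (by rw [hn, show j = 2 by omega]; norm_num)
          · have : 3 ^ 3 ≤ n := hn ▸ Nat.pow_le_pow_right (by norm_num) hj3
            omega
      have hc1 : c ≤ 1 := by
        by_contra hcc
        have : (p - 1) * 2 ≤ (p - 1) * c := Nat.mul_le_mul_left _ (by omega)
        omega
      have hN : N ≤ n := by
        rw [← hpn]; exact hc.trans (by simpa using Nat.pow_le_pow_right hp.pos hc1)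
      have hn3 : 3 ≤ n := by omega
      interval_cases n <;> simp only [T, w, t3, t5, t7, t9, t11, t13] at * <;> norm_num at * <;>
        omega
  · obtain ⟨k, rfl⟩ : ∃ k, n = 2 * k + 1 := ⟨n / 2, by omega⟩
    refine le_trans (Nat.mul_le_mul_left 128 (hc.trans ?_)) (three_pow_le k (by omega))
    -- compare `p ^ c` with a power of three
    have hsq : ∀ q : ℕ, 3 ≤ q → q ^ 2 ≤ 3 ^ (q - 1) := by
      intro q hq
      induction q, hq using Nat.le_induction with
      | base => norm_num
      | succ q hq ih =>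
        rw [show q + 1 - 1 = q - 1 + 1 by omega, pow_succ 3]
        nlinarith
    have h2 : (p ^ c) ^ 2 ≤ (3 ^ k) ^ 2 := by
      rw [← pow_mul, mul_comm c, pow_mul, ← pow_mul 3]
      calc (p ^ 2) ^ c ≤ (3 ^ (p - 1)) ^ c := Nat.pow_le_pow_left (hsq p hp3) c
        _ ≤ 3 ^ (k * 2) := by
          rw [← pow_mul]; exact Nat.pow_le_pow_right (by norm_num) (by omega)
    exact (Nat.pow_le_pow_iff_left two_ne_zero).1 h2

end Cfsg.Agent.KnownA.NilpotentPerm
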