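import Mathlib
import Cfsg.Agent.KnownA.NilpotentPermArith
import Cfsg.Agent.OddLocal.Basic

/-! # The order of a nilpotent permutation group -/

set_option autoImplicit false
set_option linter.unusedSectionVars false

namespace Cfsg.Agent.KnownA.NilpotentPerm

open Equiv Equiv.Perm MulAction

/-- The bound on nilpotent groups of permutations of `α`. -/
def Bound (α : Type) [Fintype α] [DecidableEq α] : Prop :=
  ∀ N : Subgroup (Perm α), Group.IsNilpotent N →
    2 * Nat.card N ≤ u (Fintype.card α) * T (Fintype.card α) ∧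
    (N ≤ alternatingGroup α → 128 * Nat.card N ≤ w (Fintype.card α) * T (Fintype.card α))

variable {α : Type} [Fintype α] [DecidableEq α]

/-- The restriction of an invariant set. -/
def restrict (N : Subgroup (Perm α)) (p : α → Prop) (h : ∀ g : N, ∀ x, p ((g : Perm α) x) ↔ p x) :
    N →* Perm {x // p x} where
  toFun g := (g : Perm α).subtypePerm (h g)
  map_one' := by ext x; rfl
  map_mul' g g' := by ext x; rfl

theorem restrict_apply {N : Subgroup (Perm α)} {p : α → Prop}
    (h : ∀ g : N, ∀ x, p ((g : Perm α) x) ↔ p x) (g : N) (x : {x // p x}) :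
    (restrict N p h g x : α) = (g : Perm α) x := rfl

theorem range_isNilpotent {G H : Type*} [Group G] [Group H] [Group.IsNilpotent G] (f : G →* H) :
    Group.IsNilpotent f.range :=
  Group.nilpotent_of_surjective f.rangeRestrict f.rangeRestrict_surjective

theorem intransitive_step (N : Subgroup (Perm α)) [Group.IsNilpotent N] (S : Finset α)
    (hS : ∀ g : N, ∀ x, (g : Perm α) x ∈ S ↔ x ∈ S) (h0 : S.card ≠ 0)
    (h1 : S.card ≠ Fintype.card α) (hB1 : Bound {x // x ∈ S}) (hB2 : Bound {x // x ∉ S}) :
    2 * Nat.card N ≤ u (Fintype.card α) * T (Fintype.card α) ∧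
    (N ≤ alternatingGroup α → 128 * Nat.card N ≤ w (Fintype.card α) * T (Fintype.card α)) := by
  classical
  let φ₁ := restrict N (· ∈ S) hS
  let φ₂ := restrict N (· ∉ S) (fun g x => not_congr (hS g x))
  let φ := φ₁.rangeRestrict.prod φ₂.rangeRestrict
  have hcongr : ∀ g : N, (g : Perm α) = Perm.subtypeCongr (φ₁ g) (φ₂ g) := by
    intro g; ext x
    rw [Perm.subtypeCongr.apply]
    split_ifs <;> rfl
  have hinj : Function.Injective φ := by
    intro g g' e
    apply Subtype.ext
    rw [hcongr g, hcongr g', show φ₁ g = φ₁ g' from congrArg (fun t => (t.1 : Perm {x // x ∈ S})) e,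
      show φ₂ g = φ₂ g' from congrArg (fun t => (t.2 : Perm {x // x ∉ S})) e]
  have hcard : Nat.card N ≤ Nat.card φ₁.range * Nat.card φ₂.range := by
    rw [← Nat.card_prod]; exact Nat.card_le_card_of_injective φ hinj
  obtain ⟨h1a, h1b⟩ := hB1 φ₁.range (range_isNilpotent φ₁)
  obtain ⟨h2a, h2b⟩ := hB2 φ₂.range (range_isNilpotent φ₂)
  have ha : Fintype.card {x // x ∈ S} = S.card := Fintype.card_coe S
  have hb : Fintype.card {x // x ∉ S} = Fintype.card α - S.card := by
    rw [Fintype.card_subtype_compl, ha]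
  have hle : S.card ≤ Fintype.card α := Finset.card_le_univ S
  rw [ha] at h1a h1b; rw [hb] at h2a h2b
  generalize hA : S.card = a, hN' : Fintype.card α = n at *
  obtain ⟨b, rfl⟩ : ∃ b, n = a + b := ⟨n - a, by omega⟩
  rw [Nat.add_sub_cancel_left] at h2a h2b
  have hu := u_combine a b
  have key : 2 * Nat.card N ≤ u (a + b) * T (a + b) := by
    have h3 : 2 * (2 * Nat.card N) ≤ 2 * (u (a + b) * T (a + b)) :=
      calc 2 * (2 * Nat.card N) ≤ (2 * Nat.card φ₁.range) * (2 * Nat.card φ₂.range) := by nlinarith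
        _ ≤ (u a * T a) * (u b * T b) := Nat.mul_le_mul h1a h2a
        _ = u a * u b * (T a * T b) := by ring
        _ ≤ 2 * u (a + b) * T (a + b) := hu
        _ = _ := by ring
    omega
  refine ⟨key, fun hNA => ?_⟩
  have hsign : ∀ g : N, sign (φ₁ g) * sign (φ₂ g) = 1 := by
    intro g
    have h := (sign_subtypeCongr (φ₁ g) (φ₂ g)).symm
    rw [← hcongr g, mem_alternatingGroup.1 (hNA g.2)] at h
    convert h using 3
    congr!
  by_cases hodd : ∃ g : N, sign (φ₁ g) = -1
  · obtain ⟨g, hg⟩ := hodd
    let χ : φ₁.range × φ₂.range →* ℤˣ :=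
      (sign.comp φ₁.range.subtype).coprod (sign.comp φ₂.range.subtype)
    have hχ : ∀ x, χ (φ x) = 1 := fun x => hsign x
    have hker : Nat.card N ≤ Nat.card χ.ker := by
      refine Nat.card_le_card_of_injective (fun x => (⟨φ x, hχ x⟩ : χ.ker)) fun x y e => hinj ?_
      exact congrArg Subtype.val e
    have hrange : Nat.card χ.range = 2 := by
      have hsurj : χ.range = ⊤ := by
        rw [eq_top_iff]
        intro s _
        rcases Int.units_eq_one_or s with rfl | rfl
        · exact one_mem _
        · exact ⟨(⟨φ₁ g, g, rfl⟩, 1), by simp [χ, hg]⟩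
      rw [hsurj, Subgroup.card_top, Nat.card_eq_fintype_card]; rfl
    have h4 : 2 * Nat.card N ≤ Nat.card φ₁.range * Nat.card φ₂.range := by
      rw [← Nat.card_prod, ← χ.ker.card_mul_index, Subgroup.index_ker, hrange]
      omega
    have h5 : 2 * (4 * Nat.card N) ≤ 2 * (u (a + b) * T (a + b)) :=
      calc 2 * (4 * Nat.card N) ≤ (2 * Nat.card φ₁.range) * (2 * Nat.card φ₂.range) := by nlinarith
        _ ≤ (u a * T a) * (u b * T b) := Nat.mul_le_mul h1a h2a
        _ = u a * u b * (T a * T b) := by ring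
        _ ≤ 2 * u (a + b) * T (a + b) := hu
        _ = _ := by ring
    have h6 := Nat.mul_le_mul_right (T (a + b)) (u_le_w (a + b))
    rw [mul_assoc] at h6
    omega
  · push Not at hodd
    have e1 : φ₁.range ≤ alternatingGroup {x // x ∈ S} := by
      rintro _ ⟨g, rfl⟩
      exact mem_alternatingGroup.2 ((Int.units_eq_one_or _).resolve_right (hodd g))
    have e2 : φ₂.range ≤ alternatingGroup {x // x ∉ S} := by
      rintro _ ⟨g, rfl⟩
      have h := hsign g
      rw [(Int.units_eq_one_or _).resolve_right (hodd g), one_mul] at h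
      exact mem_alternatingGroup.2 h
    have h3 : 128 * (128 * Nat.card N) ≤ 128 * (w (a + b) * T (a + b)) :=
      calc 128 * (128 * Nat.card N)
          ≤ (128 * Nat.card φ₁.range) * (128 * Nat.card φ₂.range) := by nlinarith
        _ ≤ (w a * T a) * (w b * T b) := Nat.mul_le_mul (h1b e1) (h2b e2)
        _ = w a * w b * (T a * T b) := by ring
        _ ≤ 128 * w (a + b) * T (a + b) := w_combine h0 (by omega)
        _ = _ := by ring
    omega

theorem le_T_of_dvd {k n j : ℕ} (hk : k = 2 ^ j) (hd : k ∣ n.factorial) : k ≤ T n := by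
  subst hk
  have : Fact (Nat.Prime 2) := ⟨Nat.prime_two⟩
  exact Nat.pow_le_pow_right two_pos ((padicValNat_dvd_iff_le n.factorial_ne_zero).1 hd)

theorem two_power_step (N : Subgroup (Perm α)) (hN : IsPGroup 2 N) (hn : 2 ≤ Fintype.card α) :
    2 * Nat.card N ≤ u (Fintype.card α) * T (Fintype.card α) ∧
    (N ≤ alternatingGroup α → 128 * Nat.card N ≤ w (Fintype.card α) * T (Fintype.card α)) := by
  have : Fact (Nat.Prime 2) := ⟨Nat.prime_two⟩
  obtain ⟨j, hj⟩ := IsPGroup.iff_card.1 hN
  have hd : Nat.card N ∣ (Fintype.card α).factorial := by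
    rw [← Fintype.card_perm, ← Nat.card_eq_fintype_card]; exact Subgroup.card_subgroup_dvd_card N
  refine ⟨?_, fun hA => ?_⟩
  · exact Nat.mul_le_mul (two_le_u _) (le_T_of_dvd hj hd)
  · have : Nontrivial α := Fintype.one_lt_card_iff_nontrivial.1 (by omega)
    have h2 : 2 ^ (j + 1) ∣ (Fintype.card α).factorial := by
      rw [pow_succ, ← hj, mul_comm, ← Fintype.card_perm, ← two_mul_card_alternatingGroup]
      exact Nat.mul_dvd_mul_left 2 (by
        rw [← Nat.card_eq_fintype_card]; exact Subgroup.card_dvd_of_le hA)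
    have h3 := le_T_of_dvd rfl h2
    have h4 := Nat.mul_le_mul_right (T (Fintype.card α)) (le_w (Fintype.card α))
    rw [pow_succ, ← hj] at h3
    omega

section transitive

variable (N : Subgroup (Perm α)) [IsPretransitive N α]

theorem orbit_card_dvd (P : Subgroup N) [P.Normal] (x : α) :
    Nat.card (MulAction.orbit P x) ∣ Fintype.card α := by
  have hb : MulAction.IsBlock N (MulAction.orbit P x) := MulAction.IsBlock.orbit_of_normal x
  rw [Nat.card_coe_set_eq, ← Nat.card_eq_fintype_card]
  exact hb.ncard_dvd_card ⟨x, MulAction.mem_orbit_self x⟩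

theorem orbit_card_dvd_card (P : Subgroup N) (x : α) :
    Nat.card (MulAction.orbit P x) ∣ Nat.card P := by
  rw [Nat.card_coe_set_eq, ← MulAction.index_stabilizer]
  exact Subgroup.index_dvd_card _

theorem card_le_orbit_image (P Q : Subgroup N) [Group.IsNilpotent P] (x : α)
    (hcomm : ∀ p ∈ P, ∀ q ∈ Q, Commute p q) (hsup : ∀ g : N, ∃ p ∈ P, ∃ q ∈ Q, g = q * p)
    (hB : ∀ (β : Type) [Fintype β] [DecidableEq β],
      Fintype.card β = Nat.card (MulAction.orbit P x) → Bound β) :
    2 * Nat.card P ≤ u (Nat.card (MulAction.orbit P x)) * T (Nat.card (MulAction.orbit P x)) := by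
  classical
  have : Fintype (MulAction.orbit P x) := Fintype.ofFinite _
  let f : P →* Perm (MulAction.orbit P x) := MulAction.toPermHom P (MulAction.orbit P x)
  have hinj : Function.Injective f := by
    rw [injective_iff_map_eq_one]
    intro g hg
    have hfix : ∀ y ∈ MulAction.orbit P x, g • y = y := fun y hy =>
      congrArg Subtype.val (DFunLike.congr_fun hg (⟨y, hy⟩ : MulAction.orbit P x))
    apply Subtype.ext; apply Subtype.ext
    ext y
    obtain ⟨h, rfl⟩ := MulAction.exists_smul_eq N x y
    obtain ⟨p, hp, q, hq, rfl⟩ := hsup h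
    have h1 : (g : N) • (p • x) = p • x := hfix _ ⟨⟨p, hp⟩, rfl⟩
    show (g : N) • ((q * p) • x) = (q * p) • x
    rw [mul_smul, ← mul_smul (g : N) q, (hcomm _ g.2 q hq).eq, mul_smul, h1]
  obtain ⟨h, -⟩ := hB (MulAction.orbit P x) Nat.card_eq_fintype_card.symm f.range (range_isNilpotent f)
  rwa [← Nat.card_congr (MonoidHom.ofInjective hinj).toEquiv, ← Nat.card_eq_fintype_card] at h

theorem transitive_step [Group.IsNilpotent N] (hn : 2 ≤ Fintype.card α)
    (IH : ∀ (β : Type) [Fintype β] [DecidableEq β], Fintype.card β < Fintype.card α → Bound β) :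
    2 * Nat.card N ≤ u (Fintype.card α) * T (Fintype.card α) ∧
    (N ≤ alternatingGroup α → 128 * Nat.card N ≤ w (Fintype.card α) * T (Fintype.card α)) := by
  classical
  set n := Fintype.card α with hn'
  set p := n.minFac
  have hp : p.Prime := Nat.minFac_prime (by omega)
  have : Fact p.Prime := ⟨hp⟩
  obtain ⟨P⟩ : Nonempty (Sylow p N) := inferInstance
  have hPn : (P : Subgroup N).Normal :=
    Cfsg.Agent.Core.isNilpotent_iff_forall_sylow_normal.mp inferInstance p inferInstance P
  obtain ⟨j, hj⟩ := IsPGroup.iff_card.1 P.isPGroup'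
  have hcop : (Nat.card P).Coprime (P : Subgroup N).index := P.card_coprime_index
  obtain ⟨Q, hQ⟩ := Subgroup.exists_right_complement'_of_coprime hcop
  have hQc : Nat.card Q = (P : Subgroup N).index := by
    rw [← hQ.symm.index_eq_card]
  have hcomm : ∀ a ∈ (P : Subgroup N), ∀ b ∈ Q, Commute a b := by
    intro a ha b hb
    refine OddLocal.commute_of_coprime_orderOf (Nat.Coprime.of_dvd ?_ ?_ hcop)
    · rw [← Subgroup.orderOf_mk a ha]; exact orderOf_dvd_natCard _
    · rw [← hQc, ← Subgroup.orderOf_mk b hb]; exact orderOf_dvd_natCard _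
  have hsup : ∀ g : N, ∃ a ∈ (P : Subgroup N), ∃ b ∈ Q, g = a * b := by
    intro g
    obtain ⟨⟨⟨a, ha⟩, ⟨b, hb⟩⟩, hab⟩ := hQ.2 g
    exact ⟨a, ha, b, hb, hab.symm⟩
  have hQn : Q.Normal := ⟨fun b hb g => by
    obtain ⟨a, ha, c, hc, rfl⟩ := hsup g
    have h1 : a * c * b * (a * c)⁻¹ = a * (c * b * c⁻¹) * a⁻¹ := by group
    have h2 : c * b * c⁻¹ ∈ Q := mul_mem (mul_mem hc hb) (inv_mem hc)
    rw [h1, (hcomm a ha _ h2).eq, mul_inv_cancel_right]
    exact h2⟩
  obtain ⟨x⟩ : Nonempty α := Fintype.card_pos_iff.1 (by omega)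
  set s := Nat.card (MulAction.orbit P x)
  set t := Nat.card (MulAction.orbit Q x)
  have hs1 : s ∣ n := orbit_card_dvd N P x
  have ht1 : t ∣ n := orbit_card_dvd N Q x
  have hs2 : s ∣ p ^ j := hj ▸ orbit_card_dvd_card N P x
  have ht2 : t ∣ (P : Subgroup N).index := hQc ▸ orbit_card_dvd_card N Q x
  have hst : s.Coprime t := Nat.Coprime.of_dvd (hj ▸ orbit_card_dvd_card N P x) ht2 hcop
  have hst1 : s * t ∣ n := hst.mul_dvd_of_dvd_of_dvd hs1 ht1
  have hn_le : n ≤ s * t := by
    rw [hn', ← Nat.card_eq_fintype_card]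
    -- every point is `b • a • x`
    let F : MulAction.orbit P x → MulAction.orbit Q x → α := fun y z =>
      (Classical.choose (MulAction.mem_orbit_iff.1 z.2) : Q).1 • (y : α)
    refine (Nat.card_le_card_of_surjective (fun yz : _ × _ => F yz.1 yz.2) ?_).trans
      (Nat.card_prod _ _).le
    intro y
    obtain ⟨g, rfl⟩ := MulAction.exists_smul_eq N x y
    obtain ⟨a, ha, b, hb, rfl⟩ := hsup g
    refine ⟨(⟨a • x, ⟨a, ha⟩, rfl⟩, ⟨b • x, ⟨b, hb⟩, rfl⟩), ?_⟩
    set c := Classical.choose (MulAction.mem_orbit_iff.1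
      (show b • x ∈ MulAction.orbit Q x from ⟨⟨b, hb⟩, rfl⟩)) with hc
    have hcspec : (c : N) • x = b • x := Classical.choose_spec (MulAction.mem_orbit_iff.1
      (show b • x ∈ MulAction.orbit Q x from ⟨⟨b, hb⟩, rfl⟩))
    show (c : N) • (a • x) = (a * b) • x
    rw [← mul_smul, ← (hcomm a ha c c.2).eq, mul_smul, hcspec, mul_smul]
  have hst2 : s * t = n := le_antisymm (Nat.le_of_dvd (by omega) hst1) hn_le
  have hprod : Nat.card N = Nat.card P * Nat.card Q := by
    rw [hQc, Subgroup.card_mul_index]
  have hsP : ∀ g : N, ∃ a ∈ (P : Subgroup N), ∃ b ∈ Q, g = b * a := fun g => by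
    obtain ⟨a, ha, b, hb, rfl⟩ := hsup g
    exact ⟨a, ha, b, hb, (hcomm a ha b hb).eq⟩
  have hsQ : ∀ g : N, ∃ b ∈ Q, ∃ a ∈ (P : Subgroup N), g = a * b := fun g => by
    obtain ⟨a, ha, b, hb, rfl⟩ := hsup g
    exact ⟨b, hb, a, ha, rfl⟩
  rcases Nat.lt_or_ge t 2 with ht | ht
  · -- prime power degree: `Q` is trivial
    have ht' : t = 1 := by
      rcases Nat.eq_zero_or_pos t with h | h
      · rw [h, mul_zero] at hst2; omega
      · omega
    have hQ1 : Q = ⊥ := by
      refine (Subgroup.eq_bot_iff_forall _).2 fun b hb => ?_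
      apply Subtype.ext
      ext y
      obtain ⟨g, rfl⟩ := MulAction.exists_smul_eq N x y
      obtain ⟨a, ha, c, hc, rfl⟩ := hsP g
      show b • ((c * a) • x) = (c * a) • x
      have hone : ∀ d ∈ Q, d • x = x := by
        intro d hd
        have : Subsingleton (MulAction.orbit Q x) := (Nat.card_eq_one_iff_unique.1 ht').1
        exact congrArg Subtype.val (Subsingleton.elim (α := MulAction.orbit Q x)
          ⟨d • x, ⟨⟨d, hd⟩, rfl⟩⟩ ⟨x, MulAction.mem_orbit_self x⟩)
      rw [← (hcomm a ha c hc).eq, ← mul_smul, ← mul_assoc, ← (hcomm a ha b hb).eq, mul_assoc,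
        mul_smul, mul_smul, hone c hc, mul_smul, hone b hb, hone c hc]
    have hNP : Nat.card N = p ^ j := by
      rw [hprod, hQ1, Subgroup.card_bot, mul_one, hj]
    rcases eq_or_ne p 2 with hp2 | hp2
    · refine two_power_step N (IsPGroup.of_card (n := j) ?_) hn
      rw [hNP, hp2]
    · have hdn : Nat.card N ∣ n.factorial := by
        rw [hn', ← Fintype.card_perm, ← Nat.card_eq_fintype_card]
        exact Subgroup.card_subgroup_dvd_card N
      rw [hNP] at hdn
      have hj' : j ≤ padicValNat p n.factorial := (padicValNat_dvd_iff_le n.factorial_ne_zero).1 hdn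
      obtain ⟨i, -, hi⟩ := (Nat.dvd_prime_pow hp).1 hs2
      have hni : n = p ^ i := by rw [← hst2, ht', mul_one, hi]
      have hi0 : i ≠ 0 := fun h => by rw [h, pow_zero] at hni; omega
      have hv := sub_one_mul_padicValNat_factorial_lt_of_ne_zero p (n := n) (by omega)
      obtain ⟨h1, h2⟩ := odd_prime_power_bound (c := j) (N := Nat.card N) hp hp2 hi0 hni hNP.le (by
        have := Nat.mul_le_mul_left (p - 1) hj'
        omega)
      exact ⟨h1, fun _ => h2⟩
  · -- both parts are non-trivial
    have hs : 2 ≤ s := by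
      by_contra hs
      have hs' : s = 1 := by
        rcases Nat.eq_zero_or_pos s with h | h
        · rw [h, zero_mul] at hst2; omega
        · omega
      have hpt : p ∣ t := by
        rw [show t = n by rw [← hst2, hs', one_mul]]; exact Nat.minFac_dvd n
      exact P.not_dvd_index (hpt.trans ht2)
    have hsn : s < n := by
      calc s < s * 2 := by omega
        _ ≤ s * t := Nat.mul_le_mul_left s ht
        _ = n := hst2
    have htn : t < n := by
      calc t < 2 * t := by omega
        _ ≤ s * t := Nat.mul_le_mul_right t hs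
        _ = n := hst2
    have hb1 := card_le_orbit_image N P Q x hcomm hsP
      (fun β _ _ hβ => IH β (hβ ▸ hsn))
    have hb2 := card_le_orbit_image N Q P x (fun b hb a ha => (hcomm a ha b hb).symm) hsQ
      (fun β _ _ hβ => IH β (hβ ▸ htn))
    obtain ⟨h1, h2⟩ := prod_bound (N := Nat.card N) hs ht hst (by
      calc 4 * Nat.card N = (2 * Nat.card P) * (2 * Nat.card Q) := by rw [hprod]; ring
        _ ≤ (u s * T s) * (u t * T t) := Nat.mul_le_mul hb1 hb2
        _ = _ := by ring)
    rw [hst2] at h1 h2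
    exact ⟨h1, fun _ => h2⟩

end transitive

theorem bound : ∀ (n : ℕ) (β : Type) [Fintype β] [DecidableEq β], Fintype.card β = n → Bound β := by
  intro n
  induction n using Nat.strong_induction_on with
  | _ n ih =>
    intro β _ _ hn N hN
    rcases Nat.lt_or_ge n 2 with h2 | h2
    · have : Subsingleton β := Fintype.card_le_one_iff_subsingleton.1 (by omega)
      have hN1 : Nat.card N = 1 := Nat.card_eq_one_iff_unique.2 ⟨inferInstance, ⟨1⟩⟩
      rw [hn, hN1]
      interval_cases n <;> simp [u, w, T, v]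
    · by_cases htr : IsPretransitive N β
      · exact transitive_step N (hn ▸ h2) fun γ _ _ hγ => ih _ (hn ▸ hγ) γ rfl
      · classical
        obtain ⟨x⟩ : Nonempty β := Fintype.card_pos_iff.1 (by omega)
        let S : Finset β := Finset.univ.filter fun y => y ∈ MulAction.orbit N x
        have hS : ∀ g : N, ∀ y, (g : Perm β) y ∈ S ↔ y ∈ S := by
          intro g y
          simp only [S, Finset.mem_filter, Finset.mem_univ, true_and]
          exact (MulAction.orbit_eq_iff.symm.trans (by
            rw [show (g : Perm β) y = g • y from rfl, MulAction.orbit_smul])).trans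
              MulAction.orbit_eq_iff
        have h0 : S.card ≠ 0 := Finset.card_ne_zero.2
          ⟨x, Finset.mem_filter.2 ⟨Finset.mem_univ _, MulAction.mem_orbit_self x⟩⟩
        have h1 : S.card ≠ Fintype.card β := by
          intro e
          apply htr
          have hall : ∀ y, y ∈ MulAction.orbit N x := fun y => by
            have : y ∈ S := by rw [Finset.eq_univ_of_card S e]; exact Finset.mem_univ y
            exact (Finset.mem_filter.1 this).2
          exact ⟨fun a b => by
            obtain ⟨g, rfl⟩ := hall a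
            obtain ⟨h, rfl⟩ := hall b
            exact ⟨h * g⁻¹, by simp [mul_smul]⟩⟩
        refine intransitive_step N S hS h0 h1 (ih _ ?_ _ rfl) (ih _ ?_ _ rfl)
        · rw [Fintype.card_coe, ← hn]
          exact lt_of_le_of_ne (Finset.card_le_univ S) h1
        · rw [Fintype.card_subtype_compl, Fintype.card_coe, ← hn]
          have := Finset.card_le_univ S
          omega

theorem card_sylow_perm (n : ℕ) (P : Sylow 2 (Perm (Fin n))) : Nat.card P = T n := by
  rw [P.card_eq_multiplicity, Nat.card_eq_fintype_card, Fintype.card_perm, Fintype.card_fin,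
    Nat.factorization_def _ Nat.prime_two]
  rfl

theorem card_le_sylow {n : ℕ} (hn : n % 4 ≠ 3) (N : Subgroup (Perm (Fin n)))
    (hN : Group.IsNilpotent N) (P : Sylow 2 (Perm (Fin n))) : Nat.card N ≤ Nat.card P := by
  have h := (bound n (Fin n) (Fintype.card_fin n) N hN).1
  rw [Fintype.card_fin, u, if_neg hn] at h
  rw [card_sylow_perm]
  omega

theorem card_le_sylow_alternating {n : ℕ} (hn : n % 4 ≠ 3) (h5 : n ≠ 5) (h6 : n ≠ 6) (h9 : n ≠ 9)
    (N : Subgroup (alternatingGroup (Fin n))) (hN : Group.IsNilpotent N)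
    (P : Sylow 2 (alternatingGroup (Fin n))) : Nat.card N ≤ Nat.card P := by
  rcases Nat.lt_or_ge n 2 with h2 | h2
  · have : Subsingleton (Fin n) := Fintype.card_le_one_iff_subsingleton.1 (by simp; omega)
    rw [show Nat.card N = 1 from Nat.card_eq_one_iff_unique.2 ⟨inferInstance, ⟨1⟩⟩]
    exact Nat.card_pos
  · set N' := N.map (alternatingGroup (Fin n)).subtype
    have hN' : Group.IsNilpotent N' :=
      Group.nilpotent_of_surjective (N.equivMapOfInjective _ Subtype.val_injective).toMonoidHom
        (MulEquiv.surjective _)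
    have h := (bound n (Fin n) (Fintype.card_fin n) N' hN').2 (Subgroup.map_subtype_le N)
    rw [← Nat.card_congr (N.equivMapOfInjective _ Subtype.val_injective).toEquiv, Fintype.card_fin,
      show w n = 64 by simp only [w]; split_ifs <;> omega] at h
    have : Nontrivial (Fin n) := Fin.nontrivial_iff_two_le.2 h2
    have hP : 2 * Nat.card P = T n := by
      have hA : Nat.card (alternatingGroup (Fin n)) ≠ 0 := Nat.card_pos.ne'
      have h2A : 2 * Nat.card (alternatingGroup (Fin n)) = n.factorial := by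
        rw [Nat.card_eq_fintype_card, two_mul_card_alternatingGroup, Fintype.card_perm,
          Fintype.card_fin]
      rw [P.card_eq_multiplicity, T, v, ← Nat.factorization_def _ Nat.prime_two, ← h2A,
        Nat.factorization_mul two_ne_zero hA, Finsupp.add_apply,
        Nat.prime_two.factorization_self, pow_add, pow_one]
    omega

end Cfsg.Agent.KnownA.NilpotentPerm
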