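import Mathlib

set_option autoImplicit false

/-!
# Irreducible representations of degree at least two
-/

namespace Cfsg.Agent.KnownA

variable {k G V : Type*} [Group G] [Field k] [AddCommGroup V] [Module k V]

/-- An irreducible representation of degree at least two is not scalar. -/
theorem exists_not_scalar_of_irreducible (ρ : Representation k G V) (hirr : ρ.IsIrreducible)
    (hdim : 2 ≤ Module.finrank k V) : ∃ g, ∀ c : k, ρ g ≠ c • (1 : Module.End k V) := by
  by_contra hcon
  push Not at hcon
  haveI : Nontrivial V := Module.nontrivial_of_finrank_pos (R := k) (by omega)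
  obtain ⟨v, hv⟩ := exists_ne (0 : V)
  let W : Subrepresentation ρ :=
    { toSubmodule := k ∙ v
      apply_mem_toSubmodule := fun g x hx => by
        obtain ⟨c, hc⟩ := hcon g
        rw [hc]
        exact Submodule.smul_mem _ c hx }
  rcases hirr.eq_bot_or_eq_top W with h | h
  · have : v ∈ (⊥ : Subrepresentation ρ).toSubmodule := h ▸ Submodule.mem_span_singleton_self v
    exact hv ((Submodule.mem_bot k).mp this)
  · have h1 : (k ∙ v) = (⊤ : Submodule k V) := congrArg Subrepresentation.toSubmodule h
    have h2 := finrank_span_singleton (K := k) hv
    rw [h1, finrank_top] at h2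
    omega

/-- An irreducible representation of degree at least two of a simple group is faithful. -/
theorem injective_of_irreducible_of_simple [IsSimpleGroup G] (ρ : Representation k G V)
    (hirr : ρ.IsIrreducible) (hdim : 2 ≤ Module.finrank k V) : Function.Injective ρ := by
  rcases (IsSimpleGroup.eq_bot_or_eq_top_of_normal (MonoidHom.ker ρ) inferInstance) with h | h
  · exact (MonoidHom.ker_eq_bot_iff ρ).mp h
  · obtain ⟨g, hg⟩ := exists_not_scalar_of_irreducible ρ hirr hdim
    have : ρ g = 1 := by rw [← MonoidHom.mem_ker, h]; trivial
    exact absurd (by rw [this, one_smul]) (hg 1)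

end Cfsg.Agent.KnownA
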