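import Cfsg.Agent.KnownA.CrossCharField

set_option autoImplicit false

/-!
# Degree of representations of the special linear group in cross characteristic
-/

namespace Cfsg.Agent.KnownA

open Matrix

variable {F : Type*} [Field F] {N : ℕ}

theorem exists_mulVec_step (u w : Fin N → F) (i j : Fin N) (h : u i * w j - u j * w i ≠ 0) :
    ∃ B : SpecialLinearGroup (Fin N) F, B.1 *ᵥ u = w := by
  have hij : i ≠ j := fun e => h (by subst e; ring)
  set D := u i * w j - u j * w i
  let φ : Fin N → F := Pi.single i ((w j - u j) / D) + Pi.single j ((u i - w i) / D)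
  have h1 : φ ⬝ᵥ u = 1 := by
    simp only [φ, add_dotProduct, single_dotProduct]
    field_simp
    ring
  have h2 : φ ⬝ᵥ w = 1 := by
    simp only [φ, add_dotProduct, single_dotProduct]
    field_simp
    ring
  refine ⟨⟨1 + replicateCol (Fin 1) (w - u) * replicateRow (Fin 1) φ, ?_⟩, ?_⟩
  · refine (det_one_add_replicateCol_mul_replicateRow (w - u) φ).trans ?_
    rw [dotProduct_sub, h2, h1, sub_self, add_zero]
  · show (1 + replicateCol (Fin 1) (w - u) * replicateRow (Fin 1) φ) *ᵥ u = w
    rw [add_mulVec, one_mulVec, ← mulVec_mulVec]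
    funext k
    have : (replicateRow (Fin 1) φ *ᵥ u) = fun _ => (1 : F) := by
      funext x; rw [← h1]; rfl
    simp [this, mulVec, dotProduct]

/-- `SL_N` is transitive on nonzero vectors for `N ≥ 2`. -/
theorem exists_mulVec_eq (hN : 2 ≤ N) {u w : Fin N → F} (hu : u ≠ 0) (hw : w ≠ 0) :
    ∃ B : SpecialLinearGroup (Fin N) F, B.1 *ᵥ u = w := by
  haveI : Nontrivial (Fin N) := Fin.nontrivial_iff_two_le.mpr hN
  by_cases h : ∃ i j, u i * w j - u j * w i ≠ 0
  · obtain ⟨i, j, hij⟩ := h
    exact exists_mulVec_step u w i j hij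
  · push Not at h
    obtain ⟨i, hi⟩ := Function.ne_iff.mp hu
    rw [Pi.zero_apply] at hi
    obtain ⟨j, hj⟩ := exists_ne i
    have hwi : w i ≠ 0 := fun e => by
      obtain ⟨k, hk⟩ := Function.ne_iff.mp hw
      have := h i k
      rw [e, mul_zero, sub_zero] at this
      exact hk ((mul_eq_zero.mp this).resolve_left hi)
    obtain ⟨B, hB⟩ := exists_mulVec_step u (Pi.single j 1) i j (by simpa [hj.symm] using hi)
    obtain ⟨C, hC⟩ := exists_mulVec_step (Pi.single j 1) w i j (by simpa [hj.symm] using hwi)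
    refine ⟨C * B, ?_⟩
    rw [Matrix.SpecialLinearGroup.coe_mul, ← mulVec_mulVec, hB, hC]

/-- The elements of the abelian radical. -/
def slUni (v : Fin N → F) : SpecialLinearGroup (Fin 1 ⊕ Fin N) F :=
  ⟨fromBlocks 1 (replicateRow (Fin 1) v) 0 1, by simp⟩

/-- The Levi factor. -/
def slLevi (B : SpecialLinearGroup (Fin N) F) : SpecialLinearGroup (Fin 1 ⊕ Fin N) F :=
  ⟨fromBlocks 1 0 0 B.1, by simp [B.2]⟩

theorem slUni_mul (v w : Fin N → F) : slUni v * slUni w = slUni (v + w) := by
  apply Subtype.ext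
  show fromBlocks _ _ _ _ * fromBlocks _ _ _ _ = fromBlocks _ _ _ _
  simp [fromBlocks_multiply, add_comm]

theorem slUni_zero : slUni (0 : Fin N → F) = 1 := by
  apply Subtype.ext
  show fromBlocks _ _ _ _ = _
  simp [fromBlocks_one]

theorem slUni_inj {v w : Fin N → F} (h : slUni v = slUni w) : v = w := by
  have := congrArg (fun g : SpecialLinearGroup (Fin 1 ⊕ Fin N) F => fun k => g.1 (Sum.inl 0) (Sum.inr k)) h
  exact this

theorem slUni_conj (v : Fin N → F) (B : SpecialLinearGroup (Fin N) F) :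
    slUni v * slLevi B = slLevi B * slUni (v ᵥ* B.1) := by
  apply Subtype.ext
  show fromBlocks _ _ _ _ * fromBlocks _ _ _ _ = fromBlocks _ _ _ _ * fromBlocks _ _ _ _
  simp [fromBlocks_multiply, replicateRow_vecMul]

/-- Degree bound for `SL` over a block index. -/
theorem sl_crossChar_bound [Fintype F] (hN : 2 ≤ N) {K V : Type*} [Field K] [AddCommGroup V] [Module K V]
    [FiniteDimensional K V] (θ : AddChar F K) (hθ : θ.IsPrimitive) (hq : (Fintype.card F : K) ≠ 0)
    (σ : SpecialLinearGroup (Fin 1 ⊕ Fin N) F →* Module.End K V)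
    (hker : ∀ g, σ g = 1 → g ∈ Subgroup.center (SpecialLinearGroup (Fin 1 ⊕ Fin N) F)) :
    Fintype.card F ^ N - 1 ≤ Module.finrank K V := by
  classical
  have hA : (Fintype.card (Fin N → F) : K) ≠ 0 := by
    rw [Fintype.card_fun, Fintype.card_fin, Nat.cast_pow]; exact pow_ne_zero _ hq
  let χ : (Fin N → F) → AddChar (Fin N → F) K := fun w =>
    { toFun := fun v => θ (w ⬝ᵥ v)
      map_zero_eq_one' := by simp
      map_add_eq_mul' := fun a b => by rw [dotProduct_add, AddChar.map_add_eq_mul] }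
  let z : (Fin N → F) → Module.End K V := fun v => σ (slUni v)
  have hz : ∀ a b, z a * z b = z (a + b) := fun a b => by simp only [z, ← map_mul, slUni_mul]
  have hz0 : z 0 = 1 := by simp only [z, slUni_zero, map_one]
  have hcol : ∀ a : Fin N → F, a ≠ 0 → ∑ w, χ w a = 0 := by
    intro a ha
    obtain ⟨j, hj⟩ := Function.ne_iff.mp ha
    rw [Pi.zero_apply] at hj
    let τ : AddChar (Fin N → F) K :=
      { toFun := fun w => θ (w ⬝ᵥ a)
        map_zero_eq_one' := by simp
        map_add_eq_mul' := fun x y => by rw [add_dotProduct, AddChar.map_add_eq_mul] }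
    refine AddChar.sum_eq_zero_of_ne_one (ψ := τ) fun e => hθ hj (AddChar.ext _ _ fun c => ?_)
    have : τ (Pi.single j c) = 1 := by rw [e]; rfl
    rw [AddChar.mulShift_apply, AddChar.one_apply, mul_comm, ← single_dotProduct]
    exact this
  have hne : ∃ a, z a ≠ 1 := by
    haveI : Nontrivial (Fin N) := Fin.nontrivial_iff_two_le.mpr hN
    obtain ⟨i, j, hij⟩ := exists_pair_ne (Fin N)
    refine ⟨Pi.single j 1, fun h1 => ?_⟩
    have hc := Subgroup.mem_center_iff.mp (hker _ h1)
    obtain ⟨B, hB⟩ := exists_mulVec_eq (F := F) hN (u := Pi.single i 1) (w := Pi.single j 1)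
      (by simp) (by simp)
    have h2 := slUni_conj (Pi.single j 1) B
    rw [← hc (slLevi B)] at h2
    have h3 := slUni_inj (mul_left_cancel h2)
    have h4 := congrArg (fun x : Fin N → F => x ⬝ᵥ Pi.single i 1) h3
    simp only [← dotProduct_mulVec, hB] at h4
    simp [hij] at h4
  obtain ⟨w₀, hw₀, hocc⟩ := exists_occurs hA hA χ hcol hz hz0 hne
  have hw₀' : w₀ ≠ 0 := fun e => hw₀ (AddChar.ext _ _ fun v => by simp [χ, e])
  have hall : ∀ w, w ≠ 0 → Occurs z (χ w) := by
    intro w hw
    obtain ⟨B, hB⟩ := exists_mulVec_eq hN hw₀' hw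
    let φ : (Fin N → F) →+ (Fin N → F) :=
      AddMonoidHom.mk' (fun v => v ᵥ* B.1) (fun a b => add_vecMul _ a b)
    have hinj : Function.Injective (σ (slLevi B)) := by
      intro x y hxy
      have := congrArg (σ (slLevi B)⁻¹) hxy
      simpa [← Module.End.mul_apply, ← map_mul] using this
    have hcomm : ∀ a, z a * σ (slLevi B) = σ (slLevi B) * z (φ a) := fun a => by
      simp only [z, φ, AddMonoidHom.mk'_apply, ← map_mul, slUni_conj]
    have h1 := hocc.conj hinj φ hcomm
    have : (χ w₀).compAddMonoidHom φ = χ w := by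
      ext v
      show θ (w₀ ⬝ᵥ (v ᵥ* B.1)) = θ (w ⬝ᵥ v)
      rw [dotProduct_comm, ← dotProduct_mulVec, hB, dotProduct_comm]
    rwa [this] at h1
  have hinjχ : Function.Injective χ := by
    intro a b hab
    by_contra hne'
    obtain ⟨j, hj⟩ := Function.ne_iff.mp (sub_ne_zero.mpr hne')
    rw [Pi.zero_apply] at hj
    refine hθ hj (AddChar.ext _ _ fun c => ?_)
    have h1 : θ (a ⬝ᵥ Pi.single j c) = θ (b ⬝ᵥ Pi.single j c) :=
      congrArg (fun τ : AddChar (Fin N → F) K => τ (Pi.single j c)) hab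
    rw [AddChar.mulShift_apply, AddChar.one_apply, Pi.sub_apply, sub_mul, AddChar.map_sub_eq_div]
    rw [← dotProduct_single, ← dotProduct_single, h1, div_self (by
      intro e
      exact one_ne_zero (by
        rw [← AddChar.map_zero_eq_one θ, ← sub_self (b ⬝ᵥ Pi.single j c), AddChar.map_sub_eq_div, e, div_zero]))]
  have := card_le_finrank_of_occurs hA ((Finset.univ.erase (0 : Fin N → F)).image χ)
    (fun ψ hψ => by
      obtain ⟨w, hw, rfl⟩ := Finset.mem_image.mp hψ
      exact hall w (Finset.ne_of_mem_erase hw))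
  rwa [Finset.card_image_of_injective _ hinjχ, Finset.card_erase_of_mem (Finset.mem_univ _),
    Finset.card_univ, Fintype.card_fun, Fintype.card_fin] at this

end Cfsg.Agent.KnownA
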