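import Mathlib
import Cfsg.Prelude
import Cfsg.Agent.Chars.Gen
import Cfsg.Agent.Chars.Linear
import Cfsg.Agent.KnownA.SLCrossChar

/-! # Decomposition of the permutation character of `SL_n` on nonzero vectors -/

set_option autoImplicit false
set_option linter.unusedSectionVars false

namespace Cfsg.Agent.KnownA.SLNonzeroChar

open Matrix Cfsg.Agent.Chars
open scoped ComplexConjugate

/-- The permutation representation on functions. -/
def permRep (A X : Type*) [Group A] [MulAction A X] : Representation ℂ A (X → ℂ) where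
  toFun a := LinearMap.funLeft ℂ ℂ (fun x : X => a⁻¹ • x)
  map_one' := by ext; simp
  map_mul' a b := by ext; simp [mul_smul]

theorem permRep_character {A X : Type*} [Group A] [MulAction A X] [Fintype X] (a : A) :
    (permRep A X).character a = (Nat.card {x : X // a • x = x} : ℂ) := by
  classical
  rw [Representation.character, LinearMap.trace_eq_matrix_trace ℂ (Pi.basisFun ℂ X),
    Nat.card_eq_fintype_card, Fintype.card_subtype, Finset.card_filter]
  simp only [Matrix.trace, Matrix.diag, LinearMap.toMatrix_apply, Pi.basisFun_repr,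
    Pi.basisFun_apply]
  push_cast
  refine Finset.sum_congr rfl fun x _ => ?_
  show (Pi.single x (1 : ℂ) : X → ℂ) (a⁻¹ • x) = _
  by_cases h : a • x = x
  · rw [if_pos h, inv_smul_eq_iff.2 h.symm, Pi.single_eq_same]
  · rw [if_neg h, Pi.single_eq_of_ne]
    exact fun e => h (inv_smul_eq_iff.1 e).symm

theorem sum_card_translate {A Y : Type*} [Group A] [Fintype A] [MulAction A Y] [Fintype Y]
    [Nonempty Y] [DecidableEq Y] [MulAction.IsPretransitive A Y] (f : Y → Y) :
    ∑ y : Y, (Finset.univ.filter fun g : A => g • y = f y).card = Fintype.card A := by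
  classical
  have h : ∀ y : Y, (Finset.univ.filter fun g : A => g • y = f y).card * Fintype.card Y =
      Fintype.card A := by
    intro y
    obtain ⟨g₀, hg₀⟩ := MulAction.exists_smul_eq A y (f y)
    have e : (Finset.univ.filter fun g : A => g • y = f y).card =
        Nat.card (MulAction.stabilizer A y) := by
      rw [← Fintype.card_subtype, ← Nat.card_eq_fintype_card]
      exact Nat.card_congr
        { toFun := fun g => ⟨g₀⁻¹ * g.1, by
            rw [MulAction.mem_stabilizer_iff, mul_smul, g.2, ← hg₀, inv_smul_smul]⟩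
          invFun := fun s => ⟨g₀ * s.1, by rw [mul_smul, MulAction.mem_stabilizer_iff.1 s.2, hg₀]⟩
          left_inv := fun g => Subtype.ext (mul_inv_cancel_left g₀ g.1)
          right_inv := fun s => Subtype.ext (inv_mul_cancel_left g₀ s.1) }
    rw [e, ← Nat.card_eq_fintype_card (α := A), ← Subgroup.card_mul_index (MulAction.stabilizer A y),
      MulAction.index_stabilizer_of_transitive, Nat.card_eq_fintype_card (α := Y)]
  apply Nat.eq_of_mul_eq_mul_right (Fintype.card_pos (α := Y))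
  rw [Finset.sum_mul, Finset.sum_congr rfl fun y _ => h y]
  simp [mul_comm]

variable {F : Type*} [Field F] [Fintype F] [DecidableEq F] {n : ℕ}

local notation "G" => Matrix.SpecialLinearGroup (Fin n) F

/-- The nonzero vectors. -/
abbrev NZ (F : Type*) [Field F] (n : ℕ) := {v : Fin n → F // v ≠ 0}

/-- The linearly independent pairs. -/
abbrev Indep (F : Type*) [Field F] (n : ℕ) :=
  {p : (Fin n → F) × (Fin n → F) // LinearIndependent F ![p.1, p.2]}

theorem val_mul (g h : G) : (g * h).1 = g.1 * h.1 := rfl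

theorem val_one : (1 : G).1 = 1 := rfl

theorem mulVec_injective (g : G) : Function.Injective (g.1.mulVec) :=
  Matrix.mulVec_injective_of_isUnit (by rw [Matrix.isUnit_iff_isUnit_det, g.2]; exact isUnit_one)

theorem mulVec_ne_zero (g : G) {v : Fin n → F} (hv : v ≠ 0) : g.1 *ᵥ v ≠ 0 := fun e =>
  hv (mulVec_injective g (e.trans (Matrix.mulVec_zero _).symm))

instance : MulAction G (NZ F n) where
  smul g v := ⟨g.1 *ᵥ v.1, mulVec_ne_zero g v.2⟩
  one_smul v := Subtype.ext (Matrix.one_mulVec v.1)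
  mul_smul g h v := Subtype.ext (Matrix.mulVec_mulVec v.1 g.1 h.1).symm

theorem indep_smul (g : G) {v w : Fin n → F} (h : LinearIndependent F ![v, w]) :
    LinearIndependent F ![g.1 *ᵥ v, g.1 *ᵥ w] := by
  rw [LinearIndependent.pair_iff] at h ⊢
  intro s t e
  refine h s t (mulVec_injective g ?_)
  rw [Matrix.mulVec_add, Matrix.mulVec_smul, Matrix.mulVec_smul, e, Matrix.mulVec_zero]

instance : MulAction G (Indep F n) where
  smul g p := ⟨(g.1 *ᵥ p.1.1, g.1 *ᵥ p.1.2), indep_smul g p.2⟩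
  one_smul p := Subtype.ext (Prod.ext (Matrix.one_mulVec p.1.1) (Matrix.one_mulVec p.1.2))
  mul_smul g h p := Subtype.ext (Prod.ext (Matrix.mulVec_mulVec p.1.1 g.1 h.1).symm
    (Matrix.mulVec_mulVec p.1.2 g.1 h.1).symm)

theorem exists_frame (hn : 3 ≤ n) {v w : Fin n → F} (h : LinearIndependent F ![v, w]) :
    ∃ g : G, g.1 *ᵥ Pi.single ⟨0, by omega⟩ 1 = v ∧ g.1 *ᵥ Pi.single ⟨1, by omega⟩ 1 = w := by
  classical
  have hvw : v ≠ w := fun e => by
    have := h.injective (a₁ := 0) (a₂ := 1) (by simpa using e)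
    exact absurd this (by decide)
  have hs : LinearIndepOn F id (Set.range ![v, w]) := (linearIndepOn_id_range_iff h.injective).2 h
  let ι := hs.extend (Set.subset_univ (Set.range ![v, w]))
  let b : Module.Basis ι F (Fin n → F) := Module.Basis.extend hs
  have : Fintype ι := Fintype.ofFinite _
  have hcard : Fintype.card ι = n := by
    rw [← Module.finrank_eq_card_basis b, Module.finrank_fin_fun]
  have hvι : v ∈ ι := Module.Basis.subset_extend hs ⟨0, rfl⟩
  have hwι : w ∈ ι := Module.Basis.subset_extend hs ⟨1, rfl⟩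
  let i0 : Fin n := ⟨0, by omega⟩
  let i1 : Fin n := ⟨1, by omega⟩
  let i2 : Fin n := ⟨2, by omega⟩
  let σ₀ : Fin n ≃ ι := (Fintype.equivFinOfCardEq hcard).symm
  let σ₁ : Fin n ≃ ι := (Equiv.swap i0 (σ₀.symm ⟨v, hvι⟩)).trans σ₀
  have h10 : σ₁ i0 = ⟨v, hvι⟩ := by simp [σ₁]
  let σ : Fin n ≃ ι := (Equiv.swap i1 (σ₁.symm ⟨w, hwι⟩)).trans σ₁
  have h1 : σ i1 = ⟨w, hwι⟩ := by simp [σ]
  have h0 : σ i0 = ⟨v, hvι⟩ := by
    show σ₁ (Equiv.swap i1 (σ₁.symm ⟨w, hwι⟩) i0) = _
    rw [Equiv.swap_apply_of_ne_of_ne (by simp [i0, i1]), h10]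
    intro e
    have := congrArg σ₁ e
    rw [h10, Equiv.apply_symm_apply] at this
    exact hvw (congrArg Subtype.val this)
  let b' := b.reindex σ.symm
  let M : Matrix (Fin n) (Fin n) F := (Pi.basisFun F (Fin n)).toMatrix b'
  have hdet : M.det ≠ 0 := by
    have := Module.Basis.invertibleToMatrix (Pi.basisFun F (Fin n)) b'
    exact IsUnit.ne_zero (Matrix.isUnit_det_of_invertible M)
  let M' := M.updateCol i2 (M.det⁻¹ • fun i => M i i2)
  have hM' : M'.det = 1 := by
    show (M.updateCol i2 (M.det⁻¹ • fun i => M i i2)).det = 1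
    rw [Matrix.det_updateCol_smul, Matrix.updateCol_eq_self, inv_mul_cancel₀ hdet]
  have hcol : ∀ i : Fin n, i ≠ i2 → M' *ᵥ Pi.single i 1 = ((σ i : ι) : Fin n → F) := by
    intro i hi
    rw [Matrix.mulVec_single_one]
    ext j
    simp [M', M, Matrix.updateCol_ne hi, Module.Basis.toMatrix_apply, b']
    exact congrFun (Module.Basis.extend_apply_self hs (σ i)) j
  exact ⟨⟨M', hM'⟩, (hcol i0 (by simp [i0, i2])).trans (by rw [h0]),
    (hcol i1 (by simp [i1, i2])).trans (by rw [h1])⟩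

theorem indep_pretransitive (hn : 3 ≤ n) : MulAction.IsPretransitive G (Indep F n) := by
  refine ⟨fun p q => ?_⟩
  obtain ⟨g, g0, g1⟩ := exists_frame hn p.2
  obtain ⟨h, h0, h1⟩ := exists_frame hn q.2
  refine ⟨h * g⁻¹, Subtype.ext (Prod.ext ?_ ?_)⟩
  · show (h * g⁻¹).1 *ᵥ p.1.1 = q.1.1
    rw [← g0, mulVec_mulVec, ← val_mul, inv_mul_cancel_right, h0]
  · show (h * g⁻¹).1 *ᵥ p.1.2 = q.1.2
    rw [← g1, mulVec_mulVec, ← val_mul, inv_mul_cancel_right, h1]

theorem nz_pretransitive (hn : 3 ≤ n) : MulAction.IsPretransitive G (NZ F n) := by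
  refine ⟨fun v w => ?_⟩
  obtain ⟨B, hB⟩ := KnownA.exists_mulVec_eq (by omega) v.2 w.2
  exact ⟨B, Subtype.ext hB⟩

/-- The eigenvectors with a given eigenvalue, counted. -/
noncomputable def S (g : G) (l : Fˣ) : ℕ :=
  (Finset.univ.filter fun v : NZ F n => g.1 *ᵥ v.1 = (l : F) • v.1).card

theorem sum_S (hn : 3 ≤ n) (l : Fˣ) : ∑ g : G, S g l = Fintype.card G := by
  classical
  have := nz_pretransitive (F := F) hn
  have : Nonempty (NZ F n) :=
    ⟨⟨Pi.single ⟨0, by omega⟩ 1, fun e => by simpa using congrFun e ⟨0, by omega⟩⟩⟩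
  rw [← sum_card_translate (A := G) (Y := NZ F n)
    fun v => ⟨(l : F) • v.1, smul_ne_zero l.ne_zero v.2⟩]
  simp only [S, Finset.card_filter]
  rw [Finset.sum_comm]
  refine Finset.sum_congr rfl fun v _ => Finset.sum_congr rfl fun g _ => ?_
  refine if_congr ?_ rfl rfl
  rw [Subtype.ext_iff]
  exact Iff.rfl

theorem sum_S_mul (hn : 3 ≤ n) (l m : Fˣ) :
    ∑ g : G, S g l * S g m =
      Fintype.card G + if l = m then Fintype.card Fˣ * Fintype.card G else 0 := by
  classical
  have := indep_pretransitive (F := F) hn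
  have hne0 : Nonempty (Indep F n) := by
    refine ⟨⟨(Pi.single ⟨0, by omega⟩ 1, Pi.single ⟨1, by omega⟩ 1), ?_⟩⟩
    rw [LinearIndependent.pair_iff]
    intro s t e
    exact ⟨by simpa [Pi.single_apply, Fin.ext_iff] using congrFun e ⟨0, by omega⟩,
      by simpa [Pi.single_apply, Fin.ext_iff] using congrFun e ⟨1, by omega⟩⟩
  let C : NZ F n × NZ F n → ℕ := fun p => (Finset.univ.filter fun g : G =>
    g.1 *ᵥ p.1.1 = (l : F) • p.1.1 ∧ g.1 *ᵥ p.2.1 = (m : F) • p.2.1).card
  have h1 : ∑ g : G, S g l * S g m = ∑ p : NZ F n × NZ F n, C p := by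
    simp only [C, Finset.card_filter]
    rw [Finset.sum_comm]
    refine Finset.sum_congr rfl fun g _ => ?_
    rw [← Finset.card_filter, S, S, ← Finset.card_product]
    congr 1
    ext p
    simp
  rw [h1, ← Finset.sum_filter_add_sum_filter_not Finset.univ
    (fun p : NZ F n × NZ F n => LinearIndependent F ![p.1.1, p.2.1])]
  congr 1
  · have key := sum_card_translate (A := G) (Y := Indep F n) fun p =>
      ⟨((l : F) • p.1.1, (m : F) • p.1.2), by
        have hp := LinearIndependent.pair_iff.1 p.2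
        rw [LinearIndependent.pair_iff]
        intro s t e
        rw [smul_smul, smul_smul] at e
        obtain ⟨a, b⟩ := hp _ _ e
        exact ⟨(mul_eq_zero.1 a).resolve_right l.ne_zero, (mul_eq_zero.1 b).resolve_right m.ne_zero⟩⟩
    rw [← key]
    refine Finset.sum_bij' (fun p hp => ⟨(p.1.1, p.2.1), (Finset.mem_filter.1 hp).2⟩)
      (fun p _ => (⟨p.1.1, p.2.ne_zero 0⟩, ⟨p.1.2, p.2.ne_zero 1⟩)) (by simp)
      (fun p _ => Finset.mem_filter.2 ⟨Finset.mem_univ _, p.2⟩) (fun p _ => rfl) (fun p _ => rfl)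
      fun p hp => ?_
    show (Finset.univ.filter _).card = (Finset.univ.filter _).card
    congr 1
    ext g
    simp only [Finset.mem_filter, Finset.mem_univ, true_and, Subtype.ext_iff, Prod.ext_iff]
    exact Iff.rfl
  · -- dependent pairs
    have hdep : ∑ p ∈ Finset.univ.filter
        (fun p : NZ F n × NZ F n => ¬ LinearIndependent F ![p.1.1, p.2.1]), C p =
        ∑ q : Fˣ × NZ F n, C (q.2, ⟨(q.1 : F) • q.2.1, smul_ne_zero q.1.ne_zero q.2.2⟩) := by
      symm
      refine Finset.sum_bij (fun q _ => (q.2, ⟨(q.1 : F) • q.2.1, smul_ne_zero q.1.ne_zero q.2.2⟩))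
        (fun q _ => Finset.mem_filter.2 ⟨Finset.mem_univ _, fun h => ?_⟩) ?_ ?_ (fun q _ => rfl)
      · have := (LinearIndependent.pair_iff.1 h (q.1 : F) (-1) (by simp)).2
        exact one_ne_zero (neg_eq_zero.1 this)
      · intro q _ q' _ e
        simp only [Prod.ext_iff, Subtype.ext_iff] at e
        obtain ⟨e1, e2⟩ := e
        refine Prod.ext (Units.ext ?_) (Subtype.ext e1)
        rw [← e1] at e2
        exact smul_left_injective F q.2.2 e2
      · intro p hp
        have h := (Finset.mem_filter.1 hp).2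
        rw [linearIndependent_fin2] at h
        simp only [Matrix.cons_val_zero, Matrix.cons_val_one, not_and, not_forall, not_not] at h
        obtain ⟨a, ha⟩ := h p.2.2
        have ha0 : a ≠ 0 := fun e => p.1.2 (by rw [← ha, e, zero_smul])
        refine ⟨((Units.mk0 a ha0)⁻¹, p.1), Finset.mem_univ _, Prod.ext rfl (Subtype.ext ?_)⟩
        show ((Units.mk0 a ha0)⁻¹ : Fˣ).1 • p.1.1 = p.2.1
        rw [← ha, smul_smul, Units.val_inv_eq_inv_val, Units.val_mk0, inv_mul_cancel₀ ha0, one_smul]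
    rw [hdep]
    have hC : ∀ q : Fˣ × NZ F n, C (q.2, ⟨(q.1 : F) • q.2.1, smul_ne_zero q.1.ne_zero q.2.2⟩) =
        if l = m then (Finset.univ.filter fun g : G => g.1 *ᵥ q.2.1 = (l : F) • q.2.1).card else 0 := by
      intro q
      split_ifs with hlm
      · subst hlm
        simp only [C]
        congr 1
        ext g
        simp only [Finset.mem_filter, Finset.mem_univ, true_and]
        refine ⟨fun h => h.1, fun h => ⟨h, ?_⟩⟩
        rw [Matrix.mulVec_smul, h, smul_comm]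
      · refine Finset.card_eq_zero.2 (Finset.filter_eq_empty_iff.2 fun g _ h => hlm ?_)
        obtain ⟨h, h'⟩ := h
        simp only [Matrix.mulVec_smul, h, smul_smul] at h'
        have := smul_left_injective F q.2.2 h'
        exact Units.ext (mul_left_cancel₀ q.1.ne_zero (this.trans (mul_comm _ _)))
    rw [Finset.sum_congr rfl fun q _ => hC q]
    split_ifs with hlm
    · have hl : ∑ v : NZ F n, (Finset.univ.filter fun g : G => g.1 *ᵥ v.1 = (l : F) • v.1).card =
          Fintype.card G := by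
        rw [← sum_S hn l]
        simp only [S, Finset.card_filter]
        exact Finset.sum_comm
      rw [Fintype.sum_prod_type]
      refine (Finset.sum_congr rfl fun c _ => hl).trans ?_
      rw [Finset.sum_const, Finset.card_univ, smul_eq_mul]
    · simp

/-- Combine eigenvector counts by a character of the scalars. -/
noncomputable def chi (θ : Fˣ →* ℂˣ) (g : G) : ℂ :=
  (Fintype.card Fˣ : ℂ)⁻¹ * ∑ l : Fˣ, ((θ l⁻¹ : ℂˣ) : ℂ) * (S g l : ℂ)

theorem S_conj (g h : G) (l : Fˣ) : S (h * g * h⁻¹) l = S g l := by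
  simp only [S]
  refine Finset.card_bij' (fun v _ => h⁻¹ • v) (fun v _ => h • v) ?_ ?_
    (fun v _ => smul_inv_smul h v) (fun v _ => inv_smul_smul h v)
  · intro v hv
    simp only [Finset.mem_filter, Finset.mem_univ, true_and] at hv ⊢
    show g.1 *ᵥ ((h⁻¹ : G).1 *ᵥ v.1) = (l : F) • ((h⁻¹ : G).1 *ᵥ v.1)
    rw [← Matrix.mulVec_smul, ← hv, mulVec_mulVec, mulVec_mulVec, ← val_mul, ← val_mul]
    congr 2
    simp [mul_assoc]
    rfl
  · intro v hv
    simp only [Finset.mem_filter, Finset.mem_univ, true_and] at hv ⊢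
    show (h * g * h⁻¹).1 *ᵥ (h.1 *ᵥ v.1) = (l : F) • (h.1 *ᵥ v.1)
    rw [← Matrix.mulVec_smul, ← hv, mulVec_mulVec, mulVec_mulVec, ← val_mul, ← val_mul]
    congr 2
    simp [mul_assoc]
    rfl

theorem conj_theta (θ : Fˣ →* ℂˣ) (l : Fˣ) :
    conj ((θ l : ℂˣ) : ℂ) = ((θ l⁻¹ : ℂˣ) : ℂ) := by
  have h := char_inv_eq_conj (isCharacter_hom θ) l
  exact h.symm

/-- Scalars and matrices act together on nonzero vectors. -/
@[reducible] def pairAction : MulAction (G × Fˣ) (NZ F n) where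
  smul p v := ⟨((p.2⁻¹ : Fˣ) : F) • (p.1.1 *ᵥ v.1),
    smul_ne_zero (Units.ne_zero _) (mulVec_ne_zero p.1 v.2)⟩
  one_smul v := Subtype.ext (by
    show (((1 : Fˣ)⁻¹ : Fˣ) : F) • ((1 : G).1 *ᵥ v.1) = v.1
    simp [Matrix.one_mulVec])
  mul_smul p q v := Subtype.ext (by
    show (((p.2 * q.2)⁻¹ : Fˣ) : F) • ((p.1 * q.1).1 *ᵥ v.1) =
      ((p.2⁻¹ : Fˣ) : F) • (p.1.1 *ᵥ (((q.2⁻¹ : Fˣ) : F) • (q.1.1 *ᵥ v.1)))
    rw [Matrix.mulVec_smul, mulVec_mulVec, smul_smul, mul_inv, Units.val_mul]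
    rfl)

theorem isCharacter_chi (θ : Fˣ →* ℂˣ) : IsCharacter G (chi (n := n) θ) := by
  classical
  letI := pairAction (F := F) (n := n)
  have hperm := isCharacter_of_rep (permRep (G × Fˣ) (NZ F n))
  refine isCharacter_of_classInner_nat (fun g h => ?_) fun ψ hψ => ?_
  · simp only [chi, S_conj]
  · obtain ⟨k, hk⟩ := exists_classInner_eq_nat hperm (isCharacter_mul
      (isCharacter_comp (isCharacter_of_isIrr hψ) (MonoidHom.fst G Fˣ))
      (isCharacter_hom (θ.comp (MonoidHom.snd G Fˣ))))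
    refine ⟨k, ?_⟩
    rw [← hk, classInner_def, classInner_def, Nat.card_prod, Fintype.sum_prod_type,
      Finset.mul_sum, Finset.mul_sum]
    refine Finset.sum_congr rfl fun g _ => ?_
    rw [chi, Finset.mul_sum, Finset.mul_sum, Finset.sum_mul, Finset.mul_sum]
    refine Finset.sum_congr rfl fun l _ => ?_
    have hS : (permRep (G × Fˣ) (NZ F n)).character (g, l) = (S g l : ℂ) := by
      rw [permRep_character, S, Nat.card_eq_fintype_card, Fintype.card_subtype]
      congr 2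
      ext v
      simp only [Finset.mem_filter, Finset.mem_univ, true_and, Subtype.ext_iff]
      show ((l⁻¹ : Fˣ) : F) • (g.1 *ᵥ v.1) = v.1 ↔ _
      rw [Units.val_inv_eq_inv_val, inv_smul_eq_iff₀ l.ne_zero]
    simp only [Pi.mul_apply, Function.comp_apply, MonoidHom.coe_fst, MonoidHom.comp_apply,
      MonoidHom.coe_snd, map_mul, conj_theta, hS, Nat.card_eq_fintype_card]
    push_cast
    ring

theorem sum_theta {θ : Fˣ →* ℂˣ} (h : θ ≠ 1) : ∑ l : Fˣ, ((θ l : ℂˣ) : ℂ) = 0 :=
  sum_hom_units_eq_zero ((Units.coeHom ℂ).comp θ) fun e =>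
    h (MonoidHom.ext fun l => Units.ext (DFunLike.congr_fun e l))

theorem sum_theta_inv (θ : Fˣ →* ℂˣ) [Decidable (θ = 1)] :
    ∑ l : Fˣ, ((θ l⁻¹ : ℂˣ) : ℂ) = if θ = 1 then (Fintype.card Fˣ : ℂ) else 0 := by
  rw [Fintype.sum_equiv (Equiv.inv Fˣ) (fun l => ((θ l⁻¹ : ℂˣ) : ℂ))
    (fun l => ((θ l : ℂˣ) : ℂ)) fun l => rfl]
  split_ifs with h
  · subst h; simp
  · exact sum_theta h

theorem inner_one (hn : 3 ≤ n) (θ : Fˣ →* ℂˣ) [Decidable (θ = 1)] :
    classInner (chi (n := n) θ) (fun _ : G => (1 : ℂ)) = if θ = 1 then 1 else 0 := by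
  rw [classInner_def]
  simp only [chi, map_one, mul_one]
  rw [← Finset.mul_sum, Finset.sum_comm]
  have : ∀ l : Fˣ, ∑ g : G, ((θ l⁻¹ : ℂˣ) : ℂ) * (S g l : ℂ) =
      ((θ l⁻¹ : ℂˣ) : ℂ) * (Fintype.card G : ℂ) := by
    intro l
    rw [← Finset.mul_sum]
    congr 1
    exact_mod_cast sum_S hn l
  rw [Finset.sum_congr rfl fun l _ => this l, ← Finset.sum_mul, sum_theta_inv,
    Nat.card_eq_fintype_card]
  have h1 : (Fintype.card G : ℂ) ≠ 0 := Nat.cast_ne_zero.2 Fintype.card_ne_zero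
  have h2 : (Fintype.card Fˣ : ℂ) ≠ 0 := Nat.cast_ne_zero.2 Fintype.card_ne_zero
  split_ifs
  · field_simp
  · simp

theorem inner_chi (hn : 3 ≤ n) (θ φ : Fˣ →* ℂˣ) [DecidableEq (Fˣ →* ℂˣ)] :
    classInner (chi (n := n) θ) (chi (n := n) φ) =
      (if θ = 1 then 1 else 0) * (if φ = 1 then 1 else 0) + if θ = φ then 1 else 0 := by
  classical
  rw [classInner_def]
  have h1 : (Fintype.card G : ℂ) ≠ 0 := Nat.cast_ne_zero.2 Fintype.card_ne_zero
  have h2 : (Fintype.card Fˣ : ℂ) ≠ 0 := Nat.cast_ne_zero.2 Fintype.card_ne_zero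
  have hs : ∀ g : G, chi θ g * conj (chi φ g) = (Fintype.card Fˣ : ℂ)⁻¹ * (Fintype.card Fˣ : ℂ)⁻¹ *
      ∑ l : Fˣ, ∑ m : Fˣ, ((θ l⁻¹ : ℂˣ) : ℂ) * ((φ m : ℂˣ) : ℂ) * ((S g l * S g m : ℕ) : ℂ) := by
    intro g
    simp only [chi, map_mul, map_sum, map_inv₀, map_natCast, conj_theta, inv_inv, Nat.cast_mul]
    rw [mul_mul_mul_comm, Finset.sum_mul_sum]
    congr 1
    refine Finset.sum_congr rfl fun l _ => Finset.sum_congr rfl fun m _ => ?_
    ring
  have hsum : ∀ l m : Fˣ, ∑ g : G, ((θ l⁻¹ : ℂˣ) : ℂ) * ((φ m : ℂˣ) : ℂ) *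
      ((S g l * S g m : ℕ) : ℂ) = (Fintype.card G : ℂ) * (((θ l⁻¹ : ℂˣ) : ℂ) * ((φ m : ℂˣ) : ℂ)) +
      if l = m then (Fintype.card Fˣ : ℂ) * (Fintype.card G : ℂ) *
        (((θ l⁻¹ : ℂˣ) : ℂ) * ((φ m : ℂˣ) : ℂ)) else 0 := by
    intro l m
    rw [← Finset.mul_sum, ← Nat.cast_sum, sum_S_mul hn]
    split_ifs <;> push_cast <;> ring
  rw [Finset.sum_congr rfl fun g _ => hs g, ← Finset.mul_sum, Finset.sum_comm]
  rw [Finset.sum_congr rfl fun l _ => Finset.sum_comm,
    Finset.sum_congr rfl fun l _ => Finset.sum_congr rfl fun m _ => hsum l m]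
  simp only [Finset.sum_add_distrib, Finset.sum_ite_eq, Finset.mem_univ, if_true]
  have e1 : ∑ l : Fˣ, ∑ m : Fˣ, (Fintype.card G : ℂ) * (((θ l⁻¹ : ℂˣ) : ℂ) * ((φ m : ℂˣ) : ℂ)) =
      (Fintype.card G : ℂ) * ((if θ = 1 then (Fintype.card Fˣ : ℂ) else 0) *
        (if φ = 1 then (Fintype.card Fˣ : ℂ) else 0)) := by
    rw [← sum_theta_inv θ, show (if φ = 1 then (Fintype.card Fˣ : ℂ) else 0) =
        ∑ m : Fˣ, ((φ m : ℂˣ) : ℂ) by
      rw [← sum_theta_inv φ]
      exact Fintype.sum_equiv (Equiv.inv Fˣ) _ _ fun l => rfl,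
      Finset.sum_mul_sum, Finset.mul_sum]
    exact Finset.sum_congr rfl fun l _ => (Finset.mul_sum _ _ _).symm
  have e2 : ∑ l : Fˣ, ((θ l⁻¹ : ℂˣ) : ℂ) * ((φ l : ℂˣ) : ℂ) =
      if θ = φ then (Fintype.card Fˣ : ℂ) else 0 := by
    have e : ∀ l : Fˣ, ((θ l⁻¹ : ℂˣ) : ℂ) * ((φ l : ℂˣ) : ℂ) = (((θ⁻¹ * φ) l : ℂˣ) : ℂ) := by
      intro l; simp
    rw [Finset.sum_congr rfl fun l _ => e l]
    split_ifs with h
    · subst h; simp
    · exact sum_theta fun e => h (MonoidHom.ext fun l => inv_mul_eq_one.1 (DFunLike.congr_fun e l))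
  rw [e1, ← Finset.mul_sum, e2, Nat.card_eq_fintype_card]
  split_ifs <;> field_simp <;> ring

theorem exists_decomposition (hn : 3 ≤ n) :
    ∃ χ : Fin (Fintype.card F - 1) → (G → ℂ),
      (∀ i, IsIrrCharacter G (χ i)) ∧ Function.Injective χ ∧
      ∀ g : G, (Nat.card {v : Fin n → F // v ≠ 0 ∧ g.1 *ᵥ v = v} : ℂ) = 1 + ∑ i, χ i g := by
  classical
  have : NeZero (Monoid.exponent Fˣ : ℂ) := ⟨Nat.cast_ne_zero.2 Monoid.exponent_ne_zero_of_finite⟩
  have : HasEnoughRootsOfUnity ℂ (Monoid.exponent Fˣ) :=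
    IsSepClosed.hasEnoughRootsOfUnity ℂ (Monoid.exponent Fˣ)
  have hcard : Nat.card (Fˣ →* ℂˣ) = Nat.card Fˣ :=
    CommGroup.card_monoidHom_of_hasEnoughRootsOfUnity Fˣ ℂ
  have : Finite (Fˣ →* ℂˣ) := Nat.finite_of_card_ne_zero (by rw [hcard]; exact Nat.card_pos.ne')
  have : Fintype (Fˣ →* ℂˣ) := Fintype.ofFinite _
  have hc : Fintype.card (Fˣ →* ℂˣ) = Fintype.card F - 1 := by
    rw [← Nat.card_eq_fintype_card, hcard, Nat.card_eq_fintype_card, Fintype.card_units]
  let e : Fin (Fintype.card F - 1) ≃ (Fˣ →* ℂˣ) := (Fintype.equivFinOfCardEq hc).symm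
  let ψ : (Fˣ →* ℂˣ) → G → ℂ := fun θ g => chi θ g - if θ = 1 then 1 else 0
  have hψ : ∀ θ, ψ θ = chi θ - (if θ = 1 then (1 : ℂ) else 0) • (fun _ : G => (1 : ℂ)) := by
    intro θ; ext g; simp [ψ]; split_ifs <;> rfl
  have hgen : ∀ θ, IsGeneralizedCharacter G (ψ θ) := by
    intro θ
    rw [hψ]
    refine isGen_sub (isGen_of_isCharacter (isCharacter_chi θ)) ?_
    split_ifs with h
    · rw [one_smul]; exact isGen_one
    · rw [zero_smul]; exact isGen_zero
  have hone : classInner (fun _ : G => (1 : ℂ)) (fun _ : G => (1 : ℂ)) = 1 :=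
    classInner_self_irr isIrrCharacter_one
  have hinner : ∀ θ φ, classInner (ψ θ) (ψ φ) = if θ = φ then 1 else 0 := by
    intro θ φ
    rw [hψ, hψ, classInner_sub_left, classInner_sub_right, classInner_sub_right,
      classInner_smul_left, classInner_smul_left, classInner_smul_right, classInner_smul_right,
      inner_chi hn, inner_one hn, hone, ← classInner_conj_symm (chi φ) (fun _ : G => (1 : ℂ)),
      inner_one hn]
    split_ifs <;> simp
  have hS1 : ∀ l : Fˣ, S (1 : G) l = if l = 1 then Fintype.card (NZ F n) else 0 := by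
    intro l
    split_ifs with h
    · subst h
      simp [S, Matrix.one_mulVec, Finset.filter_true_of_mem]
    · refine Finset.card_eq_zero.2 (Finset.filter_eq_empty_iff.2 fun v _ e => h ?_)
      rw [val_one, Matrix.one_mulVec] at e
      exact Units.ext (smul_left_injective F v.2 (by simpa using e.symm))
  have hbig : Fintype.card Fˣ < Fintype.card (NZ F n) := by
    let v0 : Fin n → F := Pi.single ⟨0, by omega⟩ 1
    let v1 : Fin n → F := Pi.single ⟨1, by omega⟩ 1
    have hv0 : v0 ≠ 0 := fun e => by simpa [v0] using congrFun e ⟨0, by omega⟩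
    have hv1 : v1 ≠ 0 := fun e => by simpa [v1] using congrFun e ⟨1, by omega⟩
    refine Fintype.card_lt_of_injective_of_notMem
      (fun l : Fˣ => (⟨(l : F) • v0, smul_ne_zero l.ne_zero hv0⟩ : NZ F n))
      (fun a b e => Units.ext (smul_left_injective F hv0 (congrArg Subtype.val e)))
      (b := ⟨v1, hv1⟩) ?_
    rintro ⟨l, hl⟩
    have := congrFun (congrArg Subtype.val hl) ⟨1, by omega⟩
    simp [v0, v1] at this
  have hirr : ∀ θ, IsIrrCharacter G (ψ θ) := by
    intro θ
    refine (isIrrCharacter_of_gen_norm_one (hgen θ) (by rw [hinner, if_pos rfl])).resolve_right ?_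
    intro hneg
    obtain ⟨d, hd⟩ := exists_apply_one_eq (isCharacter_of_isIrr hneg)
    have hd0 := irr_apply_one_ne_zero hneg
    have hval : chi θ (1 : G) = (Fintype.card (NZ F n) : ℂ) / (Fintype.card Fˣ : ℂ) := by
      rw [chi, Finset.sum_eq_single 1 (fun l _ hl => by rw [hS1, if_neg hl]; simp) (by simp),
        hS1, if_pos rfl]
      simp [div_eq_inv_mul]
    rw [Pi.neg_apply] at hd hd0
    have hre : (Fintype.card (NZ F n) : ℂ) + (d : ℂ) * Fintype.card Fˣ =
        (if θ = 1 then (1 : ℂ) else 0) * Fintype.card Fˣ := by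
      have h2 : (Fintype.card Fˣ : ℂ) ≠ 0 := Nat.cast_ne_zero.2 Fintype.card_ne_zero
      have := hd
      simp only [ψ, hval] at this
      field_simp at this
      linear_combination -this
    split_ifs at hre
    · rw [one_mul] at hre
      have : Fintype.card (NZ F n) + d * Fintype.card Fˣ = Fintype.card Fˣ := by exact_mod_cast hre
      omega
    · rw [zero_mul] at hre
      have : Fintype.card (NZ F n) + d * Fintype.card Fˣ = 0 := by exact_mod_cast hre
      omega
  refine ⟨fun i => ψ (e i), fun i => hirr _, fun i j h => e.injective ?_, fun g => ?_⟩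
  · by_contra hne
    have := hinner (e i) (e j)
    rw [if_neg hne, show ψ (e i) = ψ (e j) from h, hinner, if_pos rfl] at this
    exact one_ne_zero this
  · rw [e.sum_comp (fun θ => ψ θ g)]
    have h2 : (Fintype.card Fˣ : ℂ) ≠ 0 := Nat.cast_ne_zero.2 Fintype.card_ne_zero
    simp only [ψ, Finset.sum_sub_distrib, Finset.sum_ite_eq', Finset.mem_univ, if_true, chi]
    rw [← Finset.mul_sum, Finset.sum_comm]
    have horth : ∀ l : Fˣ, ∑ θ : Fˣ →* ℂˣ, ((θ l : ℂˣ) : ℂ) =
        if l = 1 then (Fintype.card Fˣ : ℂ) else 0 := by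
      intro l
      split_ifs with h
      · subst h
        simp [← Nat.card_eq_fintype_card, hcard]
      · obtain ⟨θ₀, hθ₀⟩ := CommGroup.exists_apply_ne_one_of_hasEnoughRootsOfUnity Fˣ ℂ h
        have h' : ∑ θ : Fˣ →* ℂˣ, ((θ l : ℂˣ) : ℂ) = (θ₀ l : ℂ) * ∑ θ : Fˣ →* ℂˣ, ((θ l : ℂˣ) : ℂ) := by
          rw [Finset.mul_sum]
          exact Fintype.sum_equiv (Equiv.mulLeft θ₀⁻¹) _ _ fun θ => by simp
        have : ((θ₀ l : ℂˣ) : ℂ) ≠ 1 := fun e => hθ₀ (Units.ext e)
        have h'' : (((θ₀ l : ℂˣ) : ℂ) - 1) * ∑ θ : Fˣ →* ℂˣ, ((θ l : ℂˣ) : ℂ) = 0 := by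
          linear_combination -h'
        exact (mul_eq_zero.1 h'').resolve_left (sub_ne_zero.2 this)
    simp only [← Finset.sum_mul, horth, inv_eq_one, ite_mul, zero_mul, Finset.sum_ite_eq',
      Finset.mem_univ, if_true]
    rw [inv_mul_cancel_left₀ h2, S, Nat.card_eq_fintype_card, Fintype.card_subtype, Units.val_one]
    simp only [one_smul]
    ring_nf
    rw [Nat.cast_inj]
    refine Finset.card_bij' (fun v hv => ⟨v, (Finset.mem_filter.1 hv).2.1⟩) (fun v _ => v.1)
      ?_ ?_ (fun v _ => rfl) (fun v _ => rfl)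
    · intro v hv
      simpa using (Finset.mem_filter.1 hv).2.2
    · intro v hv
      simpa [v.2] using hv

end Cfsg.Agent.KnownA.SLNonzeroChar
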