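import Mathlib
import Cfsg.Agent.Linear.Transvection

set_option autoImplicit false

/-!
# `SL_n(q)` is generated by three conjugate regular unipotent elements
-/

namespace Cfsg.Agent.KnownA

open Matrix
open scoped commutatorElement

variable {F : Type*} [Field F] {n : ℕ}

theorem slm_mul (A B : SpecialLinearGroup (Fin n) F) : (A * B).1 = A.1 * B.1 := rfl

theorem slm_one : (1 : SpecialLinearGroup (Fin n) F).1 = 1 := rfl

open scoped Classical in
/-- The transvection `x ↦ x + c (φ x) a`. -/
noncomputable def tvec (a φ : Fin n → F) (c : F) : SpecialLinearGroup (Fin n) F :=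
  if h : φ ⬝ᵥ a = 0 then
    ⟨1 + c • vecMulVec a φ, by
      rw [← smul_vecMulVec, vecMulVec_eq (Fin 1)]
      refine (det_one_add_replicateCol_mul_replicateRow _ _).trans ?_
      rw [dotProduct_smul, h, smul_zero, add_zero]⟩
  else 1

theorem tvec_val {a φ : Fin n → F} (h : φ ⬝ᵥ a = 0) (c : F) :
    (tvec a φ c).1 = 1 + c • vecMulVec a φ := by
  unfold tvec
  exact congrArg Subtype.val (dif_pos h)

theorem sq_vecMulVec_zero {a φ b ψ : Fin n → F} (h : φ ⬝ᵥ b = 0) :
    vecMulVec a φ * vecMulVec b ψ = 0 := by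
  rw [vecMulVec_mul_vecMulVec, h, zero_smul, vecMulVec_zero]

theorem tvec_add {a φ : Fin n → F} (h : φ ⬝ᵥ a = 0) (c d : F) : tvec a φ c * tvec a φ d = tvec a φ (c + d) := by
  apply Subtype.ext
  rw [slm_mul, tvec_val h, tvec_val h, tvec_val h]
  simp only [Matrix.mul_add, Matrix.add_mul, Matrix.mul_one, Matrix.one_mul, Matrix.smul_mul,
    Matrix.mul_smul, sq_vecMulVec_zero h, smul_zero, add_zero, add_smul]
  abel

theorem tvec_add_vec {a b φ : Fin n → F} (ha : φ ⬝ᵥ a = 0) (hb : φ ⬝ᵥ b = 0) (c : F) :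
    tvec a φ c * tvec b φ c = tvec (a + b) φ c := by
  have hab : φ ⬝ᵥ (a + b) = 0 := by rw [dotProduct_add, ha, hb, add_zero]
  apply Subtype.ext
  rw [slm_mul, tvec_val ha, tvec_val hb, tvec_val hab]
  simp only [Matrix.mul_add, Matrix.add_mul, Matrix.mul_one, Matrix.one_mul, Matrix.smul_mul,
    Matrix.mul_smul, sq_vecMulVec_zero hb, smul_zero, add_zero, add_vecMulVec, smul_add]
  abel

theorem tvec_add_fun {a φ ψ : Fin n → F} (h1 : φ ⬝ᵥ a = 0) (h2 : ψ ⬝ᵥ a = 0) (c : F) :
    tvec a φ c * tvec a ψ c = tvec a (φ + ψ) c := by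
  have hab : (φ + ψ) ⬝ᵥ a = 0 := by rw [add_dotProduct, h1, h2, add_zero]
  apply Subtype.ext
  rw [slm_mul, tvec_val h1, tvec_val h2, tvec_val hab]
  simp only [Matrix.mul_add, Matrix.add_mul, Matrix.mul_one, Matrix.one_mul, Matrix.smul_mul,
    Matrix.mul_smul, sq_vecMulVec_zero h1, smul_zero, add_zero, vecMulVec_add, smul_add]
  abel

theorem tvec_zero {a φ : Fin n → F} (h : φ ⬝ᵥ a = 0) : tvec a φ 0 = 1 := by
  apply Subtype.ext
  rw [tvec_val h, zero_smul, add_zero, slm_one]

theorem tvec_smul_vec {a φ : Fin n → F} (h : φ ⬝ᵥ a = 0) (r c : F) : tvec (r • a) φ c = tvec a φ (c * r) := by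
  apply Subtype.ext
  rw [tvec_val (by rw [dotProduct_smul, h, smul_zero]), tvec_val h, smul_vecMulVec, smul_smul]

theorem tvec_smul_fun {a φ : Fin n → F} (h : φ ⬝ᵥ a = 0) (r c : F) : tvec a (r • φ) c = tvec a φ (c * r) := by
  apply Subtype.ext
  rw [tvec_val (by rw [smul_dotProduct, h, smul_zero]), tvec_val h, vecMulVec_smul, smul_smul]

theorem tvec_conj (g : SpecialLinearGroup (Fin n) F) {a φ : Fin n → F} (h : φ ⬝ᵥ a = 0) (c : F) :
    g * tvec a φ c * g⁻¹ = tvec (g.1 *ᵥ a) (φ ᵥ* (g⁻¹).1) c := by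
  have hi : (g⁻¹).1 * g.1 = 1 := congrArg Subtype.val (inv_mul_cancel g)
  have hi' : g.1 * (g⁻¹).1 = 1 := congrArg Subtype.val (mul_inv_cancel g)
  have h' : (φ ᵥ* (g⁻¹).1) ⬝ᵥ (g.1 *ᵥ a) = 0 := by
    rw [← dotProduct_mulVec, mulVec_mulVec, hi, one_mulVec, h]
  apply Subtype.ext
  rw [slm_mul, slm_mul, tvec_val h, tvec_val h', Matrix.mul_add,
    Matrix.add_mul, Matrix.mul_one, hi', Matrix.mul_smul, Matrix.smul_mul, mul_vecMulVec, vecMulVec_mul]

theorem tvec_commutator {a φ b ψ : Fin n → F} (h1 : φ ⬝ᵥ a = 0) (h2 : ψ ⬝ᵥ b = 0) (h3 : ψ ⬝ᵥ a = 0) (c d : F) :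
    ⁅tvec a φ c, tvec b ψ d⁆ = tvec a ψ (c * d * (φ ⬝ᵥ b)) := by
  rw [commutatorElement_def, mul_inv_eq_iff_eq_mul, mul_inv_eq_iff_eq_mul]
  apply Subtype.ext
  simp only [slm_mul, tvec_val h1, tvec_val h2, tvec_val h3]
  simp only [Matrix.mul_add, Matrix.add_mul, Matrix.mul_one, Matrix.one_mul, Matrix.smul_mul, Matrix.mul_smul,
    vecMulVec_mul_vecMulVec, h1, h2, h3, zero_smul, smul_zero, zero_vecMulVec, vecMulVec_zero, add_zero,
    smul_add, smul_vecMulVec, vecMulVec_smul, smul_smul]
  match_scalars <;> ring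

/-- The whole root group of the pair lies in `H`. -/
def Full (H : Subgroup (SpecialLinearGroup (Fin n) F)) (a φ : Fin n → F) : Prop :=
  φ ⬝ᵥ a = 0 ∧ ∀ c, tvec a φ c ∈ H

variable {H : Subgroup (SpecialLinearGroup (Fin n) F)}

theorem Full.conj {a φ : Fin n → F} (h : Full H a φ) {g : SpecialLinearGroup (Fin n) F} (hg : g ∈ H) :
    Full H (g.1 *ᵥ a) (φ ᵥ* (g⁻¹).1) := by
  have hi : (g⁻¹).1 * g.1 = 1 := congrArg Subtype.val (inv_mul_cancel g)
  refine ⟨by rw [← dotProduct_mulVec, mulVec_mulVec, hi, one_mulVec, h.1], fun c => ?_⟩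
  rw [← tvec_conj g h.1]
  exact H.mul_mem (H.mul_mem hg (h.2 c)) (H.inv_mem hg)

theorem Full.comm {a φ b ψ : Fin n → F} (h : Full H a φ) (h' : Full H b ψ) (h3 : ψ ⬝ᵥ a = 0)
    (h4 : φ ⬝ᵥ b ≠ 0) : Full H a ψ := by
  refine ⟨h3, fun c => ?_⟩
  have h5 := tvec_commutator h.1 h'.1 h3 (c / (φ ⬝ᵥ b)) 1
  rw [mul_one, div_mul_cancel₀ _ h4] at h5
  rw [← h5, commutatorElement_def]
  exact H.mul_mem (H.mul_mem (H.mul_mem (h.2 _) (h'.2 _)) (H.inv_mem (h.2 _))) (H.inv_mem (h'.2 _))

theorem Full.smul_vec {a φ : Fin n → F} (h : Full H a φ) (r : F) : Full H (r • a) φ :=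
  ⟨by rw [dotProduct_smul, h.1, smul_zero], fun c => by rw [tvec_smul_vec h.1]; exact h.2 _⟩

theorem Full.smul_fun {a φ : Fin n → F} (h : Full H a φ) (r : F) : Full H a (r • φ) :=
  ⟨by rw [smul_dotProduct, h.1, smul_zero], fun c => by rw [tvec_smul_fun h.1]; exact h.2 _⟩

theorem Full.add_vec {a b φ : Fin n → F} (h : Full H a φ) (h' : Full H b φ) : Full H (a + b) φ :=
  ⟨by rw [dotProduct_add, h.1, h'.1, add_zero], fun c => by rw [← tvec_add_vec h.1 h'.1]; exact H.mul_mem (h.2 _) (h'.2 _)⟩

theorem Full.add_fun {a φ ψ : Fin n → F} (h : Full H a φ) (h' : Full H a ψ) : Full H a (φ + ψ) :=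
  ⟨by rw [add_dotProduct, h.1, h'.1, add_zero], fun c => by rw [← tvec_add_fun h.1 h'.1]; exact H.mul_mem (h.2 _) (h'.2 _)⟩

theorem full_sum_vec {φ : Fin n → F} {ι : Type*} (s : Finset ι) (f : ι → Fin n → F)
    (hf : ∀ i ∈ s, Full H (f i) φ) (h0 : Full H (0 : Fin n → F) φ) : Full H (∑ i ∈ s, f i) φ := by
  classical
  induction s using Finset.induction_on with
  | empty => simpa using h0
  | insert i s hi ih =>
    rw [Finset.sum_insert hi]
    exact (hf i (Finset.mem_insert_self i s)).add_vec (ih fun j hj => hf j (Finset.mem_insert_of_mem hj))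

theorem full_sum_fun {a : Fin n → F} {ι : Type*} (s : Finset ι) (f : ι → Fin n → F)
    (hf : ∀ i ∈ s, Full H a (f i)) (h0 : Full H a (0 : Fin n → F)) : Full H a (∑ i ∈ s, f i) := by
  classical
  induction s using Finset.induction_on with
  | empty => simpa using h0
  | insert i s hi ih =>
    rw [Finset.sum_insert hi]
    exact (hf i (Finset.mem_insert_self i s)).add_fun (ih fun j hj => hf j (Finset.mem_insert_of_mem hj))

/-- Lower bidiagonal unipotent matrices multiply as shifts. -/
theorem lower_mulVec {v : Matrix (Fin n) (Fin n) F} {c : Fin n → F}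
    (hv : ∀ i j : Fin n, v i j = if i = j then 1 else if j.val + 1 = i.val then c i else 0)
    (x : Fin n → F) (i : Fin n) :
    (v *ᵥ x) i = x i + if h : 0 < i.val then c i * x ⟨i.val - 1, by omega⟩ else 0 := by
  simp only [mulVec, dotProduct, hv, ite_mul, one_mul, zero_mul]
  rw [← Finset.add_sum_erase _ _ (Finset.mem_univ i), if_pos rfl]
  congr 1
  split
  · rename_i h
    rw [Finset.sum_eq_single (⟨i.val - 1, by omega⟩ : Fin n)]
    · rw [if_neg (fun e => by have := congrArg Fin.val e; simp at this; omega),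
        if_pos (Nat.sub_add_cancel h)]
    · intro j hj hne
      simp only [Finset.mem_erase, Finset.mem_univ, and_true, ne_eq] at hj
      rw [if_neg (Ne.symm hj), if_neg (fun e => hne (Fin.ext (by simp; omega)))]
    · intro h'
      simp only [Finset.mem_erase, Finset.mem_univ, and_true, not_not, ne_eq] at h'
      have := congrArg Fin.val h'
      simp at this
      omega
  · rename_i h
    refine Finset.sum_eq_zero fun j hj => ?_
    simp only [Finset.mem_erase, Finset.mem_univ, and_true, ne_eq] at hj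
    rw [if_neg (Ne.symm hj), if_neg (by omega)]

theorem lower_vecMul {v : Matrix (Fin n) (Fin n) F} {c : Fin n → F}
    (hv : ∀ i j : Fin n, v i j = if i = j then 1 else if j.val + 1 = i.val then c i else 0)
    (x : Fin n → F) (j : Fin n) :
    (x ᵥ* v) j = x j + if h : j.val + 1 < n then x ⟨j.val + 1, h⟩ * c ⟨j.val + 1, h⟩ else 0 := by
  simp only [vecMul, dotProduct, hv, mul_ite, mul_one, mul_zero]
  rw [← Finset.add_sum_erase _ _ (Finset.mem_univ j), if_pos rfl]
  congr 1
  split
  · rename_i h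
    rw [Finset.sum_eq_single (⟨j.val + 1, h⟩ : Fin n)]
    · rw [if_neg (fun e => by have := congrArg Fin.val e; simp at this), if_pos rfl]
    · intro i hi hne
      simp only [Finset.mem_erase, Finset.mem_univ, and_true, ne_eq] at hi
      rw [if_neg hi, if_neg (fun e => hne (Fin.ext (by simp; omega)))]
    · intro h'
      simp only [Finset.mem_erase, Finset.mem_univ, and_true, not_not, ne_eq] at h'
      have := congrArg Fin.val h'
      simp at this
  · rename_i h
    refine Finset.sum_eq_zero fun i hi => ?_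
    simp only [Finset.mem_erase, Finset.mem_univ, and_true, ne_eq] at hi
    rw [if_neg hi, if_neg (by have := i.isLt; omega)]

/-- The key criterion. -/
theorem eq_top_of_shift [Fintype F] [DecidableEq F] (hn : 3 ≤ n) (u v : SpecialLinearGroup (Fin n) F)
    (c : Fin n → F) (hc : ∀ i, c i ≠ 0)
    (hv : ∀ i j : Fin n, v.1 i j = if i = j then 1 else if j.val + 1 = i.val then c i else 0)
    (hu : ∀ i j : Fin n, u.1 i j = if i = j then 1 else if i.val + 1 = j.val then 1 else 0) :
    ∃ l : F, Subgroup.closure ({u, u * tvec (Pi.single ⟨0, by omega⟩ 1) (Pi.single ⟨n - 1, by omega⟩ 1) l, v} :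
      Set (SpecialLinearGroup (Fin n) F)) = ⊤ := by
  classical
  set i0 : Fin n := ⟨0, by omega⟩
  set il : Fin n := ⟨n - 1, by omega⟩
  set i1 : Fin n := ⟨1, by omega⟩
  have h0l : i0 ≠ il := fun e => by have := congrArg Fin.val e; simp [i0, il] at this; omega
  set e0 : Fin n → F := Pi.single i0 1
  set φ0 : Fin n → F := Pi.single il 1
  have hφ0 : ∀ x : Fin n → F, φ0 ⬝ᵥ x = x il := fun x => single_one_dotProduct il x
  have hφe : φ0 ⬝ᵥ e0 = 0 := by rw [hφ0]; exact Pi.single_eq_of_ne (Ne.symm h0l) _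
  set φ1 : Fin n → F := φ0 ᵥ* (v⁻¹).1
  have hvi : (v⁻¹).1 * v.1 = 1 := congrArg Subtype.val (inv_mul_cancel v)
  have hvi' : v.1 * (v⁻¹).1 = 1 := congrArg Subtype.val (mul_inv_cancel v)
  have hφ1v : φ1 ᵥ* v.1 = φ0 := by rw [vecMul_vecMul, hvi, vecMul_one]
  have hφ1ne : ∀ m : ℕ, ∀ i : Fin n, i.val + m = n - 1 → φ1 i ≠ 0 := by
    intro m
    induction m with
    | zero =>
      intro i hi
      have h := congrFun hφ1v i
      rw [lower_vecMul hv, dif_neg (by omega), add_zero] at h
      rw [h, show i = il from Fin.ext (by simp [il]; omega)]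
      simp [φ0]
    | succ m ih =>
      intro i hi
      have hlt : i.val + 1 < n := by omega
      have h := congrFun hφ1v i
      rw [lower_vecMul hv, dif_pos hlt] at h
      have hz : φ0 i = 0 := Pi.single_eq_of_ne (fun e => by have := congrArg Fin.val e; simp [il] at this; omega) _
      rw [hz] at h
      intro e
      rw [e, zero_add] at h
      exact mul_ne_zero (ih ⟨i.val + 1, hlt⟩ (by simp; omega)) (hc _) h
  set κ := φ1 ⬝ᵥ e0
  have hκ : κ ≠ 0 := by
    show φ1 ⬝ᵥ Pi.single i0 1 ≠ 0
    rw [dotProduct_single_one]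
    exact hφ1ne (n - 1) i0 (by simp [i0])
  obtain ⟨g, hg⟩ := IsCyclic.exists_generator (α := Fˣ)
  refine ⟨(g : F) / (c i1 * κ), ?_⟩
  set l := (g : F) / (c i1 * κ) with hl
  set H := Subgroup.closure ({u, u * tvec e0 φ0 l, v} : Set (SpecialLinearGroup (Fin n) F))
  have huH : u ∈ H := Subgroup.subset_closure (by simp)
  have hvH : v ∈ H := Subgroup.subset_closure (by simp)
  have hxH : tvec e0 φ0 l ∈ H := by
    have h2 : u * tvec e0 φ0 l ∈ H := Subgroup.subset_closure (by simp)
    simpa using H.mul_mem (H.inv_mem huH) h2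
  set a1 : Fin n → F := v.1 *ᵥ e0
  have ha1 : ∀ i : Fin n, a1 i = if i = i0 then 1 else if i = i1 then c i1 else 0 := by
    intro i
    show (v.1 *ᵥ Pi.single i0 1) i = _
    rw [mulVec_single_one, Matrix.col_apply, hv]
    by_cases h : i = i0
    · rw [if_pos h, if_pos h]
    · rw [if_neg h, if_neg h]
      by_cases h1 : i = i1
      · subst h1; simp [i0, i1]
      · rw [if_neg h1, if_neg (fun e => h1 (Fin.ext (by simp [i0, i1] at e ⊢; omega)))]
  have hφa1 : φ0 ⬝ᵥ a1 = 0 := by
    rw [hφ0, ha1, if_neg (Ne.symm h0l),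
      if_neg (fun e => by have := congrArg Fin.val e; simp [il, i1] at this; omega)]
  have h1a1 : φ1 ⬝ᵥ a1 = 0 := by rw [dotProduct_mulVec, hφ1v, hφe]
  have hua : u.1 *ᵥ a1 = a1 + c i1 • e0 := by
    funext i
    simp only [mulVec, dotProduct, ha1, mul_ite, mul_one, mul_zero]
    rw [Finset.sum_ite, Finset.sum_ite, Finset.sum_const_zero, add_zero, Finset.filter_eq', if_pos (Finset.mem_univ _),
      Finset.sum_singleton, Finset.filter_filter]
    rw [show (Finset.univ.filter fun x : Fin n => ¬x = i0 ∧ x = i1) = {i1} by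
      ext x
      simp only [Finset.mem_filter, Finset.mem_univ, true_and, Finset.mem_singleton]
      exact ⟨fun h => h.2, fun h => ⟨fun e => by rw [h] at e; simpa [i0, i1] using congrArg Fin.val e, h⟩⟩,
      Finset.sum_singleton, hu, hu, Pi.add_apply, Pi.smul_apply, smul_eq_mul, ha1]
    show _ = _ + c i1 * (Pi.single i0 1 : Fin n → F) i
    by_cases h : i = i0
    · subst h
      simp [i0, i1]
    · by_cases h1 : i = i1
      · subst h1; simp [h, i0, i1]
      · have e1 : ¬ (i.val + 1 = i0.val) := by simp [i0]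
        have e2 : ¬ (i.val + 1 = i1.val) := fun e => h (Fin.ext (by simp [i0, i1] at e ⊢; omega))
        simp [h, h1, e1, e2]
  have hφu : φ0 ᵥ* (u⁻¹).1 = φ0 := by
    have : φ0 ᵥ* u.1 = φ0 := by
      funext j
      show (Pi.single il 1 ᵥ* u.1) j = _
      rw [single_one_vecMul, Matrix.row_apply, hu]
      by_cases h : il = j
      · subst h; simp [φ0]
      · rw [if_neg h, if_neg (by have := j.isLt; simp [il]; omega)]
        simp [φ0, Ne.symm h]
    conv_lhs => rw [← this]
    rw [vecMul_vecMul, show u.1 * (u⁻¹).1 = 1 from congrArg Subtype.val (mul_inv_cancel u), vecMul_one]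
  have hstep : ∀ d, tvec e0 φ0 d ∈ H → tvec a1 φ0 (l * d * κ) ∈ H ∧ tvec e0 φ0 (c i1 * (l * d * κ)) ∈ H := by
    intro d hd
    have ht1 : tvec a1 φ1 l ∈ H := by
      show tvec (v.1 *ᵥ e0) (φ0 ᵥ* (v⁻¹).1) l ∈ H
      rw [← tvec_conj v hφe]
      exact H.mul_mem (H.mul_mem hvH hxH) (H.inv_mem hvH)
    have h3 : tvec a1 φ0 (l * d * κ) ∈ H := by
      rw [← tvec_commutator h1a1 hφe hφa1 l d, commutatorElement_def]
      exact H.mul_mem (H.mul_mem (H.mul_mem ht1 hd) (H.inv_mem ht1)) (H.inv_mem hd)
    refine ⟨h3, ?_⟩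
    have h4 : tvec (u.1 *ᵥ a1) (φ0 ᵥ* (u⁻¹).1) (l * d * κ) ∈ H := by
      rw [← tvec_conj u hφa1]
      exact H.mul_mem (H.mul_mem huH h3) (H.inv_mem huH)
    rw [hua, hφu, ← tvec_add_vec hφa1 (by rw [dotProduct_smul, hφe, smul_zero]), tvec_smul_vec hφe] at h4
    rw [mul_comm (c i1)]
    simpa using H.mul_mem (H.inv_mem h3) h4
  have hpow : ∀ j : ℕ, tvec e0 φ0 ((g : F) ^ j * l) ∈ H := by
    intro j
    induction j with
    | zero => simpa using hxH
    | succ j ih =>
      have h := (hstep _ ih).2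
      rwa [show c i1 * (l * ((g : F) ^ j * l) * κ) = (g : F) ^ (j + 1) * l by
        rw [hl]; field_simp; ring] at h
  have hl0 : l ≠ 0 := div_ne_zero g.ne_zero (mul_ne_zero (hc _) hκ)
  have hfull0 : Full H e0 φ0 := by
    refine ⟨hφe, fun d => ?_⟩
    rcases eq_or_ne d 0 with rfl | hd
    · rw [tvec_zero hφe]; exact H.one_mem
    · obtain ⟨j, hj⟩ := (isOfFinOrder_of_finite g).mem_powers_iff_mem_zpowers.mpr
        (hg (Units.mk0 (d / l) (div_ne_zero hd hl0)))
      have h3 : (g : F) ^ j = d / l := by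
        have := congrArg Units.val hj
        simpa using this
      have := hpow j
      rwa [h3, div_mul_cancel₀ _ hl0] at this
  have hfull1 : Full H a1 φ1 := hfull0.conj hvH
  -- points
  set S : ℕ → (Fin n → F) := fun k => (fun x => v.1 *ᵥ x)^[k] e0
  have hS0 : S 0 = e0 := rfl
  have hSs : ∀ k, S (k + 1) = v.1 *ᵥ S k := fun k => Function.iterate_succ_apply' _ _ _
  have hsupp : ∀ k, (∀ i : Fin n, k < i.val → S k i = 0) ∧ ∀ h : k < n, S k ⟨k, h⟩ ≠ 0 := by
    intro k
    induction k with
    | zero =>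
      refine ⟨fun i hi => ?_, fun h => ?_⟩
      · rw [hS0]; exact Pi.single_eq_of_ne (fun e => by rw [e] at hi; simp [i0] at hi) _
      · rw [hS0]; simp [e0, i0]
    | succ k ih =>
      refine ⟨fun i hi => ?_, fun h => ?_⟩
      · rw [hSs, lower_mulVec hv, ih.1 i (by omega), dif_pos (by omega), ih.1 _ (by simp; omega), mul_zero,
          add_zero]
      · rw [hSs, lower_mulVec hv, ih.1 _ (by simp), dif_pos (by simp), zero_add]
        exact mul_ne_zero (hc _) (ih.2 (by omega))
  have hSfull : ∀ k, k + 1 < n → Full H (S k) φ0 := by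
    intro k
    induction k with
    | zero => exact fun _ => hfull0
    | succ k ih =>
      intro hk
      have h := (ih (by omega)).conj hvH
      rw [← hSs] at h
      refine h.comm hfull0 ?_ hκ
      rw [hφ0]
      exact (hsupp (k + 1)).1 il (by simp [il]; omega)
  have hzero : Full H (0 : Fin n → F) φ0 := by simpa using hfull0.smul_vec 0
  have hcol : ∀ k : ℕ, ∀ i : Fin n, i.val = k → k + 1 < n → Full H (Pi.single i 1) φ0 := by
    intro k
    induction k using Nat.strong_induction_on with
    | _ k ih =>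
    intro i hi hk
    have h1 : Full H (∑ j ∈ Finset.univ.filter (fun j : Fin n => j.val < k), S k j • (Pi.single j 1 : Fin n → F)) φ0 :=
      full_sum_vec _ _ (fun j hj => ((ih j.val (Finset.mem_filter.mp hj).2 j rfl (by
        have := (Finset.mem_filter.mp hj).2; omega))).smul_vec _) hzero
    have h2 := ((hSfull k hk).add_vec (h1.smul_vec (-1))).smul_vec (S k i)⁻¹
    have hne : S k i ≠ 0 := by rw [show i = ⟨k, by omega⟩ from Fin.ext hi]; exact (hsupp k).2 (by omega)
    convert h2 using 1
    funext j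
    simp only [Pi.smul_apply, Pi.add_apply, Finset.sum_apply, smul_eq_mul, Pi.single_apply]
    rcases lt_trichotomy j.val k with hj | hj | hj
    · rw [if_neg (fun e => by rw [e] at hj; omega), Finset.sum_eq_single j]
      · simp
      · intro b _ hb; simp [Ne.symm hb]
      · intro hb; exact absurd (by simpa using hj) hb
    · have hji : j = i := Fin.ext (hj.trans hi.symm)
      rw [if_pos hji, Finset.sum_eq_zero, hji]
      · simp [hne]
      · intro b hb
        rw [if_neg (fun e => by have := (Finset.mem_filter.mp hb).2; rw [← e] at this; omega), mul_zero]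
    · rw [if_neg (fun e => by rw [e] at hj; omega), (hsupp k).1 j hj, Finset.sum_eq_zero]
      · simp
      · intro b hb
        rw [if_neg (fun e => by have := (Finset.mem_filter.mp hb).2; rw [← e] at this; omega), mul_zero]
  have hker : ∀ a : Fin n → F, a il = 0 → Full H a φ0 := by
    intro a ha
    rw [← Finset.univ_sum_single a]
    refine full_sum_vec _ _ (fun j _ => ?_) hzero
    by_cases hj : j = il
    · subst hj; rw [ha, Pi.single_zero]; exact hzero
    · have h := (hcol j.val j rfl (by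
        have : j.val ≠ n - 1 := fun e => hj (Fin.ext e)
        omega)).smul_vec (a j)
      rwa [← Pi.single_smul, smul_eq_mul, mul_one] at h
  -- functionals
  set P : ℕ → (Fin n → F) := fun k => (fun x => x ᵥ* v.1)^[k] φ0
  have hP0 : P 0 = φ0 := rfl
  have hPs : ∀ k, P (k + 1) = P k ᵥ* v.1 := fun k => Function.iterate_succ_apply' _ _ _
  have hPfull : ∀ k, ∀ a : Fin n → F, P k ⬝ᵥ a = 0 → Full H a (P k) := by
    intro k
    induction k with
    | zero => intro a ha; rw [hP0] at ha ⊢; exact hker a (by rwa [hφ0] at ha)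
    | succ k ih =>
      intro a ha
      rw [hPs, ← dotProduct_mulVec] at ha
      have h := (ih _ ha).conj (H.inv_mem hvH)
      rw [inv_inv, mulVec_mulVec, hvi, one_mulVec, ← hPs] at h
      exact h
  have hPsupp : ∀ k, (∀ i : Fin n, i.val + k < n - 1 → P k i = 0) ∧
      ∀ i : Fin n, i.val + k = n - 1 → P k i ≠ 0 := by
    intro k
    induction k with
    | zero =>
      refine ⟨fun i hi => ?_, fun i hi => ?_⟩
      · rw [hP0]; exact Pi.single_eq_of_ne (fun e => by rw [e] at hi; simp [il] at hi) _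
      · rw [hP0, show i = il from Fin.ext (by simp [il]; omega)]; simp [φ0]
    | succ k ih =>
      refine ⟨fun i hi => ?_, fun i hi => ?_⟩
      · rw [hPs, lower_vecMul hv, ih.1 i (by omega), dif_pos (by omega), ih.1 _ (by simp; omega), zero_mul,
          add_zero]
      · rw [hPs, lower_vecMul hv, ih.1 i (by omega), dif_pos (by omega), zero_add]
        exact mul_ne_zero (ih.2 _ (by simp; omega)) (hc _)
  set el : Fin n → F := Pi.single il 1
  have hQ : ∀ k, 1 ≤ k → k ≤ n - 1 → Full H el (P k - P k il • φ0) := by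
    intro k hk1 hk2
    set p : Fin n := ⟨n - 1 - k, by omega⟩
    have hp : P k p ≠ 0 := (hPsupp k).2 p (by simp [p]; omega)
    have hpl : p ≠ il := fun e => by have := congrArg Fin.val e; simp [p, il] at this; omega
    set t := P k il / P k p
    set a : Fin n → F := el - t • Pi.single p 1
    have ha : P k ⬝ᵥ a = 0 := by
      simp only [a, el, dotProduct_sub, dotProduct_smul, dotProduct_single_one, smul_eq_mul, t]
      field_simp
      ring
    set g := tvec (Pi.single p 1) φ0 t
    have hgH : g ∈ H := (hker _ (Pi.single_eq_of_ne (Ne.symm hpl) _)).2 t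
    have hgv : g.1 = 1 + t • vecMulVec (Pi.single p 1) φ0 :=
      tvec_val (by rw [hφ0]; exact Pi.single_eq_of_ne (Ne.symm hpl) _) t
    have hga : g.1 *ᵥ a = el := by
      rw [hgv, add_mulVec, one_mulVec, smul_mulVec, vecMulVec_mulVec, hφ0, op_smul_eq_smul, smul_smul]
      have : a il = 1 := by simp [a, el, Pi.single_eq_of_ne (Ne.symm hpl)]
      rw [this, mul_one]
      simp [a]
    have hgP : P k ᵥ* (g⁻¹).1 = P k - P k il • φ0 := by
      have h1 : (P k - P k il • φ0) ᵥ* g.1 = P k := by
        rw [hgv, vecMul_add, vecMul_one, vecMul_smul, vecMul_vecMulVec, sub_dotProduct, smul_dotProduct,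
          dotProduct_single_one]
        simp only [φ0, single_one_dotProduct, Pi.single_eq_of_ne (Ne.symm hpl), smul_eq_mul, mul_zero, sub_zero, smul_smul]
        rw [show t * P k p = P k il from div_mul_cancel₀ _ hp, sub_add_cancel]
      conv_lhs => rw [← h1]
      rw [vecMul_vecMul, show g.1 * (g⁻¹).1 = 1 from congrArg Subtype.val (mul_inv_cancel g), vecMul_one]
    have h := (hPfull k a ha).conj hgH
    rwa [hga, hgP] at h
  have hzero' : Full H el (0 : Fin n → F) := by simpa using (hQ 1 le_rfl (by omega)).smul_fun 0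
  have hrow : ∀ k : ℕ, ∀ i : Fin n, i.val + k = n - 1 → 1 ≤ k → Full H el (Pi.single i 1) := by
    intro k
    induction k using Nat.strong_induction_on with
    | _ k ih =>
    intro i hi hk
    set Q := P k - P k il • φ0 with hQdef
    have hQv : ∀ j : Fin n, j ≠ il → Q j = P k j := fun j hj => by simp [hQdef, φ0, hj]
    have hQl : Q il = 0 := by simp [hQdef, φ0]
    have hil : i ≠ il := fun e => by rw [e] at hi; simp [il] at hi; omega
    have h1 : Full H el (∑ j ∈ Finset.univ.filter (fun j : Fin n => i.val < j.val ∧ j ≠ il),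
        Q j • (Pi.single j 1 : Fin n → F)) :=
      full_sum_fun _ _ (fun j hj => by
        obtain ⟨hj1, hj2⟩ := (Finset.mem_filter.mp hj).2
        have : j.val ≠ n - 1 := fun e => hj2 (Fin.ext e)
        exact (ih (n - 1 - j.val) (by omega) j (by omega) (by omega)).smul_fun _) hzero'
    have h2 := ((hQ k hk (by omega)).add_fun (h1.smul_fun (-1))).smul_fun (Q i)⁻¹
    have hne : Q i ≠ 0 := by rw [hQv i hil]; exact (hPsupp k).2 i hi
    convert h2 using 1
    funext j
    simp only [Pi.smul_apply, Pi.add_apply, Finset.sum_apply, smul_eq_mul, Pi.single_apply]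
    by_cases hji : j = i
    · subst hji
      rw [if_pos rfl, Finset.sum_eq_zero]
      · have e : P k j - P k il * φ0 j = Q j := by simp [hQdef]
        simp [e, hne]
      · intro b hb
        rw [if_neg (fun e => by have := (Finset.mem_filter.mp hb).2.1; rw [e] at this; omega), mul_zero]
    rw [if_neg hji]
    by_cases hjl : j = il
    · subst hjl
      rw [Finset.sum_eq_zero]
      · have hQl' : (P k - P k il • φ0) il = 0 := hQl
        simp only [Pi.sub_apply, Pi.smul_apply, smul_eq_mul] at hQl'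
        simp [hQl']
      · intro b hb
        rw [if_neg (Ne.symm (Finset.mem_filter.mp hb).2.2), mul_zero]
    rcases lt_or_gt_of_ne (fun e => hji (Fin.ext e)) with hj | hj
    · rw [Finset.sum_eq_zero]
      · have hz : P k j = 0 := (hPsupp k).1 j (by omega)
        simp [hz, φ0, hjl]
      · intro b hb
        rw [if_neg (fun e => by have := (Finset.mem_filter.mp hb).2.1; rw [← e] at this; omega), mul_zero]
    · rw [Finset.sum_eq_single j]
      · have e : P k j - P k il * φ0 j = Q j := by simp [hQdef]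
        simp [e]
      · intro b _ hb; simp [Ne.symm hb]
      · intro hb; exact absurd (Finset.mem_filter.mpr ⟨Finset.mem_univ _, hj, hjl⟩) hb
  haveI : Nontrivial (Fin n) := Fin.nontrivial_iff_two_le.mpr (by omega)
  refine Linear.eq_top_of_transvection_mem fun i j hij d => ?_
  have hfull : Full H (Pi.single i 1) (Pi.single j 1) := by
    by_cases hil : i = il
    · subst hil
      have : j.val ≠ n - 1 := fun e => hij (Fin.ext e.symm)
      exact hrow (n - 1 - j.val) j (by omega) (by omega)
    by_cases hjl : j = il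
    · subst hjl
      exact hker _ (Pi.single_eq_of_ne (Ne.symm hil) _)
    · have : j.val ≠ n - 1 := fun e => hjl (Fin.ext e)
      refine (hker _ (Pi.single_eq_of_ne (Ne.symm hil) _)).comm (hrow (n - 1 - j.val) j (by omega) (by omega)) ?_ ?_
      · rw [single_one_dotProduct]; exact Pi.single_eq_of_ne (Ne.symm hij) _
      · rw [hφ0]; simp [el]
  have h := hfull.2 d
  convert h using 1
  apply Subtype.ext
  rw [Linear.transvection_val hij, tvec_val (by rw [single_one_dotProduct]; exact Pi.single_eq_of_ne (Ne.symm hij) _)]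
  ext a b
  simp [Matrix.transvection, vecMulVec_apply, Matrix.single_apply, Pi.single_apply, eq_comm]
  split_ifs <;> simp_all

end Cfsg.Agent.KnownA

namespace Cfsg.Agent.KnownA

open Matrix

variable {F : Type*} [Field F] {n : ℕ}

/-- The shift matrix. -/
def shiftMat (F : Type*) [Field F] (n : ℕ) : Matrix (Fin n) (Fin n) F :=
  Matrix.of fun i j => if i.val + 1 = j.val then 1 else 0

theorem shiftMat_pow (k : ℕ) (i j : Fin n) :
    (shiftMat F n ^ k) i j = if i.val + k = j.val then 1 else 0 := by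
  induction k generalizing j with
  | zero => simp [Matrix.one_apply, Fin.ext_iff]
  | succ k ih =>
    rw [pow_succ, Matrix.mul_apply]
    by_cases h : i.val + (k + 1) = j.val
    · rw [if_pos h, Finset.sum_eq_single (⟨i.val + k, by omega⟩ : Fin n)]
      · rw [ih, if_pos rfl]; simp [shiftMat]; omega
      · intro b _ hb
        rw [ih, if_neg (fun e => hb (Fin.ext e.symm)), zero_mul]
      · intro hb; exact absurd (Finset.mem_univ _) hb
    · rw [if_neg h]
      refine Finset.sum_eq_zero fun b _ => ?_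
      rw [ih]
      by_cases hb : i.val + k = b.val
      · have : shiftMat F n b j = 0 := by simp [shiftMat]; omega
        rw [this, mul_zero]
      · rw [if_neg hb, zero_mul]

theorem exists_three_conjugates [Fintype F] (hn : 3 ≤ n) :
    ∃ u g h : SpecialLinearGroup (Fin n) F,
      (IsNilpotent ((u : Matrix (Fin n) (Fin n) F) - 1) ∧ ((u : Matrix (Fin n) (Fin n) F) - 1) ^ (n - 1) ≠ 0) ∧
      Subgroup.closure ({u, g * u * g⁻¹, h * u * h⁻¹} : Set (SpecialLinearGroup (Fin n) F)) = ⊤ := by
  classical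
  have hudet : (1 + shiftMat F n).det = 1 := by
    rw [Matrix.det_of_upperTriangular]
    · refine Finset.prod_eq_one fun i _ => ?_
      simp [shiftMat]
    · intro i j hij
      have : j.val < i.val := hij
      simp [shiftMat, Matrix.one_apply, Fin.ext_iff]
      rw [if_neg (by omega), if_neg (by omega), add_zero]
  let u : SpecialLinearGroup (Fin n) F := ⟨1 + shiftMat F n, hudet⟩
  have hu1 : u.1 - 1 = shiftMat F n := add_sub_cancel_left _ _
  have hu : ∀ i j : Fin n, u.1 i j = if i = j then 1 else if i.val + 1 = j.val then 1 else 0 := by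
    intro i j
    show (1 + shiftMat F n) i j = _
    by_cases h : i = j
    · subst h; simp [shiftMat]
    · simp [shiftMat, Matrix.one_apply, h]
  -- the monomial element reversing the basis
  let s : Fin n → F := fun i => if i.val = 0 then ((Equiv.Perm.sign (Fin.revPerm : Equiv.Perm (Fin n)) : ℤ) : F) else 1
  have hs : ∀ i, s i ≠ 0 := by
    intro i
    simp only [s]
    split
    · rcases Int.units_eq_one_or (Equiv.Perm.sign (Fin.revPerm : Equiv.Perm (Fin n))) with h | h <;> simp [h]
    · exact one_ne_zero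
  let π : Equiv.Perm (Fin n) := Fin.revPerm
  have hwdet : (π.permMatrix F * Matrix.diagonal s).det = 1 := by
    rw [Matrix.det_mul, Matrix.det_diagonal, Matrix.det_permutation,
      Finset.prod_eq_single (⟨0, by omega⟩ : Fin n)]
    · simp only [s, if_pos]
      rcases Int.units_eq_one_or (Equiv.Perm.sign (Fin.revPerm : Equiv.Perm (Fin n))) with h | h <;> simp [π, h]
    · intro b _ hb
      simp only [s]
      rw [if_neg (fun e => hb (Fin.ext e))]
    · intro hb; exact absurd (Finset.mem_univ _) hb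
  let w : SpecialLinearGroup (Fin n) F := ⟨_, hwdet⟩
  have hw : ∀ i j : Fin n, w.1 i j = if j = Fin.rev i then s j else 0 := by
    intro i j
    show (π.permMatrix F * Matrix.diagonal s) i j = _
    rw [Matrix.mul_diagonal]
    simp [π, Equiv.Perm.permMatrix, PEquiv.toMatrix_apply, Equiv.toPEquiv_apply, eq_comm]
  let c : Fin n → F := fun i => if h : 0 < i.val then s (Fin.rev i) / s (Fin.rev ⟨i.val - 1, by omega⟩) else 1
  have hc : ∀ i, c i ≠ 0 := by
    intro i
    simp only [c]
    split
    · exact div_ne_zero (hs _) (hs _)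
    · exact one_ne_zero
  let V : Matrix (Fin n) (Fin n) F :=
    Matrix.of fun i j => if i = j then 1 else if j.val + 1 = i.val then c i else 0
  have hVw : V * w.1 = w.1 * u.1 := by
    ext i j
    rw [Matrix.mul_apply, Matrix.mul_apply, Finset.sum_eq_single (Fin.rev j), Finset.sum_eq_single (Fin.rev i)]
    · rw [hw, hw, if_pos (Fin.rev_rev j).symm, if_pos rfl, hu]
      show (if i = Fin.rev j then 1 else if (Fin.rev j).val + 1 = i.val then c i else 0) * s j =
        s (Fin.rev i) * (if Fin.rev i = j then 1 else if (Fin.rev i).val + 1 = j.val then 1 else 0)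
      by_cases h : i = Fin.rev j
      · subst h; simp
      · rw [if_neg h, if_neg (show ¬ Fin.rev i = j from fun e => h (by rw [← e, Fin.rev_rev]))]
        by_cases h2 : (Fin.rev j).val + 1 = i.val
        · rw [if_pos h2, if_pos (by simp [Fin.val_rev] at h2 ⊢; omega)]
          simp only [c]
          rw [dif_pos (by omega)]
          have : (⟨i.val - 1, by omega⟩ : Fin n) = Fin.rev j := Fin.ext (by simp [Fin.val_rev] at h2 ⊢; omega)
          rw [this, Fin.rev_rev, div_mul_cancel₀ _ (hs j), mul_one]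
        · rw [if_neg h2, if_neg (by simp [Fin.val_rev] at h2 ⊢; omega), zero_mul, mul_zero]
    · intro b _ hb
      rw [hw, if_neg hb, zero_mul]
    · intro hb; exact absurd (Finset.mem_univ _) hb
    · intro b _ hb
      rw [hw, if_neg (fun e => hb (by rw [e, Fin.rev_rev])), mul_zero]
    · intro hb; exact absurd (Finset.mem_univ _) hb
  have hvV : (w * u * w⁻¹).1 = V := by
    rw [slm_mul, slm_mul, ← hVw, Matrix.mul_assoc,
      show w.1 * (w⁻¹).1 = 1 from congrArg Subtype.val (mul_inv_cancel w), Matrix.mul_one]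
  obtain ⟨l, hl⟩ := eq_top_of_shift hn u (w * u * w⁻¹) c hc (fun i j => by rw [hvV]; rfl) hu
  -- `u * x` is conjugate to `u`
  have h02 : (Pi.single (⟨n - 2, by omega⟩ : Fin n) (1 : F)) ⬝ᵥ
      (Pi.single (⟨0, by omega⟩ : Fin n) 1 : Fin n → F) = 0 := by
    rw [single_one_dotProduct]; exact Pi.single_eq_of_ne (fun e => by simp [Fin.ext_iff] at e; omega) _
  have h01 : (Pi.single (⟨n - 1, by omega⟩ : Fin n) (1 : F)) ⬝ᵥ
      (Pi.single (⟨0, by omega⟩ : Fin n) 1 : Fin n → F) = 0 := by
    rw [single_one_dotProduct]; exact Pi.single_eq_of_ne (fun e => by simp [Fin.ext_iff] at e; omega) _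
  set y := tvec (Pi.single (⟨0, by omega⟩ : Fin n) (1 : F)) (Pi.single (⟨n - 2, by omega⟩ : Fin n) 1) l
  have hy : y * u = u * tvec (Pi.single (⟨0, by omega⟩ : Fin n) (1 : F)) (Pi.single (⟨n - 1, by omega⟩ : Fin n) 1) l * y := by
    apply Subtype.ext
    rw [slm_mul, slm_mul, slm_mul, tvec_val h01, tvec_val h02]
    have e1 : u.1 *ᵥ (Pi.single (⟨0, by omega⟩ : Fin n) (1 : F)) = Pi.single (⟨0, by omega⟩ : Fin n) 1 := by
      funext i
      rw [mulVec_single_one, Matrix.col_apply, hu, Pi.single_apply]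
      rw [if_neg (show ¬(i.val + 1 = 0) by omega)]
    have e2 : (Pi.single (⟨n - 2, by omega⟩ : Fin n) (1 : F)) ᵥ* u.1 =
        (Pi.single (⟨n - 2, by omega⟩ : Fin n) 1 : Fin n → F) + Pi.single (⟨n - 1, by omega⟩ : Fin n) 1 := by
      funext j
      rw [single_one_vecMul, Matrix.row_apply, hu, Pi.add_apply, Pi.single_apply, Pi.single_apply]
      by_cases h : (⟨n - 2, by omega⟩ : Fin n) = j
      · subst h
        rw [if_pos rfl, if_pos rfl, if_neg (fun e => by simp [Fin.ext_iff] at e; omega), add_zero]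
      · rw [if_neg h, if_neg (Ne.symm h), zero_add]
        have h' : j.val ≠ n - 2 := fun e => h (Fin.ext e.symm)
        by_cases h2 : j = (⟨n - 1, by omega⟩ : Fin n)
        · subst h2; rw [if_pos rfl, if_pos (by simp; omega)]
        · rw [if_neg h2, if_neg (fun e => h2 (Fin.ext (by simp at e ⊢; omega)))]
    simp only [Matrix.add_mul, Matrix.mul_add, Matrix.one_mul, Matrix.mul_one, Matrix.smul_mul, Matrix.mul_smul,
      vecMulVec_mul, mul_vecMulVec, e1, e2, vecMulVec_add, smul_add, add_mulVec, smul_mulVec, vecMulVec_mulVec, h01, smul_zero,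
      zero_vecMulVec, MulOpposite.op_zero, zero_smul, add_zero]
    abel
  refine ⟨u, y, w, ⟨⟨n, ?_⟩, ?_⟩, ?_⟩
  · show (u.1 - 1) ^ n = 0
    rw [hu1]
    ext i j
    rw [shiftMat_pow, if_neg (by omega)]
    rfl
  · show (u.1 - 1) ^ (n - 1) ≠ 0
    rw [hu1]
    intro e
    have h1 := congrFun (congrFun e ⟨0, by omega⟩) ⟨n - 1, by omega⟩
    rw [shiftMat_pow, if_pos (by simp)] at h1
    exact one_ne_zero h1
  · rw [show y * u * y⁻¹ = u * tvec (Pi.single (⟨0, by omega⟩ : Fin n) (1 : F)) (Pi.single (⟨n - 1, by omega⟩ : Fin n) 1) l by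
      rw [hy, mul_inv_cancel_right]]
    exact hl

end Cfsg.Agent.KnownA
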