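import Cfsg.Agent.KnownA.WeilIrred
import Cfsg.Agent.Forms.SympBridge
import Mathlib.LinearAlgebra.Matrix.GeneralLinearGroup.Card

set_option autoImplicit false

/-!
# Degrees of representations of the symplectic group in characteristic two

Characters of the Siegel radical are quadratic forms; forms with nonzero polar form have large orbits.
-/

namespace Cfsg.Agent.KnownA

open Matrix

variable {F : Type*} [Field F] {n : ℕ}

/-- The quadratic function of a matrix. -/
def quadFun (A : Matrix (Fin n) (Fin n) F) (v : Fin n → F) : F := v ⬝ᵥ (A *ᵥ v)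

/-- The polar form of a matrix. -/
def polarFun (A : Matrix (Fin n) (Fin n) F) (u v : Fin n → F) : F := u ⬝ᵥ ((A + Aᵀ) *ᵥ v)

theorem polarFun_comm (A : Matrix (Fin n) (Fin n) F) (u v : Fin n → F) : polarFun A u v = polarFun A v u := by
  rw [polarFun, polarFun, dotProduct_mulVec, ← mulVec_transpose, transpose_add, transpose_transpose,
    add_comm, dotProduct_comm]

theorem quadFun_add (A : Matrix (Fin n) (Fin n) F) (u v : Fin n → F) :
    quadFun A (u + v) = quadFun A u + quadFun A v + polarFun A u v := by
  have e : v ⬝ᵥ (A *ᵥ u) = u ⬝ᵥ (Aᵀ *ᵥ v) := by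
    rw [dotProduct_mulVec u, ← mulVec_transpose, transpose_transpose, dotProduct_comm]
  simp only [quadFun, polarFun, mulVec_add, add_mulVec, dotProduct_add, add_dotProduct, e]
  ring

theorem quadFun_smul (A : Matrix (Fin n) (Fin n) F) (c : F) (v : Fin n → F) :
    quadFun A (c • v) = c ^ 2 * quadFun A v := by
  simp only [quadFun, mulVec_smul, dotProduct_smul, smul_dotProduct, smul_eq_mul]; ring

theorem polarFun_self [CharP F 2] (A : Matrix (Fin n) (Fin n) F) (v : Fin n → F) : polarFun A v v = 0 := by
  have e : v ⬝ᵥ (Aᵀ *ᵥ v) = v ⬝ᵥ (A *ᵥ v) := by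
    rw [dotProduct_mulVec, ← mulVec_transpose, transpose_transpose, dotProduct_comm]
  rw [polarFun, add_mulVec, dotProduct_add, e, CharTwo.add_self_eq_zero]

/-- The polar form as a linear map in the second variable. -/
def polarLin (A : Matrix (Fin n) (Fin n) F) (u : Fin n → F) : (Fin n → F) →ₗ[F] F where
  toFun v := polarFun A u v
  map_add' v w := by simp [polarFun, mulVec_add, dotProduct_add]
  map_smul' c v := by simp [polarFun, mulVec_smul, dotProduct_smul]

@[simp] theorem polarLin_apply (A : Matrix (Fin n) (Fin n) F) (u v : Fin n → F) :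
    polarLin A u v = polarFun A u v := rfl

theorem exists_pair [Fintype F] [CharP F 2] {A : Matrix (Fin n) (Fin n) F} (hA : A + Aᵀ ≠ 0) :
    ∃ x y : Fin n → F, polarFun A x y = 1 ∧ quadFun A x ≠ 0 := by
  obtain ⟨i, j, hij⟩ : ∃ i j, (A + Aᵀ) i j ≠ 0 := by
    by_contra h
    push Not at h
    exact hA (Matrix.ext h)
  set u : Fin n → F := Pi.single i 1
  set v : Fin n → F := ((A + Aᵀ) i j)⁻¹ • Pi.single j 1
  have h1 : polarFun A u v = 1 := by
    simp [u, v, polarFun, mulVec_smul, Matrix.col_apply]
    exact inv_mul_cancel₀ (by simpa using hij)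
  by_cases hu : quadFun A u = 0
  · by_cases hv : quadFun A v = 0
    · exact ⟨u + v, v, by
        have : polarFun A (u + v) v = polarFun A u v + polarFun A v v := by simp [polarFun, add_dotProduct]
        rw [this, h1, polarFun_self, add_zero], by rw [quadFun_add, hu, hv, h1]; simp⟩
    · exact ⟨v, u, (polarFun_comm A v u).trans h1, hv⟩
  · exact ⟨u, v, h1, hu⟩

/-- The stabiliser of a quadratic function with nonzero polar form is small. -/
theorem card_stab_le [Fintype F] [DecidableEq F] [CharP F 2] (hn : 2 ≤ n)
    {A : Matrix (Fin n) (Fin n) F} (hA : A + Aᵀ ≠ 0) :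
    Nat.card {g : GL (Fin n) F // ∀ v, quadFun A ((g : Matrix (Fin n) (Fin n) F) *ᵥ v) = quadFun A v} ≤
      (Fintype.card F + 1) * Fintype.card F ^ (n - 2) * (2 * Fintype.card F ^ (n - 2)) *
        ∏ i : Fin (n - 2), (Fintype.card F ^ (n - 2) - Fintype.card F ^ i.val) := by
  classical
  obtain ⟨x, y, hxy, ha⟩ := exists_pair hA
  set a := quadFun A x
  set b := quadFun A y
  have hx0 : x ≠ 0 := by rintro rfl; exact ha (by simp [a, quadFun])
  let P : Submodule F (Fin n → F) := LinearMap.ker ((polarLin A x).prod (polarLin A y))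
  have hxx := polarFun_self A x
  have hyy := polarFun_self A y
  have hyx : polarFun A y x = 1 := (polarFun_comm A y x).trans hxy
  have hP : Module.finrank F P = n - 2 := by
    have hsurj : LinearMap.range ((polarLin A x).prod (polarLin A y)) = ⊤ := by
      rw [LinearMap.range_eq_top]
      rintro ⟨s, t⟩
      refine ⟨t • x + s • y, ?_⟩
      ext <;> simp [polarLin, polarFun, mulVec_add, mulVec_smul, dotProduct_add, dotProduct_smul] <;>
        simp only [← polarFun.eq_1, hxy, hxx, hyy, hyx] <;> ring
    have h := LinearMap.finrank_range_add_finrank_ker ((polarLin A x).prod (polarLin A y))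
    rw [hsurj, finrank_top, Module.finrank_prod, Module.finrank_self, Module.finrank_fin_fun] at h
    show Module.finrank F P = n - 2
    change 1 + 1 + Module.finrank F P = n at h
    omega
  have hPcard : Fintype.card P = Fintype.card F ^ (n - 2) := by
    rw [Module.card_eq_pow_finrank (K := F) (V := P), hP]
  -- the level set of `a`
  set Lev : F → Finset (Fin n → F) := fun c => Finset.univ.filter fun u => quadFun A u = c with hLev
  have hsq : ∀ c : F, ∃ r : F, c = r * r := fun c => FiniteField.isSquare_of_char_two (ringChar.eq F 2) c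
  have hlev : ∀ c : F, c ≠ 0 → (Lev c).card = (Lev a).card := by
    intro c hc
    obtain ⟨r, hr⟩ := hsq (c / a)
    have hr0 : r ≠ 0 := by rintro rfl; exact div_ne_zero hc ha (by simpa using hr)
    refine (Finset.card_equiv (MulAction.toPerm (Units.mk0 r hr0)) fun u => ?_).symm
    simp only [hLev, Finset.mem_filter, Finset.mem_univ, true_and, MulAction.toPerm_apply]
    show _ ↔ quadFun A (r • u) = c
    rw [quadFun_smul, pow_two, ← hr]
    constructor
    · intro e; rw [e, div_mul_cancel₀ c ha]
    · intro e; exact mul_left_cancel₀ (div_ne_zero hc ha) (e.trans (div_mul_cancel₀ c ha).symm)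
  have hzero : Fintype.card F ^ (n - 2) ≤ (Lev 0).card := by
    choose r hr using hsq
    rw [← hPcard, ← Finset.card_univ]
    refine Finset.card_le_card_of_injOn (fun p : P => (p : Fin n → F) + r (quadFun A p / a) • x) ?_ ?_
    · intro p _
      have hp : polarFun A (p : Fin n → F) x = 0 := by
        rw [polarFun_comm]; exact congrArg Prod.fst p.2
      have h0 : polarFun A (p : Fin n → F) (r (quadFun A p / a) • x) = 0 := by
        rw [show polarFun A (p : Fin n → F) (r (quadFun A p / a) • x) =
          r (quadFun A p / a) • polarFun A (p : Fin n → F) x from (polarLin A p).map_smul _ _, hp, smul_zero]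
      simp only [hLev, Finset.coe_filter, Finset.mem_univ, true_and, Set.mem_ofPred_eq]
      rw [quadFun_add, quadFun_smul, h0, pow_two, ← hr, div_mul_cancel₀ _ ha, add_zero, CharTwo.add_self_eq_zero]
    · intro p _ p' _ e
      have e2 := congrArg (polarLin A y) e
      simp only [map_add, map_smul, smul_eq_mul] at e2
      have hpy : polarLin A y (p : Fin n → F) = 0 := congrArg Prod.snd p.2
      have hpy' : polarLin A y (p' : Fin n → F) = 0 := congrArg Prod.snd p'.2
      rw [hpy, hpy', show polarLin A y x = 1 from hyx, zero_add, zero_add, mul_one, mul_one] at e2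
      exact Subtype.ext (by simpa [e2] using e)
  have hfirst : (Lev a).card ≤ (Fintype.card F + 1) * Fintype.card F ^ (n - 2) := by
    have htot := Finset.card_eq_sum_card_fiberwise (s := (Finset.univ : Finset (Fin n → F)))
      (t := (Finset.univ : Finset F)) (f := quadFun A) (fun u _ => Finset.mem_univ _)
    rw [Finset.card_univ, Fintype.card_fun, Fintype.card_fin,
      ← Finset.add_sum_erase _ _ (Finset.mem_univ (0 : F)),
      Finset.sum_congr rfl (fun c hc => hlev c (Finset.mem_erase.mp hc).1), Finset.sum_const,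
      Finset.card_erase_of_mem (Finset.mem_univ _), Finset.card_univ, smul_eq_mul] at htot
    change Fintype.card F ^ n = (Lev 0).card + (Fintype.card F - 1) * (Lev a).card at htot
    have hq : 2 ≤ Fintype.card F := Fintype.one_lt_card
    obtain ⟨m, hm⟩ : ∃ m, Fintype.card F = m + 1 := ⟨_, (Nat.sub_add_cancel (by omega)).symm⟩
    have hm0 : 0 < m := by omega
    have hpow : Fintype.card F ^ n = Fintype.card F ^ (n - 2) * Fintype.card F ^ 2 := by
      rw [← pow_add, Nat.sub_add_cancel hn]
    rw [hpow] at htot
    generalize Fintype.card F ^ (n - 2) = Q at htot hzero ⊢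
    rw [hm] at htot hq ⊢
    rw [Nat.add_sub_cancel] at htot
    refine Nat.le_of_mul_le_mul_left ?_ hm0
    nlinarith
  have hsecond : ∀ u : Fin n → F, quadFun A u = a →
      (Finset.univ.filter fun v => polarFun A u v = 1 ∧ quadFun A v = b).card ≤
        2 * Fintype.card F ^ (n - 2) := by
    intro u hu
    set T := Finset.univ.filter fun v => polarFun A u v = 1 ∧ quadFun A v = b
    rcases T.eq_empty_or_nonempty with hT | ⟨v₁, hv₁⟩
    · simp [hT]
    simp only [T, Finset.mem_filter, Finset.mem_univ, true_and] at hv₁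
    have hu0 : u ≠ 0 := by rintro rfl; exact ha (by simpa [quadFun] using hu.symm)
    set H := LinearMap.ker (polarLin A u)
    have hH : Module.finrank F H = n - 1 := by
      have hsurj : LinearMap.range (polarLin A u) = ⊤ := by
        rw [LinearMap.range_eq_top]
        intro s
        exact ⟨s • v₁, by rw [map_smul]; simp [hv₁.1]⟩
      have h := LinearMap.finrank_range_add_finrank_ker (polarLin A u)
      rw [hsurj, finrank_top, Module.finrank_self, Module.finrank_fin_fun] at h
      show Module.finrank F H = n - 1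
      change 1 + Module.finrank F H = n at h
      omega
    set L : Submodule F (Fin n → F) := F ∙ u
    have hquot : Fintype.card (H ⧸ Submodule.comap H.subtype L) = Fintype.card F ^ (n - 2) := by
      have huH : u ∈ H := polarFun_self A u
      have h1 : Module.finrank F (Submodule.comap H.subtype L) = 1 := by
        rw [LinearEquiv.finrank_eq (Submodule.comapSubtypeEquivOfLe
          ((Submodule.span_singleton_le_iff_mem _ _).2 huH)), finrank_span_singleton hu0]
      rw [Module.card_eq_pow_finrank (K := F) (V := H ⧸ Submodule.comap H.subtype L)]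
      congr 1
      have := Submodule.finrank_quotient_add_finrank (Submodule.comap H.subtype L)
      omega
    let f : (Fin n → F) → H ⧸ Submodule.comap H.subtype L := fun v =>
      if h : v - v₁ ∈ H then Submodule.Quotient.mk ⟨v - v₁, h⟩ else 0
    rw [← hquot, ← Finset.card_univ]
    refine (Finset.card_le_mul_card_image T 2 ?_).trans (Nat.mul_le_mul_left 2 (Finset.card_le_univ (T.image f)))
    intro c hc
    obtain ⟨w, hw, rfl⟩ := Finset.mem_image.mp hc
    simp only [T, Finset.mem_filter, Finset.mem_univ, true_and] at hw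
    -- the fibre lies on a line, where there are at most two solutions
    refine le_trans (Finset.card_le_card (t := {w, w + a⁻¹ • u}) fun v hv => ?_) Finset.card_le_two
    simp only [T, Finset.mem_filter, Finset.mem_univ, true_and] at hv
    obtain ⟨⟨hv1, hv2⟩, hfv⟩ := hv
    have hmem : ∀ z, polarFun A u z = 1 → z - v₁ ∈ H := by
      intro z hz
      rw [LinearMap.mem_ker, map_sub]
      simp [hz, hv₁.1]
    simp only [f, dif_pos (hmem v hv1), dif_pos (hmem w hw.1)] at hfv
    have hsub : (v - v₁) - (w - v₁) ∈ L := (Submodule.Quotient.eq (Submodule.comap H.subtype L)).mp hfv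
    rw [sub_sub_sub_cancel_right, Submodule.mem_span_singleton] at hsub
    obtain ⟨t, ht⟩ := hsub
    have hv' : v = w + t • u := by rw [ht, add_sub_cancel]
    have e : quadFun A v = b + t ^ 2 * a + t := by
      rw [hv', quadFun_add, quadFun_smul, hw.2, hu,
        show polarFun A w (t • u) = t • polarFun A w u from (polarLin A w).map_smul _ _,
        polarFun_comm A w u, hw.1, smul_eq_mul, mul_one]
    rw [hv2] at e
    have e' : t * (t * a + 1) = 0 := by linear_combination -e
    rcases mul_eq_zero.mp e' with h | h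
    · simp [hv', h]
    · have : t = a⁻¹ := by
        have h' : t * a = 1 := by rw [eq_neg_of_add_eq_zero_left h, CharTwo.neg_eq]
        exact eq_inv_of_mul_eq_one_left h'
      simp [hv', this]
  set G := {g : GL (Fin n) F // ∀ v, quadFun A ((g : Matrix (Fin n) (Fin n) F) *ᵥ v) = quadFun A v}
  let act : G → (Fin n → F) → (Fin n → F) := fun g v => ((g.1 : Matrix (Fin n) (Fin n) F)) *ᵥ v
  have hpol : ∀ (g : G) u v, polarFun A (act g u) (act g v) = polarFun A u v := by
    intro g u v
    have h := g.2 (u + v)
    rw [mulVec_add, quadFun_add, quadFun_add, g.2, g.2] at h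
    exact add_left_cancel h
  -- the images of `(x, y)`
  set M : Finset (Σ _ : Fin n → F, Fin n → F) := (Lev a).sigma fun u =>
    Finset.univ.filter fun v => polarFun A u v = 1 ∧ quadFun A v = b with hM
  have hMcard : M.card ≤ (Fintype.card F + 1) * Fintype.card F ^ (n - 2) * (2 * Fintype.card F ^ (n - 2)) := by
    rw [hM, Finset.card_sigma]
    refine (Finset.sum_le_card_nsmul _ _ _ fun u hu => hsecond u (Finset.mem_filter.mp hu).2).trans ?_
    exact Nat.mul_le_mul_right _ hfirst
  obtain ⟨bas⟩ : Nonempty (Module.Basis (Fin (n - 2)) F P) := ⟨Module.finBasisOfFinrankEq F P hP⟩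
  have hlin : Fintype.card {s : Fin (n - 2) → P // LinearIndependent F s} =
      ∏ i : Fin (n - 2), (Fintype.card F ^ (n - 2) - Fintype.card F ^ i.val) := by
    have h := card_linearIndependent (K := F) (V := P) (k := n - 2) hP.ge
    rw [hP] at h
    rw [← Nat.card_eq_fintype_card]
    exact h
  rw [Nat.card_eq_fintype_card, ← Finset.card_univ]
  let img : G → Σ _ : Fin n → F, Fin n → F := fun g => ⟨act g x, act g y⟩
  refine (Finset.card_le_mul_card_image _
    (∏ i : Fin (n - 2), (Fintype.card F ^ (n - 2) - Fintype.card F ^ i.val)) (f := img) ?_).trans ?_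
  · intro c hc
    obtain ⟨g₀, -, rfl⟩ := Finset.mem_image.mp hc
    rw [← hlin, ← Finset.card_univ]
    have hstab : ∀ g ∈ Finset.univ.filter (fun g : G => img g = img g₀), ∀ p : P,
        ((g₀.1⁻¹ * g.1 : GL (Fin n) F) : Matrix (Fin n) (Fin n) F) *ᵥ (p : Fin n → F) ∈ P := by
      intro g hg p
      simp only [Finset.mem_filter, Finset.mem_univ, true_and, img, Sigma.mk.injEq, heq_eq_eq] at hg
      set w := ((g₀.1⁻¹ * g.1 : GL (Fin n) F) : Matrix (Fin n) (Fin n) F) *ᵥ (p : Fin n → F)
      have hw : act g₀ w = act g p := by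
        simp only [act, w, mulVec_mulVec, ← Units.val_mul, mul_inv_cancel_left]
      have key : ∀ z, act g z = act g₀ z → polarFun A z (p : Fin n → F) = 0 → polarFun A z w = 0 := by
        intro z hz hzp
        rw [← hpol g₀ z w, hw, ← hz, hpol g z p, hzp]
      have h1 := key x hg.1 (congrArg Prod.fst p.2)
      have h2 := key y hg.2 (congrArg Prod.snd p.2)
      exact LinearMap.mem_ker.mpr (Prod.ext h1 h2)
    let ρ : G → (Fin (n - 2) → P) := fun g j =>
      if h : ((g₀.1⁻¹ * g.1 : GL (Fin n) F) : Matrix (Fin n) (Fin n) F) *ᵥ (bas j : Fin n → F) ∈ P then ⟨_, h⟩ else 0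
    refine le_trans ?_ (Finset.card_map (Function.Embedding.subtype _)).le
    refine Finset.card_le_card_of_injOn ρ ?_ ?_
    · intro g hg
      simp only [Finset.coe_map, Set.mem_image, Function.Embedding.coe_subtype]
      refine ⟨⟨ρ g, ?_⟩, Finset.mem_coe.mpr (Finset.mem_univ _), rfl⟩
      apply LinearIndependent.of_comp P.subtype
      have hcomp : P.subtype ∘ ρ g = (Matrix.toLin' ((g₀.1⁻¹ * g.1 : GL (Fin n) F) : Matrix (Fin n) (Fin n) F)) ∘
          (P.subtype ∘ bas) := by
        funext j
        simp only [Function.comp_apply, ρ, dif_pos (hstab g hg (bas j)), Submodule.subtype_apply,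
          Matrix.toLin'_apply]
      rw [hcomp]
      refine (bas.linearIndependent.map' P.subtype P.ker_subtype).map' _ ?_
      rw [LinearMap.ker_eq_bot]
      exact Matrix.mulVec_injective_iff_isUnit.mpr (g₀.1⁻¹ * g.1).isUnit
    · intro g hg g' hg' e
      have hgx : act g x = act g' x ∧ act g y = act g' y := by
        simp only [Finset.coe_filter, Finset.mem_univ, true_and, Set.mem_ofPred_eq, img, Sigma.mk.injEq,
          heq_eq_eq] at hg hg'
        exact ⟨hg.1.trans hg'.1.symm, hg.2.trans hg'.2.symm⟩
      have hj : ∀ j, act g (bas j) = act g' (bas j) := by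
        intro j
        have h := congrArg Subtype.val (congrFun e j)
        simp only [ρ, dif_pos (hstab g hg (bas j)), dif_pos (hstab g' hg' (bas j))] at h
        have h' := congrArg (fun w => act g₀ w) h
        simpa [act, mulVec_mulVec, ← Units.val_mul] using h'
      apply Subtype.ext
      apply Units.ext
      apply Matrix.toLin'.injective
      apply LinearMap.ext
      intro v
      have hv : v - (polarFun A x v) • y - (polarFun A y v) • x ∈ P := by
        refine LinearMap.mem_ker.mpr (Prod.ext ?_ ?_)
        · show polarLin A x _ = 0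
          rw [map_sub, map_sub, map_smul, map_smul]
          simp [hxy, hxx]
        · show polarLin A y _ = 0
          rw [map_sub, map_sub, map_smul, map_smul]
          simp [hyy, hyx]
      have hsum := bas.sum_repr ⟨_, hv⟩
      have hsum' := congrArg P.subtype hsum
      simp only [map_sum, map_smul, Submodule.subtype_apply] at hsum'
      have hdec : v = polarFun A x v • y + polarFun A y v • x +
          ∑ j, (bas.repr ⟨_, hv⟩ j) • (bas j : Fin n → F) := by rw [hsum']; abel
      rw [hdec]
      simp only [map_add, map_smul, map_sum, Matrix.toLin'_apply]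
      simp only [act] at hgx hj
      simp only [hgx.1, hgx.2, hj]
  · rw [mul_comm]
    refine Nat.mul_le_mul_right _ ((Finset.card_le_card ?_).trans hMcard)
    intro c hc
    obtain ⟨g, -, rfl⟩ := Finset.mem_image.mp hc
    simp only [hM, hLev, img, Finset.mem_sigma, Finset.mem_filter, Finset.mem_univ, true_and]
    exact ⟨g.2 x, (hpol g x y).trans hxy, g.2 y⟩

/-- The character of the symmetric matrices attached to a matrix. -/
def quadChar {K : Type*} [Field K] (θ : AddChar F K) (A : Matrix (Fin n) (Fin n) F) :
    AddChar (symMats F n) K where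
  toFun S := θ ((A * S.1).trace)
  map_zero_eq_one' := by simp
  map_add_eq_mul' a b := by
    rw [AddSubgroup.coe_add, Matrix.mul_add, trace_add, AddChar.map_add_eq_mul]

theorem quadChar_congr {K : Type*} [Field K] (θ : AddChar F K) (A k : Matrix (Fin n) (Fin n) F) :
    (quadChar θ A).compAddMonoidHom (symCongr k) = quadChar θ (kᵀ * A * k) := by
  ext S
  show θ ((A * (k * S.1 * kᵀ)).trace) = θ ((kᵀ * A * k * S.1).trace)
  rw [← Matrix.mul_assoc, trace_mul_comm, ← Matrix.mul_assoc, ← Matrix.mul_assoc]

theorem quadFun_eq_of_quadChar_eq {K : Type*} [Field K] {θ : AddChar F K} (hθ : θ.IsPrimitive)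
    {A A' : Matrix (Fin n) (Fin n) F} (h : quadChar θ A = quadChar θ A') : quadFun A = quadFun A' := by
  funext v
  by_contra hne
  refine hθ (sub_ne_zero.mpr hne) (AddChar.ext _ _ fun c => ?_)
  let S : symMats F n := ⟨c • vecMulVec v v, by
    show _ = _
    rw [transpose_smul, transpose_vecMulVec]⟩
  have h1 := DFunLike.congr_fun h S
  change θ ((A * (c • vecMulVec v v)).trace) = θ ((A' * (c • vecMulVec v v)).trace) at h1
  rw [Matrix.mul_smul, Matrix.mul_smul, trace_smul, trace_smul, mul_vecMulVec, mul_vecMulVec, trace_vecMulVec,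
    trace_vecMulVec, dotProduct_comm _ v, dotProduct_comm _ v, smul_eq_mul, smul_eq_mul] at h1
  rw [AddChar.mulShift_apply, AddChar.one_apply, sub_mul, mul_comm _ c, mul_comm _ c,
    AddChar.map_sub_eq_div]
  show θ (c * quadFun A v) / θ (c * quadFun A' v) = 1
  rw [quadFun, quadFun, h1]
  exact div_self fun e => one_ne_zero (α := K) (by
    rw [← AddChar.map_zero_eq_one θ, ← sub_self (c * (v ⬝ᵥ (A' *ᵥ v))), AddChar.map_sub_eq_div, e, div_zero])

/-- If the value at `b` is not trivial, a character nontrivial at `b` occurs. -/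
theorem exists_occurs_at {A K V : Type*} [AddCommGroup A] [Field K] [AddCommGroup V] [Module K V] [Fintype A]
    {ι : Type*} [Fintype ι] (hι : (Fintype.card ι : K) ≠ 0) (χ : ι → AddChar A K)
    (hcol : ∀ a : A, a ≠ 0 → ∑ i, χ i a = 0) {z : A → Module.End K V}
    (hz : ∀ a b, z a * z b = z (a + b)) (hz0 : z 0 = 1) {b : A} (hb : z b ≠ 1) :
    ∃ i, χ i b ≠ 1 ∧ Occurs z (χ i) := by
  classical
  by_contra hcon
  push Not at hcon
  apply hb
  ext y
  rw [Module.End.one_apply]
  let P : ι → V := fun i => ∑ a : A, χ i (-a) • z a y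
  have hP : ∀ i c, z c (P i) = χ i c • P i := by
    intro i c
    simp only [P, map_sum, map_smul, Finset.smul_sum]
    refine Fintype.sum_equiv (Equiv.addLeft c) _ _ fun a => ?_
    rw [Equiv.coe_addLeft, ← hz, Module.End.mul_apply, smul_smul, ← AddChar.map_add_eq_mul]
    congr 2
    simp only [neg_add_rev]
    abel
  have hsum : ∑ i, P i = (Fintype.card ι : K) • y := by
    simp only [P]
    rw [Finset.sum_comm, Finset.sum_eq_single (0 : A)]
    · simp [hz0, Finset.sum_const, Nat.cast_smul_eq_nsmul]
    · intro a _ ha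
      rw [← Finset.sum_smul, hcol (-a) (neg_ne_zero.mpr ha), zero_smul]
    · simp
  have hfix : ∀ i, z b (P i) = P i := by
    intro i
    by_cases h1 : χ i b = 1
    · rw [hP, h1, one_smul]
    · by_cases h2 : P i = 0
      · rw [h2, map_zero]
      · exact absurd ⟨P i, h2, fun a => hP i a⟩ (hcon i h1)
  have h3 := congrArg (z b) hsum
  rw [map_sum, Finset.sum_congr rfl fun i _ => hfix i, hsum, map_smul] at h3
  exact (smul_right_injective V hι h3).symm

/-- The lower bound for the degree of a nonlinear irreducible representation, even order. -/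
theorem sp_min_degree_even [Fintype F] [DecidableEq F] [CharP F 2] (hn : 2 ≤ n)
    (hex : (n, Fintype.card F) ≠ (2, 2)) {k : ℕ}
    (ρ : Representation ℂ (symplecticGroup (Fin n) F) (Fin k → ℂ)) (hirr : ρ.IsIrreducible) (hk : 2 ≤ k) :
    (Fintype.card F ^ n - 1) * (Fintype.card F ^ n - Fintype.card F) / (2 * (Fintype.card F + 1)) ≤ k := by
  classical
  obtain ⟨θ, hθ⟩ := exists_complex_primitive F
  let i0 : Fin n := ⟨0, by omega⟩
  let i1 : Fin n := ⟨1, by omega⟩
  have h01 : i0 ≠ i1 := by simp [i0, i1, Fin.ext_iff]
  let b : symMats F n := ⟨Matrix.single i0 i1 1 + Matrix.single i1 i0 1, by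
    show _ = _
    rw [transpose_add, transpose_single, transpose_single, add_comm]⟩
  have hb : ρ (spUni b) ≠ 1 := by
    intro hb1
    set σ := ρ
    have hnc : spUni b ∉ Subgroup.center (symplecticGroup (Fin n) F) := by
      intro hc
      have h1 := congrArg Subtype.val
        (spUni_eq_zero_of_comm_symJ b (Subgroup.mem_center_iff.mp hc _).symm)
      have h3 := congrFun (congrFun h1 i0) i1
      simp [b, Matrix.single_apply, h01] at h3
    have hsimple := Cfsg.Agent.Forms.psp_simple (F := F) hn (fun h => by
      have := Fintype.one_lt_card (α := F)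
      by_contra h3
      exact hex (Prod.ext h (by show Fintype.card F = 2; omega)))
    let N : Subgroup (symplecticGroup (Fin n) F) :=
      { carrier := {g | σ g = 1}
        one_mem' := map_one σ
        mul_mem' := fun {a c} ha hc => by
          show σ (a * c) = 1
          rw [map_mul, show σ a = 1 from ha, show σ c = 1 from hc, one_mul]
        inv_mem' := fun {a} ha => by
          show σ a⁻¹ = 1
          have : σ a⁻¹ * σ a = 1 := by rw [← map_mul, inv_mul_cancel, map_one]
          rwa [show σ a = 1 from ha, mul_one] at this }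
    have hN : N.Normal := ⟨fun a ha g => by
      show σ (g * a * g⁻¹) = 1
      rw [map_mul, map_mul, show σ a = 1 from ha, mul_one, ← map_mul, mul_inv_cancel, map_one]⟩
    set Z := Subgroup.center (symplecticGroup (Fin n) F)
    have : (N.map (QuotientGroup.mk' Z)).Normal := hN.map _ (QuotientGroup.mk'_surjective Z)
    rcases hsimple.eq_bot_or_eq_top_of_normal _ this with h | h
    · have : spUni b ∈ (QuotientGroup.mk' Z).ker :=
        (Subgroup.map_eq_bot_iff N).mp h (show σ (spUni b) = 1 from hb1)
      rw [QuotientGroup.ker_mk'] at this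
      exact hnc this
    have htop : N ⊔ Z = ⊤ := by
      have := congrArg (Subgroup.comap (QuotientGroup.mk' Z)) h
      rwa [Subgroup.comap_map_eq, Subgroup.comap_top, QuotientGroup.ker_mk'] at this
    have hall : ∀ g, σ g = 1 := by
      intro g
      have hc := hN.commutator_le_of_self_sup_commutative_eq_top htop inferInstance
      rw [Cfsg.Agent.Forms.commutator_symplectic_eq_top (by
        have := Fintype.one_lt_card (α := F)
        rcases eq_or_lt_of_le hn with h2 | h2
        · refine Or.inr (Or.inl ⟨h2.symm, ?_⟩)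
          by_contra h3
          exact hex (Prod.ext h2.symm (by show Fintype.card F = 2; omega))
        · exact Or.inl (by omega))] at hc
      exact hc (Subgroup.mem_top g)
    rw [Cfsg.Agent.Chars.isIrreducible_iff] at hirr
    let v : Fin k → ℂ := Pi.single ⟨0, by omega⟩ 1
    have hv : v ≠ 0 := by simp [v]
    rcases hirr.2 (ℂ ∙ v) (fun g x hx => by rwa [show ρ g = 1 from hall g]) with h | h
    · exact hv (Submodule.span_singleton_eq_bot.mp h)
    · have h3 := finrank_span_singleton (K := ℂ) hv
      rw [h, finrank_top, Module.finrank_fin_fun] at h3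
      omega
  let z : symMats F n → Module.End ℂ (Fin k → ℂ) := fun S => ρ (spUni S)
  have hz : ∀ a b, z a * z b = z (a + b) := fun a b => by simp only [z, ← map_mul, spUni_mul]
  have hz0 : z 0 = 1 := by simp only [z, spUni_zero, map_one]
  have hcol : ∀ a : symMats F n, a ≠ 0 → ∑ A : Matrix (Fin n) (Fin n) F, quadChar θ A a = 0 := by
    intro a ha
    let φ : AddChar (Matrix (Fin n) (Fin n) F) ℂ :=
      { toFun := fun A => quadChar θ A a
        map_zero_eq_one' := by show θ _ = 1; simp
        map_add_eq_mul' := fun A A' => by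
          show θ _ = θ _ * θ _
          rw [← AddChar.map_add_eq_mul, Matrix.add_mul, trace_add] }
    refine AddChar.sum_eq_zero_of_ne_one (ψ := φ) fun e => ha ?_
    apply Subtype.ext
    ext i j
    by_contra hne
    refine hθ hne (AddChar.ext _ _ fun c => ?_)
    rw [AddChar.mulShift_apply, AddChar.one_apply]
    have h := DFunLike.congr_fun e (Matrix.single j i c)
    change θ ((Matrix.single j i c * a.1).trace) = 1 at h
    rw [trace_mul_comm, trace_mul_single] at h
    simpa [mul_comm] using h
  obtain ⟨A, hA, hocc⟩ := exists_occurs_at (by exact_mod_cast Fintype.card_ne_zero) (quadChar θ) hcol hz hz0 hb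
  have hpolar : A + Aᵀ ≠ 0 := by
    intro h0
    apply hA
    show θ ((A * (Matrix.single i0 i1 1 + Matrix.single i1 i0 1)).trace) = 1
    have := congrFun (congrFun h0 i1) i0
    simp only [Matrix.add_apply, transpose_apply, Matrix.zero_apply] at this
    simp [Matrix.mul_add, trace_mul_single, this]
  -- the orbit
  let S := {g : GL (Fin n) F // ∀ v, quadFun A ((g : Matrix (Fin n) (Fin n) F) *ᵥ v) = quadFun A v}
  let f : GL (Fin n) F → AddChar (symMats F n) ℂ := fun g =>
    quadChar θ (((g : Matrix (Fin n) (Fin n) F))ᵀ * A * (g : Matrix (Fin n) (Fin n) F))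
  have hquad : ∀ (g : GL (Fin n) F) v,
      quadFun (((g : Matrix (Fin n) (Fin n) F))ᵀ * A * (g : Matrix (Fin n) (Fin n) F)) v = quadFun A ((g : Matrix (Fin n) (Fin n) F) *ᵥ v) := by
    intro g v
    rw [quadFun, quadFun, ← mulVec_mulVec, ← mulVec_mulVec, dotProduct_mulVec, vecMul_transpose]
  have hfib : (Finset.univ : Finset (GL (Fin n) F)).card ≤ Nat.card S * (Finset.univ.image f).card := by
    refine Finset.card_le_mul_card_image _ _ fun c hc => ?_
    obtain ⟨g₀, -, rfl⟩ := Finset.mem_image.mp hc
    rw [Nat.card_eq_fintype_card, Fintype.card_subtype]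
    refine Finset.card_le_card_of_injOn (fun g => g * g₀⁻¹) ?_ (fun g _ g' _ e => mul_right_cancel e)
    intro g hg
    simp only [Finset.coe_filter, Finset.mem_univ, true_and, Set.mem_ofPred_eq] at hg ⊢
    intro v
    have h := congrFun (quadFun_eq_of_quadChar_eq hθ hg) (((g₀⁻¹ : GL (Fin n) F) : Matrix (Fin n) (Fin n) F) *ᵥ v)
    rwa [hquad, hquad, mulVec_mulVec, mulVec_mulVec, ← Units.val_mul, ← Units.val_mul, mul_inv_cancel,
      Units.val_one, one_mulVec] at h
  have hall : ∀ ψ ∈ Finset.univ.image f, Occurs z ψ := by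
    intro ψ hψ
    obtain ⟨g, -, rfl⟩ := Finset.mem_image.mp hψ
    have hgk : ((g⁻¹ : GL (Fin n) F) : Matrix (Fin n) (Fin n) F) * g = 1 := by
      rw [← Units.val_mul, inv_mul_cancel, Units.val_one]
    set L := spLevi _ _ hgk
    have hinj : Function.Injective (ρ L) := by
      intro x y hxy
      have := congrArg (ρ L⁻¹) hxy
      simpa [← Module.End.mul_apply, ← map_mul] using this
    have h1 := hocc.conj hinj (symCongr (g : Matrix (Fin n) (Fin n) F)) (fun a => by
      simp only [z, L, ← map_mul, spUni_conj])
    rwa [quadChar_congr] at h1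
  have hdim := card_le_finrank_of_occurs (by exact_mod_cast Fintype.card_ne_zero) _ hall
  rw [Module.finrank_fin_fun] at hdim
  rw [Finset.card_univ, ← Nat.card_eq_fintype_card, Matrix.card_GL_field] at hfib
  have hstab := card_stab_le hn hpolar
  refine le_trans (Nat.div_le_of_le_mul ?_) hdim
  obtain ⟨m, rfl⟩ : ∃ m, n = m + 2 := ⟨n - 2, (Nat.sub_add_cancel hn).symm⟩
  rw [Nat.add_sub_cancel] at hstab
  rw [Fin.prod_univ_succ, Fin.prod_univ_succ] at hfib
  simp only [Fin.val_zero, Fin.val_succ, pow_zero, zero_add, pow_one] at hfib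
  have hsplit : ∏ i : Fin m, (Fintype.card F ^ (m + 2) - Fintype.card F ^ ((i : ℕ) + 1 + 1)) =
      Fintype.card F ^ (2 * m) * ∏ i : Fin m, (Fintype.card F ^ m - Fintype.card F ^ (i : ℕ)) := by
    rw [show Fintype.card F ^ (2 * m) = ∏ _i : Fin m, Fintype.card F ^ 2 by
      simp [← pow_mul], ← Finset.prod_mul_distrib]
    refine Finset.prod_congr rfl fun i _ => ?_
    rw [Nat.mul_sub, ← pow_add, ← pow_add]
    congr 2 <;> omega
  rw [hsplit] at hfib
  set q := Fintype.card F
  set P := ∏ i : Fin m, (q ^ m - q ^ (i : ℕ))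
  have hPpos : 0 < q ^ (2 * m) * P := by
    have hq : 2 ≤ q := Fintype.one_lt_card
    refine Nat.mul_pos (by positivity) (Finset.prod_pos fun i _ => ?_)
    exact Nat.sub_pos_of_lt (Nat.pow_lt_pow_right hq i.isLt)
  refine Nat.le_of_mul_le_mul_left ?_ hPpos
  calc q ^ (2 * m) * P * ((q ^ (m + 2) - 1) * (q ^ (m + 2) - q))
      = (q ^ (m + 2) - 1) * ((q ^ (m + 2) - q) * (q ^ (2 * m) * P)) := by ring
    _ ≤ Nat.card S * (Finset.univ.image f).card := hfib
    _ ≤ (q + 1) * q ^ m * (2 * q ^ m) * P * (Finset.univ.image f).card := Nat.mul_le_mul_right _ hstab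
    _ = q ^ (2 * m) * P * (2 * (q + 1) * (Finset.univ.image f).card) := by ring

end Cfsg.Agent.KnownA
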