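import Cfsg.Agent.KnownA.CrossCharField

set_option autoImplicit false

/-!
# Degree of representations of the symplectic group in cross characteristic

The symmetric matrices form the Siegel radical; congruence gives large orbits on their characters.
-/

namespace Cfsg.Agent.KnownA

open Matrix

variable {F : Type*} [Field F] {n : ℕ}

/-- The symmetric matrices. -/
def symMats (F : Type*) [Field F] (n : ℕ) : AddSubgroup (Matrix (Fin n) (Fin n) F) where
  carrier := {S | Sᵀ = S}
  zero_mem' := transpose_zero
  add_mem' {a b} ha hb := by simp only [Set.mem_ofPred_eq, transpose_add] at *; rw [ha, hb]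
  neg_mem' {a} ha := by simp only [Set.mem_ofPred_eq, transpose_neg] at *; rw [ha]

theorem symMats_transpose (S : symMats F n) : S.1ᵀ = S.1 := S.2

theorem symMats_apply_comm (S : symMats F n) (i j : Fin n) : S.1 i j = S.1 j i :=
  congrFun (congrFun (symMats_transpose S) j) i

/-- The elements of the Siegel radical. -/
def spUni (S : symMats F n) : symplecticGroup (Fin n) F :=
  ⟨fromBlocks 1 S.1 0 1, by
    rw [SymplecticGroup.mem_iff, Matrix.J, fromBlocks_transpose, fromBlocks_multiply, fromBlocks_multiply]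
    simp [symMats_transpose S]⟩

/-- The Levi factor, for `g * k = 1`. -/
def spLevi (g k : Matrix (Fin n) (Fin n) F) (h : g * k = 1) : symplecticGroup (Fin n) F :=
  ⟨fromBlocks g 0 0 kᵀ, by
    rw [SymplecticGroup.mem_iff, Matrix.J, fromBlocks_transpose, fromBlocks_multiply, fromBlocks_multiply]
    simp [h, ← transpose_mul]⟩

theorem spUni_mul (S T : symMats F n) : spUni S * spUni T = spUni (S + T) := by
  apply Subtype.ext
  show fromBlocks _ _ _ _ * fromBlocks _ _ _ _ = fromBlocks _ _ _ _
  simp [fromBlocks_multiply, add_comm]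

theorem spUni_zero : spUni (0 : symMats F n) = 1 := by
  apply Subtype.ext
  show fromBlocks _ _ _ _ = _
  simp [fromBlocks_one]

/-- Congruence by `k` on symmetric matrices. -/
def symCongr (k : Matrix (Fin n) (Fin n) F) : symMats F n →+ symMats F n :=
  AddMonoidHom.mk' (fun S => ⟨k * S.1 * kᵀ, by
      show (k * S.1 * kᵀ)ᵀ = k * S.1 * kᵀ
      rw [transpose_mul, transpose_mul, transpose_transpose, symMats_transpose, Matrix.mul_assoc]⟩)
    (fun S T => Subtype.ext (by simp [Matrix.mul_add, Matrix.add_mul]))

theorem spUni_conj (S : symMats F n) (g k : Matrix (Fin n) (Fin n) F) (h : g * k = 1) :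
    spUni S * spLevi g k h = spLevi g k h * spUni (symCongr k S) := by
  apply Subtype.ext
  show fromBlocks _ _ _ _ * fromBlocks _ _ _ _ = fromBlocks _ _ _ _ * fromBlocks _ _ _ _
  have e : g * (k * S.1 * kᵀ) = S.1 * kᵀ := by rw [← Matrix.mul_assoc, ← Matrix.mul_assoc, h, Matrix.one_mul]
  simp [fromBlocks_multiply, symCongr, e]

theorem spUni_eq_zero_of_comm_symJ (S : symMats F n)
    (h : spUni S * SymplecticGroup.symJ (Fin n) F = SymplecticGroup.symJ (Fin n) F * spUni S) : S = 0 := by
  have h1 := congrArg Subtype.val h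
  change fromBlocks _ _ _ _ * Matrix.J (Fin n) F = Matrix.J (Fin n) F * fromBlocks _ _ _ _ at h1
  simp only [Matrix.J, fromBlocks_multiply, fromBlocks_inj] at h1
  exact Subtype.ext (by simpa using h1.1)

section Pairing

variable {K : Type*} [Field K]

/-- The character attached to a symmetric matrix. -/
def symChar (θ : AddChar F K) (T : symMats F n) : AddChar (symMats F n) K where
  toFun S := θ ((T.1 * S.1).trace)
  map_zero_eq_one' := by simp
  map_add_eq_mul' a b := by
    rw [AddSubgroup.coe_add, Matrix.mul_add, trace_add, AddChar.map_add_eq_mul]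

theorem symChar_apply (θ : AddChar F K) (T S : symMats F n) :
    symChar θ T S = θ ((T.1 * S.1).trace) := rfl

theorem symChar_comm (θ : AddChar F K) (T S : symMats F n) : symChar θ T S = symChar θ S T := by
  rw [symChar_apply, symChar_apply, trace_mul_comm]

theorem symChar_congr (θ : AddChar F K) (T : symMats F n) (k : Matrix (Fin n) (Fin n) F) :
    (symChar θ T).compAddMonoidHom (symCongr k) = symChar θ (symCongr kᵀ T) := by
  ext S
  show θ ((T.1 * (k * S.1 * kᵀ)).trace) = θ ((kᵀ * T.1 * kᵀᵀ * S.1).trace)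
  rw [transpose_transpose, ← Matrix.mul_assoc, trace_mul_comm, ← Matrix.mul_assoc, ← Matrix.mul_assoc]

theorem eq_zero_of_symChar_eq_one (h2 : (2 : F) ≠ 0) {θ : AddChar F K} (hθ : θ.IsPrimitive)
    {T : symMats F n} (h : ∀ S, symChar θ T S = 1) : T = 0 := by
  apply Subtype.ext
  ext i j
  by_contra hne
  refine hθ (mul_ne_zero h2 hne) (AddChar.ext _ _ fun c => ?_)
  let S : symMats F n := ⟨Matrix.single i j c + Matrix.single j i c, by
    show _ = _
    rw [transpose_add, transpose_single, transpose_single, add_comm]⟩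
  rw [AddChar.mulShift_apply, AddChar.one_apply, ← h S, symChar_apply]
  congr 1
  simp only [S, Matrix.mul_add, trace_add, trace_mul_single]
  rw [symMats_apply_comm T j i]
  simp only [MulOpposite.smul_eq_mul_unop, MulOpposite.unop_op, smul_eq_mul]
  ring

theorem symChar_injective (h2 : (2 : F) ≠ 0) {θ : AddChar F K} (hθ : θ.IsPrimitive) :
    Function.Injective (symChar (n := n) θ) := by
  intro T T' h
  rw [← sub_eq_zero]
  refine eq_zero_of_symChar_eq_one h2 hθ fun S => ?_
  rw [symChar_comm, AddChar.map_sub_eq_div, symChar_comm θ S T, symChar_comm θ S T', h]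
  refine div_self fun e => one_ne_zero (α := K) ?_
  rw [← AddChar.map_zero_eq_one (symChar θ T'), ← sub_self S, AddChar.map_sub_eq_div, e, div_zero]

end Pairing

theorem exists_anisotropic (h2 : (2 : F) ≠ 0) {T : symMats F n} (hT : T ≠ 0) :
    ∃ u : Fin n → F, u ⬝ᵥ (T.1 *ᵥ u) ≠ 0 := by
  by_contra hcon
  push Not at hcon
  apply hT
  apply Subtype.ext
  ext i j
  have h1 := hcon (Pi.single i 1)
  have h3 := hcon (Pi.single j 1)
  have h4 := hcon (Pi.single i 1 + Pi.single j 1)
  simp only [mulVec_add, mulVec_single_one, add_dotProduct, dotProduct_add, single_one_dotProduct,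
    Matrix.col_apply] at h1 h3 h4
  have h5 : 2 * T.1 i j = 0 := by linear_combination h4 - h1 - h3 - symMats_apply_comm T j i
  exact (mul_eq_zero.mp h5).resolve_left h2

/-- The congruence orbit, tested against one anisotropic vector. -/
theorem card_orbit_at [Fintype F] [DecidableEq F] (T : symMats F n) (u : Fin n → F)
    (hu : u ⬝ᵥ (T.1 *ᵥ u) ≠ 0) :
    ∃ O : Finset (symMats F n), Fintype.card F ^ n - Fintype.card F ^ (n - 1) ≤ 2 * O.card ∧
      ∀ T' ∈ O, (∃ g k : Matrix (Fin n) (Fin n) F, g * k = 1 ∧ symCongr kᵀ T = T') ∧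
        ∃ s : F, s ≠ 0 ∧ u ⬝ᵥ (T'.1 *ᵥ u) = u ⬝ᵥ (T.1 *ᵥ u) * s ^ 2 := by
  classical
  set w := T.1 *ᵥ u
  set c := u ⬝ᵥ w
  let k : (Fin n → F) → Matrix (Fin n) (Fin n) F := fun φ => 1 + vecMulVec u φ
  let D : Finset (Fin n → F) := Finset.univ.filter fun φ => φ ⬝ᵥ u ≠ -1
  refine ⟨D.image (fun φ => symCongr (k φ)ᵀ T), ?_, fun T' hT' => ?_⟩
  · have hval : ∀ φ, (symCongr (k φ)ᵀ T).1 =
        T.1 + vecMulVec φ w + vecMulVec w φ + c • vecMulVec φ φ := by
      intro φ
      have e1 : vecMulVec φ u * T.1 = vecMulVec φ w := by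
        rw [vecMulVec_mul]
        congr 1
        rw [← mulVec_transpose, symMats_transpose]
      show (k φ)ᵀ * T.1 * (k φ)ᵀᵀ = _
      simp only [k, transpose_transpose, transpose_add, transpose_one, transpose_vecMulVec,
        Matrix.mul_add, Matrix.add_mul, Matrix.one_mul, Matrix.mul_one, e1, mul_vecMulVec,
        vecMulVec_mulVec]
      rw [add_mulVec, vecMulVec_mulVec, show w ⬝ᵥ u = c from dotProduct_comm _ _]
      ext a b
      simp [vecMulVec_apply, w]
      ring
    have hfib : D.card ≤ 2 * (D.image (fun φ => symCongr (k φ)ᵀ T)).card := by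
      refine Finset.card_le_mul_card_image D 2 fun b hb => ?_
      obtain ⟨φ, -, rfl⟩ := Finset.mem_image.mp hb
      refine le_trans (Finset.card_le_card (t := {φ, -φ - (2 / c) • w}) fun ψ hψ => ?_) Finset.card_le_two
      have h1 := congrArg Subtype.val (Finset.mem_filter.mp hψ).2
      rw [hval, hval] at h1
      have hxy : ∀ a b, (c * ψ a + w a) * (c * ψ b + w b) = (c * φ a + w a) * (c * φ b + w b) := by
        intro a b
        have h3 := congrFun (congrFun h1 a) b
        simp [vecMulVec_apply] at h3
        linear_combination c * h3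
      rw [Finset.mem_insert, Finset.mem_singleton]
      by_cases hx : ∀ a, c * φ a + w a = 0
      · left
        funext a
        have h3 := hxy a a
        rw [hx a, mul_zero] at h3
        have h4 := mul_self_eq_zero.mp h3
        exact mul_left_cancel₀ hu (add_right_cancel (h4.trans (hx a).symm))
      · push Not at hx
        obtain ⟨i, hi⟩ := hx
        rcases mul_self_eq_mul_self_iff.mp (hxy i i) with h3 | h3
        · left
          funext a
          have h4 := hxy i a
          rw [h3] at h4
          exact mul_left_cancel₀ hu (add_right_cancel (mul_left_cancel₀ hi h4))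
        · right
          funext a
          have h4 := hxy i a
          rw [h3, neg_mul] at h4
          have h5 : c * ψ a + w a = -(c * φ a + w a) :=
            mul_left_cancel₀ hi (by linear_combination -h4)
          apply mul_left_cancel₀ hu
          simp only [Pi.sub_apply, Pi.neg_apply, Pi.smul_apply, smul_eq_mul]
          field_simp
          linear_combination h5
    refine le_trans ?_ hfib
    obtain ⟨i, hi⟩ : ∃ i, u i ≠ 0 := by
      by_contra hz
      push Not at hz
      exact hu (by simp [c, dotProduct, hz])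
    let B : F → Finset (Fin n → F) := fun a => Finset.univ.filter fun φ => φ ⬝ᵥ u = a
    have hB : ∀ a, (B a).card = (B (-1)).card := by
      intro a
      refine Finset.card_equiv (Equiv.addRight (Pi.single i ((-1 - a) / u i))) fun φ => ?_
      simp only [B, Finset.mem_filter, Finset.mem_univ, true_and, Equiv.coe_addRight, add_dotProduct,
        single_dotProduct, div_mul_cancel₀ _ hi]
      exact ⟨fun e => by rw [e]; ring, fun e => by linear_combination e⟩
    have htot := Finset.card_eq_sum_card_fiberwise (s := (Finset.univ : Finset (Fin n → F)))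
      (t := (Finset.univ : Finset F)) (f := fun φ => φ ⬝ᵥ u) (fun x _ => Finset.mem_univ _)
    rw [Finset.card_univ, Fintype.card_fun, Fintype.card_fin,
      Finset.sum_congr rfl (fun a _ => hB a), Finset.sum_const, Finset.card_univ, smul_eq_mul] at htot
    have hn : n ≠ 0 := by rintro rfl; exact i.elim0
    have hBc : (B (-1)).card = Fintype.card F ^ (n - 1) := by
      refine Nat.eq_of_mul_eq_mul_left Fintype.card_pos (htot.symm.trans ?_)
      rw [← pow_succ', Nat.sub_add_cancel (Nat.one_le_iff_ne_zero.mpr hn)]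
    have hsplit := Finset.card_filter_add_card_filter_not (s := (Finset.univ : Finset (Fin n → F)))
      (fun φ => φ ⬝ᵥ u = -1)
    rw [Finset.card_univ, Fintype.card_fun, Fintype.card_fin] at hsplit
    have hD : D.card = Fintype.card F ^ n - Fintype.card F ^ (n - 1) := by
      simp only [D, B, ne_eq] at *
      omega
    exact hD.ge
  · obtain ⟨φ, hφ, rfl⟩ := Finset.mem_image.mp hT'
    have hdet : (k φ).det ≠ 0 := by
      have : (k φ).det = 1 + φ ⬝ᵥ u := by
        simp only [k, vecMulVec_eq (Fin 1)]
        exact det_one_add_replicateCol_mul_replicateRow u φ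
      rw [this]
      intro e
      exact (Finset.mem_filter.mp hφ).2 (eq_neg_of_add_eq_zero_right e)
    refine ⟨⟨(k φ)⁻¹, k φ, Matrix.nonsing_inv_mul _ (isUnit_iff_ne_zero.mpr hdet), rfl⟩,
      1 + φ ⬝ᵥ u, fun e => (Finset.mem_filter.mp hφ).2 (eq_neg_of_add_eq_zero_right e), ?_⟩
    have hku : k φ *ᵥ u = (1 + φ ⬝ᵥ u) • u := by
      simp only [k, add_mulVec, one_mulVec, vecMulVec_mulVec, op_smul_eq_smul, add_smul, one_smul]
    show u ⬝ᵥ (((k φ)ᵀ * T.1 * (k φ)ᵀᵀ) *ᵥ u) = c * _
    rw [transpose_transpose, ← mulVec_mulVec, hku, mulVec_smul, dotProduct_smul, ← mulVec_mulVec,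
      dotProduct_mulVec, vecMul_transpose, hku, smul_dotProduct]
    simp only [c, w, smul_eq_mul]
    ring

/-- The congruence orbit of a nonzero symmetric matrix is large. -/
theorem card_orbit_ge [Fintype F] [DecidableEq F] (h2 : (2 : F) ≠ 0) {T : symMats F n} (hT : T ≠ 0) :
    ∃ O : Finset (symMats F n), Fintype.card F ^ n - Fintype.card F ^ (n - 1) ≤ 2 * O.card ∧
      ∀ T' ∈ O, ∃ g k : Matrix (Fin n) (Fin n) F, g * k = 1 ∧ symCongr kᵀ T = T' := by
  obtain ⟨u, hu⟩ := exists_anisotropic h2 hT
  obtain ⟨O, hO, hO'⟩ := card_orbit_at T u hu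
  exact ⟨O, hO, fun T' h => (hO' T' h).1⟩

/-- All characters in some congruence orbit occur in a representation nontrivial on the Siegel radical. -/
theorem sp_orbit_bound [Fintype F] (h2 : (2 : F) ≠ 0) {K V : Type*} [Field K]
    [AddCommGroup V] [Module K V] [FiniteDimensional K V] (θ : AddChar F K) (hθ : θ.IsPrimitive)
    (hq : (Fintype.card F : K) ≠ 0) (σ : symplecticGroup (Fin n) F →* Module.End K V)
    (hne : ∃ a, σ (spUni a) ≠ 1) :
    ∃ T₀ : symMats F n, T₀ ≠ 0 ∧ ∀ O : Finset (symMats F n),
      (∀ T ∈ O, ∃ g k : Matrix (Fin n) (Fin n) F, g * k = 1 ∧ symCongr kᵀ T₀ = T) →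
      O.card ≤ Module.finrank K V := by
  classical
  have hA : (Fintype.card (symMats F n) : K) ≠ 0 := by
    intro e
    have hd := AddSubgroup.card_addSubgroup_dvd_card (symMats F n)
    rw [Nat.card_eq_fintype_card, Nat.card_eq_fintype_card] at hd
    have hc : Fintype.card (Matrix (Fin n) (Fin n) F) = Fintype.card F ^ (n * n) := by
      rw [pow_mul, show Fintype.card (Matrix (Fin n) (Fin n) F) = Fintype.card (Fin n → Fin n → F) from rfl,
        Fintype.card_fun, Fintype.card_fun, Fintype.card_fin]
    rw [hc] at hd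
    obtain ⟨x, hx⟩ := hd
    have h3 := congrArg (Nat.cast : ℕ → K) hx
    rw [Nat.cast_mul, e, zero_mul, Nat.cast_pow] at h3
    exact pow_ne_zero _ hq h3
  let z : symMats F n → Module.End K V := fun S => σ (spUni S)
  have hz : ∀ a b, z a * z b = z (a + b) := fun a b => by simp only [z, ← map_mul, spUni_mul]
  have hz0 : z 0 = 1 := by simp only [z, spUni_zero, map_one]
  have hcol : ∀ a : symMats F n, a ≠ 0 → ∑ T, symChar θ T a = 0 := by
    intro a ha
    simp only [fun T => symChar_comm θ T a]
    exact AddChar.sum_eq_zero_of_ne_one fun e => ha (eq_zero_of_symChar_eq_one h2 hθ fun S => by rw [e, AddChar.one_apply])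
  obtain ⟨T₀, hT₀, hocc⟩ := exists_occurs hA hA (symChar θ) hcol hz hz0 hne
  have hT₀' : T₀ ≠ 0 := fun e => hT₀ (AddChar.ext _ _ fun v => by simp [symChar_apply, e])
  refine ⟨T₀, hT₀', fun O hO => ?_⟩
  have hall : ∀ T ∈ O, Occurs z (symChar θ T) := by
    intro T hT
    obtain ⟨g, k, hgk, rfl⟩ := hO T hT
    have hinj : Function.Injective (σ (spLevi g k hgk)) := by
      intro x y hxy
      have := congrArg (σ (spLevi g k hgk)⁻¹) hxy
      simpa [← Module.End.mul_apply, ← map_mul] using this
    have hcomm : ∀ a, z a * σ (spLevi g k hgk) = σ (spLevi g k hgk) * z (symCongr k a) := fun a => by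
      simp only [z, ← map_mul, spUni_conj]
    have h1 := hocc.conj hinj (symCongr k) hcomm
    rwa [symChar_congr] at h1
  have h3 := card_le_finrank_of_occurs hA (O.image (symChar θ)) (fun ψ hψ => by
      obtain ⟨T, hT, rfl⟩ := Finset.mem_image.mp hψ
      exact hall T hT)
  rw [Finset.card_image_of_injective _ (symChar_injective h2 hθ)] at h3
  exact h3

/-- Degree bound for the symplectic group. -/
theorem sp_crossChar_bound [Fintype F] (h2 : (2 : F) ≠ 0) (hn : 1 ≤ n) {K V : Type*} [Field K]
    [AddCommGroup V] [Module K V]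
    [FiniteDimensional K V] (θ : AddChar F K) (hθ : θ.IsPrimitive) (hq : (Fintype.card F : K) ≠ 0)
    (σ : symplecticGroup (Fin n) F →* Module.End K V)
    (hker : ∀ g, σ g = 1 → g ∈ Subgroup.center (symplecticGroup (Fin n) F)) :
    Fintype.card F ^ (n - 1) * (Fintype.card F - 1) / 2 ≤ Module.finrank K V := by
  classical
  obtain ⟨T₀, hT₀, hbound⟩ := sp_orbit_bound h2 θ hθ hq σ (by
    by_contra hcon
    push Not at hcon
    let one : symMats F n := ⟨1, transpose_one⟩
    have hc := Subgroup.mem_center_iff.mp (hker _ (hcon one))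
    have h1 := congrArg Subtype.val (spUni_eq_zero_of_comm_symJ one (hc _).symm)
    have h3 := congrFun (congrFun h1 ⟨0, hn⟩) ⟨0, hn⟩
    simp [one] at h3)
  obtain ⟨O, hOcard, hO⟩ := card_orbit_ge h2 hT₀
  have h3 := hbound O hO
  have e : Fintype.card F ^ n = Fintype.card F ^ (n - 1) * Fintype.card F := by
    rw [← pow_succ, Nat.sub_add_cancel hn]
  rw [Nat.mul_sub_one, ← e]
  omega

end Cfsg.Agent.KnownA
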