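import Cfsg.Agent.KnownA.SpCrossChar
import Cfsg.Agent.KnownA.SLCrossChar
import Cfsg.Agent.Forms.SympMatrix
import Cfsg.Agent.S0271

set_option autoImplicit false

/-!
# The sharp degree bound `(q^n - 1) / 2` for the symplectic group, `q` odd
-/

namespace Cfsg.Agent.KnownA

open Matrix

variable {F : Type*} [Field F] {n : ℕ}

theorem eq_or_eq_neg_of_mul_eq {x y : Fin n → F} (h : ∀ a b, x a * x b = y a * y b) : x = y ∨ x = -y := by
  by_cases hy : y = 0
  · left
    funext a
    have h3 := h a a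
    rw [hy, Pi.zero_apply, mul_zero] at h3
    rw [hy, Pi.zero_apply]
    exact mul_self_eq_zero.mp h3
  · obtain ⟨i, hi⟩ := Function.ne_iff.mp hy
    rw [Pi.zero_apply] at hi
    rcases mul_self_eq_mul_self_iff.mp (h i i) with h3 | h3
    · left
      funext a
      have h4 := h i a
      rw [h3] at h4
      exact mul_left_cancel₀ hi h4
    · right
      funext a
      have h4 := h i a
      rw [h3] at h4
      exact mul_left_cancel₀ hi (by rw [Pi.neg_apply]; linear_combination -h4)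

theorem rank_one_of_not_universal [Fintype F] (h2 : (2 : F) ≠ 0) (T : symMats F n) {u : Fin n → F}
    (hu : u ⬝ᵥ (T.1 *ᵥ u) ≠ 0) {a : F} (hno : ∀ v : Fin n → F, v ⬝ᵥ (T.1 *ᵥ v) ≠ a) :
    T.1 = (u ⬝ᵥ (T.1 *ᵥ u))⁻¹ • vecMulVec (T.1 *ᵥ u) (T.1 *ᵥ u) := by
  classical
  set w := T.1 *ᵥ u
  set c := u ⬝ᵥ w
  by_contra hne
  let T₀ : symMats F n := ⟨T.1 - c⁻¹ • vecMulVec w w, by
    show _ = _
    rw [transpose_sub, transpose_smul, transpose_vecMulVec, symMats_transpose]⟩
  have hT₀ : T₀ ≠ 0 := fun e => hne (sub_eq_zero.mp (congrArg Subtype.val e))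
  obtain ⟨e, he⟩ := exists_anisotropic h2 hT₀
  set e' := e - ((e ⬝ᵥ w) / c) • u
  have hwu : e' ⬝ᵥ w = 0 := by
    simp only [e', sub_dotProduct, smul_dotProduct, smul_eq_mul]
    rw [show u ⬝ᵥ w = c from rfl, div_mul_cancel₀ _ hu, sub_self]
  have hd : e' ⬝ᵥ (T.1 *ᵥ e') = e ⬝ᵥ (T₀.1 *ᵥ e) := by
    have h1 : e' ⬝ᵥ (T.1 *ᵥ e') = e' ⬝ᵥ (T.1 *ᵥ e) := by
      simp only [e', mulVec_sub, mulVec_smul, dotProduct_sub, dotProduct_smul]
      rw [show T.1 *ᵥ u = w from rfl, hwu, smul_zero, sub_zero]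
    rw [h1]
    have h3 : u ⬝ᵥ (T.1 *ᵥ e) = e ⬝ᵥ w := by
      rw [dotProduct_mulVec, ← mulVec_transpose, symMats_transpose, dotProduct_comm]
    simp only [e', T₀, sub_dotProduct, smul_dotProduct, sub_mulVec, smul_mulVec, vecMulVec_mulVec,
      dotProduct_sub, dotProduct_smul, op_smul_eq_smul, smul_eq_mul, h3]
    rw [dotProduct_comm w e]
    field_simp
  set d := e ⬝ᵥ (T₀.1 *ᵥ e)
  have hq : Fintype.card F % 2 = 1 := by
    refine Nat.two_dvd_ne_zero.mp fun hdvd => h2 ?_
    have := (FiniteField.even_card_iff_char_two (F := F)).mpr (Nat.even_iff.mp (even_iff_two_dvd.mpr hdvd))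
    haveI : CharP F 2 := ringChar.of_eq this
    exact_mod_cast CharP.cast_eq_zero F 2
  obtain ⟨s, t, hst⟩ := FiniteField.exists_root_sum_quadratic
    (f := Polynomial.C c * Polynomial.X ^ 2) (g := Polynomial.C d * Polynomial.X ^ 2 - Polynomial.C a)
    (Polynomial.degree_C_mul_X_pow 2 hu)
    (by rw [Polynomial.degree_sub_C (by rw [Polynomial.degree_C_mul_X_pow 2 he]; norm_num),
      Polynomial.degree_C_mul_X_pow 2 he]; rfl) hq
  simp only [Polynomial.eval_mul, Polynomial.eval_pow, Polynomial.eval_X, Polynomial.eval_C,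
    Polynomial.eval_sub] at hst
  refine hno (s • u + t • e') ?_
  have h4 : u ⬝ᵥ (T.1 *ᵥ e') = e' ⬝ᵥ w := by
    rw [dotProduct_mulVec, ← mulVec_transpose, symMats_transpose, dotProduct_comm]
  simp only [mulVec_add, mulVec_smul, add_dotProduct, dotProduct_add, smul_dotProduct, dotProduct_smul,
    smul_eq_mul, h4, hd]
  rw [show T.1 *ᵥ u = w from rfl, hwu, show u ⬝ᵥ w = c from rfl]
  linear_combination hst

/-- The congruence orbits on nonzero symmetric matrices have at least `(q^n - 1)/2` members. -/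
theorem card_orbit_sharp [Fintype F] [DecidableEq F] (h2 : (2 : F) ≠ 0) (hn : 2 ≤ n) {T : symMats F n}
    (hT : T ≠ 0) :
    ∃ O : Finset (symMats F n), Fintype.card F ^ n - 1 ≤ 2 * O.card ∧
      ∀ T' ∈ O, ∃ g k : Matrix (Fin n) (Fin n) F, g * k = 1 ∧ symCongr kᵀ T = T' := by
  classical
  obtain ⟨u, hu⟩ := exists_anisotropic h2 hT
  have hu0 : u ≠ 0 := fun e => hu (by simp [e])
  have hchar : ringChar F ≠ 2 := fun e => h2 (by
    haveI : CharP F 2 := ringChar.of_eq e
    exact_mod_cast CharP.cast_eq_zero F 2)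
  obtain ⟨ν, hν⟩ := FiniteField.exists_nonsquare hchar
  by_cases hA : ∃ v : Fin n → F, v ⬝ᵥ (T.1 *ᵥ v) = u ⬝ᵥ (T.1 *ᵥ u) * ν
  · obtain ⟨v, hv⟩ := hA
    have hν0 : ν ≠ 0 := fun e => hν (e ▸ IsSquare.zero)
    have hv0 : v ≠ 0 := fun e => mul_ne_zero hu hν0 (by rw [← hv]; simp [e])
    obtain ⟨B, hB⟩ := exists_mulVec_eq hn hu0 hv0
    have hval : u ⬝ᵥ ((symCongr B.1ᵀ T).1 *ᵥ u) = u ⬝ᵥ (T.1 *ᵥ u) * ν := by
      show u ⬝ᵥ ((B.1ᵀ * T.1 * B.1ᵀᵀ) *ᵥ u) = _
      rw [transpose_transpose, ← mulVec_mulVec, hB, ← mulVec_mulVec, dotProduct_mulVec, vecMul_transpose, hB,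
        hv]
    obtain ⟨O, hO, hO'⟩ := card_orbit_at T u hu
    obtain ⟨P, hP, hP'⟩ := card_orbit_at (symCongr B.1ᵀ T) u (by rw [hval]; exact mul_ne_zero hu hν0)
    refine ⟨O ∪ P, ?_, fun T' hT' => ?_⟩
    · have hdisj : Disjoint O P := by
        rw [Finset.disjoint_left]
        intro X hXO hXP
        obtain ⟨s, hs, hs'⟩ := (hO' X hXO).2
        obtain ⟨t, ht, ht'⟩ := (hP' X hXP).2
        rw [hs', hval, mul_assoc] at ht'
        refine hν ⟨s / t, ?_⟩
        have h5 := mul_left_cancel₀ hu ht'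
        field_simp
        linear_combination -h5
      rw [Finset.card_union_of_disjoint hdisj]
      have h6 : 2 * Fintype.card F ^ (n - 1) ≤ Fintype.card F ^ n := by
        calc 2 * Fintype.card F ^ (n - 1) ≤ Fintype.card F * Fintype.card F ^ (n - 1) :=
              Nat.mul_le_mul_right _ Fintype.one_lt_card
          _ = _ := by rw [← pow_succ', Nat.sub_add_cancel (by omega : 1 ≤ n)]
      omega
    · rcases Finset.mem_union.mp hT' with h | h
      · exact (hO' T' h).1
      · obtain ⟨⟨g, k, hgk, rfl⟩, -⟩ := hP' T' h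
        refine ⟨g * (B⁻¹).1, B.1 * k, ?_, Subtype.ext ?_⟩
        · rw [Matrix.mul_assoc, ← Matrix.mul_assoc (B⁻¹).1,
            show (B⁻¹).1 * B.1 = 1 from congrArg Subtype.val (inv_mul_cancel B), Matrix.one_mul, hgk]
        · show (B.1 * k)ᵀ * T.1 * (B.1 * k)ᵀᵀ = kᵀ * (B.1ᵀ * T.1 * B.1ᵀᵀ) * kᵀᵀ
          simp only [transpose_transpose, transpose_mul, Matrix.mul_assoc]
  · push Not at hA
    have h1 := rank_one_of_not_universal h2 T hu hA
    set w := T.1 *ᵥ u
    set c := u ⬝ᵥ w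
    have hw : w ≠ 0 := fun e => hu (by simp [c, e])
    let R : (Fin n → F) → symMats F n := fun x => ⟨c⁻¹ • vecMulVec x x, by
      show _ = _
      rw [transpose_smul, transpose_vecMulVec]⟩
    refine ⟨(Finset.univ.erase (0 : Fin n → F)).image R, ?_, fun T' hT' => ?_⟩
    · have h3 := Finset.card_le_mul_card_image (Finset.univ.erase (0 : Fin n → F)) 2 (f := R) fun b hb => by
        obtain ⟨x, -, rfl⟩ := Finset.mem_image.mp hb
        refine le_trans (Finset.card_le_card (t := {x, -x}) fun y hy => ?_) Finset.card_le_two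
        have h4 := congrArg Subtype.val (Finset.mem_filter.mp hy).2
        rw [Finset.mem_insert, Finset.mem_singleton]
        refine eq_or_eq_neg_of_mul_eq fun a b => mul_left_cancel₀ (inv_ne_zero hu) ?_
        simpa [R, vecMulVec_apply] using congrFun (congrFun h4 a) b
      rw [Finset.card_erase_of_mem (Finset.mem_univ _), Finset.card_univ, Fintype.card_fun,
        Fintype.card_fin] at h3
      exact h3
    · obtain ⟨x, hx, rfl⟩ := Finset.mem_image.mp hT'
      obtain ⟨B, hB⟩ := exists_mulVec_eq hn hw (Finset.ne_of_mem_erase hx)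
      refine ⟨(B⁻¹).1ᵀ, B.1ᵀ, ?_, Subtype.ext ?_⟩
      · rw [← transpose_mul, show B.1 * (B⁻¹).1 = 1 from congrArg Subtype.val (mul_inv_cancel B),
          transpose_one]
      · show B.1ᵀᵀ * T.1 * B.1ᵀᵀᵀ = c⁻¹ • vecMulVec x x
        rw [transpose_transpose, h1, Matrix.mul_smul, Matrix.smul_mul, mul_vecMulVec, vecMulVec_mul,
          vecMul_transpose, hB]

/-- A representation of smaller degree is trivial on the Siegel radical. -/
theorem sp_radical_trivial [Fintype F] (h2 : (2 : F) ≠ 0) (hn : 2 ≤ n) {K V : Type*} [Field K]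
    [AddCommGroup V] [Module K V] [FiniteDimensional K V] (θ : AddChar F K) (hθ : θ.IsPrimitive)
    (hq : (Fintype.card F : K) ≠ 0) (σ : symplecticGroup (Fin n) F →* Module.End K V)
    (hdim : Module.finrank K V < (Fintype.card F ^ n - 1) / 2) (a : symMats F n) :
    σ (spUni a) = 1 := by
  classical
  by_contra hne
  obtain ⟨T₀, hT₀, hbound⟩ := sp_orbit_bound h2 θ hθ hq σ ⟨a, hne⟩
  obtain ⟨O, hO, hO'⟩ := card_orbit_sharp h2 hn hT₀
  have := hbound O hO'
  omega

/-- The symplectic transvection along the first basis vector lies in the Siegel radical. -/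
theorem sympTransvection_inl (i : Fin n) (c : F) :
    ∃ a : symMats F n, (spUni a).1 = Cfsg.sympTransvection n (Sum.elim (Pi.single i (1 : F)) 0) c := by
  classical
  refine ⟨⟨c • vecMulVec (Pi.single i 1) (Pi.single i 1), by
    show _ = _
    rw [transpose_smul, transpose_vecMulVec]⟩, ?_⟩
  show fromBlocks _ (c • vecMulVec (Pi.single i (1 : F)) (Pi.single i (1 : F))) _ _ = _
  generalize (Pi.single i (1 : F) : Fin n → F) = v
  have hJ : Matrix.J (Fin n) F *ᵥ Sum.elim v (0 : Fin n → F) = Sum.elim (0 : Fin n → F) v := by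
    rw [Matrix.J, fromBlocks_mulVec]
    simp
  rw [Cfsg.sympTransvection, hJ]
  ext (a | a) (b | b) <;> simp [vecMulVec_apply, Matrix.one_apply]

/-- A homomorphism trivial on the Siegel radical is trivial. -/
theorem sp_hom_trivial_of_radical (hn : 1 ≤ n) {M : Type*} [Monoid M]
    (σ : symplecticGroup (Fin n) F →* M) (h : ∀ a, σ (spUni a) = 1) (g : symplecticGroup (Fin n) F) :
    σ g = 1 := by
  classical
  have hg : g ∈ Subgroup.closure {A : Matrix.symplecticGroup (Fin n) F | ∃ (w : Fin n ⊕ Fin n → F) (c : F),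
      (A : Matrix (Fin n ⊕ Fin n) (Fin n ⊕ Fin n) F) = Cfsg.sympTransvection n w c} := by
    rw [Cfsg.Agent.Forms.symplectic_transvection_closure]; trivial
  refine (Subgroup.closure_le (MonoidHom.ker σ)).mpr ?_ hg
  rintro A ⟨w, c, hA⟩
  rw [SetLike.mem_coe, MonoidHom.mem_ker]
  by_cases hw : w = 0
  · have : A = 1 := Subtype.ext (by rw [hA, hw]; simp [Cfsg.sympTransvection])
    rw [this, map_one]
  · obtain ⟨B, hB⟩ := Cfsg.Agent.S0271.result n (Sum.elim (Pi.single (⟨0, hn⟩ : Fin n) (1 : F)) 0) w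
      (fun e => by simpa using congrFun e (Sum.inl ⟨0, hn⟩)) hw
    obtain ⟨a, ha⟩ := sympTransvection_inl (⟨0, hn⟩ : Fin n) c
    have hcomm : B * spUni a = A * B := by
      apply Subtype.ext
      show B.1 * (spUni a).1 = A.1 * B.1
      rw [ha, hA, Cfsg.sympTransvection, Cfsg.sympTransvection, Matrix.mul_add, Matrix.add_mul,
        Matrix.mul_one, Matrix.one_mul, Matrix.mul_smul, Matrix.smul_mul, mul_vecMulVec, hB, vecMulVec_mul]
      congr 3
      rw [← mulVec_transpose, ← hB, mulVec_mulVec, mulVec_mulVec, SymplecticGroup.mem_iff'.mp B.2]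
    have h3 := congrArg σ hcomm
    rw [map_mul, map_mul, h a, mul_one] at h3
    calc σ A = σ A * (σ B * σ B⁻¹) := by rw [← map_mul σ, mul_inv_cancel, map_one, mul_one]
      _ = 1 := by rw [← mul_assoc, ← h3, ← map_mul, mul_inv_cancel, map_one]

end Cfsg.Agent.KnownA
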