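import Mathlib
import Cfsg.Agent.GeomClasses.PartitionStabilizer

/-! # Overgroups of Sylow two-subgroups of symmetric and alternating groups -/

set_option autoImplicit false
set_option linter.unusedSectionVars false

namespace Cfsg.Agent.KnownA.SylowTwoOvergroups

open Equiv Equiv.Perm MulAction
open scoped Pointwise

theorem odd_choose_two_pow : ∀ (a n : ℕ), n / 2 ^ a % 2 = 1 → Odd (n.choose (2 ^ a))
  | 0, n, h => by
    simpa [Nat.odd_iff] using h
  | a + 1, n, h => by
    have key := Choose.choose_modEq_choose_mod_mul_choose_div_nat (n := n) (k := 2 ^ (a + 1)) (p := 2)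
    have h1 : (2 ^ (a + 1)) % 2 = 0 := by simp [pow_succ]
    have h2 : (2 ^ (a + 1)) / 2 = 2 ^ a := by simp [pow_succ]
    rw [h1, h2, Nat.choose_zero_right, one_mul] at key
    have h3 : n / 2 / 2 ^ a % 2 = 1 := by
      rw [Nat.div_div_eq_div_mul, ← pow_succ']; exact h
    rw [Nat.odd_iff]
    unfold Nat.ModEq at key
    exact key.trans (Nat.odd_iff.1 (odd_choose_two_pow a (n / 2) h3))

theorem even_choose_succ_two_pow {k s : ℕ} (h2 : 2 ≤ s) (hs : s < 2 ^ k) :
    Even ((2 ^ k + 1).choose s) := by
  obtain ⟨t, rfl⟩ : ∃ t, s = t + 1 := ⟨s - 1, by omega⟩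
  rw [Nat.choose_succ_succ]
  exact Even.add (even_iff_two_dvd.2 (Nat.prime_two.dvd_choose_pow (by omega) (by omega)))
    (even_iff_two_dvd.2 (Nat.prime_two.dvd_choose_pow (by omega) (by omega)))

/-- A two-group acting on a finite set of odd cardinality fixes a point. -/
theorem exists_fixed_of_odd {G X : Type*} [Group G] (φ : G →* Perm X) {P : Subgroup G}
    (hP : IsPGroup 2 P) [Finite G] (s : Finset X) (hs : ∀ g ∈ P, ∀ x ∈ s, φ g x ∈ s)
    (hodd : Odd s.card) : ∃ x ∈ s, ∀ g ∈ P, φ g x = x := by
  classical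
  let : MulAction P s :=
    { smul := fun g x => ⟨φ g.1 x.1, hs g.1 g.2 x.1 x.2⟩
      one_smul := fun x => Subtype.ext (show φ 1 x.1 = x.1 by rw [map_one]; rfl)
      mul_smul := fun g h x => Subtype.ext (show φ (g.1 * h.1) x.1 = φ g.1 (φ h.1 x.1) by
        rw [map_mul]; rfl) }
  obtain ⟨x, hx⟩ := hP.nonempty_fixed_point_of_prime_not_dvd_card s
    (by rw [Nat.card_eq_finsetCard]; simpa [← even_iff_two_dvd] using hodd)
  exact ⟨x.1, x.2, fun g hg => congrArg Subtype.val (hx ⟨g, hg⟩)⟩

variable {α : Type*} [Fintype α] [DecidableEq α]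

theorem exists_fixed_subset {P : Subgroup (Perm α)} (hP : IsPGroup 2 P) (U : Finset α)
    (hU : ∀ p ∈ P, ∀ x ∈ U, p x ∈ U) (k : ℕ) (hk : Odd (U.card.choose k)) :
    ∃ A ⊆ U, A.card = k ∧ ∀ p ∈ P, ∀ x, p x ∈ A ↔ x ∈ A := by
  classical
  obtain ⟨A, hA, hfix⟩ := exists_fixed_of_odd (MulAction.toPermHom (Perm α) (Finset α)) hP
    (U.powersetCard k) (fun p hp A hA => by
      rw [Finset.mem_powersetCard] at hA ⊢
      rw [MulAction.toPermHom_apply, MulAction.toPerm_apply]
      refine ⟨fun x hx => ?_, by rw [Finset.card_smul_finset]; exact hA.2⟩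
      obtain ⟨y, hy, rfl⟩ := Finset.mem_smul_finset.1 hx
      exact hU p hp y (hA.1 hy))
    (by rwa [Finset.card_powersetCard])
  rw [Finset.mem_powersetCard] at hA
  refine ⟨A, hA.1, hA.2, fun p hp x => ?_⟩
  have := hfix p hp
  rw [MulAction.toPermHom_apply, MulAction.toPerm_apply] at this
  conv_lhs => rw [← this]
  exact Finset.smul_mem_smul_finset_iff p

theorem exists_odd_factorial : ∀ m : ℕ, ∃ o, Odd o ∧ (2 * m).factorial = 2 ^ m * m.factorial * o
  | 0 => ⟨1, odd_one, by simp⟩
  | m + 1 => by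
    obtain ⟨o, ho, h⟩ := exists_odd_factorial m
    refine ⟨(2 * m + 1) * o, (odd_two_mul_add_one m).mul ho, ?_⟩
    rw [show 2 * (m + 1) = 2 * m + 1 + 1 by ring, Nat.factorial_succ, Nat.factorial_succ, h,
      Nat.factorial_succ m, pow_succ]
    ring

/-- A two-group of permutations of an even number of points centralizes a fixed-point-free
involution. -/
theorem exists_fixed_pairing {P : Subgroup (Perm α)} (hP : IsPGroup 2 P)
    (he : Even (Fintype.card α)) :
    ∃ z : Perm α, (∀ x, z x ≠ x) ∧ (∀ x, z (z x) = x) ∧ ∀ p ∈ P, ∀ x, p (z x) = z (p x) := by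
  classical
  obtain ⟨m, hm⟩ := he
  have hm' : Fintype.card α = 2 * m := by omega
  have hodd : Odd ({g | g.cycleType = Multiset.replicate m 2} : Finset (Perm α)).card := by
    obtain ⟨o, ho, hof⟩ := exists_odd_factorial m
    have h := Perm.card_of_cycleType_mul_eq α (Multiset.replicate m 2)
    have hs : (Multiset.replicate m 2).sum = 2 * m := by simp [mul_comm]
    rw [if_pos ⟨by rw [hs, hm'], fun a ha => by rw [Multiset.eq_of_mem_replicate ha]⟩,
      hs, hm', Nat.sub_self, Nat.factorial_zero, one_mul, Multiset.prod_replicate] at h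
    have hprod : (∏ i ∈ (Multiset.replicate m 2).toFinset,
        ((Multiset.replicate m 2).count i).factorial) = m.factorial := by
      rcases Nat.eq_zero_or_pos m with rfl | h0
      · simp
      · rw [Multiset.toFinset_replicate, if_neg h0.ne', Finset.prod_singleton]
        simp
    rw [hprod, hof, mul_comm _ o] at h
    rwa [Nat.eq_of_mul_eq_mul_right (by positivity) h]
  obtain ⟨z, hz, hfix⟩ := exists_fixed_of_odd
    ((MulAction.toPermHom (ConjAct (Perm α)) (Perm α)).comp ConjAct.toConjAct.toMonoidHom) hP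
    ({g | g.cycleType = Multiset.replicate m 2} : Finset (Perm α))
    (fun p _ g hg => by
      simp only [Finset.mem_filter, Finset.mem_univ, true_and] at hg ⊢
      simpa [ConjAct.toConjAct_smul] using hg) hodd
  rw [Finset.mem_filter] at hz
  have hsupp : z.support = Finset.univ := by
    apply Finset.eq_univ_of_card
    rw [← Perm.sum_cycleType, hz.2, hm']
    simp [mul_comm]
  refine ⟨z, fun x => Perm.mem_support.1 (hsupp ▸ Finset.mem_univ x), fun x => ?_, fun p hp x => ?_⟩
  · have h2 : z ^ 2 = 1 := (Perm.pow_prime_eq_one_iff (hp := ⟨Nat.prime_two⟩)).2 fun c hc => by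
      rw [hz.2] at hc; exact Multiset.eq_of_mem_replicate hc
    rw [← Perm.mul_apply, ← sq, h2, Perm.one_apply]
  · have := hfix p hp
    simp [ConjAct.toConjAct_smul] at this
    rw [mul_inv_eq_iff_eq_mul] at this
    exact DFunLike.congr_fun this x

/-- The three-cycle `x ↦ y ↦ z ↦ x`. -/
def cyc (x y z : α) : Perm α := swap x y * swap y z

theorem conj_cyc (g : Perm α) (x y z : α) : g * cyc x y z * g⁻¹ = cyc (g x) (g y) (g z) := by
  simp only [cyc, swap_apply_apply]
  group

theorem cyc_rot {x y z : α} (hxy : x ≠ y) (hxz : x ≠ z) (hyz : y ≠ z) : cyc x y z = cyc y z x := by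
  ext w
  simp only [cyc, Perm.mul_apply, swap_apply_def]
  split_ifs <;> simp_all

theorem cyc_apply_fst {x y z : α} (hxy : x ≠ y) (hxz : x ≠ z) : cyc x y z x = y := by
  simp [cyc, swap_apply_of_ne_of_ne hxy hxz]

theorem cyc_apply_of_ne {x y z w : α} (hx : w ≠ x) (hy : w ≠ y) (hz : w ≠ z) :
    cyc x y z w = w := by
  simp [cyc, swap_apply_of_ne_of_ne hy hz, swap_apply_of_ne_of_ne hx hy]

theorem sign_cyc {x y z : α} (hxy : x ≠ y) (hyz : y ≠ z) : sign (cyc x y z) = 1 := by
  simp [cyc, sign_swap hxy, sign_swap hyz]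

omit [Fintype α] in
theorem swap_preserves {A : Finset α} {x y : α} (h : x ∈ A ↔ y ∈ A) (w : α) :
    swap x y w ∈ A ↔ w ∈ A := by
  rw [swap_apply_def]
  split_ifs with h1 h2
  · rw [h1, h]
  · rw [h2, h]
  · rfl

theorem exists_fourth {A : Finset α} (hA : 4 ≤ A.card) (a b c : α) :
    ∃ d ∈ A, d ≠ a ∧ d ≠ b ∧ d ≠ c := by
  by_contra! h
  have : A ⊆ {a, b, c} := fun d hd => by
    simp only [Finset.mem_insert, Finset.mem_singleton]
    by_cases h1 : d = a
    · exact Or.inl h1
    · by_cases h2 : d = b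
      · exact Or.inr (Or.inl h2)
      · exact Or.inr (Or.inr (h d hd h1 h2))
  exact absurd (Finset.card_le_card this) (by have := Finset.card_le_three (a := a) (b := b) (c := c); omega)

theorem threeCycle_eq_cyc {σ : Perm α} (h : σ.IsThreeCycle) :
    ∃ x y z, x ≠ y ∧ x ≠ z ∧ y ≠ z ∧ σ = cyc x y z := by
  obtain ⟨x, hx, hcyc⟩ := h.isCycle
  have hxs : x ∈ σ.support := Perm.mem_support.2 hx
  have hco : σ.cycleOf x = σ := h.isCycle.cycleOf_eq hx
  have hlen : (σ.toList x).length = 3 := by rw [Perm.length_toList, hco, h.card_support]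
  have hl : σ.toList x = [x, σ x, σ (σ x)] := by
    apply List.ext_getElem (by simpa using hlen)
    intro i h1 h2
    rw [Perm.getElem_toList]
    simp only [List.length_cons, List.length_nil] at h2
    interval_cases i <;> simp [sq]
  have hnd := Perm.nodup_toList σ x
  rw [hl] at hnd
  simp only [List.nodup_cons, List.mem_cons, not_or, List.not_mem_nil, not_false_eq_true,
    List.nodup_nil, and_true] at hnd
  refine ⟨x, σ x, σ (σ x), hnd.1.1, hnd.1.2, hnd.2, ?_⟩
  conv_lhs => rw [← hco, ← Perm.formPerm_toList, hl]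
  simp [cyc, List.formPerm_cons_cons]

/-- Even permutations preserving `A` together with a permutation mixing `A` with its complement
generate the alternating group. -/
theorem alternating_le_of_crossing (K : Subgroup (Perm α)) (A : Finset α) (hA : 4 ≤ A.card)
    (hK : ∀ g : Perm α, sign g = 1 → (∀ a, g a ∈ A ↔ a ∈ A) → g ∈ K) {g : Perm α} (hg : g ∈ K)
    {a a' : α} (ha : a ∈ A) (ha' : a' ∈ A) (hga : g a ∉ A) (hga' : g a' ∈ A) :
    alternatingGroup α ≤ K := by
  have hin : ∀ {x y z : α}, x ∈ A → y ∈ A → z ∈ A → x ≠ y → y ≠ z → cyc x y z ∈ K := by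
    intro x y z hx hy hz hxy hyz
    refine hK _ (sign_cyc hxy hyz) fun w => ?_
    rw [cyc, Perm.mul_apply, swap_preserves (by simp [hx, hy]), swap_preserves (by simp [hy, hz])]
  have hconj : ∀ {h : Perm α} {x y z : α}, h ∈ K → cyc x y z ∈ K →
      cyc (h x) (h y) (h z) ∈ K := by
    intro h x y z hh hc
    rw [← conj_cyc]
    exact K.mul_mem (K.mul_mem hh hc) (K.inv_mem hh)
  have hbase : ∃ u v b, u ∈ A ∧ v ∈ A ∧ b ∉ A ∧ u ≠ v ∧ cyc u v b ∈ K := by
    have haa : a ≠ a' := fun h => hga (h ▸ hga')
    obtain ⟨a'', ha'', h1, h2, -⟩ := exists_fourth hA a a' a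
    have hc := hconj hg (hin ha ha' ha'' haa (Ne.symm h2))
    have n1 : g a ≠ g a' := g.injective.ne haa
    have n2 : g a ≠ g a'' := g.injective.ne (Ne.symm h1)
    have n3 : g a' ≠ g a'' := g.injective.ne (Ne.symm h2)
    rw [cyc_rot n1 n2 n3] at hc
    by_cases h3 : g a'' ∈ A
    · exact ⟨_, _, _, hga', h3, hga, n3, hc⟩
    · generalize g a' = u, g a'' = b', g a = b at hga' h3 hga n1 n2 n3 hc
      obtain ⟨u2, hu2, h4, -, -⟩ := exists_fourth hA u u u
      obtain ⟨u3, hu3, h5, h6, -⟩ := exists_fourth hA u u2 u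
      have hne : ∀ {p q : α}, p ∈ A → q ∉ A → q ≠ p := fun hp hq h => hq (h ▸ hp)
      have hc2 := hconj (hin hga' hu2 hu3 (Ne.symm h4) (Ne.symm h6)) hc
      rw [cyc_apply_fst (Ne.symm h4) (Ne.symm h5),
        cyc_apply_of_ne (hne hga' h3) (hne hu2 h3) (hne hu3 h3),
        cyc_apply_of_ne (hne hga' hga) (hne hu2 hga) (hne hu3 hga)] at hc2
      have hc3 := hconj hc hc2
      have e1 : cyc u b' b b' = b := by
        rw [cyc_rot n3 (Ne.symm n1) (Ne.symm n2)]
        exact cyc_apply_fst (Ne.symm n2) (Ne.symm n3)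
      have e2 : cyc u b' b b = u := by
        rw [cyc_rot n3 (Ne.symm n1) (Ne.symm n2), cyc_rot (Ne.symm n2) (Ne.symm n3) n1]
        exact cyc_apply_fst n1 n2
      rw [cyc_apply_of_ne h4 (Ne.symm (hne hu2 h3)) (Ne.symm (hne hu2 hga)), e1, e2] at hc3
      -- `cyc u2 b u`
      rw [cyc_rot (Ne.symm (hne hu2 hga)) h4 n1, cyc_rot n1 (hne hu2 hga) (Ne.symm h4)] at hc3
      exact ⟨u, u2, b, hga', hu2, hga, Ne.symm h4, hc3⟩
  obtain ⟨u, v, b, hu, hv, hb, huv, hc⟩ := hbase
  have htwo : ∀ {x y w : α}, x ∈ A → y ∈ A → w ∉ A → x ≠ y → cyc x y w ∈ K := by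
    intro x y w hx hy hw hxy
    let h1 : Perm α := swap u x
    have hv1 : h1 v ∈ A := (swap_preserves (by simp [hu, hx]) v).2 hv
    have hv1x : h1 v ≠ x := by
      intro h
      have : h1 v = h1 u := by rw [h]; simp [h1]
      exact huv (h1.injective this).symm
    let h0 : Perm α := swap b w * swap (h1 v) y * h1
    have pres0 : ∀ c, h0 c ∈ A ↔ c ∈ A := fun c => by
      simp only [h0, Perm.mul_apply]
      rw [swap_preserves (by simp [hb, hw]), swap_preserves (by simp [hv1, hy]),
        swap_preserves (by simp [hu, hx])]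
    have hne : ∀ {p q : α}, p ∈ A → q ∉ A → q ≠ p := fun hp hq h => hq (h ▸ hp)
    have e0u : h0 u = x := by
      simp only [h0, Perm.mul_apply, h1, swap_apply_left]
      rw [swap_apply_of_ne_of_ne (Ne.symm hv1x) hxy,
        swap_apply_of_ne_of_ne (Ne.symm (hne hx hb)) (Ne.symm (hne hx hw))]
    have e0v : h0 v = y := by
      simp only [h0, Perm.mul_apply, swap_apply_left]
      rw [swap_apply_of_ne_of_ne (Ne.symm (hne hy hb)) (Ne.symm (hne hy hw))]
    have e0b : h0 b = w := by
      simp only [h0, Perm.mul_apply]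
      rw [show h1 b = b from swap_apply_of_ne_of_ne (hne hu hb) (hne hx hb),
        swap_apply_of_ne_of_ne (hne hv1 hb) (hne hy hb), swap_apply_left]
    rcases Int.units_eq_one_or (sign h0) with hs | hs
    · have := hconj (hK h0 hs pres0) hc
      rwa [e0u, e0v, e0b] at this
    · obtain ⟨p, hp, hpx, hpy, -⟩ := exists_fourth hA x y x
      obtain ⟨p', hp', hp'x, hp'y, hp'p⟩ := exists_fourth hA x y p
      have := hconj (hK (swap p p' * h0) (by rw [map_mul, hs, sign_swap (Ne.symm hp'p)]; rfl)
        (fun c => by rw [Perm.mul_apply, swap_preserves (by simp [hp, hp']), pres0])) hc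
      simp only [Perm.mul_apply (swap p p') h0] at this
      rwa [e0u, e0v, e0b,
        swap_apply_of_ne_of_ne (Ne.symm hpx) (Ne.symm hp'x),
        swap_apply_of_ne_of_ne (Ne.symm hpy) (Ne.symm hp'y),
        swap_apply_of_ne_of_ne (hne hp hw) (hne hp' hw)] at this
  have hone : ∀ {x y z : α}, x ∈ A → y ∉ A → z ∉ A → y ≠ z → cyc x y z ∈ K := by
    intro x y z hx hy hz hyz
    have hne : ∀ {p q : α}, p ∈ A → q ∉ A → q ≠ p := fun hp hq h => hq (h ▸ hp)
    obtain ⟨c, hcA, hcx, -, -⟩ := exists_fourth hA x x x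
    obtain ⟨c', hc'A, hc'x, hc'c, -⟩ := exists_fourth hA x c x
    have hd : cyc c y c' ∈ K := by
      rw [← cyc_rot hc'c (Ne.symm (hne hc'A hy)) (Ne.symm (hne hcA hy))]
      exact htwo hc'A hcA hy hc'c
    have := hconj hd (htwo hx hcA hz (Ne.symm hcx))
    rwa [cyc_apply_fst (Ne.symm (hne hcA hy)) (Ne.symm hc'c),
      cyc_apply_of_ne (Ne.symm hcx) (Ne.symm (hne hx hy)) (Ne.symm hc'x),
      cyc_apply_of_ne (hne hcA hz) (Ne.symm hyz) (hne hc'A hz)] at this
  have hall : ∀ {x y z : α}, x ≠ y → x ≠ z → y ≠ z → cyc x y z ∈ K := by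
    intro x y z hxy hxz hyz
    by_cases hx : x ∈ A <;> by_cases hy : y ∈ A <;> by_cases hz : z ∈ A
    · exact hin hx hy hz hxy hyz
    · exact htwo hx hy hz hxy
    · rw [cyc_rot hxy hxz hyz, cyc_rot hyz hxy.symm hxz.symm]; exact htwo hz hx hy hxz.symm
    · exact hone hx hy hz hyz
    · rw [cyc_rot hxy hxz hyz]; exact htwo hy hz hx hyz
    · rw [cyc_rot hxy hxz hyz]; exact hone hy hz hx hxz.symm
    · rw [cyc_rot hxy hxz hyz, cyc_rot hyz hxy.symm hxz.symm]; exact hone hz hx hy hxy
    · have hne : ∀ {p q : α}, p ∈ A → q ∉ A → q ≠ p := fun hp hq h => hq (h ▸ hp)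
      obtain ⟨c', hc'A, hc'c, -, -⟩ := exists_fourth hA a a a
      have hd : cyc a x c' ∈ K := by
        rw [← cyc_rot hc'c (Ne.symm (hne hc'A hx)) (Ne.symm (hne ha hx))]
        exact htwo hc'A ha hx hc'c
      have := hconj hd (hone ha hy hz hyz)
      rwa [cyc_apply_fst (Ne.symm (hne ha hx)) (Ne.symm hc'c),
        cyc_apply_of_ne (hne ha hy) hxy.symm (hne hc'A hy),
        cyc_apply_of_ne (hne ha hz) hxz.symm (hne hc'A hz)] at this
  rw [← closure_three_cycles_eq_alternating, Subgroup.closure_le]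
  intro σ hσ
  obtain ⟨x, y, z, hxy, hxz, hyz, rfl⟩ := threeCycle_eq_cyc hσ
  exact hall hxy hxz hyz

/-- Outside the degrees `2 ^ k + 1`, a two-group lies in two subgroups that generate the
alternating group. -/
theorem exists_pair {P : Subgroup (Perm α)} (hP : IsPGroup 2 P) (h5 : 5 ≤ Fintype.card α)
    (h6 : Fintype.card α ≠ 6) (hk : ¬ ∃ k, 2 ≤ k ∧ Fintype.card α = 2 ^ k + 1) :
    ∃ H₁ H₂ : Subgroup (Perm α), P ≤ H₁ ∧ P ≤ H₂ ∧ ¬ alternatingGroup α ≤ H₁ ∧
      ¬ alternatingGroup α ≤ H₂ ∧ (∃ t ∈ H₁, sign t = -1) ∧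
      ∀ K : Subgroup (Perm α), H₁ ⊓ alternatingGroup α ≤ K → H₂ ⊓ alternatingGroup α ≤ K →
        alternatingGroup α ≤ K := by
  classical
  -- it is enough to find a set and a mixing element
  suffices ∃ (A : Finset α) (H₂ : Subgroup (Perm α)), 4 ≤ A.card ∧
      (∀ p ∈ P, (∀ x, p x ∈ A ↔ x ∈ A) ∨ (∀ x, p x ∈ A ↔ x ∉ A)) ∧ P ≤ H₂ ∧
      ¬ alternatingGroup α ≤ H₂ ∧
      ∃ g ∈ H₂, sign g = 1 ∧ ∃ a ∈ A, ∃ a' ∈ A, g a ∉ A ∧ g a' ∈ A by
    obtain ⟨A, H₂, hA, hPA, hP2, hne2, g, hg, hgs, a, ha, a', ha', hga, hga'⟩ := this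
    let H₁ := GeomClasses.fibrePreserving (fun x : α => x ∈ A)
    have hmem : ∀ h : Perm α, (∀ x, h x ∈ A ↔ x ∈ A) → h ∈ H₁ := by
      intro h hh x y
      simp only [eq_iff_iff, hh]
    refine ⟨H₁, H₂, fun p hp => ?_, hP2, fun h => ?_, hne2, ?_, fun K hK1 hK2 =>
      alternating_le_of_crossing K A hA (fun h hs hh => hK1 ⟨hmem h hh, mem_alternatingGroup.2 hs⟩)
        (hK2 ⟨hg, mem_alternatingGroup.2 hgs⟩) ha ha' hga hga'⟩
    · rcases hPA p hp with hh | hh
      · exact hmem p hh
      · intro x y
        simp only [eq_iff_iff, hh, not_iff_not]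
    · have := (h (mem_alternatingGroup.2 hgs) a a').1 (by simp [ha, ha'])
      simp only [eq_iff_iff] at this
      exact hga (this.2 hga')
    · obtain ⟨c, hc, hca, -, -⟩ := exists_fourth hA a a a
      exact ⟨swap a c, GeomClasses.swap_mem_fibrePreserving _ (by simp [ha, hc]),
        sign_swap (Ne.symm hca)⟩
  have hlog := Nat.log2_self_le (n := Fintype.card α) (by omega)
  set N := Fintype.card α with hN
  rcases Nat.even_or_odd N with he | ho
  · -- even degree
    obtain ⟨z, hzf, hzz, hzP⟩ := exists_fixed_pairing hP he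
    obtain ⟨A, hA, hAc, hPA⟩ : ∃ A : Finset α, 4 ≤ A.card ∧ A.card < N ∧
        ∀ p ∈ P, (∀ x, p x ∈ A ↔ x ∈ A) ∨ (∀ x, p x ∈ A ↔ x ∉ A) := by
      have h8 : 8 ≤ N := by obtain ⟨j, hj⟩ := he; omega
      set a := Nat.log 2 N with ha
      have h1 : 2 ^ a ≤ N := Nat.pow_log_le_self 2 (by omega)
      have h2 : N < 2 ^ (a + 1) := Nat.lt_pow_succ_log_self (by norm_num) N
      have ha3 : 3 ≤ a := Nat.le_log_of_pow_le (by norm_num) h8
      rcases h1.eq_or_lt with heq | hlt
      · -- a power of two: a fixed partition into halves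
        obtain ⟨b, hb⟩ : ∃ b, a = b + 1 := ⟨a - 1, by omega⟩
        have hN2 : N = 2 * 2 ^ b := by rw [← heq, hb, pow_succ]; ring
        let f : Finset α → Finset (Finset α) := fun S => {S, Sᶜ}
        let s : Finset (Finset (Finset α)) := (Finset.univ.powersetCard (2 ^ b)).image f
        have hcl : ∀ S ∈ Finset.univ.powersetCard (α := α) (2 ^ b),
            ((Finset.univ.powersetCard (2 ^ b)).filter fun T => f T = f S).card = 2 := by
          intro S hS
          have hSc : S.card = 2 ^ b := (Finset.mem_powersetCard.1 hS).2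
          have hne : S ≠ Sᶜ := by
            intro h
            have h0 : S = ∅ := Finset.eq_empty_of_forall_notMem fun x hx =>
              Finset.mem_compl.1 (h ▸ hx) hx
            rw [h0, Finset.card_empty] at hSc
            exact absurd hSc (by positivity)
          rw [show ((Finset.univ.powersetCard (2 ^ b)).filter fun T => f T = f S) = {S, Sᶜ} from ?_]
          · exact Finset.card_pair hne
          ext T
          simp only [Finset.mem_filter, Finset.mem_powersetCard, Finset.subset_univ, true_and,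
            Finset.mem_insert, Finset.mem_singleton]
          constructor
          · rintro ⟨-, hT⟩
            have : T ∈ f S := hT ▸ Finset.mem_insert_self _ _
            simpa [f] using this
          · rintro (rfl | rfl)
            · exact ⟨hSc, rfl⟩
            · refine ⟨by rw [Finset.card_compl, ← hN, hSc, hN2]; omega, ?_⟩
              simp [f, Finset.pair_comm]
        have hcard : (Finset.univ.powersetCard (α := α) (2 ^ b)).card = 2 * s.card := by
          rw [Finset.card_eq_sum_card_image f, mul_comm]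
          apply Finset.sum_const_nat
          intro T hT
          obtain ⟨S, hS, rfl⟩ := Finset.mem_image.1 hT
          exact hcl S hS
        have hodd : Odd s.card := by
          have hpow : 0 < 2 ^ b := by positivity
          obtain ⟨m, hm⟩ : ∃ m, 2 ^ b = m + 1 := ⟨2 ^ b - 1, by omega⟩
          have h3 : ((2 * m + 1).choose m) = s.card := by
            have := hcard
            rw [Finset.card_powersetCard, Finset.card_univ, ← hN, hN2, hm,
              show 2 * (m + 1) = 2 * m + 1 + 1 by ring, Nat.choose_succ_succ,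
              Nat.choose_symm_half] at this
            omega
          have h4 : Odd ((2 * m + 1).choose (2 ^ b)) := odd_choose_two_pow b _ (by
            rw [show 2 * m + 1 = 2 ^ b + m by omega, Nat.add_div_left _ hpow,
              Nat.div_eq_of_lt (by omega)])
          rwa [hm, Nat.choose_symm_half, h3] at h4
        obtain ⟨T, hT, hfix⟩ := exists_fixed_of_odd
          (MulAction.toPermHom (Perm α) (Finset (Finset α))) hP s (fun p _ T hT => by
            obtain ⟨S, hS, rfl⟩ := Finset.mem_image.1 hT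
            refine Finset.mem_image.2 ⟨p • S, ?_, ?_⟩
            · simp only [Finset.mem_powersetCard, Finset.subset_univ, true_and,
                Finset.card_smul_finset] at hS ⊢
              exact hS
            · simp [f, Finset.smul_finset_insert, Finset.compl_eq_univ_sdiff, Finset.smul_finset_sdiff]) hodd
        obtain ⟨S, hS, rfl⟩ := Finset.mem_image.1 hT
        have hSc : S.card = 2 ^ b := (Finset.mem_powersetCard.1 hS).2
        refine ⟨S, ?_, by rw [hSc, hN2]; have := Nat.two_pow_pos b; omega, fun p hp => ?_⟩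
        · rw [hSc]
          calc 4 = 2 ^ 2 := rfl
            _ ≤ _ := Nat.pow_le_pow_right two_pos (by omega)
        have h5 : p • S ∈ f S := by
          have := hfix p hp
          rw [MulAction.toPermHom_apply, MulAction.toPerm_apply] at this
          rw [← this]
          exact Finset.smul_mem_smul_finset (Finset.mem_insert_self _ _)
        simp only [f, Finset.mem_insert, Finset.mem_singleton] at h5
        rcases h5 with h5 | h5
        · left; intro x
          conv_lhs => rw [← h5]
          exact Finset.smul_mem_smul_finset_iff p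
        · right; intro x
          have : p x ∈ p • S ↔ x ∈ S := Finset.smul_mem_smul_finset_iff p
          rw [h5, Finset.mem_compl] at this
          tauto
      · obtain ⟨A, -, hA, hPA⟩ := exists_fixed_subset hP Finset.univ (by simp) (2 ^ a) (by
          rw [Finset.card_univ, ← hN]
          refine odd_choose_two_pow a N ?_
          rw [Nat.div_eq_of_lt_le (k := 1) (by omega) (by rw [pow_succ] at h2; omega)])
        refine ⟨A, ?_, by omega, fun p hp => Or.inl (hPA p hp)⟩
        rw [hA]
        calc 4 = 2 ^ 2 := rfl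
          _ ≤ _ := Nat.pow_le_pow_right two_pos (by omega)
    refine ⟨A, Subgroup.centralizer {z}, hA, hPA, fun p hp => ?_, fun h => ?_, ?_⟩
    · rw [Subgroup.mem_centralizer_singleton_iff]
      ext x; simp [hzP p hp]
    · obtain ⟨x⟩ : Nonempty α := Fintype.card_pos_iff.1 (by omega)
      obtain ⟨w, -, hw1, hw2, -⟩ := exists_fourth (A := (Finset.univ : Finset α))
        (by rw [Finset.card_univ]; omega) x (z x) x
      have hx : x ≠ z x := (hzf x).symm
      have hc := Subgroup.mem_centralizer_singleton_iff.1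
        (h (mem_alternatingGroup.2 (sign_cyc hx (Ne.symm hw2))))
      have := DFunLike.congr_fun hc x
      rw [Perm.mul_apply, Perm.mul_apply, cyc_apply_fst hx (Ne.symm hw1), hzz,
        cyc_rot hx (Ne.symm hw1) (Ne.symm hw2),
        cyc_apply_fst (Ne.symm hw2) (hzf x)] at this
      exact hw1 this
    · by_cases hcr : ∃ a ∈ A, z a ∉ A
      · obtain ⟨a, ha, hza⟩ := hcr
        obtain ⟨c, hc, hca, hcza, -⟩ := exists_fourth hA a (z a) a
        obtain ⟨a', ha', h1, h2, h3⟩ := exists_fourth hA a c (z c)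
        have n1 : z c ≠ z a := z.injective.ne hca
        have n2 : z c ≠ a := fun e => hcza (by rw [← e, hzz])
        refine ⟨swap a (z a) * swap c (z c), ?_, ?_, a, ha, a', ha', ?_, ?_⟩
        · rw [Subgroup.mem_centralizer_singleton_iff]
          have e : ∀ u : α, z * swap u (z u) = swap u (z u) * z := by
            intro u
            have := swap_apply_apply z u (z u)
            rw [hzz, swap_comm] at this
            exact mul_inv_eq_iff_eq_mul.1 this.symm
          rw [← mul_assoc z, e a, mul_assoc (swap a (z a)) z, e c, mul_assoc]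
        · simp [sign_swap (hzf a).symm, sign_swap (hzf c).symm]
        · rw [Perm.mul_apply, swap_apply_of_ne_of_ne hca.symm n2.symm, swap_apply_left]
          exact hza
        · rw [Perm.mul_apply, swap_apply_of_ne_of_ne h2 h3,
            swap_apply_of_ne_of_ne h1 (fun e : a' = z a => hza (e ▸ ha'))]
          exact ha'
      · push Not at hcr
        have hout : ∀ b, b ∉ A → z b ∉ A := fun b hb h => hb (hzz b ▸ hcr _ h)
        obtain ⟨b, hb⟩ : ∃ b, b ∉ A := by
          by_contra! h
          rw [Finset.eq_univ_of_forall h, Finset.card_univ] at hAc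
          omega
        obtain ⟨a, ha⟩ := Finset.card_pos.1 (show 0 < A.card by omega)
        obtain ⟨a', ha', h1, h2, -⟩ := exists_fourth hA a (z a) a
        have hne : ∀ {p q : α}, p ∈ A → q ∉ A → q ≠ p := fun hp hq h => hq (h ▸ hp)
        refine ⟨swap a b * swap (z a) (z b), ?_, ?_, a, ha, a', ha', ?_, ?_⟩
        · rw [Subgroup.mem_centralizer_singleton_iff]
          have e1 : z * swap a b = swap (z a) (z b) * z := by
            rw [swap_apply_apply]; group
          have e2 : z * swap (z a) (z b) = swap a b * z := by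
            have := swap_apply_apply z (z a) (z b)
            rw [hzz, hzz] at this
            rw [this]; group
          have hcomm : Commute (swap a b) (swap (z a) (z b)) := by
            apply Perm.Disjoint.commute
            rw [Perm.disjoint_iff_disjoint_support, Perm.support_swap (hne ha hb).symm,
              Perm.support_swap (hne (hcr a ha) (hout b hb)).symm]
            simp only [Finset.disjoint_insert_left, Finset.disjoint_singleton_left,
              Finset.mem_insert, Finset.mem_singleton, not_or]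
            exact ⟨⟨(hzf a).symm, (hne ha (hout b hb)).symm⟩, hne (hcr a ha) hb, (hzf b).symm⟩
          rw [← mul_assoc z, e1, mul_assoc _ z, e2, ← mul_assoc, hcomm.eq]
        · simp [sign_swap (hne ha hb).symm, sign_swap (hne (hcr a ha) (hout b hb)).symm]
        · rw [Perm.mul_apply, swap_apply_of_ne_of_ne (hzf a).symm (hne ha (hout b hb)).symm,
            swap_apply_left]
          exact hb
        · rw [Perm.mul_apply, swap_apply_of_ne_of_ne h2 (hne ha' (hout b hb)).symm,
            swap_apply_of_ne_of_ne h1 (hne ha' hb).symm]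
          exact ha'
  · -- odd degree
    obtain ⟨x, -, hx⟩ := exists_fixed_of_odd (MonoidHom.id (Perm α)) hP Finset.univ (by simp)
      (by rwa [Finset.card_univ])
    have hU : ∀ p ∈ P, ∀ y ∈ Finset.univ.erase x, p y ∈ Finset.univ.erase x := by
      intro p hp y hy
      simp only [Finset.mem_erase, Finset.mem_univ, and_true] at hy ⊢
      exact fun e => hy (p.injective (e.trans (hx p hp).symm))
    obtain ⟨j, hj⟩ := ho
    set a := Nat.log 2 (N - 1) with ha
    have h1 : 2 ^ a ≤ N - 1 := Nat.pow_log_le_self 2 (by omega)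
    have h2 : N - 1 < 2 ^ (a + 1) := Nat.lt_pow_succ_log_self (by norm_num) _
    have ha2 : 2 ≤ a := Nat.le_log_of_pow_le (by norm_num) (by omega)
    have hlt : 2 ^ a < N - 1 := by
      refine lt_of_le_of_ne h1 fun e => hk ⟨a, ha2, by omega⟩
    obtain ⟨A, hAU, hA, hPA⟩ := exists_fixed_subset hP _ hU (2 ^ a) (by
      rw [Finset.card_erase_of_mem (Finset.mem_univ x), Finset.card_univ, ← hN]
      refine odd_choose_two_pow a _ ?_
      rw [Nat.div_eq_of_lt_le (k := 1) (by omega) (by rw [pow_succ] at h2; omega)])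
    have h4 : 4 ≤ A.card := by
      rw [hA]
      calc 4 = 2 ^ 2 := rfl
        _ ≤ _ := Nat.pow_le_pow_right two_pos ha2
    refine ⟨A, stabilizer (Perm α) x, h4, fun p hp => Or.inl (hPA p hp), fun p hp =>
      MulAction.mem_stabilizer_iff.2 (hx p hp), fun h => ?_, ?_⟩
    · obtain ⟨u, -, hu, -, -⟩ := exists_fourth (A := (Finset.univ : Finset α))
        (by rw [Finset.card_univ]; omega) x x x
      obtain ⟨w, -, hw1, hw2, -⟩ := exists_fourth (A := (Finset.univ : Finset α))
        (by rw [Finset.card_univ]; omega) x u x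
      have hc : cyc x u w x = x := MulAction.mem_stabilizer_iff.1
        (h (mem_alternatingGroup.2 (sign_cyc (Ne.symm hu) (Ne.symm hw2))))
      rw [cyc_apply_fst (Ne.symm hu) (Ne.symm hw1)] at hc
      exact hu hc
    · obtain ⟨b, hb, hbx⟩ : ∃ b ∉ A, b ≠ x := by
        by_contra! h
        have : Finset.univ.erase x ⊆ A := fun b hb => by
          by_contra hbA; exact (Finset.ne_of_mem_erase hb) (h b hbA)
        have := Finset.card_le_card this
        rw [Finset.card_erase_of_mem (Finset.mem_univ x), Finset.card_univ, ← hN] at this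
        omega
      obtain ⟨c, hc, -⟩ := exists_fourth h4 x x x
      obtain ⟨d, hd, hdc, -, -⟩ := exists_fourth h4 c c c
      obtain ⟨e, he, hec, hed, -⟩ := exists_fourth h4 c d c
      have hne : ∀ {p q : α}, p ∈ A → q ∉ A → q ≠ p := fun hp hq h => hq (h ▸ hp)
      have hxA : x ∉ A := fun h => Finset.ne_of_mem_erase (hAU h) rfl
      refine ⟨cyc c b d, MulAction.mem_stabilizer_iff.2 (cyc_apply_of_ne (hne hc hxA) hbx.symm
        (hne hd hxA)), sign_cyc (hne hc hb).symm (hne hd hb), c, hc, e, he, ?_, ?_⟩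
      · rw [cyc_apply_fst (hne hc hb).symm (Ne.symm hdc)]; exact hb
      · rw [cyc_apply_of_ne hec (hne he hb).symm hed]; exact he

end Cfsg.Agent.KnownA.SylowTwoOvergroups
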