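import Mathlib
import Cfsg.Agent.KnownA.SylowTwoOvergroups

/-! # The unique maximal overgroup of a Sylow two-subgroup in degree `2 ^ k + 1` -/

set_option autoImplicit false
set_option linter.unusedSectionVars false

namespace Cfsg.Agent.KnownA.SylowTwoOvergroups

open Equiv Equiv.Perm MulAction
open scoped Pointwise

variable {α : Type*} [Fintype α] [DecidableEq α]

theorem odd_choose_of_invariant (P : Sylow 2 (Perm α)) (S : Finset α)
    (hS : ∀ p ∈ (P : Subgroup (Perm α)), ∀ x ∈ S, p x ∈ S) :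
    Odd ((Fintype.card α).choose S.card) := by
  classical
  have hle : (P : Subgroup (Perm α)) ≤ stabilizer (Perm α) S := by
    intro p hp
    rw [MulAction.mem_stabilizer_iff]
    refine Finset.eq_of_subset_of_card_le (fun x hx => ?_) (by rw [Finset.card_smul_finset])
    obtain ⟨y, hy, rfl⟩ := Finset.mem_smul_finset.1 hx
    exact hS p hp y hy
  have horb : MulAction.orbit (Perm α) S = ↑(Finset.univ.powersetCard (α := α) S.card) := by
    ext T
    simp only [MulAction.mem_orbit_iff, Finset.mem_coe, Finset.mem_powersetCard, Finset.subset_univ,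
      true_and]
    constructor
    · rintro ⟨g, rfl⟩; exact Finset.card_smul_finset g S
    · intro hT
      let e : {x // x ∈ S} ≃ {x // x ∈ T} := Finset.equivOfCardEq hT.symm
      refine ⟨e.extendSubtype, Finset.eq_of_subset_of_card_le (fun x hx => ?_)
        (by rw [Finset.card_smul_finset, hT])⟩
      obtain ⟨y, hy, rfl⟩ := Finset.mem_smul_finset.1 hx
      exact e.extendSubtype_mem y hy
  have hidx : (stabilizer (Perm α) S).index = (Fintype.card α).choose S.card := by
    rw [MulAction.index_stabilizer, horb, Set.ncard_coe_finset, Finset.card_powersetCard,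
      Finset.card_univ]
  rw [← Nat.not_even_iff_odd, even_iff_two_dvd, ← hidx]
  exact fun h => P.not_dvd_index (h.trans (Subgroup.index_dvd_of_le hle))

variable {k : ℕ}

/-- A Sylow two-subgroup in degree `2 ^ k + 1` fixes a point and is transitive on the others. -/
theorem exists_fixed_transitive (hk : 2 ≤ k) (hn : Fintype.card α = 2 ^ k + 1)
    (P : Sylow 2 (Perm α)) :
    ∃ x : α, (∀ p ∈ (P : Subgroup (Perm α)), p x = x) ∧
      ∀ y z, y ≠ x → z ≠ x → ∃ p ∈ (P : Subgroup (Perm α)), p y = z := by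
  classical
  have hpow : 4 ≤ 2 ^ k := by
    calc 4 = 2 ^ 2 := rfl
      _ ≤ _ := Nat.pow_le_pow_right two_pos hk
  have hev : 2 ∣ 2 ^ k := dvd_pow_self 2 (by omega)
  obtain ⟨x, -, hx⟩ := exists_fixed_of_odd (MonoidHom.id (Perm α)) P.isPGroup' Finset.univ
    (by simp) (by rw [Finset.card_univ, hn]; exact (even_iff_two_dvd.2 hev).add_one)
  simp only [MonoidHom.id_apply] at hx
  refine ⟨x, hx, fun y z hy hz => ?_⟩
  let O : Finset α := Finset.univ.filter fun w => ∃ p ∈ (P : Subgroup (Perm α)), p y = w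
  have hO : ∀ p ∈ (P : Subgroup (Perm α)), ∀ w ∈ O, p w ∈ O := by
    intro p hp w hw
    simp only [O, Finset.mem_filter, Finset.mem_univ, true_and] at hw ⊢
    obtain ⟨q, hq, rfl⟩ := hw
    exact ⟨p * q, mul_mem hp hq, rfl⟩
  have hxO : x ∉ O := by
    simp only [O, Finset.mem_filter, Finset.mem_univ, true_and, not_exists, not_and]
    exact fun p hp e => hy (p.injective (e.trans (hx p hp).symm))
  have hyO : y ∈ O := Finset.mem_filter.2 ⟨Finset.mem_univ _, 1, one_mem _, rfl⟩
  have hcard : O.card = 2 ^ k := by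
    have h1 : 1 ≤ O.card := Finset.card_pos.2 ⟨y, hyO⟩
    have h2 : O.card ≤ 2 ^ k := by
      have := Finset.card_le_card (Finset.subset_univ (insert x O))
      rw [Finset.card_insert_of_notMem hxO, Finset.card_univ, hn] at this
      omega
    by_contra hne
    rcases h1.eq_or_lt with h | h
    · have := odd_choose_of_invariant P (insert x O) (fun p hp w hw => by
        rcases Finset.mem_insert.1 hw with rfl | hw
        · rw [hx p hp]; exact Finset.mem_insert_self _ _
        · exact Finset.mem_insert_of_mem (hO p hp w hw))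
      rw [Finset.card_insert_of_notMem hxO, hn, ← h] at this
      exact Nat.not_even_iff_odd.2 this (even_choose_succ_two_pow le_rfl (by omega))
    · have := odd_choose_of_invariant P O hO
      rw [hn] at this
      exact Nat.not_even_iff_odd.2 this
        (even_choose_succ_two_pow h (lt_of_le_of_ne h2 hne))
  by_contra hne
  have hzO : z ∉ O := fun h => hne (Finset.mem_filter.1 h).2
  have := Finset.card_le_card (Finset.subset_univ (insert z (insert x O)))
  rw [Finset.card_insert_of_notMem (by simp [hz, hzO]), Finset.card_insert_of_notMem hxO,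
    Finset.card_univ, hn, hcard] at this
  omega

/-- Transpositions in a two-group are disjoint. -/
theorem partner_unique {P : Subgroup (Perm α)} (hP : IsPGroup 2 P) {y z w : α} (h1 : y ≠ z)
    (h2 : y ≠ w) (hz : swap y z ∈ P) (hw : swap y w ∈ P) : z = w := by
  by_contra hne
  have h3 : (swap y z * swap y w).IsThreeCycle :=
    Equiv.Perm.isThreeCycle_swap_mul_swap_same h1 h2 hne
  obtain ⟨j, hj⟩ := hP ⟨_, mul_mem hz hw⟩
  have hj' : (swap y z * swap y w) ^ (2 ^ j) = 1 := congrArg Subtype.val hj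
  have h4 := orderOf_dvd_of_pow_eq_one hj'
  rw [h3.orderOf] at h4
  exact absurd (Nat.prime_three.dvd_of_dvd_pow h4) (by norm_num)

theorem exists_avoid (h : ∀ s : List α, s.length ≤ 7 → ∃ c, c ∉ s) (a b c d e f g : α) :
    ∃ x, x ≠ a ∧ x ≠ b ∧ x ≠ c ∧ x ≠ d ∧ x ≠ e ∧ x ≠ f ∧ x ≠ g := by
  obtain ⟨x, hx⟩ := h [a, b, c, d, e, f, g] le_rfl
  simp at hx
  exact ⟨x, hx.1, hx.2.1, hx.2.2.1, hx.2.2.2.1, hx.2.2.2.2.1, hx.2.2.2.2.2.1, hx.2.2.2.2.2.2⟩

/-- In degree `2 ^ k + 1`, overgroups of the even part of a Sylow two-subgroup either fix the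
point or contain the alternating group. -/
theorem alternating_le_of_moves (hk : 2 ≤ k) (hn : Fintype.card α = 2 ^ k + 1)
    (P : Sylow 2 (Perm α)) {x : α} (hx : ∀ p ∈ (P : Subgroup (Perm α)), p x = x)
    (htr : ∀ y z, y ≠ x → z ≠ x → ∃ p ∈ (P : Subgroup (Perm α)), p y = z)
    (K : Subgroup (Perm α)) (hK : (P : Subgroup (Perm α)) ⊓ alternatingGroup α ≤ K)
    (hmv : ∃ g ∈ K, g x ≠ x) : alternatingGroup α ≤ K := by
  classical
  have hpow : 4 ≤ 2 ^ k := by
    calc 4 = 2 ^ 2 := rfl
      _ ≤ _ := Nat.pow_le_pow_right two_pos hk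
  have havoid : ∀ s : List α, s.length < Fintype.card α → ∃ c, c ∉ s := by
    intro s hs
    by_contra! h
    have h1 : (Finset.univ : Finset α) ⊆ s.toFinset := fun c _ => List.mem_toFinset.2 (h c)
    have h2 := (Finset.card_le_card h1).trans (List.toFinset_card_le s)
    rw [Finset.card_univ] at h2
    omega
  -- some transposition lies in the Sylow subgroup
  obtain ⟨u, v, huv, hswap⟩ : ∃ u v, u ≠ v ∧ swap u v ∈ (P : Subgroup (Perm α)) := by
    obtain ⟨u, v, huv⟩ := Fintype.exists_pair_of_one_lt_card (α := α) (by omega)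
    obtain ⟨Q, hQ⟩ := (IsPGroup.of_card (p := 2) (n := 1) (G := Subgroup.zpowers (swap u v))
      (by rw [Nat.card_zpowers, (IsSwap.orderOf ⟨u, v, huv, rfl⟩), pow_one])).exists_le_sylow
    obtain ⟨g, hg⟩ := MulAction.exists_smul_eq (Perm α) Q P
    refine ⟨g u, g v, g.injective.ne huv, ?_⟩
    rw [swap_apply_apply, ← hg]
    have : swap u v ∈ (Q : Subgroup (Perm α)) := hQ (Subgroup.mem_zpowers _)
    rw [Sylow.coe_subgroup_smul, Subgroup.mem_pointwise_smul_iff_inv_smul_mem]
    simpa [MulAut.smul_def, MulAut.conj_apply, mul_assoc] using this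
  have hux : u ≠ x := by
    intro e
    have := hx _ hswap
    rw [e, swap_apply_left] at this
    exact huv (e ▸ this.symm)
  have hvx : v ≠ x := by
    intro e
    have := hx _ hswap
    rw [e, swap_apply_right] at this
    exact huv (e ▸ this)
  have hpart : ∀ y, y ≠ x → ∃ z, z ≠ y ∧ z ≠ x ∧ swap y z ∈ (P : Subgroup (Perm α)) := by
    intro y hy
    obtain ⟨p, hp, hpu⟩ := htr u y hux hy
    refine ⟨p v, fun e => huv (p.injective (hpu.trans e.symm)),
      fun e => hvx (p.injective (e.trans (hx p hp).symm)), ?_⟩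
    rw [← hpu, swap_apply_apply]
    exact mul_mem (mul_mem hp hswap) (inv_mem hp)
  choose! m hmy hmx hmem using hpart
  have hmm : ∀ y, y ≠ x → m (m y) = y := by
    intro y hy
    refine partner_unique P.isPGroup' (hmy _ (hmx y hy)).symm (hmy y hy) (hmem _ (hmx y hy)) ?_
    rw [swap_comm]; exact hmem y hy
  have hmne : ∀ {y z}, y ≠ x → z ≠ x → y ≠ m z → m y ≠ z := by
    intro y z hy hz hne e
    exact hne (by rw [← e, hmm y hy])
  -- the even part is still transitive on the other points
  have htrK : ∀ y z, y ≠ x → z ≠ x → ∃ p ∈ K, p x = x ∧ p y = z := by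
    intro y z hy hz
    obtain ⟨p, hp, hpy⟩ := htr y z hy hz
    rcases Int.units_eq_one_or (sign p) with hs | hs
    · exact ⟨p, hK ⟨hp, mem_alternatingGroup.2 hs⟩, hx p hp, hpy⟩
    · obtain ⟨c, hc⟩ := havoid [x, y, m y] (by simp only [List.length_cons, List.length_nil]; omega)
      simp at hc
      have hc' : m c ≠ y := hmne hc.1 hy hc.2.2
      refine ⟨p * swap c (m c), hK ⟨mul_mem hp (hmem c hc.1), mem_alternatingGroup.2 ?_⟩, ?_, ?_⟩
      · rw [map_mul, hs, sign_swap (hmy c hc.1).symm]; rfl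
      · rw [Perm.mul_apply, swap_apply_of_ne_of_ne (Ne.symm hc.1) (Ne.symm (hmx c hc.1)), hx p hp]
      · rw [Perm.mul_apply, swap_apply_of_ne_of_ne (Ne.symm hc.2.1) (Ne.symm hc'), hpy]
  obtain ⟨g0, hg0, hg0x⟩ := hmv
  have hto : ∀ y, ∃ g ∈ K, g x = y := by
    intro y
    by_cases hy : y = x
    · exact ⟨1, one_mem _, hy ▸ rfl⟩
    · obtain ⟨p, hp, -, hpy⟩ := htrK (g0 x) y hg0x hy
      exact ⟨p * g0, mul_mem hp hg0, hpy⟩
  have h2tr : ∀ a b c d : α, a ≠ b → c ≠ d → ∃ g ∈ K, g a = c ∧ g b = d := by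
    intro a b c d hab hcd
    obtain ⟨g1, hg1, e1⟩ := hto a
    obtain ⟨g2, hg2, e2⟩ := hto c
    have n1 : g1⁻¹ b ≠ x := fun e => hab (by rw [← e1, ← e]; simp)
    have n2 : g2⁻¹ d ≠ x := fun e => hcd (by rw [← e2, ← e]; simp)
    obtain ⟨p, hp, hpx, hpe⟩ := htrK _ _ n1 n2
    refine ⟨g2 * p * g1⁻¹, mul_mem (mul_mem hg2 hp) (inv_mem hg1), ?_, ?_⟩
    · rw [Perm.mul_apply, Perm.mul_apply, show g1⁻¹ a = x by rw [← e1]; simp, hpx, e2]
    · rw [Perm.mul_apply, Perm.mul_apply, hpe]; simp
  have hconjP : ∀ {g : Perm α} {a b c d : α}, g ∈ K → a ≠ b → c ≠ d →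
      swap a b ∈ (P : Subgroup (Perm α)) → swap c d ∈ (P : Subgroup (Perm α)) →
      swap (g a) (g b) * swap (g c) (g d) ∈ K := by
    intro g a b c d hg hab hcd h1 h2
    rw [show swap (g a) (g b) * swap (g c) (g d) = g * (swap a b * swap c d) * g⁻¹ by
      rw [swap_apply_apply, swap_apply_apply]; group]
    exact mul_mem (mul_mem hg (hK ⟨mul_mem h1 h2, mem_alternatingGroup.2 (by
      rw [map_mul, sign_swap hab, sign_swap hcd]; rfl)⟩)) (inv_mem hg)
  suffices ∃ σ ∈ K, σ.IsThreeCycle by
    obtain ⟨σ, hσK, hσ⟩ := this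
    have : IsPretransitive K α := ⟨fun a b => by
      obtain ⟨g1, hg1, e1⟩ := hto a
      obtain ⟨g2, hg2, e2⟩ := hto b
      exact ⟨⟨g2 * g1⁻¹, mul_mem hg2 (inv_mem hg1)⟩, by
        show g2 (g1⁻¹ a) = b
        rw [← e1, ← e2]; simp⟩⟩
    have h2 : IsMultiplyPretransitive K α 2 := by
      rw [MulAction.is_two_pretransitive_iff]
      intro a b c d hab hcd
      obtain ⟨g, hg, e1, e2⟩ := h2tr a b c d hab hcd
      exact ⟨⟨g, hg⟩, e1, e2⟩
    exact alternatingGroup_le_of_isPreprimitive_of_isThreeCycle_mem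
      (MulAction.isPreprimitive_of_is_two_pretransitive h2) hσ hσK
  have ha : u ≠ x := hux
  set b := m u with hb
  have hbu : b ≠ u := hmy u ha
  have hbx : b ≠ x := hmx u ha
  rcases Nat.lt_or_ge k 3 with hk2 | hk3
  · -- degree five
    have hcard : Fintype.card α = 5 := by
      have : k = 2 := by omega
      rw [hn, this]; rfl
    obtain ⟨c, hc⟩ := havoid [x, u, b] (by simp [hcard])
    simp at hc
    set d := m c with hd
    have hdc : d ≠ c := hmy c hc.1
    have hdx : d ≠ x := hmx c hc.1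
    have hdu : d ≠ u := hmne hc.1 ha hc.2.2
    have hdb : d ≠ b := hmne hc.1 hbx (by rw [hmm u ha]; exact hc.2.1)
    have hall : ∀ w, w = x ∨ w = u ∨ w = b ∨ w = c ∨ w = d := by
      intro w
      by_contra! h
      have : ({w, x, u, b, c, d} : Finset α).card = 6 := by
        rw [Finset.card_insert_of_notMem (by simp [h]),
          Finset.card_insert_of_notMem (by simp [ha.symm, hbx.symm, Ne.symm hc.1, hdx.symm]),
          Finset.card_insert_of_notMem (by simp [hbu.symm, Ne.symm hc.2.1, hdu.symm]),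
          Finset.card_insert_of_notMem (by simp [Ne.symm hc.2.2, hdb.symm]),
          Finset.card_insert_of_notMem (by simp [hdc.symm]), Finset.card_singleton]
      have := this ▸ Finset.card_le_univ ({w, x, u, b, c, d} : Finset α)
      omega
    have hsb : swap u b ∈ (P : Subgroup (Perm α)) := hmem u ha
    have hsd : swap c d ∈ (P : Subgroup (Perm α)) := hmem c hc.1
    obtain ⟨p, hp, hpu⟩ := htr u c ha hc.1
    have hpm : ∀ y, y ≠ x → p (m y) = m (p y) := by
      intro y hy
      have hpy : p y ≠ x := fun e => hy (p.injective (e.trans (hx p hp).symm))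
      refine (partner_unique P.isPGroup' (hmy _ hpy).symm (p.injective.ne (hmy y hy).symm)
        (hmem _ hpy) ?_).symm
      rw [swap_apply_apply]
      exact mul_mem (mul_mem hp (hmem y hy)) (inv_mem hp)
    have hpb : p b = d := by rw [hb, hpm u ha, hpu]
    -- normalise so that `c` goes back to `u`
    obtain ⟨q, hq, hqu, hqc⟩ : ∃ q ∈ (P : Subgroup (Perm α)), q u = c ∧ q c = u := by
      rcases hall (p c) with h | h | h | h | h
      · exact absurd (p.injective (h.trans (hx p hp).symm)) hc.1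
      · exact ⟨p, hp, hpu, h⟩
      · refine ⟨p * swap c d, mul_mem hp hsd, ?_, ?_⟩
        · rw [Perm.mul_apply, swap_apply_of_ne_of_ne (Ne.symm hc.2.1) hdu.symm, hpu]
        · rw [Perm.mul_apply, swap_apply_left, hd, hpm c hc.1, h, hb, hmm u ha]
      · exact absurd (p.injective (h.trans hpu.symm)) hc.2.1
      · exact absurd (p.injective (h.trans hpb.symm)) hc.2.2
    have hqb : q b = d := by
      have hqu' : q u ≠ x := by rw [hqu]; exact hc.1
      have : swap c (q b) ∈ (P : Subgroup (Perm α)) := by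
        rw [← hqu, swap_apply_apply]
        exact mul_mem (mul_mem hq hsb) (inv_mem hq)
      exact (partner_unique P.isPGroup' hdc.symm (by rw [← hqu]; exact q.injective.ne hbu.symm)
        hsd this).symm
    have hqd : q d = b := by
      rcases hall (q d) with h | h | h | h | h
      · exact absurd (q.injective (h.trans (hx q hq).symm)) hdx
      · exact absurd (q.injective (h.trans hqc.symm)) hdc
      · exact h
      · exact absurd (q.injective (h.trans hqu.symm)) hdu
      · exact absurd (q.injective (h.trans hqb.symm)) hdb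
    have hqq : q = swap u c * swap b d := by
      ext w
      rcases hall w with h | h | h | h | h <;> rw [h, Perm.mul_apply]
      · rw [hx q hq, swap_apply_of_ne_of_ne hbx.symm hdx.symm,
          swap_apply_of_ne_of_ne ha.symm (Ne.symm hc.1)]
      · rw [hqu, swap_apply_of_ne_of_ne hbu.symm hdu.symm, swap_apply_left]
      · rw [hqb, swap_apply_left, swap_apply_of_ne_of_ne hdu hdc]
      · rw [hqc, swap_apply_of_ne_of_ne hc.2.2 hdc.symm, swap_apply_right]
      · rw [hqd, swap_apply_right, swap_apply_of_ne_of_ne hbu (Ne.symm hc.2.2)]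
    have hV1 : swap u b * swap c d ∈ K :=
      hK ⟨mul_mem hsb hsd, mem_alternatingGroup.2 (by
        rw [map_mul, sign_swap hbu.symm, sign_swap hdc.symm]; rfl)⟩
    have hV2 : swap u c * swap b d ∈ K :=
      hK ⟨hqq ▸ hq, mem_alternatingGroup.2 (by
        rw [map_mul, sign_swap (Ne.symm hc.2.1), sign_swap hdb.symm]; rfl)⟩
    have hV3 : swap u d * swap b c ∈ K := by
      have e : swap u d * swap b c = (swap u b * swap c d) * (swap u c * swap b d) := by
        ext w
        rcases hall w with h | h | h | h | h <;> rw [h] <;>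
          simp [swap_apply_def, hbu, hbu.symm, hc.1, Ne.symm hc.1, hc.2.1, Ne.symm hc.2.1, hc.2.2,
            Ne.symm hc.2.2, hdc, hdc.symm, hdu, hdu.symm, hdb, hdb.symm, ha, ha.symm, hbx,
            hbx.symm, hdx, hdx.symm]
      rw [e]; exact mul_mem hV1 hV2
    obtain ⟨g, hg, hgu, hgb⟩ := h2tr u b u x hbu.symm ha
    have ht := hconjP hg hbu.symm hdc.symm hsb hsd
    rw [hgu, hgb] at ht
    have hgc : g c ≠ u ∧ g c ≠ x := ⟨fun e => hc.2.1 (g.injective (e.trans hgu.symm)),
      fun e => hc.2.2 (g.injective (e.trans hgb.symm))⟩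
    have hgd : g d ≠ u ∧ g d ≠ x := ⟨fun e => hdu (g.injective (e.trans hgu.symm)),
      fun e => hdb (g.injective (e.trans hgb.symm))⟩
    have hne : g c ≠ g d := g.injective.ne hdc.symm
    -- one of the three double transpositions shares the far pair
    have hfin : ∀ y, y ≠ x → y ≠ u → swap u x * swap (g c) (g d) ∈ K →
        swap u y * swap (g c) (g d) ∈ K → ∃ σ ∈ K, σ.IsThreeCycle := by
      intro y hyx hyu h1 h2
      refine ⟨_, mul_mem h1 (inv_mem h2), ?_⟩
      simp only [mul_inv_rev, swap_inv, mul_assoc, swap_mul_self_mul]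
      exact isThreeCycle_swap_mul_swap_same ha hyu.symm hyx.symm
    rcases hall (g c) with h | h | h | h | h
    · exact absurd h hgc.2
    · exact absurd h hgc.1
    all_goals rcases hall (g d) with h' | h' | h' | h' | h'
    all_goals try exact absurd h' hgd.2
    all_goals try exact absurd h' hgd.1
    all_goals try exact absurd (h.trans h'.symm) hne
    all_goals rw [h, h'] at hfin ht
    · exact hfin d hdx hdu ht hV3
    · exact hfin c hc.1 hc.2.1 ht hV2
    · exact hfin d hdx hdu ht (by rw [swap_comm c b]; exact hV3)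
    · exact hfin b hbx hbu ht hV1
    · exact hfin c hc.1 hc.2.1 ht (by rw [swap_comm d b]; exact hV2)
    · exact hfin b hbx hbu ht (by rw [swap_comm d c]; exact hV1)
  · -- degree at least nine
    have h8 : 8 ≤ 2 ^ k := by
      calc 8 = 2 ^ 3 := rfl
        _ ≤ _ := Nat.pow_le_pow_right two_pos hk3
    obtain ⟨g, hg, hgu, hgb⟩ := h2tr u b u x hbu.symm ha
    obtain ⟨c, hcx, hcu, hcb, hc0, hc1, -, -⟩ := exists_avoid
      (fun s hs => havoid s (by omega)) x u b (g⁻¹ b) (m (g⁻¹ b)) x x
    have hcd : m c ≠ c := hmy c hcx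
    have hcu' : m c ≠ u := hmne hcx ha hcb
    have hcb' : m c ≠ b := hmne hcx hbx (by rw [hmm u ha]; exact hcu)
    have e1 : g c ≠ u ∧ g c ≠ x ∧ g c ≠ b := ⟨fun e => hcu (g.injective (e.trans hgu.symm)),
      fun e => hcb (g.injective (e.trans hgb.symm)), fun e => hc0 (by rw [← e]; simp)⟩
    have e2 : g (m c) ≠ u ∧ g (m c) ≠ x ∧ g (m c) ≠ b :=
      ⟨fun e => hcu' (g.injective (e.trans hgu.symm)),
       fun e => hcb' (g.injective (e.trans hgb.symm)), fun e => hc1 (by
        rw [show g⁻¹ b = m c by rw [← e]; simp, hmm c hcx])⟩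
    obtain ⟨c', hcx', hcu1, hcb1, hce, hcf, hce', hcf'⟩ := exists_avoid
      (fun s hs => havoid s (by omega)) x u b (g c) (g (m c)) (m (g c)) (m (g (m c)))
    have hd' : m c' ≠ c' := hmy c' hcx'
    have hdu' : m c' ≠ u := hmne hcx' ha hcb1
    have hdb' : m c' ≠ b := hmne hcx' hbx (by rw [hmm u ha]; exact hcu1)
    have hde : m c' ≠ g c := hmne hcx' e1.2.1 hce'
    have hdf : m c' ≠ g (m c) := hmne hcx' e2.2.1 hcf'
    have ht := hconjP hg hbu.symm hcd.symm (hmem u ha) (hmem c hcx)
    rw [hgu, hgb] at ht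
    have hs' := hconjP (one_mem K) hbu.symm hd'.symm (hmem u ha) (hmem c' hcx')
    simp only [Perm.one_apply] at hs'
    have hef : g c ≠ g (m c) := g.injective.ne hcd.symm
    have hcomm : ∀ {p q r w : α}, p ≠ q → r ≠ w → p ≠ r → p ≠ w → q ≠ r → q ≠ w →
        Commute (swap p q) (swap r w) := by
      intro p q r w h1 h2 h3 h4 h5 h6
      apply Perm.Disjoint.commute
      rw [Perm.disjoint_iff_disjoint_support, Perm.support_swap h1, Perm.support_swap h2]
      simp [h3, h4, h5, h6, Ne.symm h3, Ne.symm h4, Ne.symm h5, Ne.symm h6]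
    have C1 : Commute (swap c' (m c')) (swap u x) :=
      hcomm hd'.symm ha hcu1 hcx' hdu' (hmx c' hcx')
    have C2 : Commute (swap u b) (swap (g c) (g (m c))) :=
      hcomm hbu.symm hef e1.1.symm e2.1.symm e1.2.2.symm e2.2.2.symm
    have C3 : Commute (swap c' (m c')) (swap (g c) (g (m c))) :=
      hcomm hd'.symm hef hce hcf hde hdf
    have C4 : Commute (swap c' (m c')) (swap u b) :=
      hcomm hd'.symm hbu.symm hcu1 hcb1 hdu' hdb'
    have C5 : Commute (swap u x) (swap (g c) (g (m c))) :=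
      hcomm ha hef e1.1.symm e2.1.symm e1.2.1.symm e2.2.1.symm
    have key : swap u b * swap c' (m c') * (swap u x * swap (g c) (g (m c))) =
        (swap u b * swap u x) * (swap c' (m c') * swap (g c) (g (m c))) := by
      rw [mul_assoc, ← mul_assoc (swap c' (m c')), C1.eq, mul_assoc, ← mul_assoc]
    have hsq : (swap c' (m c') * swap (g c) (g (m c))) ^ 2 = 1 := by
      rw [C3.mul_pow, sq, sq, swap_mul_self, swap_mul_self, one_mul]
    have C : Commute (swap u b * swap u x) (swap c' (m c') * swap (g c) (g (m c))) :=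
      Commute.mul_left (Commute.mul_right C4.symm C2) (Commute.mul_right C1.symm C5)
    refine ⟨_, pow_mem (mul_mem hs' ht) 2, ?_⟩
    rw [key, C.mul_pow, hsq, mul_one, sq]
    exact (isThreeCycle_swap_mul_swap_same hbu.symm ha hbx).isThreeCycle_sq

theorem exists_coatom_above {G : Type*} [Group G] [Finite G] {H : Subgroup G} (h : H ≠ ⊤) :
    ∃ M, IsCoatom M ∧ H ≤ M := by
  rcases eq_top_or_exists_le_coatom H with h1 | h1
  · exact absurd h1 h
  · exact h1

theorem eq_top_of_alternating_le {M : Subgroup (Perm α)} (hM : alternatingGroup α ≤ M) {t : Perm α}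
    (ht : t ∈ M) (hs : sign t = -1) : M = ⊤ := by
  rw [eq_top_iff]
  intro g _
  rcases Int.units_eq_one_or (sign g) with h | h
  · exact hM (mem_alternatingGroup.2 h)
  · rw [show g = (g * t⁻¹) * t by group]
    exact mul_mem (hM (mem_alternatingGroup.2 (by simp [h, hs]))) ht

theorem unique_overgroup_perm (h5 : 5 ≤ Fintype.card α) (h6 : Fintype.card α ≠ 6)
    (R : Sylow 2 (Perm α)) :
    (∃! M : Subgroup (Perm α), IsCoatom M ∧ (R : Subgroup (Perm α)) ≤ M) ↔
      ∃ k : ℕ, 2 ≤ k ∧ Fintype.card α = 2 ^ k + 1 := by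
  classical
  constructor
  · rintro ⟨M, ⟨hM, -⟩, huniq⟩
    by_contra hk
    obtain ⟨H₁, H₂, hP1, hP2, hn1, hn2, ⟨t, ht, hts⟩, hgen⟩ := exists_pair R.isPGroup' h5 h6 hk
    obtain ⟨M₁, hM1, h1⟩ := exists_coatom_above (H := H₁) (fun e => hn1 (e ▸ le_top))
    obtain ⟨M₂, hM2, h2⟩ := exists_coatom_above (H := H₂) (fun e => hn2 (e ▸ le_top))
    obtain rfl := huniq M₁ ⟨hM1, hP1.trans h1⟩
    obtain rfl := huniq M₂ ⟨hM2, hP2.trans h2⟩
    exact hM.1 (eq_top_of_alternating_le (hgen M₂ (inf_le_left.trans h1) (inf_le_left.trans h2))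
      (h1 ht) hts)
  · rintro ⟨k, hk, hn⟩
    obtain ⟨x, hx, htr⟩ := exists_fixed_transitive hk hn R
    have key : ∀ K : Subgroup (Perm α), (R : Subgroup (Perm α)) ≤ K →
        ¬ K ≤ stabilizer (Perm α) x → K = ⊤ := by
      intro K hK hne
      obtain ⟨g, hg, hgx⟩ := SetLike.not_le_iff_exists.1 hne
      have hA := alternating_le_of_moves hk hn R hx htr K (inf_le_left.trans hK)
        ⟨g, hg, fun e => hgx e⟩
      by_contra hKt
      have : ∀ p ∈ (R : Subgroup (Perm α)), sign p = 1 := by
        intro p hp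
        rcases Int.units_eq_one_or (sign p) with h | h
        · exact h
        · exact absurd (eq_top_of_alternating_le hA (hK hp) h) hKt
      have hle : (R : Subgroup (Perm α)) ≤ alternatingGroup α := fun p hp =>
        mem_alternatingGroup.2 (this p hp)
      have : Nontrivial α := Fintype.one_lt_card_iff_nontrivial.1 (by omega)
      apply R.not_dvd_index
      refine Dvd.dvd.trans ?_ (Subgroup.index_dvd_of_le hle)
      rw [alternatingGroup.index_eq_two]
    have hne : stabilizer (Perm α) x ≠ ⊤ := by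
      intro e
      obtain ⟨y, hy⟩ := Fintype.exists_ne_of_one_lt_card (α := α) (by omega) x
      have : swap x y ∈ stabilizer (Perm α) x := e ▸ Subgroup.mem_top _
      rw [MulAction.mem_stabilizer_iff] at this
      simp at this
      exact hy this
    have hle : (R : Subgroup (Perm α)) ≤ stabilizer (Perm α) x := fun p hp => hx p hp
    refine ⟨stabilizer (Perm α) x, ⟨⟨hne, fun K hlt => key K (hle.trans hlt.le) hlt.not_ge⟩, hle⟩,
      ?_⟩
    rintro M ⟨hM, hRM⟩
    have h1 : M ≤ stabilizer (Perm α) x := by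
      by_contra h; exact hM.1 (key M hRM h)
    rcases h1.eq_or_lt with h | h
    · exact h
    · exact absurd (hM.2 _ h) hne

theorem unique_overgroup_alternating (h5 : 5 ≤ Fintype.card α) (h6 : Fintype.card α ≠ 6)
    (R : Sylow 2 (alternatingGroup α)) :
    (∃! M : Subgroup (alternatingGroup α), IsCoatom M ∧ (R : Subgroup (alternatingGroup α)) ≤ M) ↔
      ∃ k : ℕ, 2 ≤ k ∧ Fintype.card α = 2 ^ k + 1 := by
  classical
  set P : Subgroup (Perm α) := (R : Subgroup (alternatingGroup α)).map (alternatingGroup α).subtype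
  have hP : IsPGroup 2 P := R.isPGroup'.map _
  constructor
  · rintro ⟨M, ⟨hM, -⟩, huniq⟩
    by_contra hk
    obtain ⟨H₁, H₂, hP1, hP2, hn1, hn2, -, hgen⟩ := exists_pair hP h5 h6 hk
    have hsub : ∀ H : Subgroup (Perm α), P ≤ H → ¬ alternatingGroup α ≤ H →
        H.subgroupOf (alternatingGroup α) ≤ M := by
      intro H hPH hH
      obtain ⟨M', hM', h'⟩ := exists_coatom_above (H := H.subgroupOf (alternatingGroup α))
        (fun e => hH (Subgroup.subgroupOf_eq_top.1 e))
      obtain rfl := huniq M' ⟨hM', le_trans (fun r hr => Subgroup.mem_subgroupOf.2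
        (hPH (Subgroup.mem_map_of_mem _ hr))) h'⟩
      exact h'
    have hin : ∀ H : Subgroup (Perm α), H.subgroupOf (alternatingGroup α) ≤ M →
        H ⊓ alternatingGroup α ≤ M.map (alternatingGroup α).subtype := fun H h g hg =>
      ⟨⟨g, hg.2⟩, h (Subgroup.mem_subgroupOf.2 hg.1), rfl⟩
    have hA := hgen _ (hin _ (hsub H₁ hP1 hn1)) (hin _ (hsub H₂ hP2 hn2))
    refine hM.1 (eq_top_iff.2 fun g _ => ?_)
    obtain ⟨g', hg', e⟩ := hA g.2
    rwa [← Subtype.ext e]
  · rintro ⟨k, hk, hn⟩
    obtain ⟨P', hP'⟩ := hP.exists_le_sylow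
    obtain ⟨x, hx, htr⟩ := exists_fixed_transitive hk hn P'
    have hR : (P' : Subgroup (Perm α)).subgroupOf (alternatingGroup α) = R := by
      refine R.is_maximal' (P'.isPGroup'.comap_of_injective _ Subtype.val_injective) ?_
      exact fun r hr => Subgroup.mem_subgroupOf.2 (hP' (Subgroup.mem_map_of_mem _ hr))
    set S : Subgroup (alternatingGroup α) :=
      (stabilizer (Perm α) x).subgroupOf (alternatingGroup α) with hS
    have key : ∀ K : Subgroup (alternatingGroup α), (R : Subgroup (alternatingGroup α)) ≤ K →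
        ¬ K ≤ S → K = ⊤ := by
      intro K hK hne
      obtain ⟨g, hg, hgx⟩ := SetLike.not_le_iff_exists.1 hne
      have hA := alternating_le_of_moves hk hn P' hx htr (K.map (alternatingGroup α).subtype)
        (fun p hp => ⟨⟨p, hp.2⟩, hK (hR ▸ Subgroup.mem_subgroupOf.2 hp.1), rfl⟩)
        ⟨g.1, ⟨g, hg, rfl⟩, fun e => hgx (Subgroup.mem_subgroupOf.2 e)⟩
      refine eq_top_iff.2 fun g _ => ?_
      obtain ⟨g', hg', e⟩ := hA g.2
      rwa [← Subtype.ext e]
    have hne : S ≠ ⊤ := by
      intro e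
      obtain ⟨u, -, hu, -, -⟩ := exists_fourth (A := (Finset.univ : Finset α))
        (by rw [Finset.card_univ]; omega) x x x
      obtain ⟨w, -, hw1, hw2, -⟩ := exists_fourth (A := (Finset.univ : Finset α))
        (by rw [Finset.card_univ]; omega) x u x
      have hc : cyc x u w x = x := MulAction.mem_stabilizer_iff.1 ((Subgroup.subgroupOf_eq_top.1 e)
        (mem_alternatingGroup.2 (sign_cyc (Ne.symm hu) (Ne.symm hw2))))
      rw [cyc_apply_fst (Ne.symm hu) (Ne.symm hw1)] at hc
      exact hu hc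
    have hle : (R : Subgroup (alternatingGroup α)) ≤ S := by
      rw [← hR]; exact Subgroup.comap_mono (fun p hp => hx p hp)
    refine ⟨S, ⟨⟨hne, fun K hlt => key K (hle.trans hlt.le) hlt.not_ge⟩, hle⟩, ?_⟩
    rintro M ⟨hM, hRM⟩
    have h1 : M ≤ S := by
      by_contra h; exact hM.1 (key M hRM h)
    rcases h1.eq_or_lt with h | h
    · exact h
    · exact absurd (hM.2 _ h) hne

end Cfsg.Agent.KnownA.SylowTwoOvergroups
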