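import Cfsg.Agent.KnownA.Weil
import Cfsg.Agent.KnownA.SpSharp
import Cfsg.Agent.Chars.Basic

set_option autoImplicit false

/-!
# Smallest irreducible degree of `Sp_{2n}(q)`, `q` odd
-/

namespace Cfsg.Agent.KnownA

open Matrix

variable {F : Type*} [Field F] [Fintype F] {n : ℕ}

theorem exists_complex_primitive (F : Type*) [Field F] [Fintype F] :
    ∃ θ : AddChar F ℂ, θ.IsPrimitive :=
  haveI := ringChar.charP F
  haveI : Fact (ringChar F).Prime := ⟨CharP.char_is_prime F _⟩
  letI : Algebra (ZMod (ringChar F)) F := ZMod.algebra F _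
  ⟨(ZMod.stdAddChar (N := ringChar F)).compAddMonoidHom (Algebra.trace (ZMod (ringChar F)) F).toAddMonoidHom,
    AddChar.IsPrimitive.of_ne_one fun h => by
      obtain ⟨x, hx⟩ := Algebra.trace_surjective (ZMod (ringChar F)) F 1
      have h1 : ZMod.stdAddChar (N := ringChar F) (1 : ZMod (ringChar F)) = 1 := by
        rw [← hx]
        exact congrArg (fun τ : AddChar F ℂ => τ x) h
      rw [← AddChar.map_zero_eq_one (ZMod.stdAddChar (N := ringChar F))] at h1
      exact one_ne_zero (ZMod.injective_stdAddChar h1)⟩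

/-- A representation of degree `(q^n-1)/2` that is nontrivial on the Siegel radical is irreducible. -/
theorem sp_irreducible_of_min_degree (h2 : (2 : F) ≠ 0) (hn : 2 ≤ n) {V : Type*} [AddCommGroup V]
    [Module ℂ V] [FiniteDimensional ℂ V] (ρ : Representation ℂ (symplecticGroup (Fin n) F) V)
    (hdim : Module.finrank ℂ V ≤ (Fintype.card F ^ n - 1) / 2) (a : symMats F n) (ha : ρ (spUni a) ≠ 1) :
    ρ.IsIrreducible := by
  classical
  obtain ⟨θ, hθ⟩ := exists_complex_primitive F
  have hq : (Fintype.card F : ℂ) ≠ 0 := by exact_mod_cast Fintype.card_ne_zero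
  rw [Cfsg.Agent.Chars.isIrreducible_iff]
  refine ⟨?_, fun S hS => ?_⟩
  · by_contra h
    rw [not_nontrivial_iff_subsingleton] at h
    exact ha (LinearMap.ext fun x => Subsingleton.elim _ _)
  by_contra hcon
  push Not at hcon
  obtain ⟨hbot, htop⟩ := hcon
  apply ha
  let σ₁ : symplecticGroup (Fin n) F →* Module.End ℂ S :=
    { toFun := fun g => (ρ g).restrict (fun x hx => hS g x hx)
      map_one' := by refine LinearMap.ext fun x => Subtype.ext ?_; simp
      map_mul' := fun g h => by refine LinearMap.ext fun x => Subtype.ext ?_; simp }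
  let σ₂ : symplecticGroup (Fin n) F →* Module.End ℂ (V ⧸ S) :=
    { toFun := fun g => S.mapQ S (ρ g) (fun x hx => hS g x hx)
      map_one' := by refine Submodule.linearMap_qext _ (LinearMap.ext fun x => ?_); simp
      map_mul' := fun g h => by refine Submodule.linearMap_qext _ (LinearMap.ext fun x => ?_); simp }
  have hS1 : Module.finrank ℂ S < Module.finrank ℂ V := Submodule.finrank_lt htop
  have hS2 : Module.finrank ℂ (V ⧸ S) < Module.finrank ℂ V := by
    have h3 := Submodule.finrank_quotient_add_finrank S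
    have h4 : 0 < Module.finrank ℂ S := by
      rw [Nat.pos_iff_ne_zero]
      exact fun e => hbot (Submodule.finrank_eq_zero.mp e)
    omega
  have e1 := sp_radical_trivial h2 hn θ hθ hq σ₁ (lt_of_lt_of_le hS1 hdim) a
  have e2 := sp_radical_trivial h2 hn θ hθ hq σ₂ (lt_of_lt_of_le hS2 hdim) a
  set N : Module.End ℂ V := ρ (spUni a) - 1 with hN
  have hmem : ∀ x, N x ∈ S := by
    intro x
    have h3 := congrArg (fun L : Module.End ℂ (V ⧸ S) => L (Submodule.Quotient.mk x)) e2
    exact (Submodule.Quotient.eq S).mp h3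
  have hker : ∀ x ∈ S, N x = 0 := by
    intro x hx
    have h3 := congrArg (fun L : Module.End ℂ S => (L ⟨x, hx⟩ : V)) e1
    exact sub_eq_zero.mpr h3
  have hNN : N * N = 0 := LinearMap.ext fun x => hker _ (hmem x)
  have hpow : ∀ m : ℕ, (ρ (spUni a)) ^ m = 1 + (m : ℂ) • N := by
    intro m
    induction m with
    | zero => simp
    | succ k ih =>
      rw [pow_succ, ih, show ρ (spUni a) = 1 + N from (add_sub_cancel (1 : Module.End ℂ V) _).symm]
      rw [mul_add, mul_one, add_mul, one_mul, smul_mul_assoc, hNN, smul_zero, add_zero, Nat.cast_succ,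
        add_smul, one_smul, add_assoc]
  let hom : Multiplicative (symMats F n) →* symplecticGroup (Fin n) F :=
    MonoidHom.mk' (fun b => spUni b.toAdd) (fun b c => by rw [toAdd_mul, spUni_mul])
  have h5 : (ρ (spUni a)) ^ Fintype.card (Multiplicative (symMats F n)) = 1 := by
    rw [← map_pow, show spUni a = hom (Multiplicative.ofAdd a) from rfl, ← map_pow, pow_card_eq_one,
      map_one, map_one]
  rw [hpow, add_eq_left] at h5
  rcases smul_eq_zero.mp h5 with h6 | h6
  · exact absurd h6 (Nat.cast_ne_zero.mpr Fintype.card_ne_zero)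
  · rwa [hN, sub_eq_zero] at h6

theorem sp_min_degree_attained (h2 : (2 : F) ≠ 0) (hn : 2 ≤ n) :
    ∃ ρ : Representation ℂ (symplecticGroup (Fin n) F) (Fin ((Fintype.card F ^ n - 1) / 2) → ℂ),
      ρ.IsIrreducible := by
  classical
  obtain ⟨θ, hθ⟩ := exists_complex_primitive F
  obtain ⟨σ, a, ha⟩ := exists_weil h2 θ hθ hn
  have hd : Module.finrank ℂ (paritySpace F n (-1)) = (Fintype.card F ^ n - 1) / 2 := by
    have := (finrank_paritySpace (F := F) (n := n) h2).2
    omega
  let e : paritySpace F n (-1) ≃ₗ[ℂ] (Fin ((Fintype.card F ^ n - 1) / 2) → ℂ) :=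
    LinearEquiv.ofFinrankEq _ _ (by rw [hd, Module.finrank_fin_fun])
  let ρ : Representation ℂ (symplecticGroup (Fin n) F) (Fin ((Fintype.card F ^ n - 1) / 2) → ℂ) :=
    (e.conjAlgEquiv ℂ).toMulEquiv.toMonoidHom.comp σ
  refine ⟨ρ, sp_irreducible_of_min_degree h2 hn ρ (by rw [Module.finrank_fin_fun]) a fun h => ha ?_⟩
  apply (e.conjAlgEquiv ℂ).injective
  rw [map_one]
  exact h

theorem sp_min_degree_le (h2 : (2 : F) ≠ 0) (hn : 2 ≤ n) {k : ℕ}
    (ρ : Representation ℂ (symplecticGroup (Fin n) F) (Fin k → ℂ)) (hirr : ρ.IsIrreducible) (hk : 2 ≤ k) :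
    (Fintype.card F ^ n - 1) / 2 ≤ k := by
  classical
  by_contra hlt
  obtain ⟨θ, hθ⟩ := exists_complex_primitive F
  have hq : (Fintype.card F : ℂ) ≠ 0 := by exact_mod_cast Fintype.card_ne_zero
  have h1 : ∀ g, ρ g = 1 := sp_hom_trivial_of_radical (by omega) ρ
    (fun a => sp_radical_trivial h2 hn θ hθ hq ρ (by rw [Module.finrank_fin_fun]; omega) a)
  rw [Cfsg.Agent.Chars.isIrreducible_iff] at hirr
  let v : Fin k → ℂ := Pi.single ⟨0, by omega⟩ 1
  have hv : v ≠ 0 := by simp [v]
  rcases hirr.2 (ℂ ∙ v) (fun g x hx => by rwa [h1]) with h | h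
  · exact hv (Submodule.span_singleton_eq_bot.mp h)
  · have h3 := finrank_span_singleton (K := ℂ) hv
    rw [h, finrank_top, Module.finrank_fin_fun] at h3
    omega

end Cfsg.Agent.KnownA
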