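import Cfsg.Agent.KnownA.UnitaryGen
import Cfsg.Agent.KnownA.WeilIrred
import Cfsg.Agent.KnownA.RepSimple

set_option autoImplicit false

/-!
# Degrees of irreducible representations of the special unitary group
-/

namespace Cfsg.Agent.KnownA

open Matrix
open Cfsg.Agent.Forms (frobQ)

variable {F : Type*} [Field F] [Fintype F] {n q : ℕ} (hF : Fintype.card F = q ^ 2)
include hF

theorem exists_invariant_char : ∃ θ : AddChar F ℂ, θ.IsPrimitive ∧ ∀ x, θ (frobQ hF x) = θ x := by
  haveI := ringChar.charP F
  haveI : Fact (ringChar F).Prime := ⟨CharP.char_is_prime F _⟩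
  letI : Algebra (ZMod (ringChar F)) F := ZMod.algebra F _
  refine ⟨(ZMod.stdAddChar (N := ringChar F)).compAddMonoidHom
    (Algebra.trace (ZMod (ringChar F)) F).toAddMonoidHom, AddChar.IsPrimitive.of_ne_one fun h => ?_, fun x => ?_⟩
  · obtain ⟨x, hx⟩ := Algebra.trace_surjective (ZMod (ringChar F)) F 1
    have h1 : ZMod.stdAddChar (N := ringChar F) (1 : ZMod (ringChar F)) = 1 := by
      rw [← hx]
      exact congrArg (fun τ : AddChar F ℂ => τ x) h
    rw [← AddChar.map_zero_eq_one (ZMod.stdAddChar (N := ringChar F))] at h1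
    exact one_ne_zero (ZMod.injective_stdAddChar h1)
  · let σ : F ≃ₐ[ZMod (ringChar F)] F :=
      { toFun := frobQ hF
        invFun := frobQ hF
        left_inv := sig_sig hF
        right_inv := sig_sig hF
        map_mul' := map_mul (frobQ hF)
        map_add' := map_add (frobQ hF)
        commutes' := fun r => RingHom.congr_fun
          (Subsingleton.elim ((frobQ hF).comp (algebraMap (ZMod (ringChar F)) F)) (algebraMap _ _)) r }
    simp only [AddChar.compAddMonoidHom_apply, LinearMap.toAddMonoidHom_coe]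
    rw [← Algebra.trace_eq_of_algEquiv σ x]
    rfl

/-- The lower bound for irreducible representations. -/
theorem su_min_degree (hn : 3 ≤ n) (h32 : ¬(n = 3 ∧ q = 2)) {k : ℕ}
    (ρ : Representation ℂ (Cfsg.SU n F q) (Fin k → ℂ)) (hirr : ρ.IsIrreducible) (hk : 2 ≤ k) :
    sb q n ≤ k := by
  obtain ⟨θ, hθ, hθσ⟩ := exists_invariant_char hF
  by_cases hex : ∃ (e : Fin n → F) (a : F), ub hF e e = 0 ∧ e ≠ 0 ∧ ρ (trv hF e a) ≠ 1
  · obtain ⟨e, a, hee, he0, hne⟩ := hex
    have := su_bound hF ρ θ hθ hθσ hn he0 hee hne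
    rwa [Module.finrank_fin_fun] at this
  · exfalso
    have htop := eq_top_of_trv_mem hF hn h32 (MonoidHom.ker ρ) fun e a hee => by
      rw [MonoidHom.mem_ker]
      by_cases he0 : e = 0
      · have : trv hF e a = 1 := by
          refine su_ext fun x => ?_
          rw [act_trv hF hee, he0, smul_zero, add_zero, act_one, Module.End.one_apply]
        rw [this, map_one]
      · by_contra hne
        exact hex ⟨e, a, hee, he0, hne⟩
    obtain ⟨g, hg⟩ := exists_not_scalar_of_irreducible ρ hirr (by rw [Module.finrank_fin_fun]; exact hk)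
    have h1 : ρ g = 1 := MonoidHom.mem_ker.mp (htop ▸ Subgroup.mem_top g)
    exact hg 1 (by rw [h1, one_smul])

end Cfsg.Agent.KnownA
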