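import Cfsg.Prelude.Def_ClassicalGeometry
import Cfsg.Agent.KnownA.SpCrossChar

set_option autoImplicit false

/-!
# The Weil representation of `Sp_{2n}(q)`, `q` odd, on the odd functions

The intertwiners exist because the Heisenberg operators form a basis of the endomorphism algebra, and are
normalised by the quotient of their determinants on even and odd functions, whose dimensions differ by one.
-/

namespace Cfsg.Agent.KnownA

open Matrix

variable {F : Type*} [Field F] [Fintype F] {n : ℕ}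

/-- Functions on `F^n`. -/
abbrev WSpace (F : Type*) (n : ℕ) := (Fin n → F) → ℂ

/-- The Heisenberg operator attached to a vector of the symplectic space. -/
noncomputable def heis (ψ : AddChar F ℂ) (v : Fin n ⊕ Fin n → F) : Module.End ℂ (WSpace F n) where
  toFun f x := ψ ((v ∘ Sum.inl) ⬝ᵥ x + 2⁻¹ * ((v ∘ Sum.inl) ⬝ᵥ (v ∘ Sum.inr))) * f (x + v ∘ Sum.inr)
  map_add' f g := by funext x; simp [mul_add]
  map_smul' c f := by funext x; simp [mul_left_comm]

omit [Fintype F] in
theorem heis_apply (ψ : AddChar F ℂ) (v : Fin n ⊕ Fin n → F) (f : WSpace F n) (x : Fin n → F) :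
    heis ψ v f x =
      ψ ((v ∘ Sum.inl) ⬝ᵥ x + 2⁻¹ * ((v ∘ Sum.inl) ⬝ᵥ (v ∘ Sum.inr))) * f (x + v ∘ Sum.inr) := rfl

omit [Fintype F] in
theorem heis_zero (ψ : AddChar F ℂ) : heis ψ (0 : Fin n ⊕ Fin n → F) = 1 := by
  refine LinearMap.ext fun f => funext fun x => ?_
  simp [heis_apply, Function.comp_def, dotProduct]
  congr 1
  funext i
  simp

omit [Fintype F] in
theorem sympForm_eq (v w : Fin n ⊕ Fin n → F) :
    Cfsg.sympForm n F v w = (v ∘ Sum.inr) ⬝ᵥ (w ∘ Sum.inl) - (v ∘ Sum.inl) ⬝ᵥ (w ∘ Sum.inr) := by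
  rw [Cfsg.sympForm, Matrix.J, fromBlocks_mulVec]
  simp [dotProduct, Fintype.sum_sum_type, sub_eq_add_neg, neg_mulVec, Finset.sum_neg_distrib, add_comm]

omit [Fintype F] in
theorem heis_mul (h2 : (2 : F) ≠ 0) (ψ : AddChar F ℂ) (v w : Fin n ⊕ Fin n → F) :
    heis ψ v * heis ψ w = ψ (2⁻¹ * Cfsg.sympForm n F v w) • heis ψ (v + w) := by
  refine LinearMap.ext fun f => funext fun x => ?_
  rw [Module.End.mul_apply, LinearMap.smul_apply, Pi.smul_apply, heis_apply, heis_apply, heis_apply,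
    sympForm_eq, smul_eq_mul, ← mul_assoc, ← mul_assoc, ← AddChar.map_add_eq_mul, ← AddChar.map_add_eq_mul]
  have e1 : (v + w) ∘ Sum.inl = v ∘ Sum.inl + w ∘ Sum.inl := rfl
  have e2 : (v + w) ∘ Sum.inr = v ∘ Sum.inr + w ∘ Sum.inr := rfl
  rw [e1, e2, add_assoc x]
  congr 2
  simp only [add_dotProduct, dotProduct_add, dotProduct_comm (w ∘ Sum.inl) (v ∘ Sum.inr)]
  field_simp
  ring

theorem heis_span (ψ : AddChar F ℂ) (hψ : ψ.IsPrimitive) :
    Submodule.span ℂ (Set.range (heis (n := n) ψ)) = ⊤ := by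
  classical
  have hsum : ∀ z : Fin n → F, z ≠ 0 → ∑ a : Fin n → F, ψ (a ⬝ᵥ z) = 0 := by
    intro z hz
    obtain ⟨j, hj⟩ := Function.ne_iff.mp hz
    rw [Pi.zero_apply] at hj
    let τ : AddChar (Fin n → F) ℂ :=
      { toFun := fun a => ψ (a ⬝ᵥ z)
        map_zero_eq_one' := by simp
        map_add_eq_mul' := fun x y => by rw [add_dotProduct, AddChar.map_add_eq_mul] }
    refine AddChar.sum_eq_zero_of_ne_one (ψ := τ) fun e => hψ hj (AddChar.ext _ _ fun c => ?_)
    have : τ (Pi.single j c) = 1 := by rw [e]; rfl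
    rw [AddChar.mulShift_apply, AddChar.one_apply, mul_comm, ← single_dotProduct]
    exact this
  rw [eq_top_iff]
  intro T _
  have key : ∀ x₀ b : Fin n → F,
      ((LinearMap.proj (x₀ + b) : WSpace F n →ₗ[ℂ] ℂ).smulRight (Pi.single x₀ (1 : ℂ)) : Module.End ℂ (WSpace F n)) ∈
        Submodule.span ℂ (Set.range (heis (n := n) ψ)) := by
    intro x₀ b
    have e : ((LinearMap.proj (x₀ + b) : WSpace F n →ₗ[ℂ] ℂ).smulRight (Pi.single x₀ (1 : ℂ)) : Module.End ℂ (WSpace F n)) =
        ((Fintype.card (Fin n → F) : ℂ)⁻¹) •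
          ∑ a : Fin n → F, ψ (-(a ⬝ᵥ x₀ + 2⁻¹ * (a ⬝ᵥ b))) • heis ψ (Sum.elim a b) := by
      refine LinearMap.ext fun f => funext fun x => ?_
      simp only [LinearMap.smulRight_apply, LinearMap.proj_apply, LinearMap.smul_apply, LinearMap.sum_apply,
        Pi.smul_apply, Finset.sum_apply, smul_eq_mul, heis_apply, Sum.elim_comp_inl, Sum.elim_comp_inr]
      rw [Finset.sum_congr rfl (fun a _ => show
          ψ (-(a ⬝ᵥ x₀ + 2⁻¹ * (a ⬝ᵥ b))) * (ψ (a ⬝ᵥ x + 2⁻¹ * (a ⬝ᵥ b)) * f (x + b)) =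
            ψ (a ⬝ᵥ (x - x₀)) * f (x + b) by
          rw [← mul_assoc, ← AddChar.map_add_eq_mul, dotProduct_sub]; congr 2; ring), ← Finset.sum_mul]
      rcases eq_or_ne x x₀ with rfl | hx
      · simp
      · rw [hsum _ (sub_ne_zero.mpr hx)]
        simp [Pi.single_eq_of_ne hx]
    rw [e]
    exact Submodule.smul_mem _ _ (Submodule.sum_mem _ fun a _ =>
      Submodule.smul_mem _ _ (Submodule.subset_span ⟨_, rfl⟩))
  have hT : T = ∑ x : Fin n → F, ∑ y : Fin n → F, (T (Pi.single y 1) x) •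
      ((LinearMap.proj y : WSpace F n →ₗ[ℂ] ℂ).smulRight (Pi.single x (1 : ℂ)) : Module.End ℂ (WSpace F n)) := by
    refine LinearMap.ext fun f => funext fun x => ?_
    conv_lhs => rw [← Finset.univ_sum_single f, map_sum]
    simp only [LinearMap.sum_apply, LinearMap.smul_apply, LinearMap.smulRight_apply, LinearMap.proj_apply,
      Finset.sum_apply, Pi.smul_apply, smul_eq_mul]
    refine Eq.trans ?_ (Finset.sum_eq_single x (fun x' _ hx => Finset.sum_eq_zero fun y _ => by
      simp [Pi.single_eq_of_ne (Ne.symm hx)]) (by simp)).symm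
    refine Finset.sum_congr rfl fun y _ => ?_
    rw [show (Pi.single y (f y) : WSpace F n) = f y • Pi.single y 1 by
      rw [← Pi.single_smul, smul_eq_mul, mul_one], map_smul, Pi.smul_apply, smul_eq_mul, Pi.single_eq_same]
    ring
  rw [hT]
  refine Submodule.sum_mem _ fun x _ => Submodule.sum_mem _ fun y _ => Submodule.smul_mem _ _ ?_
  have := key x (y - x)
  rwa [add_sub_cancel] at this

theorem heis_linearIndependent (ψ : AddChar F ℂ) (hψ : ψ.IsPrimitive) :
    LinearIndependent ℂ (heis (n := n) ψ) := by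
  classical
  refine linearIndependent_of_top_le_span_of_card_eq_finrank (heis_span ψ hψ).ge ?_
  rw [Module.finrank_linearMap, Module.finrank_fintype_fun_eq_card]
  simp [Fintype.card_fun, ← pow_add]

omit [Fintype F] in
theorem sympForm_mulVec (g : symplecticGroup (Fin n) F) (v w : Fin n ⊕ Fin n → F) :
    Cfsg.sympForm n F (g.1 *ᵥ v) (g.1 *ᵥ w) = Cfsg.sympForm n F v w := by
  rw [Cfsg.sympForm, Cfsg.sympForm, mulVec_mulVec]
  rw [← vecMul_transpose g.1 v, ← dotProduct_mulVec, mulVec_mulVec, ← Matrix.mul_assoc,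
    SymplecticGroup.mem_iff'.mp g.2]

/-- `T` intertwines the Heisenberg operators along `g`. -/
def IsIntertwiner (ψ : AddChar F ℂ) (g : symplecticGroup (Fin n) F) (T : Module.End ℂ (WSpace F n)) : Prop :=
  ∀ v, T * heis ψ v = heis ψ (g.1 *ᵥ v) * T

omit [Fintype F] in
theorem IsIntertwiner.mul {ψ : AddChar F ℂ} {g h : symplecticGroup (Fin n) F}
    {S T : Module.End ℂ (WSpace F n)} (hS : IsIntertwiner ψ g S) (hT : IsIntertwiner ψ h T) :
    IsIntertwiner ψ (g * h) (S * T) := by
  intro v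
  rw [mul_assoc, hT, ← mul_assoc, hS, mul_assoc]
  congr 2
  rw [mulVec_mulVec]
  rfl

theorem exists_intertwiner (h2 : (2 : F) ≠ 0) (ψ : AddChar F ℂ) (hψ : ψ.IsPrimitive)
    (g : symplecticGroup (Fin n) F) :
    ∃ T : Module.End ℂ (WSpace F n), IsUnit T ∧ IsIntertwiner ψ g T := by
  classical
  let B := Module.Basis.mk (heis_linearIndependent (n := n) ψ hψ) (heis_span ψ hψ).ge
  have hB : ∀ v, B v = heis ψ v := fun v => Module.Basis.mk_apply _ _ v
  let Φ : symplecticGroup (Fin n) F → (Module.End ℂ (WSpace F n) →ₗ[ℂ] Module.End ℂ (WSpace F n)) :=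
    fun g => B.constr ℂ fun v => heis ψ (g.1 *ᵥ v)
  have hΦ : ∀ g v, Φ g (heis ψ v) = heis ψ (g.1 *ᵥ v) := by
    intro g v
    rw [← hB v]
    exact B.constr_basis ℂ _ v
  have hmul : ∀ X Y, Φ g (X * Y) = Φ g X * Φ g Y := by
    intro X Y
    have h1 : (LinearMap.mul ℂ _).compl₁₂ (Φ g) (Φ g) =
        ((LinearMap.mul ℂ (Module.End ℂ (WSpace F n))).compr₂ (Φ g)) := by
      refine B.ext fun v => B.ext fun w => ?_
      simp only [LinearMap.compl₁₂_apply, LinearMap.compr₂_apply, LinearMap.mul_apply', hB, hΦ, heis_mul h2,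
        map_smul, mulVec_add, sympForm_mulVec]
    have := congrArg (fun L => L X Y) h1
    simpa using this.symm
  have hinv : ∀ g h : symplecticGroup (Fin n) F, g * h = 1 → Φ g ∘ₗ Φ h = LinearMap.id := by
    intro g h hgh
    refine B.ext fun v => ?_
    rw [LinearMap.comp_apply, hB, hΦ, hΦ, mulVec_mulVec,
      show g.1 * h.1 = 1 from congrArg Subtype.val hgh, one_mulVec, LinearMap.id_apply]
  let e : Module.End ℂ (WSpace F n) ≃ₗ[ℂ] Module.End ℂ (WSpace F n) :=
    LinearEquiv.ofLinear (Φ g) (Φ g⁻¹) (hinv _ _ (mul_inv_cancel g)) (hinv _ _ (inv_mul_cancel g))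
  have hone : e 1 = 1 := by
    show Φ g 1 = 1
    conv_lhs => rw [← heis_zero (n := n) ψ]
    rw [hΦ, mulVec_zero, heis_zero]
  obtain ⟨T, hT⟩ := (AlgEquiv.ofLinearEquiv e hone hmul).eq_linearEquivConjAlgEquiv
  refine ⟨T.toLinearMap, (Module.End.isUnit_iff _).mpr T.bijective, fun v => ?_⟩
  have h1 := congrArg (fun f : Module.End ℂ (WSpace F n) ≃ₐ[ℂ] Module.End ℂ (WSpace F n) => f (heis ψ v)) hT
  have h1' : Φ g (heis ψ v) = T.conjAlgEquiv ℂ (heis ψ v) := h1
  rw [hΦ, LinearEquiv.conjAlgEquiv_apply] at h1'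
  rw [h1']
  refine LinearMap.ext fun f => ?_
  simp

theorem commutant_scalar (ψ : AddChar F ℂ) (hψ : ψ.IsPrimitive) {A : Module.End ℂ (WSpace F n)}
    (hA : ∀ v, A * heis ψ v = heis ψ v * A) : ∃ c : ℂ, A = c • 1 := by
  classical
  have hall : ∀ X : Module.End ℂ (WSpace F n), A * X = X * A := by
    intro X
    have hX : X ∈ Submodule.span ℂ (Set.range (heis (n := n) ψ)) := by rw [heis_span ψ hψ]; trivial
    refine Submodule.span_induction (p := fun X _ => A * X = X * A) ?_ (by simp) ?_ ?_ hX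
    · rintro _ ⟨v, rfl⟩; exact hA v
    · intro x y _ _ hx hy; rw [mul_add, add_mul, hx, hy]
    · intro c x _ hx; rw [mul_smul_comm, smul_mul_assoc, hx]
  let z : WSpace F n := Pi.single 0 1
  let φ : WSpace F n →ₗ[ℂ] ℂ := LinearMap.proj 0
  refine ⟨φ (A z), LinearMap.ext fun x => ?_⟩
  have h1 := congrArg (fun L : Module.End ℂ (WSpace F n) => L z) (hall (φ.smulRight x))
  simpa [φ, z, Module.End.mul_apply] using h1

theorem intertwiner_unique (ψ : AddChar F ℂ) (hψ : ψ.IsPrimitive) {g : symplecticGroup (Fin n) F}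
    {S T : Module.End ℂ (WSpace F n)} (hT : IsUnit T) (hTi : IsIntertwiner ψ g T)
    (hSi : IsIntertwiner ψ g S) : ∃ c : ℂ, S = c • T := by
  obtain ⟨u, rfl⟩ := hT
  obtain ⟨c, hc⟩ := commutant_scalar ψ hψ (A := (↑u⁻¹ : Module.End ℂ (WSpace F n)) * S) (fun v => by
    have h1 : (↑u⁻¹ : Module.End ℂ (WSpace F n)) * heis ψ (g.1 *ᵥ v) = heis ψ v * ↑u⁻¹ := by
      rw [← mul_one (↑u⁻¹ * heis ψ (g.1 *ᵥ v)), ← Units.mul_inv u, ← mul_assoc, mul_assoc (↑u⁻¹ : Module.End ℂ (WSpace F n)),
        ← hTi, ← mul_assoc, Units.inv_mul, one_mul]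
    rw [mul_assoc, hSi, ← mul_assoc, h1, mul_assoc])
  refine ⟨c, ?_⟩
  calc S = (↑u : Module.End ℂ (WSpace F n)) * (↑u⁻¹ * S) := by rw [← mul_assoc, Units.mul_inv, one_mul]
    _ = c • (↑u : Module.End ℂ (WSpace F n)) := by rw [hc, mul_smul_comm, mul_one]

/-- The parity operator. -/
noncomputable def parity (F : Type*) [Field F] (n : ℕ) : Module.End ℂ (WSpace F n) :=
  LinearMap.funLeft ℂ ℂ Neg.neg

omit [Fintype F] in
theorem parity_apply (f : WSpace F n) (x : Fin n → F) : parity F n f x = f (-x) := rfl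

omit [Fintype F] in
theorem parity_sq : parity F n * parity F n = 1 := by
  refine LinearMap.ext fun f => funext fun x => ?_
  simp [parity_apply]

omit [Fintype F] in
theorem parity_heis (ψ : AddChar F ℂ) (v : Fin n ⊕ Fin n → F) :
    parity F n * heis ψ v = heis ψ (-v) * parity F n := by
  refine LinearMap.ext fun f => funext fun x => ?_
  simp only [Module.End.mul_apply, parity_apply, heis_apply]
  have e1 : (-v) ∘ Sum.inl = -(v ∘ Sum.inl) := rfl
  have e2 : (-v) ∘ Sum.inr = -(v ∘ Sum.inr) := rfl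
  simp only [e1, e2, dotProduct_neg, neg_dotProduct, neg_neg, neg_add]

/-- The eigenspace of the parity operator. -/
noncomputable def paritySpace (F : Type*) [Field F] (n : ℕ) (ε : ℂ) : Submodule ℂ (WSpace F n) :=
  LinearMap.ker (parity F n - ε • 1)

omit [Fintype F] in
theorem mem_paritySpace {ε : ℂ} {f : WSpace F n} : f ∈ paritySpace F n ε ↔ parity F n f = ε • f := by
  simp [paritySpace, sub_eq_zero]

theorem finrank_paritySpace (h2 : (2 : F) ≠ 0) :
    Module.finrank ℂ (paritySpace F n 1) = Module.finrank ℂ (paritySpace F n (-1)) + 1 ∧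
      2 * Module.finrank ℂ (paritySpace F n (-1)) + 1 = Fintype.card F ^ n := by
  classical
  have hfix : ∀ x : Fin n → F, -x = x ↔ x = 0 := by
    intro x
    refine ⟨fun e => funext fun i => ?_, fun e => by rw [e, neg_zero]⟩
    have h3 : (2 : F) * x i = 0 := by
      have := congrFun e i
      rw [Pi.neg_apply] at this
      linear_combination -this
    exact (mul_eq_zero.mp h3).resolve_left h2
  have htr : LinearMap.trace ℂ (WSpace F n) (parity F n) = 1 := by
    rw [LinearMap.trace_eq_matrix_trace ℂ (Pi.basisFun ℂ (Fin n → F))]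
    simp only [Matrix.trace, Matrix.diag_apply, LinearMap.toMatrix_apply, Pi.basisFun_repr,
      Pi.basisFun_apply, parity_apply]
    simp [Pi.single_apply, hfix]
  let p : ℂ → Module.End ℂ (WSpace F n) := fun ε => (2⁻¹ : ℂ) • (1 + ε • parity F n)
  have hp : ∀ ε : ℂ, ε * ε = 1 → LinearMap.IsProj (paritySpace F n ε) (p ε) := by
    intro ε hε
    refine ⟨fun f => ?_, fun f hf => ?_⟩
    · rw [mem_paritySpace]
      have hsq : parity F n (parity F n f) = f := by rw [← Module.End.mul_apply, parity_sq]; rfl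
      simp only [p, LinearMap.smul_apply, LinearMap.add_apply, Module.End.one_apply, map_smul, map_add, hsq,
        smul_add, smul_smul]
      rw [show ε * (2⁻¹ * ε) = 2⁻¹ by linear_combination (2⁻¹ : ℂ) * hε, mul_comm ε (2⁻¹ : ℂ), add_comm]
    · rw [mem_paritySpace] at hf
      simp only [p, LinearMap.smul_apply, LinearMap.add_apply, Module.End.one_apply, hf, smul_smul, hε,
        one_smul]
      rw [← two_smul ℂ, smul_smul]; norm_num
  have h1 := (hp 1 (one_mul 1)).trace
  have h3 := (hp (-1) (by norm_num)).trace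
  simp only [p, map_smul, map_add, htr, LinearMap.trace_one, Module.finrank_fintype_fun_eq_card,
    Fintype.card_fun, Fintype.card_fin, smul_eq_mul] at h1 h3
  have h4 : (Module.finrank ℂ (paritySpace F n 1) : ℂ) = (Module.finrank ℂ (paritySpace F n (-1)) : ℂ) + 1 := by
    rw [← h1, ← h3]; ring
  have h5 : (2 * Module.finrank ℂ (paritySpace F n (-1)) + 1 : ℂ) = ((Fintype.card F ^ n : ℕ) : ℂ) := by
    rw [← h3]; ring
  exact ⟨by exact_mod_cast h4, by exact_mod_cast h5⟩

theorem intertwiner_parity (h2 : (2 : F) ≠ 0) (ψ : AddChar F ℂ) (hψ : ψ.IsPrimitive)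
    {g : symplecticGroup (Fin n) F} {T : Module.End ℂ (WSpace F n)} (hT : IsUnit T)
    (hTi : IsIntertwiner ψ g T) : parity F n * T = T * parity F n := by
  have hi : IsIntertwiner ψ g (parity F n * T * parity F n) := by
    intro v
    rw [mul_assoc, parity_heis, ← mul_assoc, mul_assoc (parity F n), hTi, ← mul_assoc, parity_heis,
      mulVec_neg, neg_neg, mul_assoc, mul_assoc, mul_assoc]
  obtain ⟨c, hc⟩ := intertwiner_unique ψ hψ hT hTi hi
  have hPT : parity F n * T = c • (T * parity F n) := by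
    rw [← mul_one (parity F n * T), ← parity_sq, ← mul_assoc, hc, smul_mul_assoc]
  haveI : Nontrivial (Module.End ℂ (WSpace F n)) := inferInstance
  have hcc : c * c = 1 := by
    have h3 : T = (c * c) • T := by
      calc T = parity F n * (parity F n * T) := by rw [← mul_assoc, parity_sq, one_mul]
        _ = c • (parity F n * T * parity F n) := by rw [mul_assoc (parity F n) T, ← mul_smul_comm, ← hPT]
        _ = (c * c) • T := by rw [hc, smul_smul]
    have h4 : ((1 : ℂ) - c * c) • T = 0 := by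
      refine (sub_smul (1 : ℂ) (c * c) T).trans ?_
      rw [one_smul, ← h3, sub_self]
    rcases smul_eq_zero.mp h4 with h5 | h5
    · linear_combination -h5
    · exact absurd h5 hT.ne_zero
  rcases mul_self_eq_one_iff.mp hcc with rfl | rfl
  · rw [hPT, one_smul]
  · exfalso
    have hmem : ∀ f ∈ paritySpace F n 1, T f ∈ paritySpace F n (-1) := by
      intro f hf
      rw [mem_paritySpace] at hf ⊢
      rw [← Module.End.mul_apply, hPT, LinearMap.smul_apply, Module.End.mul_apply, hf, one_smul]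
    have hle := LinearMap.finrank_le_finrank_of_injective (f := T.restrict hmem)
      (fun a b hab => Subtype.ext ((Module.End.isUnit_iff T).mp hT |>.1 (congrArg Subtype.val hab)))
    have := (finrank_paritySpace (F := F) (n := n) h2).1
    omega

theorem intertwiner_mem (h2 : (2 : F) ≠ 0) (ψ : AddChar F ℂ) (hψ : ψ.IsPrimitive)
    {g : symplecticGroup (Fin n) F} {T : Module.End ℂ (WSpace F n)} (hT : IsUnit T)
    (hTi : IsIntertwiner ψ g T) (ε : ℂ) : ∀ f ∈ paritySpace F n ε, T f ∈ paritySpace F n ε := by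
  intro f hf
  rw [mem_paritySpace] at hf ⊢
  rw [← Module.End.mul_apply, intertwiner_parity h2 ψ hψ hT hTi, Module.End.mul_apply, hf, map_smul]

/-- The Weil representation on odd functions, with the test for nontriviality. -/
theorem exists_weil (h2 : (2 : F) ≠ 0) (ψ : AddChar F ℂ) (hψ : ψ.IsPrimitive) (hn : 2 ≤ n) :
    ∃ σ : symplecticGroup (Fin n) F →* Module.End ℂ (paritySpace F n (-1)), ∃ a, σ (spUni a) ≠ 1 := by
  classical
  choose T hTu hTi using exists_intertwiner (n := n) h2 ψ hψ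
  let r : (ε : ℂ) → (g : symplecticGroup (Fin n) F) → Module.End ℂ (paritySpace F n ε) := fun ε g =>
    (T g).restrict (intertwiner_mem h2 ψ hψ (hTu g) (hTi g) ε)
  have hrdet : ∀ ε g, LinearMap.det (r ε g) ≠ 0 := by
    intro ε g h0
    obtain ⟨x, hx, hx0⟩ := Submodule.exists_mem_ne_zero_of_ne_bot
      (LinearMap.bot_lt_ker_of_det_eq_zero h0).ne'
    refine hx0 (Subtype.ext (((Module.End.isUnit_iff _).mp (hTu g)).1 ?_))
    have h3 : T g (x : WSpace F n) = 0 := congrArg Subtype.val (LinearMap.mem_ker.mp hx)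
    simpa using h3
  let κ : symplecticGroup (Fin n) F → ℂ := fun g => LinearMap.det (r 1 g) / LinearMap.det (r (-1) g)
  have hκ : ∀ g, κ g ≠ 0 := fun g => div_ne_zero (hrdet 1 g) (hrdet (-1) g)
  have hdim := (finrank_paritySpace (F := F) (n := n) h2).1
  have hmul : ∀ g h, (κ g)⁻¹ • r (-1) g * ((κ h)⁻¹ • r (-1) h) = (κ (g * h))⁻¹ • r (-1) (g * h) := by
    intro g h
    obtain ⟨c, hc⟩ := intertwiner_unique ψ hψ (hTu (g * h)) (hTi (g * h)) ((hTi g).mul (hTi h))
    have hr : ∀ ε, r ε g * r ε h = c • r ε (g * h) := by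
      intro ε
      refine LinearMap.ext fun x => Subtype.ext ?_
      exact congrArg (fun L : Module.End ℂ (WSpace F n) => L (x : WSpace F n)) hc
    have hd : ∀ ε, LinearMap.det (r ε g) * LinearMap.det (r ε h) =
        c ^ Module.finrank ℂ (paritySpace F n ε) * LinearMap.det (r ε (g * h)) := by
      intro ε
      rw [← map_mul, hr, LinearMap.det_smul]
    have hc0 : c ≠ 0 := fun e => by
      have h3 := ((hTu g).mul (hTu h)).ne_zero
      rw [hc, e, zero_smul] at h3
      exact h3 rfl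
    have hk : κ g * κ h = c * κ (g * h) := by
      simp only [κ]
      rw [div_mul_div_comm, hd, hd, hdim, pow_succ]
      have := hrdet (-1) (g * h)
      field_simp
    rw [smul_mul_assoc, mul_smul_comm, hr, smul_smul, smul_smul]
    congr 1
    rw [← mul_inv, hk, mul_inv, mul_comm c⁻¹, mul_assoc, inv_mul_cancel₀ hc0, mul_one]
  let σ : symplecticGroup (Fin n) F →* Module.End ℂ (paritySpace F n (-1)) :=
    { toFun := fun g => (κ g)⁻¹ • r (-1) g
      map_one' := by
        have h3 := hmul 1 1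
        rw [mul_one] at h3
        have hu : IsUnit ((κ 1)⁻¹ • r (-1) 1) := by
          rw [Module.End.isUnit_iff]
          have hi : Function.Injective ((κ 1)⁻¹ • r (-1) 1) := fun a b hab => by
            have h4 : r (-1) 1 a = r (-1) 1 b := smul_right_injective _ (inv_ne_zero (hκ 1)) hab
            exact Subtype.ext (((Module.End.isUnit_iff _).mp (hTu 1)).1 (congrArg Subtype.val h4))
          exact ⟨hi, LinearMap.injective_iff_surjective.mp hi⟩
        exact hu.mul_eq_left.mp h3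
      map_mul' := fun g h => (hmul g h).symm }
  refine ⟨σ, ?_⟩
  haveI : Nontrivial (Fin n) := Fin.nontrivial_iff_two_le.mpr hn
  obtain ⟨i, j, hij⟩ := exists_pair_ne (Fin n)
  obtain ⟨c₀, hc₀⟩ : ∃ c : F, ψ c ≠ 1 := by
    by_contra hcon
    push Not at hcon
    exact hψ one_ne_zero (AddChar.ext _ _ fun c => by simp [hcon])
  let Q : Matrix (Fin n) (Fin n) F := Matrix.single i i c₀
  let a : symMats F n := ⟨-(2 : F) • Q, by
    show _ = _
    rw [transpose_smul, transpose_single]⟩
  refine ⟨a, fun h1 => ?_⟩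
  let M : Module.End ℂ (WSpace F n) :=
    { toFun := fun f x => ψ (x ⬝ᵥ (Q *ᵥ x)) * f x
      map_add' := fun f g => by funext x; simp [mul_add]
      map_smul' := fun c f => by funext x; simp [mul_left_comm] }
  have hMi : IsIntertwiner ψ (spUni a) M := by
    intro v
    refine LinearMap.ext fun f => funext fun x => ?_
    show ψ (x ⬝ᵥ (Q *ᵥ x)) * heis ψ v f x = heis ψ ((spUni a).1 *ᵥ v) (M f) x
    have e1 : ((spUni a).1 *ᵥ v) ∘ Sum.inl = v ∘ Sum.inl + a.1 *ᵥ (v ∘ Sum.inr) := by
      simp [spUni, fromBlocks_mulVec]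
    have e2 : ((spUni a).1 *ᵥ v) ∘ Sum.inr = v ∘ Sum.inr := by
      simp [spUni, fromBlocks_mulVec]
    rw [heis_apply, heis_apply, e1, e2]
    show _ = _ * (ψ _ * f _)
    rw [← mul_assoc, ← mul_assoc, ← AddChar.map_add_eq_mul, ← AddChar.map_add_eq_mul]
    congr 2
    set α := v ∘ Sum.inl
    set b := v ∘ Sum.inr
    have hQ : ∀ y z : Fin n → F, y ⬝ᵥ (Q *ᵥ z) = z ⬝ᵥ (Q *ᵥ y) := fun y z => by
      rw [dotProduct_mulVec, ← mulVec_transpose, transpose_single, dotProduct_comm]
    have e3 : ∀ y, (a.1 *ᵥ b) ⬝ᵥ y = -2 * (y ⬝ᵥ (Q *ᵥ b)) := fun y => by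
      show ((-(2 : F) • Q) *ᵥ b) ⬝ᵥ y = _
      rw [smul_mulVec, smul_dotProduct, dotProduct_comm, smul_eq_mul]
    simp only [add_dotProduct, e3, mulVec_add, dotProduct_add, hQ b x]
    field_simp
    ring
  obtain ⟨c, hc⟩ := intertwiner_unique ψ hψ (hTu _) (hTi _) hMi
  have hscal : ∀ f ∈ paritySpace F n (-1), M f = (c * κ (spUni a)) • f := by
    intro f hf
    have h3 := congrArg (fun L : Module.End ℂ (paritySpace F n (-1)) => (L ⟨f, hf⟩ : WSpace F n)) h1
    have h3' : (κ (spUni a))⁻¹ • T (spUni a) f = f := h3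
    rw [hc, LinearMap.smul_apply, mul_smul]
    congr 1
    calc T (spUni a) f = κ (spUni a) • ((κ (spUni a))⁻¹ • T (spUni a) f) := (smul_inv_smul₀ (hκ _) _).symm
      _ = κ (spUni a) • f := by rw [h3']
  have hval : ∀ y : Fin n → F, y ≠ 0 → ψ (y ⬝ᵥ (Q *ᵥ y)) = c * κ (spUni a) := by
    intro y hy
    have hyn : -y ≠ y := fun e => hy (funext fun k => by
      have h5 := congrFun e k
      rw [Pi.neg_apply] at h5
      exact (mul_eq_zero.mp (by linear_combination -h5 : (2 : F) * y k = 0)).resolve_left h2)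
    have hmem : (Pi.single y (1 : ℂ) - Pi.single (-y) 1 : WSpace F n) ∈ paritySpace F n (-1) := by
      rw [mem_paritySpace]
      funext x
      simp only [parity_apply, Pi.sub_apply, Pi.smul_apply, Pi.single_apply, smul_eq_mul, neg_eq_iff_eq_neg,
        neg_neg, neg_one_mul, neg_sub]
    have h3 := congrFun (hscal _ hmem) y
    simp only [Pi.smul_apply, Pi.sub_apply, Pi.single_eq_same, Pi.single_eq_of_ne hyn.symm, sub_zero,
      smul_eq_mul, mul_one] at h3
    have h4 : ψ (y ⬝ᵥ (Q *ᵥ y)) * ((Pi.single y (1 : ℂ) - Pi.single (-y) 1 : WSpace F n) y) = c * κ (spUni a) := h3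
    rwa [Pi.sub_apply, Pi.single_eq_same, Pi.single_eq_of_ne hyn.symm, sub_zero, mul_one] at h4
  have hi := hval (Pi.single i 1) (by simp)
  have hj := hval (Pi.single j 1) (by simp)
  simp [Q, hij] at hi hj
  exact hc₀ (hi.trans hj.symm)

end Cfsg.Agent.KnownA
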